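import Cfsg.Agent.H68.Block.Special
import Cfsg.Agent.H51.SmallSL2

/-!
Invariant alternating forms on the natural module, and subgroups normalized by `SL₂(F)'`.
-/

set_option autoImplicit false
set_option linter.style.haveILetI false
set_option linter.unusedSectionVars false
set_option linter.unusedSimpArgs false

namespace Cfsg.Agent.H68Block

open Matrix

variable {F : Type*} [Field F]

/-- The upper unitriangular element. -/
def upperU (x : F) : SpecialLinearGroup (Fin 2) F := ⟨!![1, x; 0, 1], by simp [det_fin_two]⟩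

/-- The lower unitriangular element. -/
def lowerL (x : F) : SpecialLinearGroup (Fin 2) F := ⟨!![1, 0; x, 1], by simp [det_fin_two]⟩

/-- The standard element of order four. -/
def turnW : SpecialLinearGroup (Fin 2) F := ⟨!![0, 1; -1, 0], by simp [det_fin_two]⟩

/-- A diagonal element. -/
def diagD (l : F) (hl : l ≠ 0) : SpecialLinearGroup (Fin 2) F :=
  ⟨!![l, 0; 0, l⁻¹], by simp [det_fin_two, hl]⟩

theorem upperU_val (x : F) : (upperU x : Matrix (Fin 2) (Fin 2) F) = !![1, x; 0, 1] := rfl

theorem lowerL_val (x : F) : (lowerL x : Matrix (Fin 2) (Fin 2) F) = !![1, 0; x, 1] := rfl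

theorem turnW_val : ((turnW : SpecialLinearGroup (Fin 2) F) : Matrix (Fin 2) (Fin 2) F) = !![0, 1; -1, 0] :=
  rfl

theorem diagD_val (l : F) (hl : l ≠ 0) : (diagD l hl : Matrix (Fin 2) (Fin 2) F) = !![l, 0; 0, l⁻¹] := rfl

theorem turnW_sq : ((turnW * turnW : SpecialLinearGroup (Fin 2) F) : Matrix (Fin 2) (Fin 2) F) = -1 := by
  show (turnW : SpecialLinearGroup (Fin 2) F).1 * (turnW : SpecialLinearGroup (Fin 2) F).1 = -1
  ext i j
  fin_cases i <;> fin_cases j <;> simp [SpecialLinearGroup.coe_mul, SpecialLinearGroup.coe_inv, turnW_val, mul_apply, vecMul, dotProduct, Fin.sum_univ_two]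

/-- Over more than five elements the derived group is everything. -/
theorem sl2_commutator_top [Finite F] (hq : 5 < Nat.card F) :
    commutator (SpecialLinearGroup (Fin 2) F) = ⊤ ∧ ∃ l : F, l ≠ 0 ∧ (l ^ 2) ^ 2 ≠ 1 := by
  haveI := Fintype.ofFinite F
  classical
  have hl : ∃ l : F, l ≠ 0 ∧ (l ^ 2) ^ 2 ≠ 1 := by
    by_contra h
    push Not at h
    have hle : (Finset.univ : Finset F) ⊆ insert 0 (Polynomial.nthRootsFinset 4 (1 : F)) := by
      intro x _
      by_cases hx : x = 0
      · simp [hx]
      · refine Finset.mem_insert_of_mem ((Polynomial.mem_nthRootsFinset (by norm_num) (1 : F)).mpr ?_)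
        rw [← h x hx]; ring
    have h1 := (Finset.card_le_card hle).trans (Finset.card_insert_le _ _)
    have h2 : (Polynomial.nthRootsFinset 4 (1 : F)).card ≤ 4 := by
      rw [Polynomial.nthRootsFinset_def]
      exact (Multiset.toFinset_card_le _).trans (Polynomial.card_nthRoots 4 1)
    rw [Finset.card_univ, ← Nat.card_eq_fintype_card] at h1
    omega
  obtain ⟨l, hl0, hl4⟩ := hl
  refine ⟨H1.commutator_SL_eq_top (ι := Fin 2) (F := F) (Or.inr ⟨l, hl0, fun e => hl4 ?_⟩), l, hl0, hl4⟩
  rw [e, one_pow]

theorem zmod_three_cases : ∀ k : ZMod 3, k = 0 ∨ k = 1 ∨ k = -1 := by decide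

/-- A subgroup normalized by the derived group and avoiding `-1` is trivial. -/
theorem normalized_eq_bot [Finite F] [CharP F 3] (hq : Nat.card F = 3 ∨ 5 < Nat.card F)
    (H : Subgroup (SpecialLinearGroup (Fin 2) F))
    (hnorm : ∀ g ∈ commutator (SpecialLinearGroup (Fin 2) F), ∀ h ∈ H, g * h * g⁻¹ ∈ H)
    (hneg : ∀ M ∈ H, (M : Matrix (Fin 2) (Fin 2) F) ≠ -1) : H = ⊥ := by
  haveI : Fact (Nat.Prime 3) := ⟨Nat.prime_three⟩
  rw [Subgroup.eq_bot_iff_forall]
  intro M hM
  by_contra hne
  rcases hq with h3 | h5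
  · haveI := Fintype.ofFinite F
    rw [Nat.card_eq_fintype_card] at h3
    let σ : F ≃+* ZMod 3 := (ZMod.ringEquivOfPrime F Nat.prime_three h3).symm
    have hder : ∀ g ∈ commutator (SpecialLinearGroup (Fin 2) F), g ∈ H → g = 1 := by
      intro g hg hgH
      let μ := SpecialLinearGroup.map (n := Fin 2) σ.toRingHom
      have hμ : μ g ∈ commutator (SpecialLinearGroup (Fin 2) (ZMod 3)) := by
        have := Subgroup.mem_map_of_mem μ hg
        rw [_root_.commutator_def, Subgroup.map_commutator] at this
        exact Subgroup.commutator_mono le_top le_top this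
      have hinj : ∀ a b : SpecialLinearGroup (Fin 2) F, μ a = μ b → a = b := fun a b h => by
        apply Subtype.ext; ext i j
        exact σ.injective (congrFun (congrFun (congrArg Subtype.val h) i) j)
      have hback : ∀ a : SpecialLinearGroup (Fin 2) F, μ a = -1 →
          (a : Matrix (Fin 2) (Fin 2) F) = -1 := fun a h => by
        ext i j
        apply σ.injective
        have h1 : σ ((a : Matrix (Fin 2) (Fin 2) F) i j) = (-1 : Matrix (Fin 2) (Fin 2) (ZMod 3)) i j := by
          exact congrFun (congrFun (congrArg Subtype.val h) i) j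
        rw [h1]
        fin_cases i <;> fin_cases j <;> simp
      rcases H51.sl2_three_derived hμ with h | h | h
      · exact hinj _ _ (h.trans (map_one μ).symm)
      · exact absurd (hback g h) (hneg g hgH)
      · exact absurd (hback (g * g) (by rw [map_mul, h])) (hneg _ (mul_mem hgH hgH))
    have hcomm : CommutesDerived (AddMonoidHom.mk' (fun x : Fin 2 → F =>
        (M : Matrix (Fin 2) (Fin 2) F) *ᵥ x) (fun x y => mulVec_add _ x y)) := by
      intro g hg x
      show (M : Matrix (Fin 2) (Fin 2) F) *ᵥ ((g : Matrix (Fin 2) (Fin 2) F) *ᵥ x) =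
        (g : Matrix (Fin 2) (Fin 2) F) *ᵥ ((M : Matrix (Fin 2) (Fin 2) F) *ᵥ x)
      have h1 : g * M * g⁻¹ * M⁻¹ = 1 := hder _ ?_ (mul_mem (hnorm g hg M hM) (inv_mem hM))
      · have h2 : g * M = M * g := by
          rw [mul_inv_eq_one, mul_inv_eq_iff_eq_mul] at h1; exact h1
        rw [mulVec_mulVec, mulVec_mulVec]
        exact congrArg (· *ᵥ x) (congrArg Subtype.val h2).symm
      · rw [← commutatorElement_def]
        exact Subgroup.commutator_mem_commutator (Subgroup.mem_top _) (Subgroup.mem_top _)
    obtain ⟨a, ha⟩ := (commutant_linear hcomm).2 ⟨-1, neg_ne_zero.mpr one_ne_zero, fun h => by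
      have h2 : ((2 : ℕ) : F) = 0 := by push_cast; linear_combination (-1 : F) * h
      rw [CharP.cast_eq_zero_iff F 3] at h2
      norm_num at h2⟩
    have hMa : (M : Matrix (Fin 2) (Fin 2) F) = a • 1 := by
      apply ext_of_mulVec_single
      intro i
      rw [smul_mulVec, one_mulVec]
      exact ha _
    have hdet := M.2
    rw [hMa, det_smul, det_one, mul_one, Fintype.card_fin] at hdet
    rcases sq_eq_one_iff.mp hdet with rfl | rfl
    · exact hne (Subtype.ext (by rw [hMa, one_smul]; rfl))
    · exact hneg M hM (by rw [hMa, neg_smul, one_smul])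
  · obtain ⟨htop, l, hl, hl4⟩ := sl2_commutator_top h5
    have hn : ∀ g h : SpecialLinearGroup (Fin 2) F, h ∈ H → g * h * g⁻¹ ∈ H := fun g h hh =>
      hnorm g (htop ▸ Subgroup.mem_top g) h hh
    obtain ⟨T, hT, hT01, hT00⟩ : ∃ T ∈ H, (T : Matrix (Fin 2) (Fin 2) F) 0 1 = 0 ∧
        (T : Matrix (Fin 2) (Fin 2) F) 0 0 ^ 2 ≠ 1 := by
      have step : ∀ N ∈ H, (N : Matrix (Fin 2) (Fin 2) F) 1 0 ≠ 0 → ∃ T ∈ H,
          (T : Matrix (Fin 2) (Fin 2) F) 0 1 = 0 ∧ (T : Matrix (Fin 2) (Fin 2) F) 0 0 ^ 2 ≠ 1 := by
        intro N hN hc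
        have key : ∀ N' ∈ H, (N' : Matrix (Fin 2) (Fin 2) F) 0 0 = 0 → ∃ T ∈ H,
            (T : Matrix (Fin 2) (Fin 2) F) 0 1 = 0 ∧
              (T : Matrix (Fin 2) (Fin 2) F) 0 0 ^ 2 ≠ 1 := by
          intro N' hN' h00
          have hd := N'.2
          rw [det_fin_two, h00, zero_mul, zero_sub, neg_eq_iff_eq_neg] at hd
          refine ⟨diagD l hl * N' * (diagD l hl)⁻¹ * N'⁻¹, mul_mem (hn _ _ hN') (inv_mem hN'), ?_, ?_⟩
          · simp [SpecialLinearGroup.coe_mul, SpecialLinearGroup.coe_inv, diagD_val, adjugate_fin_two, mul_apply, vecMul, dotProduct, Fin.sum_univ_two, h00]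
          · have : ((diagD l hl * N' * (diagD l hl)⁻¹ * N'⁻¹ : SpecialLinearGroup (Fin 2) F) :
                Matrix (Fin 2) (Fin 2) F) 0 0 = l ^ 2 := by
              simp [SpecialLinearGroup.coe_mul, SpecialLinearGroup.coe_inv, diagD_val, adjugate_fin_two, mul_apply, vecMul, dotProduct, Fin.sum_univ_two, h00]
              linear_combination (-(l ^ 2)) * hd
            rw [this]
            exact hl4
        set a := (N : Matrix (Fin 2) (Fin 2) F) 0 0 with ha
        set c := (N : Matrix (Fin 2) (Fin 2) F) 1 0 with hc'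
        refine key (upperU (-a / c) * N * (upperU (-a / c))⁻¹) (hn _ _ hN) ?_
        simp [SpecialLinearGroup.coe_mul, SpecialLinearGroup.coe_inv, upperU_val, adjugate_fin_two, mul_apply, vecMul, dotProduct, Fin.sum_univ_two, ← ha, ← hc']
        field_simp
        ring
      by_cases hc : (M : Matrix (Fin 2) (Fin 2) F) 1 0 = 0
      · by_cases hb : (M : Matrix (Fin 2) (Fin 2) F) 0 1 = 0
        · refine ⟨M, hM, hb, fun h => ?_⟩
          have hd := M.2
          rw [det_fin_two, hb, zero_mul, sub_zero] at hd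
          rcases sq_eq_one_iff.mp h with e | e <;> rw [e] at hd
          · refine hne (Subtype.ext ?_)
            ext i j
            fin_cases i <;> fin_cases j <;> simp [e, hb, hc]
            simpa using hd
          · refine hneg M hM ?_
            ext i j
            fin_cases i <;> fin_cases j <;> simp [e, hb, hc]
            linear_combination -hd
        · refine step (turnW * M * turnW⁻¹) (hn _ _ hM) ?_
          simp [SpecialLinearGroup.coe_mul, SpecialLinearGroup.coe_inv, turnW_val, adjugate_fin_two, mul_apply, vecMul, dotProduct, Fin.sum_univ_two, hb]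
      · exact step M hM hc
    have hd := T.2
    rw [det_fin_two, hT01, zero_mul, sub_zero] at hd
    set s := (T : Matrix (Fin 2) (Fin 2) F) 0 0 with hs
    have hs0 : s ≠ 0 := fun e => by rw [e, zero_mul] at hd; exact zero_ne_one hd
    have ht : (T : Matrix (Fin 2) (Fin 2) F) 1 1 = s⁻¹ := eq_inv_of_mul_eq_one_right hd
    have hL : ∀ y : F, lowerL y ∈ H := by
      intro y
      have hk : (s⁻¹) ^ 2 - 1 ≠ 0 := by
        rw [sub_ne_zero, inv_pow, ne_eq, inv_eq_one]; exact hT00
      set x := y / ((s⁻¹) ^ 2 - 1) with hx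
      have : lowerL y = T * (lowerL x * T⁻¹ * (lowerL x)⁻¹) := by
        apply Subtype.ext
        ext i j
        fin_cases i <;> fin_cases j <;>
          simp [SpecialLinearGroup.coe_mul, SpecialLinearGroup.coe_inv, lowerL_val, adjugate_fin_two, mul_apply, vecMul, dotProduct, Fin.sum_univ_two, hT01, ← hs, ht, hs0]
        rw [hx]
        field_simp
        ring
      rw [this]
      exact mul_mem hT (hn _ _ (inv_mem hT))
    have hU : ∀ y : F, upperU y ∈ H := fun y => by
      have : upperU y = turnW * lowerL (-y) * turnW⁻¹ := by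
        apply Subtype.ext
        ext i j
        fin_cases i <;> fin_cases j <;>
          simp [SpecialLinearGroup.coe_mul, SpecialLinearGroup.coe_inv, lowerL_val, upperU_val, turnW_val, adjugate_fin_two, mul_apply, vecMul, dotProduct, Fin.sum_univ_two]
      rw [this]
      exact hn _ _ (hL _)
    have hW : (turnW : SpecialLinearGroup (Fin 2) F) ∈ H := by
      have : (turnW : SpecialLinearGroup (Fin 2) F) = upperU 1 * lowerL (-1) * upperU 1 := by
        apply Subtype.ext
        ext i j
        fin_cases i <;> fin_cases j <;>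
          simp [SpecialLinearGroup.coe_mul, SpecialLinearGroup.coe_inv, lowerL_val, upperU_val, turnW_val, mul_apply, vecMul, dotProduct, Fin.sum_univ_two]
      rw [this]
      exact mul_mem (mul_mem (hU 1) (hL _)) (hU 1)
    exact hneg _ (mul_mem hW hW) turnW_sq

/-- Bijections preserving an invariant alternating form are special linear. -/
theorem special_of_invariant_form {A : Type*} [AddCommGroup A] [Finite A] [Finite F] [CharP F 3]
    (hq : Nat.card F = 3 ∨ 5 < Nat.card F)
    (β : (Fin 2 → F) → (Fin 2 → F) → A)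
    (hl : ∀ u u' v, β (u + u') v = β u v + β u' v)
    (hr : ∀ u v v', β u (v + v') = β u v + β u v')
    (hself : ∀ u, β u u = 0)
    (hinv : ∀ g ∈ commutator (SpecialLinearGroup (Fin 2) F), ∀ u v,
      β ((g : Matrix (Fin 2) (Fin 2) F) *ᵥ u) ((g : Matrix (Fin 2) (Fin 2) F) *ᵥ v) = β u v)
    (hcard : Nat.card A = Nat.card F) (hgen : AddSubgroup.closure (Set.range fun w : _ × _ => β w.1 w.2) = ⊤)
    {α : Equiv.Perm (Fin 2 → F)} (hadd : IsAdditive α) (hpres : ∀ u v, β (α u) (α v) = β u v) :
    α ∈ specialPerm F := by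
  have hzl : ∀ v, β 0 v = 0 := fun v => by
    have := hl 0 0 v; rw [add_zero] at this; exact left_eq_add.mp this
  have hzr : ∀ u, β u 0 = 0 := fun u => by
    have := hr u 0 0; rw [add_zero] at this; exact left_eq_add.mp this
  have hanti : ∀ u v, β u v = -β v u := fun u v => by
    have h := hself (u + v)
    rw [hl, hr, hr, hself, hself, zero_add, add_zero] at h
    exact eq_neg_of_add_eq_zero_left h
  have hline : ∀ (u : Fin 2 → F) (c : F), β u (c • u) = 0 := by
    intro u c
    rcases hq with h3 | h5
    · haveI := Fintype.ofFinite F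
      haveI : Fact (Nat.Prime 3) := ⟨Nat.prime_three⟩
      rw [Nat.card_eq_fintype_card] at h3
      obtain ⟨k, rfl⟩ := (ZMod.ringEquivOfPrime F Nat.prime_three h3).surjective c
      obtain rfl | rfl | rfl : k = 0 ∨ k = 1 ∨ k = -1 :=
        zmod_three_cases k
      · rw [map_zero, zero_smul, hzr]
      · rw [map_one, one_smul, hself]
      · rw [map_neg, map_one, neg_smul, one_smul]
        have := hr u u (-u)
        rw [add_neg_cancel, hzr, hself, zero_add] at this
        exact this.symm
    · obtain ⟨htop, -⟩ := sl2_commutator_top (F := F) h5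
      by_cases hu : u = 0
      · subst hu; exact hzl _
      obtain ⟨w, hw⟩ : ∃ w, det2 u w ≠ 0 := by
        by_contra h
        push Not at h
        apply hu
        have a := h ![1, 0]
        have b := h ![0, 1]
        simp [det2] at a b
        ext i; fin_cases i <;> simp [a, b]
      let t := c / det2 u w
      let g : SpecialLinearGroup (Fin 2) F :=
        ⟨!![1 - t * u 1 * u 0, t * u 0 * u 0; -(t * u 1 * u 1), 1 + t * u 0 * u 1],
          by rw [det_fin_two_of]; ring⟩
      have hg : ∀ x, (g : Matrix (Fin 2) (Fin 2) F) *ᵥ x = x + (t * det2 u x) • u := by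
        intro x
        ext i
        fin_cases i <;> simp [g, det2, dotProduct, Fin.sum_univ_two] <;> ring
      have h1 := hinv g (htop ▸ Subgroup.mem_top g) u w
      rw [hg, hg, det2_self, mul_zero, zero_smul, add_zero, hr, add_eq_left] at h1
      rwa [show t * det2 u w = c from div_mul_cancel₀ c hw] at h1
  set e₁ : Fin 2 → F := ![1, 0] with he₁
  set e₂ : Fin 2 → F := ![0, 1] with he₂
  have hswap : ∀ a b : F, β (a • e₁) (b • e₂) = β e₁ ((a * b) • e₂) := by
    intro a b
    have h := hline (e₁ + b • e₂) a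
    rw [smul_add, smul_smul, hl, hr, hr, hline, zero_add, ← smul_smul,
      hline (b • e₂) a, add_zero, smul_smul, hanti (b • e₂), add_neg_eq_zero] at h
    exact h.symm
  let f : F →+ A := AddMonoidHom.mk' (fun t => β e₁ (t • e₂)) fun s t => by rw [add_smul, hr]
  have hdec : ∀ u : Fin 2 → F, u = u 0 • e₁ + u 1 • e₂ := fun u => by
    ext i; fin_cases i <;> simp [he₁, he₂]
  have hβ : ∀ u v, β u v = f (det2 u v) := by
    intro u v
    have z1 : ∀ a b : F, β (a • e₁) (b • e₁) = 0 := fun a b => by
      by_cases ha : a = 0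
      · subst ha; rw [zero_smul, hzl]
      · rw [show b • e₁ = (b / a) • (a • e₁) by rw [smul_smul, div_mul_cancel₀ b ha], hline]
    have z2 : ∀ a b : F, β (a • e₂) (b • e₂) = 0 := fun a b => by
      by_cases ha : a = 0
      · subst ha; rw [zero_smul, hzl]
      · rw [show b • e₂ = (b / a) • (a • e₂) by rw [smul_smul, div_mul_cancel₀ b ha], hline]
    conv_lhs => rw [hdec u, hdec v]
    rw [hl, hr, hr, z1, z2, zero_add, add_zero, hanti (u 1 • e₂), hswap, hswap]
    show f (u 0 * v 1) + -f (v 0 * u 1) = _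
    rw [← map_neg, ← map_add]
    congr 1
    simp only [det2]; ring
  have hinj : Function.Injective f := by
    have hsurj : Function.Surjective f := by
      rw [← AddMonoidHom.range_eq_top, eq_top_iff, ← hgen, AddSubgroup.closure_le]
      rintro _ ⟨w, rfl⟩
      exact ⟨det2 w.1 w.2, (hβ _ _).symm⟩
    haveI := Fintype.ofFinite F
    haveI := Fintype.ofFinite A
    exact ((Fintype.bijective_iff_surjective_and_card f).mpr
      ⟨hsurj, by rw [← Nat.card_eq_fintype_card, ← Nat.card_eq_fintype_card, hcard]⟩).1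
  have hdet : ∀ u v, det2 (α u) (α v) = det2 u v := fun u v =>
    hinj (by rw [← hβ, ← hβ, hpres])
  refine ⟨hadd, fun c x => ?_, hdet⟩
  have h : ∀ y, det2 y (α (c • x) - c • α x) = 0 := by
    intro y
    obtain ⟨y', rfl⟩ := α.surjective y
    rw [det2_sub_right, det2_smul_right, hdet, hdet, det2_smul_right, sub_self]
  rw [← sub_eq_zero]
  have a := h ![1, 0]
  have b := h ![0, 1]
  simp [det2] at a b
  ext i; fin_cases i
  · simp; linear_combination -b
  · simp; linear_combination a

end Cfsg.Agent.H68Block
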