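import Cfsg.Agent.H20.FixedPoints
import Cfsg.Agent.H20.Sylow
import Cfsg.Agent.S0215

/-!
Conjugates of an involution, and coprime groups acting with prescribed fixed points.
-/

set_option autoImplicit false
set_option linter.style.haveILetI false
set_option linter.unusedSectionVars false

namespace Cfsg.Agent.H68Block

open Subgroup
open scoped commutatorElement

variable {G : Type*} [Group G] [Finite G]

/-- Two involutions with product of odd order are conjugate by a power of the product. -/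
theorem exists_conj_of_odd {z z' : G} (hz : z * z = 1) (hz' : z' * z' = 1)
    (h : Odd (orderOf (z' * z))) : ∃ k ∈ zpowers (z' * z), k * z * k⁻¹ = z' := by
  obtain ⟨m, hm⟩ := h
  set t := z' * z with ht
  have hinv : z * t * z = t⁻¹ := by
    rw [ht, mul_inv_rev, inv_eq_of_mul_eq_one_right hz, inv_eq_of_mul_eq_one_right hz']
    calc z * (z' * z) * z = z * z' * (z * z) := by group
      _ = z * z' := by rw [hz, mul_one]
  refine ⟨t ^ (m + 1), pow_mem (mem_zpowers t) _, ?_⟩
  have h1 : z * (t ^ (m + 1))⁻¹ = t ^ (m + 1) * z := by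
    have : (z * t * z⁻¹) ^ (m + 1) = z * t ^ (m + 1) * z⁻¹ := conj_pow
    rw [inv_eq_of_mul_eq_one_right hz, hinv, inv_pow] at this
    rw [this, ← mul_assoc, ← mul_assoc, hz, one_mul]
  rw [mul_assoc, h1, ← mul_assoc, ← pow_add, show m + 1 + (m + 1) = orderOf t + 1 by omega,
    pow_succ, pow_orderOf_eq_one, one_mul, ht, mul_assoc, hz, mul_one]

/-- If no other conjugate under `C` commutes with `z`, the products of conjugates have odd order. -/
theorem odd_orderOf_mul {C : Subgroup G} {z : G} (hz : z * z = 1) (hzC : z ∈ normalizer (C : Set G))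
    (hiso : ∀ x ∈ C, Commute (x * z * x⁻¹) z → x * z * x⁻¹ = z) {c : G} (hc : c ∈ C) :
    Odd (orderOf (c * z * c⁻¹ * z)) := by
  by_contra hev
  set t := c * z * c⁻¹ * z with ht
  rw [Nat.not_odd_iff_even] at hev
  obtain ⟨n, hn⟩ := hev
  have hzi : z⁻¹ = z := inv_eq_of_mul_eq_one_right hz
  have htC : t ∈ C := by
    rw [ht, show c * z * c⁻¹ * z = c * (z * c⁻¹ * z⁻¹) by rw [hzi]; group]
    exact mul_mem hc ((mem_normalizer_iff.mp hzC _).mp (inv_mem hc))
  have hinv : z * t * z⁻¹ = t⁻¹ := by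
    rw [ht, hzi]; simp [mul_assoc, hz, hzi]
  have hzt : ∀ j : ℕ, z * (t ^ j)⁻¹ = t ^ j * z := by
    intro j
    have := @conj_pow _ _ j z t
    rw [hinv, inv_pow] at this
    rw [this]
    rw [hzi, ← mul_assoc, ← mul_assoc, hz, one_mul]
  have hn0 : 0 < n := by have := orderOf_pos t; omega
  have hw : t ^ n * t ^ n = 1 := by rw [← pow_add, ← hn, pow_orderOf_eq_one]
  have hw1 : t ^ n ≠ 1 := fun h => by
    have := Nat.le_of_dvd hn0 (orderOf_dvd_of_pow_eq_one h); omega
  have hcomm : Commute (t ^ n * z) z := by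
    show t ^ n * z * z = z * (t ^ n * z)
    rw [mul_assoc, hz, mul_one, ← hzt n, ← mul_assoc, hz, one_mul, inv_eq_of_mul_eq_one_right hw]
  obtain ⟨x, hx, hxz⟩ : ∃ x ∈ C, x * z * x⁻¹ = t ^ n * z := by
    rcases Nat.even_or_odd' n with ⟨j, rfl | rfl⟩
    · refine ⟨t ^ j, pow_mem htC j, ?_⟩
      rw [mul_assoc, hzt, ← mul_assoc, ← pow_add, two_mul]
    · refine ⟨t ^ j * c, mul_mem (pow_mem htC j) hc, ?_⟩
      calc t ^ j * c * z * (t ^ j * c)⁻¹ = t ^ j * (c * z * c⁻¹) * (t ^ j)⁻¹ := by group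
        _ = t ^ j * (t * z) * (t ^ j)⁻¹ := by rw [ht, mul_assoc _ z z, hz, mul_one]
        _ = t ^ j * t * (z * (t ^ j)⁻¹) := by group
        _ = t ^ j * t * t ^ j * z := by rw [hzt, ← mul_assoc]
        _ = t ^ (2 * j + 1) * z := by rw [← pow_succ, ← pow_add, show j + 1 + j = 2 * j + 1 by omega]
  have h := hiso x hx (hxz ▸ hcomm)
  rw [hxz] at h
  exact hw1 (mul_eq_right.mp h)

/-- The commutator of `C` with such an involution has odd order. -/
theorem odd_card_commutator {C : Subgroup G} {z : G} (hz : z * z = 1) (hz1 : z ≠ 1)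
    (hzC : z ∈ normalizer (C : Set G))
    (hodd : ∀ c ∈ C, Odd (orderOf (c * z * c⁻¹ * z))) :
    Odd (Nat.card ↥(⁅C, zpowers z⁆ : Subgroup G)) := by
  have hzi : z⁻¹ = z := inv_eq_of_mul_eq_one_right hz
  have hpow : ∀ w ∈ zpowers z, w = 1 ∨ w = z := fun w hw => by
    obtain ⟨k, rfl⟩ := mem_zpowers_iff.mp hw
    rcases Int.even_or_odd' k with ⟨j, rfl | rfl⟩
    · left; rw [zpow_mul, zpow_two, hz, one_zpow]
    · right; rw [zpow_add_one, zpow_mul, zpow_two, hz, one_zpow, one_mul]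
  set K := C ⊔ zpowers z with hK
  let z₀ : ↥K := ⟨z, mem_sup_right (mem_zpowers z)⟩
  have hz₀ : orderOf z₀ = 2 := by
    rw [← Subgroup.orderOf_coe]
    exact orderOf_eq_prime (by rw [pow_two]; exact hz) hz1
  haveI : Fact (Nat.Prime 2) := ⟨Nat.prime_two⟩
  obtain ⟨P, hP⟩ := (IsPGroup.of_card (p := 2) (n := 1)
    (by rw [Nat.card_zpowers, hz₀, pow_one] : Nat.card (zpowers z₀) = 2 ^ 1)).exists_le_sylow
  have hconj : ∀ g : ↥K, ∃ c ∈ C, (g : G) * z * (g : G)⁻¹ = c * z * c⁻¹ := by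
    intro g
    have hg : (g : G) ∈ ((C ⊔ zpowers z : Subgroup G) : Set G) := g.2
    rw [coe_mul_of_right_le_normalizer_left _ _ (zpowers_le.mpr hzC)] at hg
    obtain ⟨c, hc, w, hw, hcw⟩ := hg
    refine ⟨c, hc, ?_⟩
    rw [← hcw]
    rcases hpow w hw with h | h <;> subst w <;> group
  have hiso : ∀ g : ↥K, g * z₀ * g⁻¹ ∈ P → g * z₀ * g⁻¹ = z₀ := by
    intro g hg
    obtain ⟨c, hc, hcg⟩ := hconj g
    obtain ⟨k, hk⟩ := P.isPGroup' ⟨_, mul_mem hg (hP (mem_zpowers z₀))⟩
    have hk' : (c * z * c⁻¹ * z) ^ 2 ^ k = 1 := by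
      have := congrArg (fun x : ↥(P : Subgroup ↥K) => ((x : ↥K) : G)) hk
      simp only [SubmonoidClass.coe_pow, coe_mul, coe_inv, OneMemClass.coe_one] at this
      rwa [show ((z₀ : ↥K) : G) = z from rfl, hcg] at this
    have h1 : orderOf (c * z * c⁻¹ * z) = 1 := by
      refine Nat.dvd_one.mp ?_
      have := Nat.dvd_gcd (orderOf_dvd_of_pow_eq_one hk') dvd_rfl
      rwa [Nat.Coprime.gcd_eq_one (Nat.Coprime.pow_left _ (Nat.coprime_two_left.mpr (hodd c hc)))] at this
    apply Subtype.ext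
    show (g : G) * z * (g : G)⁻¹ = z
    rw [hcg]
    rw [orderOf_eq_one_iff, mul_eq_one_iff_eq_inv, hzi] at h1
    exact h1
  obtain ⟨N, -, hNodd, hN⟩ := Cfsg.Agent.S0215.result P z₀ hz₀ (hP (mem_zpowers z₀)) hiso
  have hle : ⁅C, zpowers z⁆ ≤ N.map K.subtype := by
    rw [commutator_le]
    intro c hc w hw
    rcases hpow w hw with h | h <;> subst w
    · simp
    · refine ⟨_, inv_mem (hN ⟨c, mem_sup_left hc⟩), ?_⟩
      show (z * c * z⁻¹ * c⁻¹)⁻¹ = ⁅c, z⁆
      simp only [commutatorElement_def]; group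
  refine hNodd.of_dvd_nat ?_
  rw [← Nat.card_congr (equivMapOfInjective _ K.subtype K.subtype_injective).symm.toEquiv]
  exact card_dvd_of_le hle

/-- The endomorphism given by a group element. -/
abbrev opAt {U : Type*} [AddCommGroup U] (σ : G →* AddMonoid.End U) (g : G) : U →+ U := σ g

/-- A group of order prime to `3` acting faithfully on a `3`-group, normalized by `i` with `i² = z`,
is centralized by `z` if `i` fixes the fixed points of `z` and `C(z)` fixes the moved points. -/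
theorem centralized_by_square {U : Type*} [AddCommGroup U] (hU : ∀ x : U, ∃ k : ℕ, 3 ^ k • x = 0)
    (σ : G →* AddMonoid.End U) {z i : G} (hi : i * i = z) (hz : z * z = 1)
    {r : ℕ} [hr : Fact r.Prime] (hr2 : r ≠ 2) (hr3 : r ≠ 3)
    (hfix : ∀ x, opAt σ i x + opAt σ i (opAt σ z x) = x + opAt σ z x) :
    ∀ (P : Subgroup G), IsPGroup r P → i ∈ normalizer (P : Set G) →
      (∀ d ∈ P, z * d * z⁻¹ = d → ∀ x, opAt σ z (opAt σ d x - x) = opAt σ d x - x) →
      (∀ d ∈ P, σ d = 1 → d = 1) → ∀ a ∈ P, z * a * z⁻¹ = a := by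
  classical
  have hmul : ∀ (g h : G) x, opAt σ (g * h) x = opAt σ g (opAt σ h x) := fun g h x => by
    show (σ (g * h) : U →+ U) x = _
    rw [map_mul]; rfl
  have hone : ∀ x, opAt σ 1 x = x := fun x => by
    show (σ 1 : U →+ U) x = x
    rw [map_one]; rfl
  have hzi : z⁻¹ = z := inv_eq_of_mul_eq_one_right hz
  have hciz : i * z = z * i := by rw [← hi, mul_assoc]
  have hpow : ∀ w ∈ zpowers z, w = 1 ∨ w = z := fun w hw => by
    obtain ⟨k, rfl⟩ := mem_zpowers_iff.mp hw
    rcases Int.even_or_odd' k with ⟨j, rfl | rfl⟩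
    · left; rw [zpow_mul, zpow_two, hz, one_zpow]
    · right; rw [zpow_add_one, zpow_mul, zpow_two, hz, one_zpow, one_mul]
  intro P
  induction P using WellFoundedLT.induction with
  | ind P ih =>
  intro hP hiP hmove hfaith
  have hzP : z ∈ normalizer (P : Set G) := hi ▸ mul_mem hiP hiP
  have hsub : ∀ P' : Subgroup G, P' < P → i ∈ normalizer (P' : Set G) → ∀ a ∈ P', z * a * z⁻¹ = a :=
    fun P' h h' => ih P' h (hP.to_le h.le) h' (fun d hd => hmove d (h.le hd))
      fun d hd => hfaith d (h.le hd)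
  have hcen : ∀ (X : Subgroup G), (∀ a ∈ X, z * a * z⁻¹ = a) → ⁅X, zpowers z⁆ = ⊥ := by
    intro X hX
    rw [eq_bot_iff, commutator_le]
    intro a ha w hw
    rcases hpow w hw with h | h <;> subst w
    · simp
    · have h1 : z * a = a * z := mul_inv_eq_iff_eq_mul.mp (hX a ha)
      rw [Subgroup.mem_bot, commutatorElement_eq_one_iff_mul_comm]
      exact h1.symm
  have hback : ⁅P, zpowers z⁆ = ⊥ → ∀ a ∈ P, z * a * z⁻¹ = a := fun h a ha => by
    have h1 : ⁅a, z⁆ = 1 := Subgroup.mem_bot.mp (h.le (commutator_mem_commutator ha (mem_zpowers z)))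
    rw [commutatorElement_eq_one_iff_mul_comm] at h1
    rw [← h1, mul_inv_cancel_right]
  by_contra hgoal
  have hne : P ≠ ⊥ := fun h => hgoal fun a ha => by
    rw [h, Subgroup.mem_bot] at ha
    simp [ha]
  have hcop : (Nat.card (zpowers z)).Coprime (Nat.card P) := by
    obtain ⟨j, hj⟩ := hP.exists_card_eq
    rw [hj, Nat.card_zpowers]
    refine Nat.Coprime.pow_right j ?_
    refine Nat.Coprime.coprime_dvd_left (orderOf_dvd_of_pow_eq_one (show z ^ 2 = 1 by rw [pow_two, hz])) ?_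
    exact (Nat.coprime_primes Nat.prime_two hr.out).mpr (Ne.symm hr2)
  have hsolv : Group.IsSolvable (zpowers z) ∨ Group.IsSolvable P := by
    haveI := hP.isNilpotent; exact Or.inr inferInstance
  -- `P = [P, z]`
  have hPP : ⁅P, zpowers z⁆ = P := by
    by_contra h
    have hle : ⁅P, zpowers z⁆ < P :=
      lt_of_le_of_ne (H20.commutator_le_of_le_normalizer (zpowers_le.mpr hzP)) h
    refine hgoal (hback ?_)
    rw [← H20.commutator_commutator_eq (zpowers_le.mpr hzP) hcop hsolv]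
    refine hcen _ (hsub _ hle ?_)
    rw [mem_normalizer_iff_map_conj_eq]
    refine (Subgroup.map_commutator _ _ _).trans (congrArg₂ (fun A B => ⁅A, B⁆)
      (mem_normalizer_iff_map_conj_eq.mp hiP) ((MonoidHom.map_zpowers _ _).trans (congrArg zpowers ?_)))
    show i * z * i⁻¹ = z
    rw [hciz, mul_inv_cancel_right]
  -- invariant subgroups fixed by `z` are trivial
  have key : ∀ K : Subgroup G, K ≤ P → P ≤ normalizer (K : Set G) →
      (∀ d ∈ K, z * d * z⁻¹ = d) → K = ⊥ := by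
    intro K hKP hPK hK
    rw [eq_bot_iff]
    intro d hd
    rw [Subgroup.mem_bot]
    refine hfaith d (hKP hd) (AddMonoidHom.ext fun u => ?_)
    show opAt σ d u = u
    set y := opAt σ d u - u with hy
    have hfy : ∀ a ∈ P, opAt σ a y = y := by
      let S : Subgroup G :=
        { carrier := {a | opAt σ a y = y}
          one_mem' := hone y
          mul_mem' := fun {a b} ha hb => by
            show opAt σ (a * b) y = y
            rw [hmul, show opAt σ b y = y from hb]; exact ha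
          inv_mem' := fun {a} ha => by
            show opAt σ a⁻¹ y = y
            conv_lhs => rw [← show opAt σ a y = y from ha, ← hmul, inv_mul_cancel, hone] }
      refine fun a ha => (?_ : P ≤ S) ha
      rw [← hPP, commutator_le]
      intro a ha w hw
      rcases hpow w hw with h | h <;> subst w
      · simp
      · show opAt σ ⁅a, z⁆ y = y
        have hzy : opAt σ z y = y := hmove d (hKP hd) (hK d hd) u
        have e : opAt σ a⁻¹ y = opAt σ (a⁻¹ * d * a) (opAt σ a⁻¹ u) - opAt σ a⁻¹ u := by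
          rw [hy, map_sub, ← hmul, ← hmul, show a⁻¹ * d * a * a⁻¹ = a⁻¹ * d by group]
        have hd' : a⁻¹ * d * a ∈ K := (mem_normalizer_iff''.mp (hPK ha) d).mp hd
        have hzay : opAt σ z (opAt σ a⁻¹ y) = opAt σ a⁻¹ y := by
          rw [e]; exact hmove _ (hKP hd') (hK _ hd') _
        rw [commutatorElement_def, hzi, hmul, hmul, hmul, hzy, hzay, ← hmul, mul_inv_cancel, hone]
    obtain ⟨m, hm⟩ := hP ⟨d, hKP hd⟩
    have hm' : d ^ r ^ m = 1 := by simpa using congrArg Subtype.val hm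
    have hp : ∀ j : ℕ, opAt σ (d ^ j) u = u + j • y := by
      intro j
      induction j with
      | zero => rw [pow_zero, hone, zero_smul, add_zero]
      | succ j ihj =>
        rw [pow_succ', hmul, ihj, map_add, map_nsmul, hfy d (hKP hd), succ_nsmul,
          show opAt σ d u = u + y by rw [hy]; abel]
        abel
    have h1 := hp (r ^ m)
    rw [hm', hone, left_eq_add] at h1
    obtain ⟨k, hk⟩ := hU y
    have h2 : Nat.gcd (r ^ m) (3 ^ k) • y = 0 := addOrderOf_dvd_iff_nsmul_eq_zero.mp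
      (Nat.dvd_gcd (addOrderOf_dvd_iff_nsmul_eq_zero.mpr h1) (addOrderOf_dvd_iff_nsmul_eq_zero.mpr hk))
    rw [Nat.Coprime.gcd_eq_one (Nat.Coprime.pow m k ((Nat.coprime_primes hr.out Nat.prime_three).mpr hr3)),
      one_smul, hy, sub_eq_zero] at h2
    exact h2
  have hab : ⁅P, P⁆ = ⊥ := by
    refine key _ (commutator_le_self P) ?_ (hsub _ ?_ ?_)
    · intro a ha
      rw [mem_normalizer_iff_map_conj_eq]
      exact (Subgroup.map_commutator _ _ _).trans (congrArg₂ (fun A B => ⁅A, B⁆)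
        (mem_normalizer_iff_map_conj_eq.mp (le_normalizer ha)) (mem_normalizer_iff_map_conj_eq.mp (le_normalizer ha)))
    · haveI := hP.isNilpotent
      haveI : Nontrivial ↥P := (Subgroup.nontrivial_iff_ne_bot P).mpr hne
      refine lt_of_le_of_ne (commutator_le_self P) fun h => ?_
      have h2 : ⁅(⊤ : Subgroup ↥P), (⊤ : Subgroup ↥P)⁆ < ⊤ :=
        Group.IsSolvable.commutator_lt_of_ne_bot top_ne_bot
      refine h2.ne (map_injective P.subtype_injective ?_)
      rw [map_commutator, ← MonoidHom.range_eq_map, range_subtype]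
      exact h
    · rw [mem_normalizer_iff_map_conj_eq]
      exact (Subgroup.map_commutator _ _ _).trans (congrArg₂ (fun A B => ⁅A, B⁆)
        (mem_normalizer_iff_map_conj_eq.mp hiP) (mem_normalizer_iff_map_conj_eq.mp hiP))
  have hcom : ∀ a ∈ P, ∀ b ∈ P, a * b = b * a := fun a ha b hb =>
    commutatorElement_eq_one_iff_mul_comm.mp
      (Subgroup.mem_bot.mp (hab.le (commutator_mem_commutator ha hb)))
  have hK : P ⊓ centralizer {z} = ⊥ := by
    refine key _ inf_le_left ?_ fun d hd => ?_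
    · intro a ha
      refine centralizer_le_normalizer _ (mem_centralizer_iff.mpr fun d hd => hcom d hd.1 a ha)
    · rw [(mem_centralizer_singleton_iff.mp hd.2).symm, mul_inv_cancel_right]
  have hfix0 : ∀ a ∈ P, z * a * z⁻¹ = a → a = 1 := fun a ha h => by
    have : a ∈ P ⊓ centralizer {z} := ⟨ha, mem_centralizer_singleton_iff.mpr
      (mul_inv_eq_iff_eq_mul.mp h).symm⟩
    rwa [hK, Subgroup.mem_bot] at this
  letI := Fintype.ofFinite ↥P
  let f : ∀ τ ∈ normalizer (P : Set G), ↥P → ↥P := fun τ hτ a =>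
    ⟨(a : G)⁻¹ * (τ * a * τ⁻¹), mul_mem (inv_mem a.2) ((mem_normalizer_iff.mp hτ _).mp a.2)⟩
  have hf : ∀ τ (hτ : τ ∈ normalizer (P : Set G)), (∀ a ∈ P, τ * a * τ⁻¹ = a → a = 1) →
      Function.Bijective (f τ hτ) := by
    intro τ hτ h
    rw [← Finite.injective_iff_bijective]
    intro a b hab'
    have e : (a : G)⁻¹ * (τ * a * τ⁻¹) = (b : G)⁻¹ * (τ * b * τ⁻¹) := congrArg Subtype.val hab'
    have hm : (b : G) * (a : G)⁻¹ ∈ P := mul_mem b.2 (inv_mem a.2)
    have h1 : τ * ((b : G) * (a : G)⁻¹) * τ⁻¹ = (b : G) * (a : G)⁻¹ := by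
      calc τ * ((b : G) * (a : G)⁻¹) * τ⁻¹ = (τ * b * τ⁻¹) * (τ * a * τ⁻¹)⁻¹ := by group
        _ = b * ((b : G)⁻¹ * (τ * b * τ⁻¹)) * (τ * a * τ⁻¹)⁻¹ := by group
        _ = b * ((a : G)⁻¹ * (τ * a * τ⁻¹)) * (τ * a * τ⁻¹)⁻¹ := by rw [e]
        _ = b * (a : G)⁻¹ := by group
    exact Subtype.ext (mul_inv_eq_one.mp (h _ hm h1)).symm
  have hbi : i ∈ normalizer (P : Set G) ∧ ∀ a ∈ P, i * a * i⁻¹ = a → a = 1 := ⟨hiP, fun a ha h =>
    hfix0 a ha (by
      calc z * a * z⁻¹ = i * (i * a * i⁻¹) * i⁻¹ := by rw [← hi]; group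
        _ = a := by rw [h, h])⟩
  have hbiz : i * z ∈ normalizer (P : Set G) ∧ ∀ a ∈ P, i * z * a * (i * z)⁻¹ = a → a = 1 :=
    ⟨mul_mem hiP hzP, fun a ha h => hfix0 a ha (by
      have hsq : i * z * (i * z) = z := by
        calc i * z * (i * z) = i * z * (z * i) := by rw [hciz]
          _ = i * (z * z) * i := by group
          _ = z := by rw [hz, mul_one, hi]
      calc z * a * z⁻¹ = i * z * (i * z * a * (i * z)⁻¹) * (i * z)⁻¹ := by
            conv_lhs => rw [← hsq]
            group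
        _ = a := by rw [h, h])⟩
  let e : U → U := fun y => ∑ a : ↥P, opAt σ (a : G) y
  have hreindex : ∀ τ (hτ : τ ∈ normalizer (P : Set G)), (∀ a ∈ P, τ * a * τ⁻¹ = a → a = 1) →
      ∀ x, ∑ a : ↥P, opAt σ ((a : G)⁻¹ * τ * a) x = e (opAt σ τ x) := by
    intro τ hτ h x
    refine Fintype.sum_bijective _ (hf τ hτ h) _ _ fun a => ?_
    rw [← hmul]
    congr 2
    show (a : G)⁻¹ * τ * a = (a : G)⁻¹ * (τ * a * τ⁻¹) * τ
    group
  have hsum : ∀ x, e (opAt σ i x + opAt σ (i * z) x - opAt σ z x) = Nat.card ↥P • x := by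
    intro x
    have h0 : ∀ a : ↥P, opAt σ ((a : G)⁻¹ * i * a) x + opAt σ ((a : G)⁻¹ * (i * z) * a) x =
        x + opAt σ ((a : G)⁻¹ * z * a) x := by
      intro a
      simp only [hmul]
      rw [← map_add, hfix, map_add, ← hmul, inv_mul_cancel, hone]
    have h1 := Finset.sum_congr rfl fun a (_ : a ∈ (Finset.univ : Finset ↥P)) => h0 a
    rw [Finset.sum_add_distrib, Finset.sum_add_distrib, hreindex i hbi.1 hbi.2,
      hreindex _ hbiz.1 hbiz.2, hreindex z hzP hfix0, Finset.sum_const, Finset.card_univ,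
      ← Nat.card_eq_fintype_card] at h1
    simp only [e] at h1 ⊢
    simp only [map_sub, map_add, Finset.sum_sub_distrib, Finset.sum_add_distrib]
    rw [h1]; abel
  refine hgoal fun b hb => ?_
  have hb1 : b = 1 := by
    refine hfaith b hb (AddMonoidHom.ext fun u => ?_)
    show opAt σ b u = u
    have heb : ∀ y, opAt σ b (e y) = e y := by
      intro y
      simp only [e, map_sum]
      refine Fintype.sum_equiv (Equiv.mulLeft (⟨b, hb⟩ : ↥P)) _ _ fun a => ?_
      rw [← hmul]; rfl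
    obtain ⟨k, hk⟩ := hU (opAt σ b u - u)
    obtain ⟨j, hj⟩ := hP.exists_card_eq
    have h1 : Nat.card ↥P • (opAt σ b u - u) = 0 := by
      rw [nsmul_sub, ← map_nsmul, ← hsum u, heb, sub_self]
    rw [hj] at h1
    have h2 := addOrderOf_dvd_iff_nsmul_eq_zero.mp
      (Nat.dvd_gcd (addOrderOf_dvd_iff_nsmul_eq_zero.mpr h1) (addOrderOf_dvd_iff_nsmul_eq_zero.mpr hk))
    rwa [Nat.Coprime.gcd_eq_one (Nat.Coprime.pow j k ((Nat.coprime_primes hr.out Nat.prime_three).mpr hr3)),
      one_smul, sub_eq_zero] at h2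
  simp [hb1]

end Cfsg.Agent.H68Block
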