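import Cfsg.Agent.H68.Block.Exceptional
import Cfsg.Agent.H68.Block.DetForm
import Cfsg.Agent.H68.Block.GroupTools
import Cfsg.Agent.H51.IsolatedPMin
import Cfsg.Agent.H35.Regular
import Cfsg.Agent.H35.Constrained

/-!
The centralizer of the module of a block normalizes the block.
-/

set_option autoImplicit false
set_option linter.style.haveILetI false
set_option linter.unusedSectionVars false
set_option linter.unusedSimpArgs false

namespace Cfsg.Agent.H68Block

open Subgroup Cfsg Matrix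
open H51 (commutator_le_of_le_normalizer mem_of_coprime_mem_sup_pgroup fixed_of_two_step)
open scoped commutatorElement

variable {G : Type*} [Group G] [Finite G]

section General

variable {p : ℕ} [hp : Fact p.Prime] {E : Subgroup G}

/-- Elements whose commutators with a block lie in a `p`-group normalizing it normalize it. -/
theorem mem_normalizer_of_commutators {T₀ D : Subgroup G} (hE : IsBaumannBlock p T₀ E)
    (hD : IsPGroup p D) (hDE : D ≤ normalizer (E : Set G)) {g : G}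
    (h : ∀ e ∈ E, g * e * g⁻¹ * e⁻¹ ∈ D) : g ∈ normalizer (E : Set G) := by
  refine H74.mem_normalizer_of_conj_mem ?_
  have hle : E ≤ E.comap (MulAut.conj g).toMonoidHom := by
    refine (H51.eq_closure_of_residual hE.1).le.trans ((closure_le _).mpr ?_)
    rintro e ⟨he, hc⟩
    show g * e * g⁻¹ ∈ E
    refine mem_of_coprime_mem_sup_pgroup hDE hD ?_ ?_
    · rw [show g * e * g⁻¹ = g * e * g⁻¹ * e⁻¹ * e by group]
      exact mul_mem (mem_sup_right (h e he)) (mem_sup_left he)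
    · rw [show g * e * g⁻¹ = (MulAut.conj g).toMonoidHom e from rfl,
        orderOf_injective _ (MulAut.conj g).injective]
      exact hc
  exact fun x hx => hle hx

theorem normalizer_le_normalizer_centralizer_modV :
    normalizer (E : Set G) ≤ normalizer (centralizer (modV p E : Set G) : Set G) := by
  intro g hg
  have := H51.normalizer_le_normalizer_module (p := p) E hg
  rw [mem_normalizer_iff_map_conj_eq] at this ⊢
  exact (H34.map_centralizer (MulAut.conj g) _).trans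
    (by rw [show (modV p E).map (MulAut.conj g).toMonoidHom = modV p E from this])

variable (hG : centralizer (pCore p G : Set G) ≤ pCore p G)
include hG

/-- The case where `O_p(G)` is centralized by the block modulo the module. -/
theorem centralizer_le_normalizer_of_small (T : Sylow p G)
    (hT : IsBaumannBlock p (T : Subgroup G) E) (h : ⁅pCore p G, E⁆ ≤ topW p E) :
    centralizer (modV p E : Set G) ≤ normalizer (E : Set G) := by
  haveI := H51.pCore_normal p G
  set R := pCore p G with hRdef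
  set C := centralizer (modV p E : Set G) with hC
  have hRV : ⁅R, E⁆ ≤ modV p E := by
    rw [← commutator_residual_eq hT.1 (H51.pCore_isPGroup p G) le_normalizer_of_normal]
    exact commutator_mono h le_rfl
  have hfix : ∀ g ∈ C, ∀ v ∈ modV p E, g * v * g⁻¹ = v := fun g hg v hv => by
    rw [← mem_centralizer_iff.mp hg v hv, mul_inv_cancel_right]
  let D : Subgroup G :=
    { carrier := {g | g ∈ C ∧ ∀ r ∈ R, g * r * g⁻¹ * r⁻¹ ∈ modV p E}
      one_mem' := ⟨one_mem _, fun r _ => by simp⟩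
      mul_mem' := by
        rintro a b ⟨ha, ha'⟩ ⟨hb, hb'⟩
        refine ⟨mul_mem ha hb, fun r hr => ?_⟩
        rw [show a * b * r * (a * b)⁻¹ * r⁻¹ =
          a * (b * r * b⁻¹ * r⁻¹) * a⁻¹ * (a * r * a⁻¹ * r⁻¹) by group, hfix a ha _ (hb' r hr)]
        exact mul_mem (hb' r hr) (ha' r hr)
      inv_mem' := by
        rintro a ⟨ha, ha'⟩
        refine ⟨inv_mem ha, fun r hr => ?_⟩
        rw [show a⁻¹ * r * a⁻¹⁻¹ * r⁻¹ = a⁻¹ * (a * r * a⁻¹ * r⁻¹)⁻¹ * a⁻¹⁻¹ by group,
          hfix _ (inv_mem ha) _ (inv_mem (ha' r hr))]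
        exact inv_mem (ha' r hr) }
  have hDp : IsPGroup p D := by
    refine H35.isPGroup_of_forall_coprime fun x hx => Subtype.ext ?_
    rw [← Subgroup.orderOf_coe] at hx
    have h1 : (x : G) ∈ centralizer (R : Set G) := mem_centralizer_iff.mpr fun r hr => by
      have := fixed_of_two_step hx
        (H34.IsPGroup_of_isElementaryAbelian (modV_isElementaryAbelian p E)) (x.2.2 r hr)
        (fun v hv => hfix _ x.2.1 v hv)
      exact (mul_inv_eq_iff_eq_mul.mp this).symm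
    obtain ⟨k, hk⟩ := H51.pCore_isPGroup p G ⟨_, hG h1⟩
    have hk' : (x : G) ^ p ^ k = 1 := by simpa using congrArg Subtype.val hk
    exact orderOf_eq_one_iff.mp (Nat.eq_one_of_dvd_coprimes (hx.pow_right k) dvd_rfl
      (orderOf_dvd_of_pow_eq_one hk'))
  have hND : normalizer (E : Set G) ≤ normalizer (D : Set G) := by
    intro n hn
    refine H74.mem_normalizer_of_conj_mem ?_
    rintro d ⟨hd, hd'⟩
    refine ⟨(mem_normalizer_iff.mp (normalizer_le_normalizer_centralizer_modV hn) d).mp hd, fun r hr => ?_⟩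
    have hnR : n ∈ normalizer (R : Set G) := le_normalizer_of_normal (mem_top n)
    rw [show n * d * n⁻¹ * r * (n * d * n⁻¹)⁻¹ * r⁻¹ =
      n * (d * (n⁻¹ * r * n) * d⁻¹ * (n⁻¹ * r * n)⁻¹) * n⁻¹ by group]
    exact (mem_normalizer_iff.mp (H51.normalizer_le_normalizer_module E hn) _).mp
      (hd' _ ((mem_normalizer_iff''.mp hnR r).mp hr))
  have hDE := H51.le_normalizer_of_baumann T hT.1 hT.2.1 hDp
    ((H51.baumann_le_normalizer_of_commutator_eq hT.2.1).trans hND) (le_normalizer.trans hND)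
  intro c hc
  refine mem_normalizer_of_commutators hT hDp hDE fun e he => ⟨?_, ?_⟩
  · rw [show c * e * c⁻¹ * e⁻¹ = c * (e * c⁻¹ * e⁻¹) by group]
    exact mul_mem hc ((mem_normalizer_iff.mp (normalizer_le_normalizer_centralizer_modV
      (le_normalizer he)) _).mp (inv_mem hc))
  · intro r hr
    set r₁ := c⁻¹ * (e⁻¹ * r * e) * c with hr₁
    have hr₁R : r₁ ∈ R := by
      have := le_normalizer_of_normal (H := R) (mem_top (e * c))
      have h2 := (mem_normalizer_iff''.mp this r).mp hr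
      convert h2 using 1
      rw [hr₁]; group
    have h1 : e * r₁ * e⁻¹ * r₁⁻¹ ∈ modV p E := by
      have := inv_mem (hRV (commutator_mem_commutator hr₁R he))
      convert this using 1
      simp only [commutatorElement_def]; group
    have h2 : e⁻¹ * r * e * r⁻¹ ∈ modV p E := by
      have := inv_mem (hRV (commutator_mem_commutator hr (inv_mem he)))
      convert this using 1
      simp only [commutatorElement_def]; group
    rw [show c * e * c⁻¹ * e⁻¹ * r * (c * e * c⁻¹ * e⁻¹)⁻¹ * r⁻¹ =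
      c * (e * r₁ * e⁻¹ * r₁⁻¹) * c⁻¹ * (e⁻¹ * r * e * r⁻¹) by rw [hr₁]; group, hfix c hc _ h1]
    exact mul_mem h1 h2

end General

/-- Determinant one matrices squaring to one are scalars. -/
theorem sl2_involution {F : Type*} [Field F] (h2 : (2 : F) ≠ 0)
    {M : SpecialLinearGroup (Fin 2) F} (h : M * M = 1) :
    M = 1 ∨ (M : Matrix (Fin 2) (Fin 2) F) = -1 := by
  have e : (M : Matrix (Fin 2) (Fin 2) F) * (M : Matrix (Fin 2) (Fin 2) F) = 1 := congrArg Subtype.val h
  have e00 := congrFun (congrFun e 0) 0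
  have e01 := congrFun (congrFun e 0) 1
  have e10 := congrFun (congrFun e 1) 0
  have hd := M.2
  rw [det_fin_two] at hd
  simp [mul_apply, Fin.sum_univ_two] at e00 e01 e10
  set a := (M : Matrix (Fin 2) (Fin 2) F) 0 0 with ha
  set b := (M : Matrix (Fin 2) (Fin 2) F) 0 1 with hb
  set c := (M : Matrix (Fin 2) (Fin 2) F) 1 0 with hc
  set d := (M : Matrix (Fin 2) (Fin 2) F) 1 1 with hd'
  have hs : a * (a + d) = 2 := by linear_combination e00 + hd
  have hne : a + d ≠ 0 := fun h0 => h2 (by rw [← hs, h0, mul_zero])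
  have hb0 : b = 0 := by
    have : b * (a + d) = 0 := by linear_combination e01
    exact (mul_eq_zero.mp this).resolve_right hne
  have hc0 : c = 0 := by
    have : c * (a + d) = 0 := by linear_combination e10
    exact (mul_eq_zero.mp this).resolve_right hne
  rw [hb0, zero_mul, add_zero] at e00
  rw [hb0, zero_mul, sub_zero] at hd
  rcases mul_self_eq_one_iff.mp e00 with h1 | h1 <;> rw [h1] at hd
  · left
    apply Subtype.ext
    ext i j
    fin_cases i <;> fin_cases j <;> simp [← ha, ← hb, ← hc, ← hd', h1, hb0, hc0]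
    linear_combination hd
  · right
    ext i j
    fin_cases i <;> fin_cases j <;> simp [← ha, ← hb, ← hc, ← hd', h1, hb0, hc0]
    linear_combination -hd

/-- The data of an exceptional block whose core is generated by commutators with `O₃(G)`. -/
structure ExcBlock (T : Sylow 3 G) (E : Subgroup G) (F : Type) [Field F] [Finite F] [CharP F 3] where
  block : IsBaumannBlock 3 (T : Subgroup G) E
  constrained : centralizer (pCore 3 G : Set G) ≤ pCore 3 G
  core_eq : ⁅pCore 3 G, E⁆ = topQ 3 E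
  mc : SL2Coord 3 E (modV 3 E) (modX 3 E) F
  tc : SL2Coord 3 E (topQ 3 E) (topW 3 E) F
  derived : ⁅topQ 3 E, topQ 3 E⁆ = topW 3 E ⊓ centralizer (E : Set G)
  cardZ : Nat.card ↥(topW 3 E ⊓ centralizer (E : Set G)) = Nat.card F
  cardF : Nat.card F = 3 ∨ 5 < Nat.card F
  quad : ∀ b : G, b ∈ baumannSubgroupOf 3 (T : Subgroup G) →
    b ∉ centralizer (topW 3 E : Set G) →
    ¬ ⁅⁅topQ 3 E, zpowers b⁆, zpowers b⁆ ≤ topW 3 E ⊓ centralizer (E : Set G)

namespace ExcBlock

variable [Fact (Nat.Prime 3)] {T : Sylow 3 G} {E : Subgroup G} {F : Type} [Field F] [Finite F]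
  [CharP F 3] (X : ExcBlock T E F)
include X

theorem core_le : topQ 3 E ≤ pCore 3 G := by
  haveI := H51.pCore_normal 3 G
  rw [← X.core_eq]
  exact commutator_le_left _ _

theorem normalizer_core_le :
    normalizer (topQ 3 E : Set G) ≤
      normalizer ((topW 3 E ⊓ centralizer (E : Set G) : Subgroup G) : Set G) := by
  intro g hg
  rw [← X.derived, mem_normalizer_iff_map_conj_eq]
  exact (Subgroup.map_commutator _ _ _).trans (congrArg₂ (fun A B => ⁅A, B⁆)
    (mem_normalizer_iff_map_conj_eq.mp hg) (mem_normalizer_iff_map_conj_eq.mp hg))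

theorem normalizer_core_le_omega :
    normalizer (topQ 3 E : Set G) ≤ normalizer (topW 3 E : Set G) := by
  intro g hg
  rw [mem_normalizer_iff_map_conj_eq] at hg ⊢
  exact (H51.map_omegaOneCenter (MulAut.conj g) (pCoreOf 3 E)).trans (congrArg _ hg)

omit X in
theorem block_fixes_fixed {e ζ : G} (he : e ∈ E) (hζ : ζ ∈ topW 3 E ⊓ centralizer (E : Set G)) :
    e * ζ * e⁻¹ = ζ := by
  rw [mem_centralizer_iff.mp hζ.2 e he, mul_inv_cancel_right]

theorem centralizes_omega {w q : G} (hw : w ∈ topW 3 E) (hq : q ∈ topQ 3 E) : q * w = w * q :=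
  (mem_centralizer_iff.mp (H51.core_le_centralizer_omega E hq) w hw).symm

/-- Operators of the stabilizer of `O₃(G) ≥ Q ≥ W`. -/
theorem mem_normalizer_of_top {g : G} (hg : g ∈ centralizer (modV 3 E : Set G))
    (hgQ : g ∈ normalizer (topQ 3 E : Set G))
    (h : ∀ e ∈ E, ∀ q ∈ topQ 3 E, (g * e * g⁻¹ * e⁻¹) * q * (g * e * g⁻¹ * e⁻¹)⁻¹ * q⁻¹ ∈ topW 3 E) :
    g ∈ normalizer (E : Set G) := by
  haveI := H51.pCore_normal 3 G
  set R := pCore 3 G with hR
  set Q := topQ 3 E with hQ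
  set W := topW 3 E with hW
  set C := centralizer (modV 3 E : Set G) with hC
  have hQW : W ≤ Q := H51.omega_le_core E
  let D : Subgroup G :=
    { carrier := {d | d ∈ C ∧ d ∈ normalizer (Q : Set G) ∧ (∀ r ∈ R, d * r * d⁻¹ * r⁻¹ ∈ Q) ∧
        (∀ q ∈ Q, d * q * d⁻¹ * q⁻¹ ∈ W) ∧ ∀ w ∈ W, d * w * d⁻¹ = w}
      one_mem' := ⟨one_mem _, one_mem _, fun r _ => by simp, fun q _ => by simp, fun w _ => by simp⟩
      mul_mem' := by
        rintro a b ⟨a1, a2, a3, a4, a5⟩ ⟨b1, b2, b3, b4, b5⟩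
        refine ⟨mul_mem a1 b1, mul_mem a2 b2, fun r hr => ?_, fun q hq => ?_, fun w hw => ?_⟩
        · rw [show a * b * r * (a * b)⁻¹ * r⁻¹ =
            a * (b * r * b⁻¹ * r⁻¹) * a⁻¹ * (a * r * a⁻¹ * r⁻¹) by group]
          exact mul_mem ((mem_normalizer_iff.mp a2 _).mp (b3 r hr)) (a3 r hr)
        · rw [show a * b * q * (a * b)⁻¹ * q⁻¹ =
            a * (b * q * b⁻¹ * q⁻¹) * a⁻¹ * (a * q * a⁻¹ * q⁻¹) by group, a5 _ (b4 q hq)]
          exact mul_mem (b4 q hq) (a4 q hq)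
        · rw [show a * b * w * (a * b)⁻¹ = a * (b * w * b⁻¹) * a⁻¹ by group, b5 w hw, a5 w hw]
      inv_mem' := by
        rintro a ⟨a1, a2, a3, a4, a5⟩
        have a5' : ∀ w ∈ W, a⁻¹ * w * a = w := fun w hw => by
          conv_lhs => rw [← a5 w hw]
          group
        refine ⟨inv_mem a1, inv_mem a2, fun r hr => ?_, fun q hq => ?_, fun w hw => ?_⟩
        · rw [show a⁻¹ * r * a⁻¹⁻¹ * r⁻¹ = a⁻¹ * (a * r * a⁻¹ * r⁻¹)⁻¹ * a by group]
          exact (mem_normalizer_iff''.mp a2 _).mp (inv_mem (a3 r hr))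
        · rw [show a⁻¹ * q * a⁻¹⁻¹ * q⁻¹ = a⁻¹ * (a * q * a⁻¹ * q⁻¹)⁻¹ * a by group,
            a5' _ (inv_mem (a4 q hq))]
          exact inv_mem (a4 q hq)
        · rw [inv_inv]; exact a5' w hw }
  have hWp : IsPGroup 3 W := H34.IsPGroup_of_isElementaryAbelian (H51.omegaOneCenter_isElementaryAbelian _)
  have hQp : IsPGroup 3 Q := (H51.pCore_isPGroup 3 G).to_le X.core_le
  have hDp : IsPGroup 3 D := by
    refine H35.isPGroup_of_forall_coprime fun x hx => Subtype.ext ?_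
    rw [← Subgroup.orderOf_coe] at hx
    obtain ⟨-, -, x3, x4, x5⟩ := x.2
    have hQfix : ∀ q ∈ Q, (x : G) * q * (x : G)⁻¹ = q := fun q hq =>
      fixed_of_two_step hx hWp (x4 q hq) x5
    have h1 : (x : G) ∈ centralizer (R : Set G) := mem_centralizer_iff.mpr fun r hr =>
      (mul_inv_eq_iff_eq_mul.mp (fixed_of_two_step hx hQp (x3 r hr) hQfix)).symm
    obtain ⟨k, hk⟩ := H51.pCore_isPGroup 3 G ⟨_, X.constrained h1⟩
    have hk' : (x : G) ^ 3 ^ k = 1 := by simpa using congrArg Subtype.val hk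
    exact orderOf_eq_one_iff.mp (Nat.eq_one_of_dvd_coprimes (hx.pow_right k) dvd_rfl
      (orderOf_dvd_of_pow_eq_one hk'))
  have hND : normalizer (E : Set G) ≤ normalizer (D : Set G) := by
    intro n hn
    have nC := normalizer_le_normalizer_centralizer_modV (p := 3) hn
    have nQ := H51.normalizer_le_normalizer_core (p := 3) E hn
    have nW := H51.normalizer_le_normalizer_omegaCore (p := 3) E hn
    have nR : n ∈ normalizer (R : Set G) := le_normalizer_of_normal (mem_top n)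
    refine H74.mem_normalizer_of_conj_mem ?_
    rintro d ⟨d1, d2, d3, d4, d5⟩
    refine ⟨(mem_normalizer_iff.mp nC d).mp d1, mul_mem (mul_mem nQ d2) (inv_mem nQ),
      fun r hr => ?_, fun q hq => ?_, fun w hw => ?_⟩
    · rw [show n * d * n⁻¹ * r * (n * d * n⁻¹)⁻¹ * r⁻¹ =
        n * (d * (n⁻¹ * r * n) * d⁻¹ * (n⁻¹ * r * n)⁻¹) * n⁻¹ by group]
      exact (mem_normalizer_iff.mp nQ _).mp (d3 _ ((mem_normalizer_iff''.mp nR r).mp hr))
    · rw [show n * d * n⁻¹ * q * (n * d * n⁻¹)⁻¹ * q⁻¹ =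
        n * (d * (n⁻¹ * q * n) * d⁻¹ * (n⁻¹ * q * n)⁻¹) * n⁻¹ by group]
      exact (mem_normalizer_iff.mp nW _).mp (d4 _ ((mem_normalizer_iff''.mp nQ q).mp hq))
    · rw [show n * d * n⁻¹ * w * (n * d * n⁻¹)⁻¹ = n * (d * (n⁻¹ * w * n) * d⁻¹) * n⁻¹ by group,
        d5 _ ((mem_normalizer_iff''.mp nW w).mp hw)]
      group
  have hDE := H51.le_normalizer_of_baumann T X.block.1 X.block.2.1 hDp
    ((H51.baumann_le_normalizer_of_commutator_eq X.block.2.1).trans hND) (le_normalizer.trans hND)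
  refine mem_normalizer_of_commutators X.block hDp hDE fun e he => ?_
  have hkC : g * e * g⁻¹ * e⁻¹ ∈ C := by
    rw [show g * e * g⁻¹ * e⁻¹ = g * (e * g⁻¹ * e⁻¹) by group]
    exact mul_mem hg ((mem_normalizer_iff.mp (normalizer_le_normalizer_centralizer_modV
      (le_normalizer he)) _).mp (inv_mem hg))
  have heQ := H51.normalizer_le_normalizer_core (p := 3) E (le_normalizer he)
  refine ⟨hkC, mul_mem (mul_mem (mul_mem hgQ heQ) (inv_mem hgQ)) (inv_mem heQ),
    fun r hr => ?_, h e he, fun w hw => ?_⟩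
  · set r₁ := g⁻¹ * (e⁻¹ * r * e) * g with hr₁
    have hr₁R : r₁ ∈ R := by
      have := le_normalizer_of_normal (H := R) (mem_top (e * g))
      have h2 := (mem_normalizer_iff''.mp this r).mp hr
      convert h2 using 1
      rw [hr₁]; group
    have h1 : e * r₁ * e⁻¹ * r₁⁻¹ ∈ Q := by
      have := inv_mem (X.core_eq.le (commutator_mem_commutator hr₁R he))
      convert this using 1
      simp only [commutatorElement_def]; group
    have h2 : e⁻¹ * r * e * r⁻¹ ∈ Q := by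
      have := inv_mem (X.core_eq.le (commutator_mem_commutator hr (inv_mem he)))
      convert this using 1
      simp only [commutatorElement_def]; group
    rw [show g * e * g⁻¹ * e⁻¹ * r * (g * e * g⁻¹ * e⁻¹)⁻¹ * r⁻¹ =
      g * (e * r₁ * e⁻¹ * r₁⁻¹) * g⁻¹ * (e⁻¹ * r * e * r⁻¹) by rw [hr₁]; group]
    exact mul_mem ((mem_normalizer_iff.mp hgQ _).mp h1) h2
  · obtain ⟨v, hv, ζ, hζ, rfl⟩ := exists_modV_mul X.block hw
    set k := g * e * g⁻¹ * e⁻¹ with hk
    have e1 : k * v * k⁻¹ = v := by rw [← mem_centralizer_iff.mp hkC v hv, mul_inv_cancel_right]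
    have hgζ : g⁻¹ * ζ * g ∈ W ⊓ centralizer (E : Set G) :=
      (mem_normalizer_iff''.mp (X.normalizer_core_le hgQ) ζ).mp hζ
    have e2 : k * ζ * k⁻¹ = ζ := by
      calc k * ζ * k⁻¹ = g * (e * (g⁻¹ * (e⁻¹ * ζ * e⁻¹⁻¹) * g) * e⁻¹) * g⁻¹ := by rw [hk]; group
        _ = g * (e * (g⁻¹ * ζ * g) * e⁻¹) * g⁻¹ := by rw [block_fixes_fixed (inv_mem he) hζ]
        _ = g * (g⁻¹ * ζ * g) * g⁻¹ := by rw [block_fixes_fixed he hgζ]
        _ = ζ := by group
    rw [show k * (v * ζ) * k⁻¹ = (k * v * k⁻¹) * (k * ζ * k⁻¹) by group, e1, e2]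

/-- The commutator form on `Q/W` makes operators fixing `C_W(E)` special linear. -/
theorem act_special {g : G} (hgQ : g ∈ normalizer (topQ 3 E : Set G))
    (hgZ : ∀ ζ ∈ topW 3 E ⊓ centralizer (E : Set G), g * ζ * g⁻¹ = ζ) :
    X.tc.act ⟨g, hgQ, X.normalizer_core_le_omega hgQ⟩ ∈ specialPerm F := by
  set Q := topQ 3 E with hQ
  set W := topW 3 E with hW
  set Z := W ⊓ centralizer (E : Set G) with hZ
  haveI := (H51.omegaOneCenter_isElementaryAbelian (p := 3) (pCoreOf 3 E)).1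
  letI : CommGroup ↥Z :=
    { (inferInstance : Group ↥Z) with
      mul_comm := fun a b => Subtype.ext (congrArg (fun x : ↥W => (x : G))
        (mul_comm' (⟨a.1, a.2.1⟩ : ↥W) ⟨b.1, b.2.1⟩)) }
  let D₂ := X.tc
  let κ : ↥Q → ↥Q → Additive ↥Z := fun a b =>
    Additive.ofMul ⟨⁅(a : G), (b : G)⁆, X.derived.le (commutator_mem_commutator a.2 b.2)⟩
  have hc : ∀ {a b : G}, a ∈ Q → b ∈ Q → ⁅a, b⁆ ∈ Z := fun ha hb =>
    X.derived.le (commutator_mem_commutator ha hb)
  have hκl : ∀ a a' b, κ (a * a') b = κ a b + κ a' b := fun a a' b => by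
    show Additive.ofMul _ = Additive.ofMul (_ * _)
    congr 1
    apply Subtype.ext
    show ⁅(a : G) * a', (b : G)⁆ = ⁅(a : G), (b : G)⁆ * ⁅(a' : G), (b : G)⁆
    have h1 : (a : G) * ⁅(a' : G), (b : G)⁆ = ⁅(a' : G), (b : G)⁆ * a :=
      X.centralizes_omega (hc a'.2 b.2).1 a.2
    have h2 : ⁅(a' : G), (b : G)⁆ * ⁅(a : G), (b : G)⁆ = ⁅(a : G), (b : G)⁆ * ⁅(a' : G), (b : G)⁆ :=
      X.centralizes_omega (hc a.2 b.2).1 (H51.omega_le_core E (hc a'.2 b.2).1)
    rw [show ⁅(a : G) * a', (b : G)⁆ = (a : G) * ⁅(a' : G), (b : G)⁆ * (a : G)⁻¹ * ⁅(a : G), (b : G)⁆ by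
      simp only [commutatorElement_def]; group, h1, mul_inv_cancel_right, h2]
  have hκs : ∀ a b, κ b a = -κ a b := fun a b => by
    show Additive.ofMul _ = Additive.ofMul (_⁻¹)
    congr 1
    apply Subtype.ext
    show ⁅(b : G), (a : G)⁆ = ⁅(a : G), (b : G)⁆⁻¹
    rw [commutatorElement_inv]
  have hκW : ∀ (a b : ↥Q), (a : G) ∈ W → κ a b = 0 := fun a b ha => by
    show Additive.ofMul _ = Additive.ofMul 1
    congr 1
    apply Subtype.ext
    show ⁅(a : G), (b : G)⁆ = 1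
    rw [commutatorElement_eq_one_iff_mul_comm]
    exact (X.centralizes_omega ha b.2).symm
  have hκcl : ∀ a a' b, D₂.val a = D₂.val a' → κ a b = κ a' b := fun a a' b h => by
    have h1 : ((a * a'⁻¹ : ↥Q) : G) ∈ W := (D₂.val_eq_iff a a').mp h
    have h2 := hκl (a * a'⁻¹) a' b
    rwa [inv_mul_cancel_right, hκW _ b h1, zero_add] at h2
  let β : (Fin 2 → F) → (Fin 2 → F) → Additive ↥Z := fun u v => κ (D₂.lift u) (D₂.lift v)
  have hβ : ∀ a b, β (D₂.val a) (D₂.val b) = κ a b := fun a b => by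
    show κ (D₂.lift (D₂.val a)) (D₂.lift (D₂.val b)) = κ a b
    rw [hκcl _ a _ (D₂.val_lift _), hκs, hκcl _ b _ (D₂.val_lift _), ← hκs]
  refine special_of_invariant_form X.cardF β ?_ ?_ ?_ ?_ ?_ ?_ (D₂.act_additive _) ?_
  · intro u u' v
    obtain ⟨a, rfl⟩ := D₂.val_surj u
    obtain ⟨a', rfl⟩ := D₂.val_surj u'
    obtain ⟨b, rfl⟩ := D₂.val_surj v
    rw [← D₂.val_mul, hβ, hβ, hβ, hκl]
  · intro u v v'
    obtain ⟨a, rfl⟩ := D₂.val_surj u
    obtain ⟨b, rfl⟩ := D₂.val_surj v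
    obtain ⟨b', rfl⟩ := D₂.val_surj v'
    rw [← D₂.val_mul, hβ, hβ, hβ, hκs, hκl, neg_add, ← hκs, ← hκs]
  · intro u
    show Additive.ofMul _ = Additive.ofMul 1
    congr 1
    apply Subtype.ext
    exact commutatorElement_self _
  · intro r hr u v
    rw [← D₂.range_eq] at hr
    obtain ⟨e, rfl⟩ := hr
    obtain ⟨a, rfl⟩ := D₂.val_surj u
    obtain ⟨b, rfl⟩ := D₂.val_surj v
    rw [← D₂.equivariant, ← D₂.equivariant, hβ, hβ]
    show Additive.ofMul _ = Additive.ofMul _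
    congr 1
    apply Subtype.ext
    show ⁅(e : G) * a * (e : G)⁻¹, (e : G) * b * (e : G)⁻¹⁆ = ⁅(a : G), (b : G)⁆
    rw [show ⁅(e : G) * a * (e : G)⁻¹, (e : G) * b * (e : G)⁻¹⁆ = (e : G) * ⁅(a : G), (b : G)⁆ * (e : G)⁻¹ by
      simp only [commutatorElement_def]; group, block_fixes_fixed e.2 (hc a.2 b.2)]
  · rw [Nat.card_congr Additive.toMul]
    exact X.cardZ
  · rw [eq_top_iff]
    set S := AddSubgroup.closure (Set.range fun w : _ × _ => β w.1 w.2) with hS
    let S' : Subgroup G := S.toSubgroup'.map Z.subtype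
    have hle : ⁅Q, Q⁆ ≤ S' := by
      rw [commutator_le]
      intro a ha b hb
      refine ⟨⟨_, hc ha hb⟩, ?_, rfl⟩
      show Additive.ofMul _ ∈ S
      exact AddSubgroup.subset_closure ⟨(D₂.val ⟨a, ha⟩, D₂.val ⟨b, hb⟩), hβ _ _⟩
    intro x _
    obtain ⟨y, hy, hyx⟩ := hle (X.derived.ge (Additive.toMul x).2)
    have : y = Additive.toMul x := Subtype.ext hyx
    rw [this] at hy
    exact hy
  · intro u v
    obtain ⟨a, rfl⟩ := D₂.val_surj u
    obtain ⟨b, rfl⟩ := D₂.val_surj v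
    rw [Coord.act_apply, Coord.act_apply, hβ, hβ]
    show Additive.ofMul _ = Additive.ofMul _
    congr 1
    apply Subtype.ext
    show ⁅g * a * g⁻¹, g * b * g⁻¹⁆ = ⁅(a : G), (b : G)⁆
    rw [show ⁅g * a * g⁻¹, g * b * g⁻¹⁆ = g * ⁅(a : G), (b : G)⁆ * g⁻¹ by
      simp only [commutatorElement_def]; group, hgZ _ (hc a.2 b.2)]

theorem top_trivial {h : G} (hh : h ∈ normalizer (E : Set G))
    (hhV : h ∈ centralizer (modV 3 E : Set G)) {q : G} (hq : q ∈ topQ 3 E) :
    h * q * h⁻¹ * q⁻¹ ∈ topW 3 E :=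
  top_trivial_of_block T X.block (by norm_num) X.mc X.tc X.quad hh hhV hq

/-- Operators fixing the module and normalizing the core normalize the block. -/
theorem mem_normalizer_of_core {h : G} (hh : h ∈ centralizer (modV 3 E : Set G))
    (hhQ : h ∈ normalizer (topQ 3 E : Set G)) : h ∈ normalizer (E : Set G) := by
  set Q := topQ 3 E with hQ
  set W := topW 3 E with hW
  set Z := W ⊓ centralizer (E : Set G) with hZ
  set C := centralizer (modV 3 E : Set G) with hC
  let D₂ := X.tc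
  let K : Subgroup G :=
    { carrier := {g | g ∈ C ∧ g ∈ normalizer (Q : Set G) ∧ ∀ ζ ∈ Z, g * ζ * g⁻¹ = ζ}
      one_mem' := ⟨one_mem _, one_mem _, fun ζ _ => by simp⟩
      mul_mem' := by
        rintro a b ⟨a1, a2, a3⟩ ⟨b1, b2, b3⟩
        refine ⟨mul_mem a1 b1, mul_mem a2 b2, fun ζ hζ => ?_⟩
        rw [show a * b * ζ * (a * b)⁻¹ = a * (b * ζ * b⁻¹) * a⁻¹ by group, b3 ζ hζ, a3 ζ hζ]
      inv_mem' := by
        rintro a ⟨a1, a2, a3⟩
        refine ⟨inv_mem a1, inv_mem a2, fun ζ hζ => ?_⟩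
        conv_lhs => rw [← a3 ζ hζ]
        group }
  have sec : ∀ {g : G}, g ∈ normalizer (Q : Set G) → g ∈ secNorm Q W :=
    fun hg => ⟨hg, X.normalizer_core_le_omega hg⟩
  let H : Subgroup (SpecialLinearGroup (Fin 2) F) :=
    { carrier := {M | ∃ g, ∃ hg : g ∈ K, ∀ x, D₂.act ⟨g, sec hg.2.1⟩ x =
        (M : Matrix (Fin 2) (Fin 2) F) *ᵥ x}
      one_mem' := ⟨1, one_mem _, fun x => by
        show D₂.act 1 x = (1 : Matrix (Fin 2) (Fin 2) F) *ᵥ x
        rw [map_one, one_mulVec]; rfl⟩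
      mul_mem' := by
        rintro M N ⟨a, ha, ha'⟩ ⟨b, hb, hb'⟩
        refine ⟨a * b, mul_mem ha hb, fun x => ?_⟩
        show D₂.act (⟨a, sec ha.2.1⟩ * ⟨b, sec hb.2.1⟩) x =
          ((M : Matrix (Fin 2) (Fin 2) F) * (N : Matrix (Fin 2) (Fin 2) F)) *ᵥ x
        rw [map_mul, Equiv.Perm.mul_apply, hb', ha', mulVec_mulVec]
      inv_mem' := by
        rintro M ⟨a, ha, ha'⟩
        refine ⟨a⁻¹, inv_mem ha, fun x => ?_⟩
        apply (D₂.act ⟨a, sec ha.2.1⟩).injective
        show D₂.act ⟨a, sec ha.2.1⟩ (D₂.act ⟨a, sec ha.2.1⟩⁻¹ x) = _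
        rw [← Equiv.Perm.mul_apply, ← map_mul, mul_inv_cancel, map_one, ha', mulVec_mulVec]
        show x = ((M * M⁻¹ : SpecialLinearGroup (Fin 2) F) : Matrix (Fin 2) (Fin 2) F) *ᵥ x
        rw [mul_inv_cancel]
        exact (one_mulVec x).symm }
  have hnE : ∀ e ∈ E, e ∈ normalizer (K : Set G) := fun e he => by
    refine H74.mem_normalizer_of_conj_mem ?_
    rintro k ⟨k1, k2, k3⟩
    have eQ := H51.normalizer_le_normalizer_core (p := 3) E (le_normalizer he)
    refine ⟨(mem_normalizer_iff.mp (normalizer_le_normalizer_centralizer_modV (le_normalizer he)) k).mp k1,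
      mul_mem (mul_mem eQ k2) (inv_mem eQ), fun ζ hζ => ?_⟩
    calc e * k * e⁻¹ * ζ * (e * k * e⁻¹)⁻¹ = e * (k * (e⁻¹ * ζ * e⁻¹⁻¹) * k⁻¹) * e⁻¹ := by group
      _ = ζ := by rw [block_fixes_fixed (inv_mem he) hζ, k3 ζ hζ, block_fixes_fixed he hζ]
  have hbot : H = ⊥ := by
    refine normalized_eq_bot X.cardF H ?_ ?_
    · intro r hr M hM
      rw [← D₂.range_eq] at hr
      obtain ⟨e, rfl⟩ := hr
      obtain ⟨a, ha, ha'⟩ := hM
      refine ⟨(e : G) * a * (e : G)⁻¹, (mem_normalizer_iff.mp (hnE e e.2) a).mp ha, fun x => ?_⟩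
      show D₂.act (⟨e.1, D₂.normalizes e.2⟩ * ⟨a, sec ha.2.1⟩ *
        ⟨(e⁻¹ : ↥E).1, D₂.normalizes (e⁻¹).2⟩) x = _
      rw [map_mul, map_mul, Equiv.Perm.mul_apply, Equiv.Perm.mul_apply, D₂.act_block e⁻¹, ha',
        D₂.act_block, map_inv, mulVec_mulVec, mulVec_mulVec]
      rfl
    · rintro M ⟨a, ha, ha'⟩ hM
      have haE : a ∈ normalizer (E : Set G) := by
        refine X.mem_normalizer_of_top ha.1 ha.2.1 fun e he q hq => ?_
        refine (D₂.act_eq_one_iff (⟨a, sec ha.2.1⟩ * ⟨e, D₂.normalizes he⟩ *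
          ⟨a, sec ha.2.1⟩⁻¹ * ⟨e, D₂.normalizes he⟩⁻¹)).mp ?_ q hq
        rw [map_mul, map_mul, map_mul, map_inv, map_inv, mul_inv_eq_one, mul_inv_eq_iff_eq_mul]
        refine Equiv.ext fun x => ?_
        rw [Equiv.Perm.mul_apply, Equiv.Perm.mul_apply, ha', ha', D₂.act_block ⟨e, he⟩,
          D₂.act_block ⟨e, he⟩, hM, neg_mulVec, neg_mulVec, one_mulVec, one_mulVec, mulVec_neg]
      have h1 := congrArg (fun σ : Equiv.Perm (Fin 2 → F) => σ ![1, 0])
        ((D₂.act_eq_one_iff ⟨a, sec ha.2.1⟩).mpr fun q hq => X.top_trivial haE ha.1 hq)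
      simp only [Equiv.Perm.one_apply] at h1
      rw [ha', hM, neg_mulVec, one_mulVec] at h1
      have h2 : ((2 : ℕ) : F) = 0 := by
        have := congrFun h1 0
        simp at this
        push_cast
        linear_combination -this
      rw [CharP.cast_eq_zero_iff F 3] at h2
      norm_num at h2
  refine X.mem_normalizer_of_top hh hhQ fun e he q hq => ?_
  have heQ := H51.normalizer_le_normalizer_core (p := 3) E (le_normalizer he)
  have hk : h * e * h⁻¹ * e⁻¹ ∈ K := by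
    refine ⟨?_, mul_mem (mul_mem (mul_mem hhQ heQ) (inv_mem hhQ)) (inv_mem heQ), fun ζ hζ => ?_⟩
    · rw [show h * e * h⁻¹ * e⁻¹ = h * (e * h⁻¹ * e⁻¹) by group]
      exact mul_mem hh ((mem_normalizer_iff.mp (normalizer_le_normalizer_centralizer_modV
        (le_normalizer he)) _).mp (inv_mem hh))
    · have hhζ : h⁻¹ * ζ * h ∈ Z := (mem_normalizer_iff''.mp (X.normalizer_core_le hhQ) ζ).mp hζ
      calc h * e * h⁻¹ * e⁻¹ * ζ * (h * e * h⁻¹ * e⁻¹)⁻¹
          = h * (e * (h⁻¹ * (e⁻¹ * ζ * e⁻¹⁻¹) * h) * e⁻¹) * h⁻¹ := by group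
        _ = h * (e * (h⁻¹ * ζ * h) * e⁻¹) * h⁻¹ := by rw [block_fixes_fixed (inv_mem he) hζ]
        _ = h * (h⁻¹ * ζ * h) * h⁻¹ := by rw [block_fixes_fixed he hhζ]
        _ = ζ := by group
  obtain ⟨M, hM⟩ := exists_sl2_of_special (X.act_special hk.2.1 hk.2.2)
  have hMH : M ∈ H := ⟨_, hk, hM⟩
  rw [hbot, Subgroup.mem_bot] at hMH
  refine (D₂.act_eq_one_iff ⟨_, sec hk.2.1⟩).mp (Equiv.ext fun x => ?_) q hq
  rw [hM, hMH, Equiv.Perm.one_apply]
  exact one_mulVec x

/-- Operators of order prime to `3` fixing the module and normalizing the core fix the core. -/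
theorem fixes {h : G} (hh : h ∈ centralizer (modV 3 E : Set G))
    (hhQ : h ∈ normalizer (topQ 3 E : Set G)) (hcop : (orderOf h).Coprime 3) :
    ∀ q ∈ topQ 3 E, h * q * h⁻¹ = q :=
  H51.fixes_core X.block hcop (fun v hv => by
    rw [← mem_centralizer_iff.mp hh v hv, mul_inv_cancel_right])
    fun _ hq => X.top_trivial (X.mem_normalizer_of_core hh hhQ) hh hq

end ExcBlock

end Cfsg.Agent.H68Block
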