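import Cfsg.Agent.H68.Block.BlockCentralizer

/-!
The centralizer of the module of an exceptional block normalizes it.
-/

set_option autoImplicit false
set_option linter.style.haveILetI false
set_option linter.unusedSectionVars false
set_option linter.unusedSimpArgs false

namespace Cfsg.Agent.H68Block

open Subgroup Cfsg Matrix
open H51 (commutator_le_of_le_normalizer fixed_of_two_step)
open scoped commutatorElement

variable {G : Type*} [Group G] [Finite G]

namespace ExcBlock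

variable [Fact (Nat.Prime 3)] {T : Sylow 3 G} {E : Subgroup G} {F : Type} [Field F] [Finite F]
  [CharP F 3]

/-- A central involution of the block modulo its core, together with a square root. -/
structure Quarter (X : ExcBlock T E F) (i : G) : Prop where
  mem : i ∈ E
  sq : i * i * (i * i) = 1
  top_neg : (X.tc.ρ ⟨i * i, mul_mem mem mem⟩ : Matrix (Fin 2) (Fin 2) F) = -1
  mod_neg : (X.mc.ρ ⟨i * i, mul_mem mem mem⟩ : Matrix (Fin 2) (Fin 2) F) = -1

theorem two_ne_zero' : (2 : F) ≠ 0 := by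
  intro h
  have h2 : ((2 : ℕ) : F) = 0 := by push_cast; exact h
  rw [CharP.cast_eq_zero_iff F 3] at h2
  norm_num at h2

theorem neg_one_ne_one {M : SpecialLinearGroup (Fin 2) F}
    (h : (M : Matrix (Fin 2) (Fin 2) F) = -1) : M ≠ 1 := by
  intro e
  rw [e] at h
  have := congrFun (congrFun h 0) 0
  simp at this
  exact two_ne_zero' (F := F) (by linear_combination this)

variable (X : ExcBlock T E F)
include X

theorem exists_quarter : ∃ i, Quarter X i := by
  have hw4 : (turnW : SpecialLinearGroup (Fin 2) F) ^ 4 = 1 := by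
    apply Subtype.ext
    show (turnW : SpecialLinearGroup (Fin 2) F).1 ^ 4 = 1
    rw [show 4 = 2 * 2 from rfl, pow_mul, pow_two (turnW : SpecialLinearGroup (Fin 2) F).1,
      show (turnW : SpecialLinearGroup (Fin 2) F).1 * (turnW : SpecialLinearGroup (Fin 2) F).1 = -1
        from turnW_sq]
    simp
  have hcop : (orderOf (turnW : SpecialLinearGroup (Fin 2) F)).Coprime 3 :=
    Nat.Coprime.coprime_dvd_left (orderOf_dvd_of_pow_eq_one hw4) (by norm_num)
  obtain ⟨e, he⟩ : turnW ∈ X.tc.ρ.range := X.tc.range_eq ▸ sl2_mem_commutator (p := 3) hcop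
  obtain ⟨a, ha⟩ := H51.exists_coprime_pow (p := 3) (e : G)
  set i : ↥E := e ^ 3 ^ a with hi
  have hz : ((X.tc.ρ (i * i) : SpecialLinearGroup (Fin 2) F) : Matrix (Fin 2) (Fin 2) F) = -1 := by
    rw [hi, map_mul, map_pow, he, ← (Commute.refl (turnW : SpecialLinearGroup (Fin 2) F)).mul_pow]
    show (turnW * turnW : SpecialLinearGroup (Fin 2) F).1 ^ 3 ^ a = -1
    rw [turnW_sq, Odd.neg_one_pow (Odd.pow (by decide))]
  have hz4 : X.tc.ρ (i * i * (i * i)) = 1 := by
    rw [map_mul]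
    apply Subtype.ext
    show (X.tc.ρ (i * i)).1 * (X.tc.ρ (i * i)).1 = 1
    rw [hz]; simp
  have hQ : ((i * i * (i * i) : ↥E) : G) ∈ pCoreOf 3 E := (X.tc.ker_iff _).mp hz4
  have h4 : (i : G) * i * (i * i) = 1 := by
    have hic : (orderOf (i : G)).Coprime 3 := by rw [hi, SubmonoidClass.coe_pow]; exact ha
    obtain ⟨k, hk⟩ := (H51.pCore_isPGroup 3 G).to_le X.core_le ⟨_, hQ⟩
    have hk' : ((i : G) * i * (i * i)) ^ 3 ^ k = 1 := by simpa using congrArg Subtype.val hk
    refine orderOf_eq_one_iff.mp (Nat.eq_one_of_dvd_coprimes (hic.pow_right k) ?_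
      (orderOf_dvd_of_pow_eq_one hk'))
    rw [show (i : G) * i * (i * i) = (i : G) ^ 4 by simp [pow_succ, mul_assoc]]
    exact orderOf_pow_dvd 4
  refine ⟨i, i.2, h4, hz, ?_⟩
  have hsq : X.mc.ρ (i * i) * X.mc.ρ (i * i) = 1 := by
    rw [← map_mul, X.mc.ker_iff]
    show (i : G) * i * (i * i) ∈ pCoreOf 3 E
    rw [h4]; exact one_mem _
  rcases sl2_involution two_ne_zero' hsq with h | h
  · exfalso
    exact neg_one_ne_one hz ((X.tc.ker_iff _).mpr ((X.mc.ker_iff _).mp h))
  · exact h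

variable {i : G} (q₄ : Quarter X i)
include q₄

theorem z_mem : i * i ∈ E := mul_mem q₄.mem q₄.mem

theorem z_inv : (i * i)⁻¹ = i * i := inv_eq_of_mul_eq_one_right q₄.sq

theorem z_coprime : (orderOf (i * i)).Coprime 3 :=
  Nat.Coprime.coprime_dvd_left (orderOf_dvd_of_pow_eq_one (show (i * i) ^ 2 = 1 by rw [pow_two, q₄.sq]))
    (by norm_num)

theorem z_not_mem : i * i ∉ pCoreOf 3 E := fun h =>
  neg_one_ne_one q₄.top_neg ((X.tc.ker_iff ⟨i * i, mul_mem q₄.mem q₄.mem⟩).mpr h)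

theorem z_ne_one : i * i ≠ 1 := fun h => X.z_not_mem q₄ (h ▸ one_mem _)

/-- The involution inverts the core modulo `C_W(E)`. -/
theorem inverts {q : G} (hq : q ∈ topQ 3 E) :
    i * i * q * (i * i)⁻¹ * q ∈ topW 3 E ⊓ centralizer (E : Set G) := by
  obtain ⟨z, rfl⟩ : ∃ z, z = i * i := ⟨_, rfl⟩
  have hzE : i * i ∈ E := X.z_mem q₄
  have hQn : i * i ∈ normalizer (topQ 3 E : Set G) :=
    H51.normalizer_le_normalizer_core E (le_normalizer hzE)
  set m : G := i * i * q * (i * i)⁻¹ * q with hm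
  have hm1 : i * i * q * (i * i)⁻¹ ∈ topQ 3 E := (mem_normalizer_iff.mp hQn q).mp hq
  have hmW : m ∈ topW 3 E := by
    have h1 := X.tc.equivariant ⟨i * i, hzE⟩ ⟨q, hq⟩
    rw [q₄.top_neg, neg_mulVec, one_mulVec] at h1
    have h2 : X.tc.val (⟨_, hm1⟩ * ⟨q, hq⟩) = X.tc.val 1 := by
      have e1 : X.tc.val 1 = 0 := by simp [Coord.val]
      rw [X.tc.val_mul, e1, ← neg_add_cancel (X.tc.val ⟨q, hq⟩)]
      congr 1
    have h3 := (X.tc.val_eq_iff _ _).mp h2
    rw [Subgroup.coe_one, inv_one, mul_one] at h3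
    exact h3
  have hmfix : i * i * m * (i * i)⁻¹ = m := by
    calc i * i * m * (i * i)⁻¹ = i * i * (i * i) * q * ((i * i)⁻¹ * (i * i)⁻¹) * (m * q⁻¹) := by
          rw [hm]; group
      _ = q * (m * q⁻¹) := by
          rw [X.z_inv q₄, q₄.sq, one_mul, mul_one]
      _ = m := by rw [← mul_assoc, X.centralizes_omega hmW hq, mul_inv_cancel_right]
  obtain ⟨v, hv, ζ, hζ, hvζ⟩ := exists_modV_mul X.block hmW
  have hvfix : i * i * v * (i * i)⁻¹ = v := by
    have h1 : i * i * m * (i * i)⁻¹ = (i * i * v * (i * i)⁻¹) * ζ := by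
      conv_rhs => rw [← block_fixes_fixed hzE hζ]
      rw [hvζ]; group
    rw [hmfix, hvζ] at h1
    exact (mul_right_cancel h1).symm
  have hvX : v ∈ modX 3 E := by
    have h1 := X.mc.equivariant ⟨i * i, hzE⟩ ⟨v, hv⟩
    rw [q₄.mod_neg, neg_mulVec, one_mulVec] at h1
    have h2 : X.mc.val (Coord.conjU ⟨i * i, X.mc.normalizes hzE⟩ ⟨v, hv⟩) = X.mc.val ⟨v, hv⟩ :=
      congrArg _ (Subtype.ext hvfix)
    rw [h2] at h1
    have h3 : X.mc.val ⟨v, hv⟩ = X.mc.val 1 := by
      have e1 : X.mc.val 1 = 0 := by simp [Coord.val]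
      rw [e1]
      funext j
      have h5 := congrFun h1 j
      rw [Pi.neg_apply] at h5
      have : (2 : F) * X.mc.val ⟨v, hv⟩ j = 0 := by linear_combination h5
      exact (mul_eq_zero.mp this).resolve_left two_ne_zero'
    simpa using (X.mc.val_eq_iff _ _).mp h3
  rw [hvζ]
  exact mul_mem ⟨modV_le_omega hvX.1, hvX.2⟩ hζ

omit q₄ in
theorem mem_of_sq {L : Subgroup G} {q : G} (hq : q ∈ topQ 3 E) (h : q * q ∈ L) : q ∈ L := by
  obtain ⟨k, hk⟩ := (H51.pCore_isPGroup 3 G).to_le X.core_le ⟨q, hq⟩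
  have hk' : q ^ 3 ^ k = 1 := by simpa using congrArg Subtype.val hk
  obtain ⟨j, hj⟩ : Odd (3 ^ k) := Odd.pow (by decide)
  have : q = ((q * q) ^ j)⁻¹ := by
    refine eq_inv_of_mul_eq_one_left ?_
    rw [← pow_two, ← pow_mul, ← pow_succ', ← hj, hk']
  rw [this]
  exact inv_mem (pow_mem h j)

/-- Fixed points of the involution in the core. -/
theorem fixed_mem {q : G} (hq : q ∈ topQ 3 E) (h : i * i * q * (i * i)⁻¹ = q) :
    q ∈ topW 3 E ⊓ centralizer (E : Set G) := by
  refine X.mem_of_sq hq ?_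
  have := X.inverts q₄ hq
  rwa [h] at this

/-- A subgroup containing all commutators of the core with the involution contains the core. -/
theorem core_le_of_commutators {L : Subgroup G} (hLQ : ∀ q ∈ topQ 3 E, q * (i * i) * q⁻¹ * (i * i)⁻¹ ∈ L)
    : topQ 3 E ≤ L := by
  set Z := topW 3 E ⊓ centralizer (E : Set G) with hZ
  set L' := L ⊓ topQ 3 E with hL'
  have hQn : i * i ∈ normalizer (topQ 3 E : Set G) :=
    H51.normalizer_le_normalizer_core E (le_normalizer (X.z_mem q₄))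
  have hdec : ∀ q ∈ topQ 3 E, ∃ l ∈ L', ∃ ζ ∈ Z, q = l * ζ := by
    intro q hq
    have h1 : q ∈ L' ⊔ Z := by
      refine X.mem_of_sq hq ?_
      have h2 : q * (i * i) * q⁻¹ * (i * i)⁻¹ ∈ L' := ⟨hLQ q hq, by
        rw [show q * (i * i) * q⁻¹ * (i * i)⁻¹ = q * (i * i * q⁻¹ * (i * i)⁻¹) by group]
        exact mul_mem hq ((mem_normalizer_iff.mp hQn _).mp (inv_mem hq))⟩
      have h3 := X.inverts q₄ (q := q) hq
      obtain ⟨m, hm⟩ : ∃ m, m = i * i * q * (i * i)⁻¹ * q := ⟨_, rfl⟩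
      rw [← hm] at h3
      have e : q * q = q * (i * i) * q⁻¹ * (i * i)⁻¹ * m := by rw [hm]; group
      rw [e]
      exact mul_mem (mem_sup_left h2) (mem_sup_right h3)
    have hLZ : L' ≤ normalizer (Z : Set G) := fun l hl =>
      centralizer_le_normalizer _ (mem_centralizer_iff.mpr fun ζ hζ =>
        (X.centralizes_omega hζ.1 hl.2).symm)
    rw [← SetLike.mem_coe, coe_mul_of_left_le_normalizer_right _ _ hLZ] at h1
    obtain ⟨l, hl, ζ, hζ, rfl⟩ := h1
    exact ⟨l, hl, ζ, hζ, rfl⟩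
  have hZL : Z ≤ L' := by
    rw [hZ, ← X.derived, commutator_le]
    intro a ha b hb
    obtain ⟨l, hl, ζ, hζ, rfl⟩ := hdec a ha
    obtain ⟨l', hl', ζ', hζ', rfl⟩ := hdec b hb
    have hζQ := H51.omega_le_core E hζ.1
    have a1 : l' * ζ = ζ * l' := X.centralizes_omega hζ.1 hl'.2
    have a2 : ζ' * ζ = ζ * ζ' := X.centralizes_omega hζ.1 (H51.omega_le_core E hζ'.1)
    have a3 : l⁻¹ * ζ' = ζ' * l⁻¹ := X.centralizes_omega hζ'.1 (inv_mem hl.2)
    have e : ⁅l * ζ, l' * ζ'⁆ = ⁅l, l'⁆ := by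
      calc ⁅l * ζ, l' * ζ'⁆ = l * (ζ * l' * ζ') * ζ⁻¹ * l⁻¹ * ζ'⁻¹ * l'⁻¹ := by
            simp only [commutatorElement_def]; group
        _ = l * (l' * ζ' * ζ) * ζ⁻¹ * l⁻¹ * ζ'⁻¹ * l'⁻¹ := by
            rw [← a1, mul_assoc l' ζ ζ', ← a2]; group
        _ = l * l' * (ζ' * l⁻¹) * ζ'⁻¹ * l'⁻¹ := by group
        _ = l * l' * (l⁻¹ * ζ') * ζ'⁻¹ * l'⁻¹ := by rw [a3]
        _ = ⁅l, l'⁆ := by simp only [commutatorElement_def]; group
    rw [e]
    exact commutator_le_self L' (commutator_mem_commutator hl hl')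
  intro q hq
  obtain ⟨l, hl, ζ, hζ, rfl⟩ := hdec q hq
  exact mul_mem hl.1 (hZL hζ).1

/-- `Q = [O₃(G), z]`. -/
theorem commutator_z : ⁅pCore 3 G, zpowers (i * i)⁆ = topQ 3 E := by
  refine le_antisymm ?_ (X.core_le_of_commutators q₄ fun q hq => ?_)
  · exact (commutator_mono le_rfl (zpowers_le.mpr (X.z_mem q₄))).trans X.core_eq.le
  · rw [← commutatorElement_def]
    exact commutator_mem_commutator (X.core_le hq) (mem_zpowers _)

/-- Elements commuting with the involution normalize the core. -/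
theorem commute_normalizes {g : G} (hg : Commute g (i * i)) :
    g ∈ normalizer (topQ 3 E : Set G) := by
  haveI := H51.pCore_normal 3 G
  rw [← X.commutator_z q₄, mem_normalizer_iff_map_conj_eq]
  refine (Subgroup.map_commutator _ _ _).trans (congrArg₂ (fun A B => ⁅A, B⁆)
    (Normal.map_conj_eq _ g) ((MonoidHom.map_zpowers _ _).trans (congrArg zpowers ?_)))
  show g * (i * i) * g⁻¹ = i * i
  rw [hg.eq, mul_inv_cancel_right]

/-- Operators normalizing the block move the involution inside the core. -/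
theorem center_conj {n : G} (hn : n ∈ normalizer (E : Set G)) :
    ∃ k ∈ topQ 3 E, Commute (k⁻¹ * n) (i * i) := by
  set z' := n * (i * i) * n⁻¹ with hz'
  have hz'E : z' ∈ E := (mem_normalizer_iff.mp hn _).mp (X.z_mem q₄)
  have hnQ := H51.normalizer_le_normalizer_core (p := 3) E hn
  have hsq : z' * z' = 1 := by
    rw [hz', show n * (i * i) * n⁻¹ * (n * (i * i) * n⁻¹) = n * (i * i * (i * i)) * n⁻¹ by group,
      q₄.sq, mul_one, mul_inv_cancel]
  have hval : (X.tc.ρ ⟨z', hz'E⟩ : Matrix (Fin 2) (Fin 2) F) = -1 := by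
    refine (sl2_involution two_ne_zero' ?_).resolve_left fun h => ?_
    · rw [← map_mul]
      exact (congrArg X.tc.ρ (Subtype.ext hsq : (⟨z', hz'E⟩ * ⟨z', hz'E⟩ : ↥E) = 1)).trans (map_one _)
    · exact X.z_not_mem q₄ ((mem_normalizer_iff.mp hnQ _).mpr ((X.tc.ker_iff _).mp h))
  have hmem : z' * (i * i) ∈ topQ 3 E := by
    refine (X.tc.ker_iff ⟨_, mul_mem hz'E (X.z_mem q₄)⟩).mp ?_
    show X.tc.ρ (⟨z', hz'E⟩ * ⟨i * i, X.z_mem q₄⟩) = 1
    rw [map_mul]
    apply Subtype.ext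
    show (X.tc.ρ ⟨z', hz'E⟩).1 * (X.tc.ρ ⟨i * i, X.z_mem q₄⟩).1 = 1
    rw [hval, q₄.top_neg]; simp
  have hodd : Odd (orderOf (z' * (i * i))) := by
    obtain ⟨k, hk⟩ := (H51.pCore_isPGroup 3 G).to_le X.core_le ⟨_, hmem⟩
    have hk' : (z' * (i * i)) ^ 3 ^ k = 1 := by simpa using congrArg Subtype.val hk
    exact (Odd.pow (by decide) : Odd (3 ^ k)).of_dvd_nat (orderOf_dvd_of_pow_eq_one hk')
  obtain ⟨k, hk, hkz⟩ := exists_conj_of_odd q₄.sq hsq hodd
  refine ⟨k, zpowers_le.mpr hmem hk, ?_⟩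
  show k⁻¹ * n * (i * i) = i * i * (k⁻¹ * n)
  calc k⁻¹ * n * (i * i) = k⁻¹ * (n * (i * i) * n⁻¹) * n := by group
    _ = k⁻¹ * (k * (i * i) * k⁻¹) * n := by rw [hkz]
    _ = i * i * (k⁻¹ * n) := by group

omit q₄ in
theorem core_le_centralizer : topQ 3 E ≤ centralizer (modV 3 E : Set G) := fun q hq =>
  mem_centralizer_iff.mpr fun v hv => (X.centralizes_omega (modV_le_omega hv) hq).symm

/-- No other conjugate under the centralizer of the module commutes with the involution. -/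
theorem isolated {x : G} (hx : x ∈ centralizer (modV 3 E : Set G))
    (hcomm : Commute (x * (i * i) * x⁻¹) (i * i)) : x * (i * i) * x⁻¹ = i * i := by
  haveI := H51.pCore_normal 3 G
  set Q := topQ 3 E with hQ
  set R := pCore 3 G with hR
  set z := i * i with hz
  set z' := x * z * x⁻¹ with hz'
  have hzz : z * z = 1 := q₄.sq
  have hz'z' : z' * z' = 1 := by
    rw [hz', show x * z * x⁻¹ * (x * z * x⁻¹) = x * (z * z) * x⁻¹ by group, hzz, mul_one, mul_inv_cancel]
  set h := z' * z with hh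
  have hhC : h ∈ centralizer (modV 3 E : Set G) := by
    rw [hh, hz', show x * z * x⁻¹ * z = x * (z * x⁻¹ * z⁻¹) * (z * z) by group, hzz, mul_one]
    exact mul_mem hx ((mem_normalizer_iff.mp (normalizer_le_normalizer_centralizer_modV
      (le_normalizer (X.z_mem q₄))) _).mp (inv_mem hx))
  have hh2 : h * h = 1 := by
    rw [hh, show z' * z * (z' * z) = z' * (z * z') * z by group, ← hcomm.eq,
      show z' * (z' * z) * z = (z' * z') * (z * z) by group, hz'z', hzz, mul_one]
  have hhc : Commute h z := hcomm.mul_left (Commute.refl z)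
  have hhcop : (orderOf h).Coprime 3 :=
    Nat.Coprime.coprime_dvd_left (orderOf_dvd_of_pow_eq_one (show h ^ 2 = 1 by rw [pow_two, hh2]))
      (by norm_num)
  have hhQ : h ∈ normalizer (Q : Set G) := X.commute_normalizes q₄ hhc
  have hfix := X.fixes hhC hhQ hhcop
  set Q' := Q.map (MulAut.conj x).toMonoidHom with hQ'
  have hQ'eq : ⁅R, zpowers z'⁆ = Q' := by
    rw [hQ', hQ, ← X.commutator_z q₄]
    exact ((Subgroup.map_commutator _ _ _).trans (congrArg₂ (fun A B => ⁅A, B⁆)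
      (Normal.map_conj_eq _ x) (MonoidHom.map_zpowers _ _))).symm
  have hQle : Q ≤ Q' := by
    refine X.core_le_of_commutators q₄ fun q hq => ?_
    rw [← hQ'eq]
    have hm : z * q⁻¹ * z⁻¹ ∈ Q :=
      (mem_normalizer_iff.mp (H51.normalizer_le_normalizer_core E (le_normalizer (X.z_mem q₄))) _).mp
        (inv_mem hq)
    have : ⁅q, z'⁆ = q * z * q⁻¹ * z⁻¹ := by
      rw [commutatorElement_def, show z' = h * z by
        rw [hh, mul_assoc, hzz, mul_one]]
      calc q * (h * z) * q⁻¹ * (h * z)⁻¹ = q * (h * (z * q⁻¹ * z⁻¹) * h⁻¹) := by group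
        _ = q * (z * q⁻¹ * z⁻¹) := by rw [hfix _ hm]
        _ = q * z * q⁻¹ * z⁻¹ := by group
    rw [← this]
    exact commutator_mem_commutator (X.core_le hq) (mem_zpowers _)
  have hQQ' : Q = Q' := eq_of_le_of_card_ge hQle
    (Nat.card_congr (equivMapOfInjective _ _ (MulAut.conj x).injective).toEquiv).ge
  have hz'Q : z' ∈ normalizer (Q : Set G) := by
    rw [show z' = h * z by rw [hh, mul_assoc, hzz, mul_one]]
    exact mul_mem hhQ (H51.normalizer_le_normalizer_core E (le_normalizer (X.z_mem q₄)))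
  have hQp : IsPGroup 3 Q := (H51.pCore_isPGroup 3 G).to_le X.core_le
  have hmove : ∀ (w : G), ⁅R, zpowers w⁆ ≤ Q → ∀ r ∈ R, w * r * w⁻¹ * r⁻¹ ∈ Q := by
    intro w hw r hr
    have := inv_mem (hw (commutator_mem_commutator hr (mem_zpowers w)))
    convert this using 1
    simp only [commutatorElement_def]; group
  have hhR : h ∈ centralizer (R : Set G) := mem_centralizer_iff.mpr fun r hr => by
    refine (mul_inv_eq_iff_eq_mul.mp (fixed_of_two_step hhcop hQp ?_ hfix)).symm
    rw [hh, show z' * z * r * (z' * z)⁻¹ * r⁻¹ =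
      z' * (z * r * z⁻¹ * r⁻¹) * z'⁻¹ * (z' * r * z'⁻¹ * r⁻¹) by group]
    exact mul_mem ((mem_normalizer_iff.mp hz'Q _).mp (hmove z (X.commutator_z q₄).le r hr))
      (hmove z' (hQ'eq.le.trans hQQ'.ge) r hr)
  obtain ⟨k, hk⟩ := H51.pCore_isPGroup 3 G ⟨h, X.constrained hhR⟩
  have hk' : h ^ 3 ^ k = 1 := by simpa using congrArg Subtype.val hk
  have h1 : h = 1 := orderOf_eq_one_iff.mp (Nat.eq_one_of_dvd_coprimes (hhcop.pow_right k) dvd_rfl
    (orderOf_dvd_of_pow_eq_one hk'))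
  rw [hh, mul_eq_one_iff_eq_inv, inv_eq_of_mul_eq_one_right hzz] at h1
  exact h1

/-- A subgroup of `C(V)` of order prime to `3` normalized by the square root is centralized by the
involution. -/
theorem rgroup_fixed {r : ℕ} [hr : Fact r.Prime] (hr2 : r ≠ 2) (hr3 : r ≠ 3) {P : Subgroup G}
    (hP : IsPGroup r P) (hPC : P ≤ centralizer (modV 3 E : Set G))
    (hiP : i ∈ normalizer (P : Set G)) : ∀ a ∈ P, i * i * a * (i * i)⁻¹ = a := by
  haveI := H51.pCore_normal 3 G
  set R := pCore 3 G with hR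
  set Q := topQ 3 E with hQ
  let π : ↥R →* Abelianization ↥R := Abelianization.of
  let σ : G →* AddMonoid.End (Additive (Abelianization ↥R)) :=
    { toFun := fun g => MonoidHom.toAdditive (Abelianization.map (MulAut.conjNormal g : MulAut ↥R).toMonoidHom)
      map_one' := by
        refine AddMonoidHom.ext fun x => ?_
        obtain ⟨y, rfl⟩ := Additive.ofMul.surjective x
        obtain ⟨y, rfl⟩ := QuotientGroup.mk_surjective y
        show Additive.ofMul (π (MulAut.conjNormal (1 : G) y)) = Additive.ofMul (π y)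
        rw [map_one]; rfl
      map_mul' := fun g h => by
        refine AddMonoidHom.ext fun x => ?_
        obtain ⟨y, rfl⟩ := Additive.ofMul.surjective x
        obtain ⟨y, rfl⟩ := QuotientGroup.mk_surjective y
        show Additive.ofMul (π (MulAut.conjNormal (g * h) y)) =
          Additive.ofMul (π (MulAut.conjNormal g (MulAut.conjNormal h y)))
        rw [map_mul]; rfl }
  let u : ∀ r ∈ R, Additive (Abelianization ↥R) := fun r hr => Additive.ofMul (π ⟨r, hr⟩)
  have hRn : ∀ (g : G) {r}, r ∈ R → g * r * g⁻¹ ∈ R := fun g r hr =>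
    (H51.pCore_normal 3 G).conj_mem r hr g
  have hu : ∀ (g r : G) (hr : r ∈ R), opAt σ g (u r hr) = u (g * r * g⁻¹) (hRn g hr) := fun g r hr => by
    show Additive.ofMul (π (MulAut.conjNormal g ⟨r, hr⟩)) = _
    congr 2
  have humul : ∀ a b (ha : a ∈ R) (hb : b ∈ R), u (a * b) (mul_mem ha hb) = u a ha + u b hb :=
    fun a b ha hb => by
      show Additive.ofMul (π (⟨a, ha⟩ * ⟨b, hb⟩)) = _
      rw [map_mul]; rfl
  have hucongr : ∀ a b (ha : a ∈ R) (hb : b ∈ R), a = b → u a ha = u b hb := fun a b ha hb e => by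
    subst e; rfl
  have hzero : ∀ a (ha : a ∈ R), a ∈ topW 3 E ⊓ centralizer (E : Set G) → u a ha = 0 := by
    intro a ha haZ
    show Additive.ofMul (π ⟨a, ha⟩) = Additive.ofMul 1
    congr 1
    refine (QuotientGroup.eq_one_iff _).mpr ?_
    have h1 : a ∈ ⁅R, R⁆ := by
      rw [← X.derived] at haZ
      exact commutator_mono X.core_le X.core_le haZ
    have h2 : (⁅(⊤ : Subgroup ↥R), (⊤ : Subgroup ↥R)⁆ : Subgroup ↥R).map R.subtype = ⁅R, R⁆ := by
      rw [map_commutator, ← MonoidHom.range_eq_map, range_subtype]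
    rw [← h2] at h1
    obtain ⟨b, hb, hba⟩ := h1
    rwa [show (⟨a, ha⟩ : ↥R) = b from Subtype.ext hba.symm]
  have hzE := X.z_mem q₄
  -- decomposition of the elements
  have hdec : ∀ x, ∃ q, ∃ hq : q ∈ Q, ∃ m, ∃ hm : m ∈ R,
      i * i * m * (i * i)⁻¹ = m ∧ x = u q (X.core_le hq) + u m hm := by
    intro x
    obtain ⟨y, rfl⟩ := Additive.ofMul.surjective x
    obtain ⟨⟨y, hy⟩, rfl⟩ := QuotientGroup.mk_surjective y
    have hAK : zpowers (i * i) ≤ normalizer (R : Set G) := le_normalizer_of_normal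
    have hsup := H20.commutator_sup_centralizer hAK
      (by
        obtain ⟨k, hk⟩ := (H51.pCore_isPGroup 3 G).exists_card_eq
        rw [hk, Nat.card_zpowers]
        exact (X.z_coprime q₄).pow_right k)
      (by haveI := (H51.pCore_isPGroup 3 G).isNilpotent; exact Or.inr inferInstance)
    rw [X.commutator_z q₄] at hsup
    have hy' : y ∈ ((Q ⊔ (R ⊓ centralizer (zpowers (i * i) : Set G)) : Subgroup G) : Set G) :=
      hsup.ge hy
    rw [coe_mul_of_right_le_normalizer_left _ _ (inf_le_left.trans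
      ((H51.pCore_normalizes_block T X.block).1.trans (H51.normalizer_le_normalizer_core E)))] at hy'
    obtain ⟨q, hq, m, hm, rfl⟩ := hy'
    refine ⟨q, hq, m, hm.1, ?_, humul q m (X.core_le hq) hm.1⟩
    rw [mem_centralizer_iff.mp hm.2 _ (mem_zpowers _), mul_inv_cancel_right]
  have hzq : ∀ q (hq : q ∈ Q), opAt σ (i * i) (u q (X.core_le hq)) = -u q (X.core_le hq) := by
    intro q hq
    rw [hu, eq_neg_iff_add_eq_zero, ← humul]
    exact hzero _ _ (X.inverts q₄ hq)
  have him : ∀ m (hm : m ∈ R), i * i * m * (i * i)⁻¹ = m → opAt σ i (u m hm) = u m hm := by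
    intro m hm hzm
    have hq : i * m * i⁻¹ * m⁻¹ ∈ Q := by
      have := inv_mem (X.core_eq.le (commutator_mem_commutator hm q₄.mem))
      convert this using 1
      simp only [commutatorElement_def]; group
    have hfx : i * i * (i * m * i⁻¹ * m⁻¹) * (i * i)⁻¹ = i * m * i⁻¹ * m⁻¹ := by
      calc i * i * (i * m * i⁻¹ * m⁻¹) * (i * i)⁻¹
          = i * (i * i * m * (i * i)⁻¹) * i⁻¹ * (i * i * m * (i * i)⁻¹)⁻¹ := by group
        _ = _ := by rw [hzm]
    rw [hu, ← sub_eq_zero]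
    have h0 := hzero _ (X.core_le hq) (X.fixed_mem q₄ hq hfx)
    have h1 := humul _ m (X.core_le hq) hm
    rw [hucongr _ (i * m * i⁻¹) _ (hRn i hm) (by group), h0, zero_add] at h1
    rw [h1, sub_self]
  refine centralized_by_square ?_ σ rfl q₄.sq hr2 hr3 ?_ P hP hiP ?_ ?_
  · intro x
    obtain ⟨y, rfl⟩ := Additive.ofMul.surjective x
    obtain ⟨y, rfl⟩ := QuotientGroup.mk_surjective y
    obtain ⟨k, hk⟩ := H51.pCore_isPGroup 3 G y
    refine ⟨k, ?_⟩
    show Additive.ofMul ((π y) ^ 3 ^ k) = Additive.ofMul 1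
    rw [← map_pow, hk, map_one]
  · intro x
    obtain ⟨q, hq, m, hm, hzm, rfl⟩ := hdec x
    have e2 : opAt σ (i * i) (u m hm) = u m hm := by rw [hu]; exact hucongr _ _ _ _ hzm
    simp only [map_add, hzq q hq, e2, map_neg, him m hm hzm]
    abel
  · intro d hd hzd x
    obtain ⟨q, hq, m, hm, hzm, rfl⟩ := hdec x
    have hdcop : (orderOf d).Coprime 3 := by
      obtain ⟨k, hk⟩ := hP ⟨d, hd⟩
      have hk' : d ^ r ^ k = 1 := by simpa using congrArg Subtype.val hk
      exact Nat.Coprime.coprime_dvd_left (orderOf_dvd_of_pow_eq_one hk')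
        (Nat.Coprime.pow_left k ((Nat.coprime_primes hr.out Nat.prime_three).mpr hr3))
    have hdz : Commute d (i * i) := (mul_inv_eq_iff_eq_mul.mp hzd).symm
    have hfq : opAt σ d (u q (X.core_le hq)) = u q (X.core_le hq) := by
      rw [hu]
      exact hucongr _ _ _ _ (X.fixes (hPC hd) (X.commute_normalizes q₄ hdz) hdcop q hq)
    have e2 : opAt σ (i * i) (u m hm) = u m hm := by rw [hu]; exact hucongr _ _ _ _ hzm
    have e3 : opAt σ (i * i) (opAt σ d (u m hm)) = opAt σ d (u m hm) := by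
      rw [hu d, hu]
      refine hucongr _ _ _ _ ?_
      calc i * i * (d * m * d⁻¹) * (i * i)⁻¹
          = (i * i * d * (i * i)⁻¹) * (i * i * m * (i * i)⁻¹) * (i * i * d * (i * i)⁻¹)⁻¹ := by group
        _ = d * m * d⁻¹ := by rw [hzd, hzm]
    simp only [map_add, map_sub, hfq, e2, e3]
    abel
  · intro d hd hσ
    have hdR : ∀ a ∈ R, d * a * d⁻¹ * a⁻¹ ∈ ⁅R, R⁆ := by
      intro a ha
      have h1 : u (d * a * d⁻¹) (hRn d ha) = u a ha := by
        rw [← hu]; show (σ d : _ →+ _) (u a ha) = _; rw [hσ]; rfl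
      have h2 : π ⟨d * a * d⁻¹, hRn d ha⟩ = π ⟨a, ha⟩ := Additive.ofMul.injective h1
      have h3 : (⟨d * a * d⁻¹, hRn d ha⟩ : ↥R) * (⟨a, ha⟩)⁻¹ ∈ (⁅(⊤ : Subgroup ↥R), (⊤ : Subgroup ↥R)⁆ : Subgroup ↥R) := by
        refine (QuotientGroup.eq_one_iff _).mp ?_
        show π (_ * _) = 1
        rw [map_mul, map_inv, h2, mul_inv_cancel]
      have h4 := mem_map_of_mem R.subtype h3
      rw [map_commutator, ← MonoidHom.range_eq_map, range_subtype] at h4
      exact h4
    have hdcop : (orderOf d).Coprime 3 := by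
      obtain ⟨k, hk⟩ := hP ⟨d, hd⟩
      have hk' : d ^ r ^ k = 1 := by simpa using congrArg Subtype.val hk
      exact Nat.Coprime.coprime_dvd_left (orderOf_dvd_of_pow_eq_one hk')
        (Nat.Coprime.pow_left k ((Nat.coprime_primes hr.out Nat.prime_three).mpr hr3))
    haveI := (H51.pCore_isPGroup 3 G).isNilpotent
    have hle : ⁅R, zpowers d⁆ ≤ ⁅R, R⁆ := by
      rw [commutator_le]
      intro a ha w hw
      obtain ⟨j, rfl⟩ := (isOfFinOrder_of_finite d).mem_powers_iff_mem_zpowers.mpr hw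
      clear hw
      show ⁅a, d ^ j⁆ ∈ ⁅R, R⁆
      induction j generalizing a with
      | zero => simp
      | succ j ih =>
        have hn : d ∈ normalizer ((⁅R, R⁆ : Subgroup G) : Set G) := le_normalizer_of_normal (mem_top d)
        rw [show ⁅a, d ^ (j + 1)⁆ = ⁅a, d⁆ * (d * ⁅a, d ^ j⁆ * d⁻¹) by
          rw [pow_succ']; simp only [commutatorElement_def]; group]
        refine mul_mem ?_ ((mem_normalizer_iff.mp hn _).mp (ih a ha))
        have := inv_mem (hdR a ha)
        convert this using 1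
        simp only [commutatorElement_def]; group
    have hsup := H20.commutator_sup_centralizer (K := R) (A := zpowers d) le_normalizer_of_normal
      (by
        obtain ⟨k, hk⟩ := (H51.pCore_isPGroup 3 G).exists_card_eq
        rw [hk, Nat.card_zpowers]
        exact hdcop.pow_right k)
      (Or.inr inferInstance)
    have htop : (R ⊓ centralizer (zpowers d : Set G)).subgroupOf R = ⊤ := by
      refine H35.eq_top_of_sup_commutator (eq_top_iff.mpr ?_)
      refine (map_le_map_iff_of_injective R.subtype_injective).mp ?_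
      rw [← MonoidHom.range_eq_map, range_subtype, Subgroup.map_sup, subgroupOf_map_subtype,
        inf_eq_left.mpr inf_le_left, _root_.commutator_def, map_commutator,
        ← MonoidHom.range_eq_map, range_subtype]
      exact hsup.ge.trans (sup_le (hle.trans le_sup_right) le_sup_left)
    have hdC : d ∈ centralizer (R : Set G) := mem_centralizer_iff.mpr fun a ha => by
      have : (⟨a, ha⟩ : ↥R) ∈ (R ⊓ centralizer (zpowers d : Set G)).subgroupOf R := htop ▸ mem_top _
      exact (mem_centralizer_iff.mp (mem_subgroupOf.mp this).2 d (mem_zpowers d)).symm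
    obtain ⟨k, hk⟩ := H51.pCore_isPGroup 3 G ⟨d, X.constrained hdC⟩
    have hk' : d ^ 3 ^ k = 1 := by simpa using congrArg Subtype.val hk
    exact orderOf_eq_one_iff.mp (Nat.eq_one_of_dvd_coprimes (hdcop.pow_right k) dvd_rfl
      (orderOf_dvd_of_pow_eq_one hk'))

omit q₄ in
/-- The centralizer of the module of an exceptional block normalizes it. -/
theorem centralizer_le_normalizer : centralizer (modV 3 E : Set G) ≤ normalizer (E : Set G) := by
  obtain ⟨i, q₄⟩ := X.exists_quarter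
  haveI : Fact (Nat.Prime 2) := ⟨Nat.prime_two⟩
  set C := centralizer (modV 3 E : Set G) with hC
  set z := i * i with hz
  have hzz : z * z = 1 := q₄.sq
  have hzC : z ∈ normalizer (C : Set G) :=
    normalizer_le_normalizer_centralizer_modV (le_normalizer (X.z_mem q₄))
  have hiC : i ∈ normalizer (C : Set G) :=
    normalizer_le_normalizer_centralizer_modV (le_normalizer q₄.mem)
  have hodd : ∀ c ∈ C, Odd (orderOf (c * z * c⁻¹ * z)) := fun c hc =>
    odd_orderOf_mul hzz hzC (fun x hx h => X.isolated q₄ hx h) hc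
  set A₀ := ⁅C, zpowers z⁆ with hA₀
  have hA₀odd : Odd (Nat.card ↥A₀) := odd_card_commutator hzz (X.z_ne_one q₄) hzC hodd
  have hA₀C : A₀ ≤ C := commutator_le_of_le_normalizer (zpowers_le.mpr hzC)
  -- elements normalizing `C` and commuting with `z` normalize both commutators
  have hN₀ : ∀ g ∈ normalizer (C : Set G), Commute g z → g ∈ normalizer (A₀ : Set G) := by
    intro g hg hgz
    rw [mem_normalizer_iff_map_conj_eq]
    refine (Subgroup.map_commutator _ _ _).trans (congrArg₂ (fun A B => ⁅A, B⁆)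
      (mem_normalizer_iff_map_conj_eq.mp hg) ((MonoidHom.map_zpowers _ _).trans (congrArg zpowers ?_)))
    show g * z * g⁻¹ = z
    rw [hgz.eq, mul_inv_cancel_right]
  set A₁ := ⁅A₀, zpowers z⁆ with hA₁
  have hN₁ : ∀ g ∈ normalizer (C : Set G), Commute g z → g ∈ normalizer (A₁ : Set G) := by
    intro g hg hgz
    rw [mem_normalizer_iff_map_conj_eq]
    refine (Subgroup.map_commutator _ _ _).trans (congrArg₂ (fun A B => ⁅A, B⁆)
      (mem_normalizer_iff_map_conj_eq.mp (hN₀ g hg hgz)) ((MonoidHom.map_zpowers _ _).trans (congrArg zpowers ?_)))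
    show g * z * g⁻¹ = z
    rw [hgz.eq, mul_inv_cancel_right]
  have hzA₀ : z ∈ normalizer (A₀ : Set G) := hN₀ z hzC (Commute.refl z)
  have hiA₀ : zpowers i ≤ normalizer (A₀ : Set G) :=
    zpowers_le.mpr (hN₀ i hiC (by show i * (i * i) = i * i * i; group))
  have hcop : (Nat.card (zpowers i)).Coprime (Nat.card ↥A₀) := by
    rw [Nat.card_zpowers]
    refine Nat.Coprime.coprime_dvd_left (orderOf_dvd_of_pow_eq_one (show i ^ 4 = 1 by
      rw [show i ^ 4 = i * i * (i * i) by simp [pow_succ, mul_assoc]]; exact q₄.sq)) ?_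
    exact Nat.Coprime.pow_left 2 (Nat.coprime_two_left.mpr hA₀odd)
  have hsolv : Group.IsSolvable (zpowers i) ∨ Group.IsSolvable A₀ := by
    left
    letI : CommGroup ↥(zpowers i) :=
      { (inferInstance : Group ↥(zpowers i)) with mul_comm := fun a b => mul_comm' a b }
    infer_instance
  obtain ⟨P₃, hP₃le, hP₃n, hP₃, hP₃card⟩ := H20.exists_invariant_sylow_subgroup hiA₀ hcop hsolv 3
  set C₀ := A₀ ⊓ centralizer ({z} : Set G) with hC₀
  have hfac : ∀ r : ℕ, r.Prime → r ≠ 3 → (Nat.card ↥A₀).factorization r ≤ (Nat.card ↥C₀).factorization r := by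
    intro r hr hr3
    haveI : Fact r.Prime := ⟨hr⟩
    by_cases hr2 : r = 2
    · subst hr2
      rw [Nat.factorization_eq_zero_of_not_dvd hA₀odd.not_two_dvd_nat]
      exact Nat.zero_le _
    obtain ⟨P, hPle, hPn, hP, hPcard⟩ := H20.exists_invariant_sylow_subgroup hiA₀ hcop hsolv r
    have hPC₀ : P ≤ C₀ := fun a ha => ⟨hPle ha, mem_centralizer_singleton_iff.mpr
      (mul_inv_eq_iff_eq_mul.mp (X.rgroup_fixed q₄ hr2 hr3 hP (hPle.trans hA₀C)
        (hPn (mem_zpowers i)) a ha)).symm⟩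
    rw [← Nat.Prime.pow_dvd_iff_le_factorization hr Nat.card_pos.ne', ← hPcard]
    exact card_dvd_of_le hPC₀
  -- `A₀ = P₃ C_{A₀}(z)`
  have hcov : ∀ a ∈ A₀, ∃ x ∈ P₃, x⁻¹ * a ∈ C₀ := by
    let f : ↥P₃ ⧸ C₀.subgroupOf P₃ → ↥A₀ ⧸ C₀.subgroupOf A₀ :=
      Quotient.map' (fun x => ⟨x.1, hP₃le x.2⟩) fun x y hxy => by
        rw [QuotientGroup.leftRel_apply] at hxy ⊢
        exact hxy
    have hinj : Function.Injective f := by
      intro a b
      induction a using QuotientGroup.induction_on with | _ a => ?_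
      induction b using QuotientGroup.induction_on with | _ b => ?_
      intro hab
      exact QuotientGroup.eq.mpr (QuotientGroup.eq.mp hab :)
    have e1 : Nat.card (↥A₀ ⧸ C₀.subgroupOf A₀) * Nat.card ↥C₀ = Nat.card ↥A₀ := by
      rw [← Nat.card_congr (subgroupOfEquivOfLe (inf_le_left : C₀ ≤ A₀)).toEquiv,
        ← card_eq_card_quotient_mul_card_subgroup]
    have e2 : Nat.card (↥P₃ ⧸ C₀.subgroupOf P₃) * Nat.card ↥(C₀.subgroupOf P₃) = Nat.card ↥P₃ :=
      (card_eq_card_quotient_mul_card_subgroup _).symm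
    have hsur : Function.Surjective f := by
      refine (hinj.bijective_of_nat_card_le ?_).2
      set m := Nat.card (↥A₀ ⧸ C₀.subgroupOf A₀)
      set k := Nat.card (↥P₃ ⧸ C₀.subgroupOf P₃)
      set j := Nat.card ↥(C₀.subgroupOf P₃) with hj
      set v := (Nat.card ↥A₀).factorization 3 with hv
      have hjdvd : j ∣ Nat.card ↥C₀ := by
        rw [hj, ← Nat.card_congr (equivMapOfInjective _ P₃.subtype P₃.subtype_injective).symm.toEquiv,
          subgroupOf_map_subtype]
        exact card_dvd_of_le inf_le_left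
      have hjp : j ∣ 3 ^ v := by
        rw [← hP₃card, ← e2]; exact dvd_mul_left _ _
      have hco : j.Coprime (Nat.card ↥A₀ / 3 ^ v) :=
        Nat.Coprime.coprime_dvd_left hjp ((Nat.coprime_ordCompl Nat.prime_three Nat.card_pos.ne').pow_left v)
      have hcompl : Nat.card ↥A₀ / 3 ^ v ∣ Nat.card ↥C₀ := by
        refine (Nat.factorization_prime_le_iff_dvd (Nat.ordCompl_pos 3 Nat.card_pos.ne').ne'
          Nat.card_pos.ne').mp fun r hr => ?_
        rw [Nat.factorization_ordCompl]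
        by_cases hr3 : r = 3
        · subst hr3; simp
        · rw [Finsupp.erase_ne hr3]; exact hfac r hr hr3
      have hle := Nat.le_of_dvd Nat.card_pos (hco.mul_dvd_of_dvd_of_dvd hjdvd hcompl)
      have hA : 3 ^ v * (Nat.card ↥A₀ / 3 ^ v) = Nat.card ↥A₀ := Nat.ordProj_mul_ordCompl_eq_self _ 3
      have hj0 : 0 < j := Nat.card_pos
      have hC0 : 0 < Nat.card ↥C₀ := Nat.card_pos
      rw [hP₃card] at e2
      refine Nat.le_of_mul_le_mul_right ?_ (Nat.mul_pos hj0 hC0)
      calc m * (j * Nat.card ↥C₀) = j * (m * Nat.card ↥C₀) := by ring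
        _ = 3 ^ v * (j * (Nat.card ↥A₀ / 3 ^ v)) := by
              rw [e1]; conv_lhs => rw [← hA]
              ring
        _ ≤ 3 ^ v * Nat.card ↥C₀ := Nat.mul_le_mul_left _ hle
        _ = k * (j * Nat.card ↥C₀) := by rw [← e2]; ring
    intro a ha
    obtain ⟨q, hq⟩ := hsur (QuotientGroup.mk (⟨a, ha⟩ : ↥A₀))
    induction q using QuotientGroup.induction_on with | _ x => ?_
    exact ⟨x, x.2, (QuotientGroup.eq.mp hq :)⟩
  have hpow : ∀ w ∈ zpowers z, w = 1 ∨ w = z := fun w hw => by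
    obtain ⟨k, rfl⟩ := mem_zpowers_iff.mp hw
    rcases Int.even_or_odd' k with ⟨j, rfl | rfl⟩
    · left; rw [_root_.zpow_mul, zpow_two, hzz, _root_.one_zpow]
    · right; rw [_root_.zpow_add_one, _root_.zpow_mul, zpow_two, hzz, _root_.one_zpow, one_mul]
  have hzP₃ : z ∈ normalizer (P₃ : Set G) := mul_mem (hP₃n (mem_zpowers i)) (hP₃n (mem_zpowers i))
  have hA₁P₃ : A₁ ≤ P₃ := by
    rw [hA₁, commutator_le]
    intro a ha w hw
    rcases hpow w hw with h | h <;> subst w
    · simp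
    obtain ⟨x, hx, hxa⟩ := hcov a ha
    have hc : (x⁻¹ * a) * z = z * (x⁻¹ * a) := mem_centralizer_singleton_iff.mp hxa.2
    rw [show ⁅a, z⁆ = x * ((x⁻¹ * a) * z) * (x⁻¹ * a)⁻¹ * x⁻¹ * z⁻¹ by
      simp only [commutatorElement_def]; group, hc]
    rw [show x * (z * (x⁻¹ * a)) * (x⁻¹ * a)⁻¹ * x⁻¹ * z⁻¹ = x * (z * x⁻¹ * z⁻¹) by group]
    exact mul_mem hx ((mem_normalizer_iff.mp hzP₃ _).mp (inv_mem hx))
  have hA₁p : IsPGroup 3 A₁ := hP₃.to_le hA₁P₃
  -- decomposition of `C`
  have hdecC : ∀ c ∈ C, ∃ k ∈ A₀, Commute (k⁻¹ * c) z := by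
    intro c hc
    have hsq : c * z * c⁻¹ * (c * z * c⁻¹) = 1 := by
      rw [show c * z * c⁻¹ * (c * z * c⁻¹) = c * (z * z) * c⁻¹ by group, hzz, mul_one, mul_inv_cancel]
    obtain ⟨k, hk, hkz⟩ := exists_conj_of_odd hzz hsq (hodd c hc)
    refine ⟨k, zpowers_le.mpr ?_ hk, ?_⟩
    · have : c * z * c⁻¹ * z = ⁅c, z⁆ := by
        rw [commutatorElement_def, inv_eq_of_mul_eq_one_right hzz]
      rw [this]
      exact commutator_mem_commutator hc (mem_zpowers z)
    show k⁻¹ * c * z = z * (k⁻¹ * c)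
    calc k⁻¹ * c * z = k⁻¹ * (c * z * c⁻¹) * c := by group
      _ = k⁻¹ * (k * z * k⁻¹) * c := by rw [hkz]
      _ = z * (k⁻¹ * c) := by group
  have hA₀A₁ : A₀ ≤ normalizer (A₁ : Set G) := by
    exact normalizer_commutator_ge_left _ _
  have hCA₁ : C ≤ normalizer (A₁ : Set G) := by
    intro c hc
    obtain ⟨k, hk, hkc⟩ := hdecC c hc
    rw [show c = k * (k⁻¹ * c) by group]
    exact mul_mem (hA₀A₁ hk) (hN₁ _ (le_normalizer (mul_mem (inv_mem (hA₀C hk)) hc)) hkc)
  have hNA₁ : ∀ n ∈ normalizer (E : Set G), n ∈ normalizer (A₁ : Set G) := by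
    intro n hn
    obtain ⟨k, hk, hkn⟩ := X.center_conj q₄ hn
    rw [show n = k * (k⁻¹ * n) by group]
    have hkC := X.core_le_centralizer hk
    refine mul_mem (hCA₁ hkC) (hN₁ _ (mul_mem ?_ (normalizer_le_normalizer_centralizer_modV hn)) hkn)
    exact inv_mem (le_normalizer hkC)
  have hA₁E : A₁ ≤ normalizer (E : Set G) := H51.le_normalizer_of_baumann T X.block.1 X.block.2.1 hA₁p
    (fun b hb => hNA₁ b (H51.baumann_le_normalizer_of_commutator_eq X.block.2.1 hb))
    (fun e he => hNA₁ e (le_normalizer he))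
  intro c hc
  obtain ⟨k, hk, hkc⟩ := hdecC c hc
  -- `k` may be replaced by an element of `A₁`
  have hk₁ : ∃ k₁ ∈ A₁, Commute (k₁⁻¹ * k) z := by
    have hsq : k * z * k⁻¹ * (k * z * k⁻¹) = 1 := by
      rw [show k * z * k⁻¹ * (k * z * k⁻¹) = k * (z * z) * k⁻¹ by group, hzz, mul_one, mul_inv_cancel]
    obtain ⟨k₁, hk₁, hkz⟩ := exists_conj_of_odd hzz hsq (hodd k (hA₀C hk))
    refine ⟨k₁, zpowers_le.mpr ?_ hk₁, ?_⟩
    · have : k * z * k⁻¹ * z = ⁅k, z⁆ := by
        rw [commutatorElement_def, inv_eq_of_mul_eq_one_right hzz]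
      rw [this]
      exact commutator_mem_commutator hk (mem_zpowers z)
    show k₁⁻¹ * k * z = z * (k₁⁻¹ * k)
    calc k₁⁻¹ * k * z = k₁⁻¹ * (k * z * k⁻¹) * k := by group
      _ = k₁⁻¹ * (k₁ * z * k₁⁻¹) * k := by rw [hkz]
      _ = z * (k₁⁻¹ * k) := by group
  obtain ⟨k₁, hk₁, hk₁z⟩ := hk₁
  have hA₁C : A₁ ≤ C := (commutator_le_of_le_normalizer (zpowers_le.mpr hzA₀)).trans hA₀C
  rw [show c = k₁ * ((k₁⁻¹ * k) * (k⁻¹ * c)) by group]
  refine mul_mem (hA₁E hk₁) (X.mem_normalizer_of_core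
    (mul_mem (mul_mem (inv_mem (hA₁C hk₁)) (hA₀C hk)) (mul_mem (inv_mem (hA₀C hk)) hc)) ?_)
  exact X.commute_normalizes q₄ (hk₁z.mul_left hkc)

end ExcBlock

end Cfsg.Agent.H68Block
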