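import Cfsg.Agent.H68.Block.Coord
import Cfsg.Agent.H51.Balanced

/-!
The action of the normalizer of a block on its module: faithfulness, fixed points, offenders.
-/

set_option autoImplicit false
set_option linter.style.haveILetI false
set_option linter.unusedSectionVars false

namespace Cfsg.Agent.H68Block

open Subgroup Cfsg
open H51 (commutator_le_of_le_normalizer centralizer_zpowers_eq)
open scoped commutatorElement

variable {G : Type*} [Group G] [Finite G] {p : ℕ} [hp : Fact p.Prime] {T E : Subgroup G}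

/-- The vectors fixed by `A` modulo the fixed points of the block. -/
abbrev fixedMod (p : ℕ) (E A : Subgroup G) : Set G :=
  {v | v ∈ modV p E ∧ ∀ a ∈ A, a * v * a⁻¹ * v⁻¹ ∈ modX p E}

theorem modV_isElementaryAbelian (p : ℕ) (E : Subgroup G) [Fact p.Prime] :
    IsElementaryAbelian p (modV p E) :=
  H34.isElementaryAbelian_mono (H51.omegaOneCenter_isElementaryAbelian _) modV_le_omega

theorem modV_le_block (E : Subgroup G) : modV p E ≤ E :=
  modV_le_omega.trans ((H51.omega_le_core E).trans (H74.pCoreOf_le E))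

theorem modV_not_le_modX (hE : IsBaumannBlock p T E) : ¬ modV p E ≤ modX p E := fun h => by
  refine (H51.block_irreducible hE).1 fun w hw => ?_
  obtain ⟨v, hv, z, hz, rfl⟩ := exists_modV_mul hE hw
  exact mul_mem (h hv).2 hz.2

theorem conj_modX_fixed {x e : G} (hx : x ∈ modX p E) (he : e ∈ E) : e * x = x * e :=
  mem_centralizer_iff.mp hx.2 e he

/-- `E/Q` acts faithfully on the module. -/
theorem block_faithful (hE : IsBaumannBlock p T E) {e : G} (he : e ∈ E)
    (h : ∀ v ∈ modV p E, e * v * e⁻¹ * v⁻¹ ∈ modX p E) : e ∈ pCoreOf p E := by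
  rcases block_coords hE with ⟨F, iF, iFin, -, ⟨D⟩, -⟩ | ⟨-, n, hn, -, ⟨D⟩, -⟩
  · refine (D.ker_iff ⟨e, he⟩).mp (Subtype.ext (Matrix.ext_of_mulVec_single fun i => ?_))
    rw [← D.act_block ⟨e, he⟩, (D.act_eq_one_iff ⟨e, D.normalizes he⟩).mpr h,
      Matrix.SpecialLinearGroup.coe_one, Matrix.one_mulVec]
    rfl
  · refine (D.ker_iff ⟨e, he⟩).mp (permAct_injective hn ?_)
    rw [← D.act_block ⟨e, he⟩, (D.act_eq_one_iff ⟨e, D.normalizes he⟩).mpr h, map_one]

theorem core_centralizes_modV {q : G} (hq : q ∈ pCoreOf p E) {v : G} (hv : v ∈ modV p E) :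
    q * v = v * q :=
  (mem_centralizer_iff.mp (H51.core_le_centralizer_omega E hq) v (modV_le_omega hv)).symm

/-- An operator trivial on `V/X` fixes `V`. -/
theorem trivial_on_top (hE : IsBaumannBlock p T E) {g : G} (hg : g ∈ normalizer (E : Set G))
    (h : ∀ v ∈ modV p E, g * v * g⁻¹ * v⁻¹ ∈ modX p E) :
    g ∈ centralizer (modV p E : Set G) := by
  have key : modV p E ≤ centralizer (zpowers g : Set G) := by
    conv_lhs => rw [← modV_commutator hE]
    rw [commutator_le]
    intro w hw e he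
    rw [centralizer_zpowers_eq, mem_centralizer_singleton_iff]
    have hgN := normalizer_le_secNorm_module (p := p) hg
    -- `g e g⁻¹ e⁻¹` lies in the core
    have hq : g * e * g⁻¹ * e⁻¹ ∈ pCoreOf p E := by
      refine block_faithful hE (mul_mem ((mem_normalizer_iff.mp hg e).mp he) (inv_mem he)) fun v hv => ?_
      have heN := normalizer_le_secNorm_module (p := p) (le_normalizer (H := E) he)
      have hv1 : e⁻¹ * v * e ∈ modV p E := (mem_normalizer_iff''.mp heN.1 v).mp hv
      have hv2 : g⁻¹ * (e⁻¹ * v * e) * g ∈ modV p E := (mem_normalizer_iff''.mp hgN.1 _).mp hv1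
      obtain ⟨x, hx, hxv⟩ : ∃ x ∈ modX p E, g⁻¹ * (e⁻¹ * v * e) * g = x * (e⁻¹ * v * e) := by
        refine ⟨g⁻¹ * (e⁻¹ * v * e) * g * (e⁻¹ * v * e)⁻¹, ?_, by group⟩
        have h2 := h _ hv2
        convert inv_mem h2 using 1
        group
      obtain ⟨y, hy, hyv⟩ : ∃ y ∈ modX p E, g * v * g⁻¹ = y * v := ⟨_, h v hv, by group⟩
      have hgx : g * x * g⁻¹ ∈ modX p E := (mem_normalizer_iff.mp hgN.2 x).mp hx
      have hex : e * x = x * e := conj_modX_fixed hx he
      have : g * e * g⁻¹ * e⁻¹ * v * (g * e * g⁻¹ * e⁻¹)⁻¹ * v⁻¹ = g * x * g⁻¹ * y := by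
        calc g * e * g⁻¹ * e⁻¹ * v * (g * e * g⁻¹ * e⁻¹)⁻¹ * v⁻¹
            = g * e * (g⁻¹ * (e⁻¹ * v * e) * g) * e⁻¹ * g⁻¹ * v⁻¹ := by group
          _ = g * (e * x) * e⁻¹ * v * g⁻¹ * v⁻¹ := by rw [hxv]; group
          _ = g * x * g⁻¹ * (g * v * g⁻¹) * v⁻¹ := by rw [hex]; group
          _ = g * x * g⁻¹ * y := by rw [hyv]; group
      rw [this]
      exact mul_mem hgx hy
    obtain ⟨q, hq, hqe⟩ : ∃ q ∈ pCoreOf p E, g * e * g⁻¹ = q * e := ⟨_, hq, by group⟩
    obtain ⟨x, hx, hxw⟩ : ∃ x ∈ modX p E, g * w * g⁻¹ = x * w := ⟨_, h w hw, by group⟩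
    have hew : e * w⁻¹ * e⁻¹ ∈ modV p E :=
      (mem_normalizer_iff.mp (normalizer_le_secNorm_module (le_normalizer (H := E) he)).1 _).mp
        (inv_mem hw)
    have c1 : e * x⁻¹ = x⁻¹ * e := conj_modX_fixed (inv_mem hx) he
    haveI := (modV_isElementaryAbelian p E).1
    have hm : e * w⁻¹ * e⁻¹ * x⁻¹ ∈ modV p E := mul_mem hew (inv_mem hx.1)
    have c2 := core_centralizes_modV hq hm
    have c3 : x * (w * (e * w⁻¹ * e⁻¹)) = w * (e * w⁻¹ * e⁻¹) * x :=
      congrArg Subtype.val (mul_comm' (⟨x, hx.1⟩ : ↥(modV p E)) ⟨_, mul_mem hw hew⟩)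
    have hkey : g * ⁅w, e⁆ * g⁻¹ = ⁅w, e⁆ := by
      rw [show g * ⁅w, e⁆ * g⁻¹ = ⁅g * w * g⁻¹, g * e * g⁻¹⁆ from by
        simp only [commutatorElement_def]; group, hxw, hqe]
      simp only [commutatorElement_def, mul_inv_rev]
      calc x * w * (q * e) * (w⁻¹ * x⁻¹) * (e⁻¹ * q⁻¹)
          = x * w * (q * (e * w⁻¹ * (x⁻¹ * e⁻¹))) * q⁻¹ := by group
        _ = x * w * (q * (e * w⁻¹ * (e⁻¹ * x⁻¹))) * q⁻¹ := by
            rw [show x⁻¹ * e⁻¹ = e⁻¹ * x⁻¹ from by
              calc x⁻¹ * e⁻¹ = e⁻¹ * (e * x⁻¹) * e⁻¹ := by group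
                _ = e⁻¹ * (x⁻¹ * e) * e⁻¹ := by rw [c1]
                _ = e⁻¹ * x⁻¹ := by group]
        _ = x * w * (q * (e * w⁻¹ * e⁻¹ * x⁻¹)) * q⁻¹ := by group
        _ = x * w * (e * w⁻¹ * e⁻¹ * x⁻¹ * q) * q⁻¹ := by rw [c2]
        _ = x * (w * (e * w⁻¹ * e⁻¹)) * x⁻¹ := by group
        _ = w * (e * w⁻¹ * e⁻¹) * x * x⁻¹ := by rw [c3]
        _ = w * e * w⁻¹ * e⁻¹ := by group
    exact (mul_inv_eq_iff_eq_mul.mp hkey).symm
  exact le_centralizer_iff.mp key (mem_zpowers g)

/-- Operators fixing the module move the block only inside its core. -/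
theorem commutator_mem_core (hE : IsBaumannBlock p T E) {c e : G} (hc : c ∈ normalizer (E : Set G))
    (hcV : c ∈ centralizer (modV p E : Set G)) (he : e ∈ E) : c * e * c⁻¹ * e⁻¹ ∈ pCoreOf p E := by
  refine block_faithful hE (mul_mem ((mem_normalizer_iff.mp hc e).mp he) (inv_mem he)) fun v hv => ?_
  have hv1 : e⁻¹ * v * e ∈ modV p E :=
    (mem_normalizer_iff''.mp (normalizer_le_secNorm_module (le_normalizer (H := E) he)).1 v).mp hv
  have h1 := mem_centralizer_iff.mp hcV _ hv1
  have h2 := mem_centralizer_iff.mp hcV _ hv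
  convert one_mem (modX p E) using 1
  calc c * e * c⁻¹ * e⁻¹ * v * (c * e * c⁻¹ * e⁻¹)⁻¹ * v⁻¹
      = c * e * (c⁻¹ * ((e⁻¹ * v * e) * c)) * e⁻¹ * c⁻¹ * v⁻¹ := by group
    _ = c * v * c⁻¹ * v⁻¹ := by rw [h1]; group
    _ = 1 := by rw [← h2]; group

/-- The image of a subgroup acting on coordinates. -/
noncomputable def actImage {U U₀ : Subgroup G} {M : Type*} [AddCommGroup M] (C : Coord U U₀ M)
    (A : Subgroup G) : Subgroup (Equiv.Perm M) :=
  (A.subgroupOf (secNorm U U₀)).map C.act

theorem mem_actImage {U U₀ : Subgroup G} {M : Type*} [AddCommGroup M] (C : Coord U U₀ M)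
    {A : Subgroup G} {α : Equiv.Perm M} (h : α ∈ actImage C A) :
    ∃ g : ↥(secNorm U U₀), (g : G) ∈ A ∧ C.act g = α := h

theorem act_mem_actImage {U U₀ : Subgroup G} {M : Type*} [AddCommGroup M] (C : Coord U U₀ M)
    {A : Subgroup G} (g : ↥(secNorm U U₀)) (h : (g : G) ∈ A) : C.act g ∈ actImage C A :=
  ⟨g, h, rfl⟩

/-- Counting data of a subgroup in coordinates on the module. -/
theorem offender_counts (hE : IsBaumannBlock p T E) {M : Type*} [AddCommGroup M] [Finite M]
    (C : Coord (modV p E) (modX p E) M) {A : Subgroup G} (hA : A ≤ normalizer (E : Set G)) :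
    Nat.card ↥(modV p E) = Nat.card M * Nat.card ↥(modX p E) ∧
    Nat.card (fixedMod p E A) = Nat.card (fixedVectors (actImage C A)) * Nat.card ↥(modX p E) ∧
    Nat.card A = Nat.card (actImage C A) * Nat.card ↥(A ⊓ centralizer (modV p E : Set G)) := by
  have hAs : A ≤ secNorm (modV p E) (modX p E) := hA.trans normalizer_le_secNorm_module
  refine ⟨C.card_eq, ?_, ?_⟩
  · rw [← C.card_preimage]
    refine Nat.card_congr
      { toFun := fun v => ⟨⟨v.1, v.2.1⟩, ?_⟩
        invFun := fun u => ⟨(u.1 : G), u.1.2, ?_⟩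
        left_inv := fun v => rfl
        right_inv := fun u => rfl }
    · intro α hα
      obtain ⟨g, hg, rfl⟩ := mem_actImage C hα
      exact (C.act_fix_iff g ⟨v.1, v.2.1⟩).mpr (v.2.2 _ hg)
    · intro a ha
      exact (C.act_fix_iff ⟨a, hAs ha⟩ u.1).mp (u.2 _ (act_mem_actImage C _ ha))
  · let f : ↥A →* Equiv.Perm M := C.act.comp (inclusion hAs)
    have hker : f.ker = (A ⊓ centralizer (modV p E : Set G)).subgroupOf A := by
      ext a
      rw [MonoidHom.mem_ker, mem_subgroupOf]
      constructor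
      · intro h
        exact ⟨a.2, trivial_on_top hE (hA a.2) ((C.act_eq_one_iff _).mp h)⟩
      · intro h
        refine (C.act_eq_one_iff _).mpr fun v hv => ?_
        show (a : G) * v * (a : G)⁻¹ * v⁻¹ ∈ modX p E
        rw [← mem_centralizer_iff.mp h.2 v hv, mul_inv_cancel_right, mul_inv_cancel]
        exact one_mem _
    have hrange : f.range = actImage C A := by
      ext α
      constructor
      · rintro ⟨a, rfl⟩
        exact act_mem_actImage C _ a.2
      · intro h
        obtain ⟨g, hg, rfl⟩ := mem_actImage C h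
        exact ⟨⟨g, hg⟩, rfl⟩
    rw [← f.ker.card_mul_index, index_ker, hrange, mul_comm]
    congr 1
    rw [hker, Nat.card_congr (subgroupOfEquivOfLe inf_le_left).toEquiv]

theorem actImage_elementary {U U₀ : Subgroup G} {M : Type*} [AddCommGroup M] (C : Coord U U₀ M)
    {A : Subgroup G} (hA : IsElementaryAbelian p A) :
    (∀ α ∈ actImage C A, IsAdditive α) ∧
      (∀ α ∈ actImage C A, ∀ β ∈ actImage C A, α * β = β * α) ∧
      ∀ α ∈ actImage C A, α ^ p = 1 := by
  refine ⟨fun α hα => ?_, fun α hα β hβ => ?_, fun α hα => ?_⟩ <;>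
    obtain ⟨g, hg, rfl⟩ := mem_actImage C hα
  · exact C.act_additive g
  · obtain ⟨h, hh, rfl⟩ := mem_actImage C hβ
    haveI := hA.1
    rw [← map_mul, ← map_mul]
    congr 1
    have := congrArg (fun x : ↥A => (x : G)) (mul_comm' (⟨g.1, hg⟩ : ↥A) ⟨h.1, hh⟩)
    exact Subtype.ext (by simpa using this)
  · rw [← map_pow, show g ^ p = 1 from Subtype.ext (hA.2 _ hg), map_one]

/-- In the linear case equality in the offender bound gives a full root group. -/
theorem offender_linear (hE : IsBaumannBlock p T E) {F : Type*} [Field F] [Finite F] [CharP F p]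
    (D : SL2Coord p E (modV p E) (modX p E) F) {A : Subgroup G} (hA : A ≤ normalizer (E : Set G))
    (hAel : IsElementaryAbelian p A) :
    Nat.card A * Nat.card (fixedMod p E A) ≤
        Nat.card ↥(modV p E) * Nat.card ↥(A ⊓ centralizer (modV p E : Set G)) ∧
      (¬ A ≤ centralizer (modV p E : Set G) →
        Nat.card ↥(modV p E) * Nat.card ↥(A ⊓ centralizer (modV p E : Set G)) ≤
          Nat.card A * Nat.card (fixedMod p E A) →
        ∃ e e₂ : Fin 2 → F, det2 e e₂ ≠ 0 ∧ (∀ α ∈ actImage D.toCoord A, IsLin α) ∧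
          (∀ x, x ∈ fixedVectors (actImage D.toCoord A) ↔ ∃ c : F, x = c • e) ∧
          ∀ x : F, ∃ α ∈ actImage D.toCoord A, α e₂ = e₂ + x • e) := by
  obtain ⟨h1, h2, h3⟩ := offender_counts hE D.toCoord hA
  obtain ⟨hadd, hcomm, hexp⟩ := actImage_elementary D.toCoord hAel
  have hsl : ∀ α ∈ actImage D.toCoord A, ∃ σ, IsSemilin α σ := fun α hα => by
    obtain ⟨g, hg, rfl⟩ := mem_actImage _ hα
    exact D.exists_semilin g (hA hg)
  obtain ⟨hle, heq⟩ := linear_offender (p := p) _ hadd hsl hcomm hexp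
  have hM : Nat.card (Fin 2 → F) = Nat.card F ^ 2 := by rw [Nat.card_fun, Nat.card_fin]
  have hXpos : 0 < Nat.card ↥(modX p E) * Nat.card ↥(A ⊓ centralizer (modV p E : Set G)) :=
    Nat.mul_pos Nat.card_pos Nat.card_pos
  rw [h1, h2, hM, h3]
  refine ⟨?_, fun hne hge => heq ?_ ?_⟩
  · calc _ = (Nat.card (actImage D.toCoord A) * Nat.card (fixedVectors (actImage D.toCoord A))) *
          (Nat.card ↥(modX p E) * Nat.card ↥(A ⊓ centralizer (modV p E : Set G))) := by ring
      _ ≤ Nat.card F ^ 2 * (Nat.card ↥(modX p E) * Nat.card ↥(A ⊓ centralizer (modV p E : Set G))) :=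
        Nat.mul_le_mul_right _ hle
      _ = _ := by ring
  · intro hbot
    rw [hbot, card_bot, one_mul] at h3
    exact hne (inf_eq_left.mp (eq_of_le_of_card_ge inf_le_left h3.le))
  · refine Nat.le_of_mul_le_mul_right ?_ hXpos
    calc _ = Nat.card F ^ 2 * Nat.card ↥(modX p E) *
          Nat.card ↥(A ⊓ centralizer (modV p E : Set G)) := by ring
      _ ≤ _ := hge
      _ = _ := by ring

/-- The offender bound of a block. -/
theorem block_offender (hE : IsBaumannBlock p T E) {A : Subgroup G}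
    (hA : A ≤ normalizer (E : Set G)) (hAel : IsElementaryAbelian p A) :
    Nat.card A * Nat.card (fixedMod p E A) ≤
        Nat.card ↥(modV p E) * Nat.card ↥(A ⊓ centralizer (modV p E : Set G)) := by
  rcases block_coords hE with ⟨F, iF, iFin, iC, ⟨D⟩, -⟩ | ⟨rfl, n, hn, hn3, ⟨D⟩, -⟩
  · exact (offender_linear hE D hA hAel).1
  · obtain ⟨h1, h2, h3⟩ := offender_counts hE D.toCoord hA
    obtain ⟨-, hcomm, hexp⟩ := actImage_elementary D.toCoord hAel
    have hle := perm_offender hn (actImage D.toCoord A) (fun α hα => by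
      obtain ⟨g, hg, rfl⟩ := mem_actImage _ hα
      exact D.act_mem_range hn hn3 g (hA hg)) hcomm hexp
    have hcard : 2 ^ (n - 1) ≤ Nat.card (evenVec n) := by
      let f : (Fin n → ZMod 2) → evenVec n × ZMod 2 := fun v =>
        (⟨v + fun _ => ∑ i, v i, by
          show ∑ j, (v j + ∑ i, v i) = 0
          rw [Finset.sum_add_distrib, Finset.sum_const, Finset.card_univ, Fintype.card_fin,
            nsmul_eq_mul, (ZMod.natCast_eq_one_iff_odd).mpr hn, one_mul]
          exact CharTwo.add_self_eq_zero _⟩, ∑ i, v i)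
      have hf : Function.Injective f := fun v w h => by
        simp only [f, Prod.mk.injEq, Subtype.mk.injEq] at h
        rw [h.2] at h
        exact add_right_cancel h.1
      have h := Nat.card_le_card_of_injective f hf
      rw [Nat.card_fun, Nat.card_fin, Nat.card_zmod, Nat.card_prod, Nat.card_zmod] at h
      refine Nat.le_of_mul_le_mul_right (le_trans (le_of_eq ?_) h) two_pos
      rw [← pow_succ]; congr 1; omega
    rw [h1, h2, h3]
    calc _ = (Nat.card (actImage D.toCoord A) * Nat.card (fixedVectors (actImage D.toCoord A))) *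
          (Nat.card ↥(modX 2 E) * Nat.card ↥(A ⊓ centralizer (modV 2 E : Set G))) := by ring
      _ ≤ Nat.card (evenVec n) *
          (Nat.card ↥(modX 2 E) * Nat.card ↥(A ⊓ centralizer (modV 2 E : Set G))) :=
        Nat.mul_le_mul_right _ (hle.trans hcard)
      _ = _ := by ring

/-- A `p`-group of operators fixes a nontrivial vector of the module. -/
theorem exists_fixedMod (hE : IsBaumannBlock p T E) {P : Subgroup G}
    (hP : P ≤ normalizer (E : Set G)) (hPp : IsPGroup p P) :
    ∃ v ∈ fixedMod p E P, v ∉ modX p E := by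
  have hPs : P ≤ secNorm (modV p E) (modX p E) := hP.trans normalizer_le_secNorm_module
  have key : ∀ {M : Type} [AddCommGroup M] [Finite M] (C : Coord (modV p E) (modX p E) M),
      (∀ m : M, p • m = 0) → ∃ v ∈ fixedMod p E P, v ∉ modX p E := by
    intro M _ _ C hexp
    have hne : Nontrivial M := by
      obtain ⟨v, hv, hvX⟩ := SetLike.not_le_iff_exists.mp (modV_not_le_modX hE)
      refine ⟨⟨C.val ⟨v, hv⟩, C.val 1, fun h => hvX ?_⟩⟩
      have := (C.val_eq_iff _ _).mp h
      simpa using this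
    obtain ⟨m, hm⟩ := exists_ne (0 : M)
    have hdvd : p ∣ Nat.card M := by
      have h1 := addOrderOf_eq_prime (p := p) (hexp m) hm
      rw [← h1]
      exact addOrderOf_dvd_natCard m
    have hPi : IsPGroup p (actImage C P) := (hPp.comap_subtype).map _
    have h0 : (0 : M) ∈ MulAction.fixedPoints (actImage C P) M := fun a => by
      obtain ⟨g, -, hg⟩ := mem_actImage C a.2
      show (a : Equiv.Perm M) 0 = 0
      rw [← hg]
      exact (AddMonoidHom.mk' _ (C.act_additive g)).map_zero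
    obtain ⟨b, hb, hb0⟩ := hPi.exists_fixed_point_of_prime_dvd_card_of_fixed_point M hdvd h0
    obtain ⟨u, rfl⟩ := C.val_surj b
    refine ⟨u, ⟨u.2, fun g hg => ?_⟩, fun hX => hb0 ?_⟩
    · exact (C.act_fix_iff ⟨g, hPs hg⟩ u).mp (hb ⟨_, act_mem_actImage C _ hg⟩)
    · exact (congrArg Multiplicative.toAdd ((C.ker u).mpr hX)).symm
  rcases block_coords hE with ⟨F, iF, iFin, iC, ⟨D⟩, -⟩ | ⟨rfl, n, hn, hn3, ⟨D⟩, -⟩
  · exact key D.toCoord fun m => by
      ext i
      rw [Pi.smul_apply, nsmul_eq_mul, CharP.cast_eq_zero, zero_mul]; rfl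
  · exact key D.toCoord fun m => Subtype.ext (funext fun i => by
      rw [AddSubgroup.coe_nsmul, Pi.smul_apply, two_nsmul, CharTwo.add_self_eq_zero]; rfl)

/-- The module modulo the fixed points has at least four elements. -/
theorem four_mul_modX_le (hE : IsBaumannBlock p T E) :
    4 * Nat.card ↥(modX p E) ≤ Nat.card ↥(modV p E) := by
  rcases block_coords hE with ⟨F, iF, iFin, iC, ⟨D⟩, -⟩ | ⟨rfl, n, hn, hn3, ⟨D⟩, -⟩
  · rw [D.card_eq, Nat.card_fun, Nat.card_fin]
    refine Nat.mul_le_mul_right _ ?_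
    exact Nat.pow_le_pow_left (Finite.one_lt_card (α := F)) 2
  · rw [D.card_eq]
    refine Nat.mul_le_mul_right _ ?_
    have hne : ∀ i j : Fin n, allButOne hn i = allButOne hn j → i = j := fun i j h =>
      (allButOne_eq_zero_iff hn j i).mp (by rw [← h, allButOne_eq_zero_iff])
    have h := Nat.card_le_card_of_injective (fun o : Option (Fin n) => o.elim (0 : evenVec n) (allButOne hn))
      (fun a b h => by
        rcases a with _ | i <;> rcases b with _ | j
        · rfl
        · exfalso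
          obtain ⟨k, hk⟩ : ∃ k : Fin n, k ≠ j :=
            haveI : Nontrivial (Fin n) := Fin.nontrivial_iff_two_le.mpr (by omega)
            exists_ne j
          exact hk ((allButOne_eq_zero_iff hn j k).mp (congrFun (congrArg Subtype.val h.symm) k))
        · exfalso
          obtain ⟨k, hk⟩ : ∃ k : Fin n, k ≠ i :=
            haveI : Nontrivial (Fin n) := Fin.nontrivial_iff_two_le.mpr (by omega)
            exists_ne i
          exact hk ((allButOne_eq_zero_iff hn i k).mp (congrFun (congrArg Subtype.val h) k))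
        · exact congrArg some (hne i j h))
    rw [Nat.card_eq_fintype_card, Fintype.card_option, Fintype.card_fin] at h
    omega

end Cfsg.Agent.H68Block
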