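import Cfsg.Agent.H51.SubnormalBlockMain
import Cfsg.Agent.H34.Offender
import Cfsg.Agent.H68.Block.Module

/-!
The Baumann subgroup of the group normalizes every subnormal block.
-/

set_option autoImplicit false
set_option linter.style.haveILetI false
set_option linter.unusedSectionVars false

namespace Cfsg.Agent.H68Block

open Subgroup Cfsg
open H51 (IsSubnormalBlock)
open scoped commutatorElement

variable {G : Type*} [Group G] [Finite G] {p : ℕ} [hp : Fact p.Prime]

/-- `Ω₁(Z(O_p(G)))` is normal. -/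
theorem omega_core_normal : (omegaOneCenter p (pCore p G)).Normal := by
  haveI := H51.pCore_normal p G
  refine normalizer_eq_top_iff.mp (eq_top_iff.mpr fun g _ => ?_)
  rw [mem_normalizer_iff_map_conj_eq]
  exact (H51.map_omegaOneCenter (MulAut.conj g) _).trans (congrArg _ (Normal.map_conj_eq _ g))

/-- The vectors of `V` fixed by an elementary abelian subgroup of largest order are those fixed
modulo `X`. -/
theorem fixedMod_eq {T E A : Subgroup G} (hE : IsBaumannBlock p T E)
    (hA : A ∈ maxElementaryAbelianSubgroups p G) (hAE : A ≤ normalizer (E : Set G)) :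
    fixedMod p E A = ↑(modV p E ⊓ A) ∧
      Nat.card ↥(modV p E) * Nat.card ↥(A ⊓ centralizer (modV p E : Set G)) ≤
        Nat.card A * Nat.card (fixedMod p E A) := by
  have hVel := modV_isElementaryAbelian p E
  have hab := hA.1.1
  set D := A ⊓ centralizer (modV p E : Set G) with hD
  have hsup : IsElementaryAbelian p (modV p E ⊔ D) :=
    H34.isElementaryAbelian_sup hVel (H34.isElementaryAbelian_mono hA.1 inf_le_left) (le_centralizer_iff.mp inf_le_right)
  have h1 : Nat.card ↥(modV p E) * Nat.card D ≤ Nat.card A * Nat.card ↥(modV p E ⊓ A) := by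
    refine (H34.card_mul_card_le (modV p E) D).trans (Nat.mul_le_mul (hA.2 _ hsup) (card_le_of_le ?_))
    exact inf_le_inf_left _ inf_le_left
  have hsub : (↑(modV p E ⊓ A) : Set G) ⊆ fixedMod p E A := by
    rintro v ⟨hv, hvA⟩
    refine ⟨hv, fun a ha => ?_⟩
    have := congrArg (fun x : ↥A => (x : G)) (mul_comm' (⟨a, ha⟩ : ↥A) ⟨v, hvA⟩)
    simp only [coe_mul] at this
    rw [this, mul_inv_cancel_right, mul_inv_cancel]
    exact one_mem _
  have h2 : Nat.card A * Nat.card ↥(modV p E ⊓ A) ≤ Nat.card A * Nat.card (fixedMod p E A) :=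
    Nat.mul_le_mul_left _ (Nat.card_mono (Set.toFinite _) hsub)
  refine ⟨(Set.eq_of_subset_of_ncard_le hsub ?_ (Set.toFinite _)).symm, h1.trans h2⟩
  rw [← Nat.card_coe_set_eq, ← Nat.card_coe_set_eq]
  refine Nat.le_of_mul_le_mul_left ?_ (Nat.card_pos (α := A))
  exact ((block_offender hE hAE hA.1).trans h1)

variable (hG : centralizer (pCore p G : Set G) ≤ pCore p G)
include hG

/-- An elementary abelian subgroup of largest order normalizes a subnormal block. -/
theorem max_le_normalizer {E A : Subgroup G} (hE : IsSubnormalBlock p E)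
    (hA : A ∈ maxElementaryAbelianSubgroups p G) : A ≤ normalizer (E : Set G) := by
  classical
  obtain ⟨T, hT⟩ := hE.block
  set U := omegaOneCenter p (pCore p G) with hU
  set V := modV p E with hV
  set X := modX p E with hX
  have hUel : IsElementaryAbelian p U := H51.omegaOneCenter_isElementaryAbelian _
  haveI := hUel.1
  letI : CommGroup ↥U := { (inferInstance : Group ↥U) with mul_comm := fun a b => mul_comm' a b }
  haveI : U.Normal := omega_core_normal
  have hVU : V ≤ U := hE.module_le hG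
  set A₀ := A ⊓ normalizer (E : Set G) with hA₀
  let κ := ↥A ⧸ A₀.subgroupOf A
  haveI : Fintype κ := Fintype.ofFinite κ
  let s : κ → G := fun c => (Quotient.out c : ↥A)
  have hs : ∀ c, s c ∈ A := fun c => (Quotient.out c : ↥A).2
  have hsep : ∀ c d, c ≠ d → (s c)⁻¹ * s d ∉ normalizer (E : Set G) := by
    intro c d hne h
    refine hne ?_
    rw [← QuotientGroup.out_eq' c, ← QuotientGroup.out_eq' d, QuotientGroup.eq, mem_subgroupOf]
    exact ⟨A.mul_mem (A.inv_mem (hs c)) (hs d), h⟩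
  have hcomm : ∀ a ∈ A, ∀ b ∈ A, a * b = b * a := by
    intro a ha b hb
    haveI := hA.1.1
    simpa using congrArg (fun x : ↥A => (x : G)) (mul_comm' (⟨a, ha⟩ : ↥A) ⟨b, hb⟩)
  -- conjugation into `U`
  let κh : κ → ↥V →* ↥U := fun c =>
    { toFun := fun v => ⟨s c * v * (s c)⁻¹, Normal.conj_mem ‹U.Normal› _ (hVU v.2) (s c)⟩
      map_one' := Subtype.ext (by simp)
      map_mul' := fun v w => Subtype.ext (by simp only [coe_mul]; group) }
  let Φ : (κ → ↥V) →* ↥U :=
    { toFun := fun f => ∏ c, κh c (f c)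
      map_one' := by simp
      map_mul' := fun f g => by simp [Finset.prod_mul_distrib] }
  -- components
  have hcomp : ∀ (f : κ → ↥V) (c₀ : κ) (e : G), e ∈ E →
      ⁅(s c₀)⁻¹ * (Φ f : G) * s c₀, e⁆ = ⁅(f c₀ : G), e⁆ := by
    intro f c₀ e he
    set u := (κh c₀ (f c₀) : ↥U) with hu
    set rest := ∏ c ∈ Finset.univ.erase c₀, κh c (f c) with hrest
    have hsplit : Φ f = u * rest := (Finset.mul_prod_erase _ _ (Finset.mem_univ c₀)).symm
    have hrestC : (s c₀)⁻¹ * (rest : G) * s c₀ ∈ centralizer (E : Set G) := by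
      have hS : rest ∈ ((centralizer (E : Set G)).map (MulAut.conj (s c₀)).toMonoidHom).subgroupOf U := by
        rw [hrest]
        refine Subgroup.prod_mem _ fun c hc => ?_
        rw [mem_subgroupOf]
        refine ⟨(s c₀)⁻¹ * (s c * f c * (s c)⁻¹) * s c₀, ?_, by
          show s c₀ * ((s c₀)⁻¹ * (s c * f c * (s c)⁻¹) * s c₀) * (s c₀)⁻¹ = _
          show _ = s c * f c * (s c)⁻¹
          group⟩
        have hg : (s c₀)⁻¹ * s c ∉ normalizer (E : Set G) :=
          hsep c₀ c (Ne.symm (Finset.ne_of_mem_erase hc))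
        rcases H51.subnormalBlock_eq_or_commute hG hE (hE.conj ((s c₀)⁻¹ * s c)) with h | h
        · exact absurd (mem_normalizer_iff_map_conj_eq.mpr h.symm) hg
        · refine (commutator_eq_bot_iff_le_centralizer.mp ((commutator_comm _ _).trans h))
            (mem_map.mpr ⟨(f c : G), modV_le_block E (f c).2, ?_⟩)
          show (s c₀)⁻¹ * s c * (f c : G) * ((s c₀)⁻¹ * s c)⁻¹ = _
          group
      rw [mem_subgroupOf] at hS
      obtain ⟨x, hx, hxe⟩ := hS
      rw [← hxe]
      show (s c₀)⁻¹ * (s c₀ * x * (s c₀)⁻¹) * s c₀ ∈ _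
      rw [show (s c₀)⁻¹ * (s c₀ * x * (s c₀)⁻¹) * s c₀ = x by group]
      exact hx
    have h1 : (s c₀)⁻¹ * (Φ f : G) * s c₀ = (f c₀ : G) * ((s c₀)⁻¹ * (rest : G) * s c₀) := by
      rw [hsplit, coe_mul, hu]
      show (s c₀)⁻¹ * (s c₀ * f c₀ * (s c₀)⁻¹ * rest) * s c₀ = _
      group
    rw [h1]
    generalize (s c₀)⁻¹ * (rest : G) * s c₀ = r at hrestC
    have hre : r * e = e * r := (mem_centralizer_iff.mp hrestC e he).symm
    simp only [commutatorElement_def, mul_inv_rev]
    calc (f c₀ : G) * r * e * (r⁻¹ * (f c₀ : G)⁻¹) * e⁻¹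
        = (f c₀ : G) * (r * e) * r⁻¹ * (f c₀ : G)⁻¹ * e⁻¹ := by group
      _ = (f c₀ : G) * (e * r) * r⁻¹ * (f c₀ : G)⁻¹ * e⁻¹ := by rw [hre]
      _ = (f c₀ : G) * e * (f c₀ : G)⁻¹ * e⁻¹ := by group
  have hmodX : ∀ a b : G, a ∈ V → b ∈ V → (∀ e ∈ E, ⁅a, e⁆ = ⁅b, e⁆) → a * b⁻¹ ∈ X := by
    intro a b ha hb h
    refine ⟨V.mul_mem ha (V.inv_mem hb), mem_centralizer_iff.mpr fun e he => ?_⟩
    have h' : a * e * a⁻¹ = b * e * b⁻¹ := mul_right_cancel (h e he)
    have hab : a * b⁻¹ = b⁻¹ * a := by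
      haveI := (modV_isElementaryAbelian p E).1
      simpa using congrArg (fun x : ↥V => (x : G)) (mul_comm' (⟨a, ha⟩ : ↥V) ⟨b⁻¹, inv_mem hb⟩)
    calc e * (a * b⁻¹) = b⁻¹ * (b * e * b⁻¹) * b * (a * b⁻¹) := by group
      _ = b⁻¹ * (a * e * a⁻¹) * b * (a * b⁻¹) := by rw [h']
      _ = (b⁻¹ * a) * e * (b⁻¹ * a)⁻¹ * (a * b⁻¹) := by group
      _ = (a * b⁻¹) * e * (a * b⁻¹)⁻¹ * (a * b⁻¹) := by rw [hab]
      _ = a * b⁻¹ * e := by group
  set H := A.comap (U.subtype.comp Φ) with hH
  let c₁ : κ := ((1 : ↥A) : κ)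
  have hHdata : ∀ f : ↥H, (f.1 c₁ : G) ∈ fixedMod p E A₀ ∧
      ∀ c, (f.1 c : G) * (f.1 c₁ : G)⁻¹ ∈ X := by
    rintro ⟨f, hf⟩
    set u := (Φ f : G) with hu
    have huA : u ∈ A := hf
    have hfe : ∀ c, ∀ e ∈ E, ⁅(f c : G), e⁆ = ⁅u, e⁆ := fun c e he => by
      have h3 : (s c)⁻¹ * u * s c = u := by
        rw [mul_assoc, hcomm u huA _ (hs c), inv_mul_cancel_left]
      rw [← hcomp f c e he, ← hu, h3]
    refine ⟨⟨(f c₁).2, fun a ha => ?_⟩, fun c => hmodX _ _ (f c).2 (f c₁).2 fun e he => by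
      rw [hfe c e he, hfe c₁ e he]⟩
    have haV := (normalizer_le_secNorm_module (p := p) ha.2).1
    refine hmodX _ _ ((mem_normalizer_iff.mp haV _).mp (f c₁).2) (f c₁).2 fun e he => ?_
    have he' : a⁻¹ * e * a ∈ E := (mem_normalizer_iff''.mp ha.2 e).mp he
    have hau : a * u * a⁻¹ = u := by rw [hcomm a ha.1 u huA, mul_inv_cancel_right]
    calc ⁅a * (f c₁ : G) * a⁻¹, e⁆ = a * ⁅(f c₁ : G), a⁻¹ * e * a⁆ * a⁻¹ := by
          simp only [commutatorElement_def]; group
      _ = a * ⁅u, a⁻¹ * e * a⁆ * a⁻¹ := by rw [hfe c₁ _ he']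
      _ = ⁅a * u * a⁻¹, e⁆ := by simp only [commutatorElement_def]; group
      _ = ⁅(f c₁ : G), e⁆ := by rw [hau, hfe c₁ e he]
  have hHcard : Nat.card H ≤
      Nat.card (fixedMod p E A₀) * Nat.card X ^ (Nat.card κ - 1) := by
    let g : ↥H → fixedMod p E A₀ × ({c : κ // c ≠ c₁} → ↥X) := fun f =>
      (⟨_, (hHdata f).1⟩, fun c => ⟨_, (hHdata f).2 c.1⟩)
    have hg : Function.Injective g := by
      intro f f' h
      simp only [g, Prod.mk.injEq, Subtype.mk.injEq] at h
      refine Subtype.ext (funext fun c => Subtype.ext ?_)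
      by_cases hc : c = c₁
      · subst hc; exact h.1
      · have h2 := congrFun h.2 ⟨c, hc⟩
        simp only [Subtype.mk.injEq] at h2
        rw [h.1] at h2
        exact mul_right_cancel h2
    refine (Nat.card_le_card_of_injective g hg).trans (le_of_eq ?_)
    rw [Nat.card_prod, Nat.card_fun]
    congr 2
    rw [Nat.card_eq_fintype_card, Nat.card_eq_fintype_card, Fintype.card_subtype_compl,
      Fintype.card_subtype_eq]
  -- the maximality of `A`
  set P := (U.subtype.comp Φ).range with hP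
  have hPU : P ≤ U := by rintro _ ⟨f, rfl⟩; exact (Φ f).2
  set D := A ⊓ centralizer (V : Set G) with hD
  have hDP : D ≤ centralizer (P : Set G) := by
    rintro a ⟨ha, haV⟩
    rw [mem_centralizer_iff]
    rintro _ ⟨f, rfl⟩
    have hS : Φ f ∈ (centralizer (zpowers a : Set G)).subgroupOf U := by
      show ∏ c, κh c (f c) ∈ _
      refine Subgroup.prod_mem _ fun c _ => ?_
      rw [mem_subgroupOf, H51.centralizer_zpowers_eq, mem_centralizer_singleton_iff]
      show s c * f c * (s c)⁻¹ * a = a * (s c * f c * (s c)⁻¹)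
      symm
      have h1 := (mem_centralizer_iff.mp haV _ (f c).2).symm
      have h2 := hcomm a ha (s c) (hs c)
      calc a * (s c * f c * (s c)⁻¹) = s c * (a * f c) * (s c)⁻¹ := by rw [← mul_assoc, ← mul_assoc, h2]; group
        _ = s c * (f c * a) * (s c)⁻¹ := by rw [h1]
        _ = s c * f c * (s c)⁻¹ * a := by
            rw [mul_assoc (s c * f c), hcomm _ (inv_mem (hs c)) a ha]; group
    rw [mem_subgroupOf, H51.centralizer_zpowers_eq, mem_centralizer_singleton_iff] at hS
    exact hS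
  have hsup : IsElementaryAbelian p (P ⊔ D) :=
    H34.isElementaryAbelian_sup (H34.isElementaryAbelian_mono hUel hPU)
      (H34.isElementaryAbelian_mono hA.1 inf_le_left) (le_centralizer_iff.mp hDP)
  have hPD : Nat.card P * Nat.card D ≤ Nat.card A * Nat.card ↥(P ⊓ A) :=
    (H34.card_mul_card_le P D).trans
      (Nat.mul_le_mul (hA.2 _ hsup) (card_le_of_le (inf_le_inf_left _ inf_le_left)))
  have hfull : Nat.card (κ → ↥V) = Nat.card (U.subtype.comp Φ).ker * Nat.card P := by
    rw [← (U.subtype.comp Φ).ker.card_mul_index, index_ker]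
  have hHeq : Nat.card H = Nat.card (U.subtype.comp Φ).ker * Nat.card ↥(P ⊓ A) := by
    let π : ↥H →* G := (U.subtype.comp Φ).comp H.subtype
    have hr : π.range = P ⊓ A := by
      ext x
      constructor
      · rintro ⟨⟨f, hf⟩, rfl⟩; exact ⟨⟨f, rfl⟩, hf⟩
      · rintro ⟨⟨f, rfl⟩, hx⟩; exact ⟨⟨f, hx⟩, rfl⟩
    have hk : π.ker = (U.subtype.comp Φ).ker.subgroupOf H := rfl
    rw [← π.ker.card_mul_index, index_ker, hr, hk,
      Nat.card_congr (subgroupOfEquivOfLe ?_).toEquiv]
    intro f hf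
    show (U.subtype.comp Φ) f ∈ A
    rw [MonoidHom.mem_ker.mp hf]
    exact one_mem A
  have hAcard : Nat.card A = Nat.card κ * Nat.card A₀ := by
    rw [show Nat.card κ = (A₀.subgroupOf A).index from rfl, mul_comm,
      ← Nat.card_congr (subgroupOfEquivOfLe (inf_le_left : A₀ ≤ A)).toEquiv, card_mul_index]
  have hDA₀ : D ≤ A₀ := by
    rintro a ⟨ha, haV⟩
    refine ⟨ha, ?_⟩
    rcases H51.subnormalBlock_eq_or_commute hG hE (hE.conj a) with h | h
    · exact mem_normalizer_iff_map_conj_eq.mpr h.symm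
    · exfalso
      refine modV_not_le_modX hT fun v hv => ⟨hv, mem_centralizer_iff.mpr fun e he => ?_⟩
      have hmem : v ∈ E.map (MulAut.conj a).toMonoidHom := ⟨v, modV_le_block E hv, by
        show a * v * a⁻¹ = v
        rw [← mem_centralizer_iff.mp haV v hv, mul_inv_cancel_right]⟩
      exact mem_centralizer_iff.mp ((commutator_eq_bot_iff_le_centralizer.mp h) he) v hmem |>.symm
  have hoff := block_offender hT (inf_le_right : A₀ ≤ normalizer (E : Set G))
    (H34.isElementaryAbelian_mono hA.1 inf_le_left)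
  have hDeq : A₀ ⊓ centralizer (V : Set G) = D :=
    le_antisymm (inf_le_inf_right _ inf_le_left) (le_inf hDA₀ inf_le_right)
  rw [← hV, hDeq] at hoff
  set N := Nat.card κ with hN
  obtain ⟨k, hk⟩ : ∃ k, N = k + 1 := ⟨N - 1, by
    have : 0 < Nat.card κ := Nat.card_pos
    omega⟩
  have hVX : 4 * Nat.card X ≤ Nat.card V := four_mul_modX_le hT
  have hmain : Nat.card V ^ (k + 1) * Nat.card D ≤
      (k + 1) * (Nat.card V * Nat.card D) * Nat.card X ^ k := by
    calc Nat.card V ^ (k + 1) * Nat.card D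
        = Nat.card (U.subtype.comp Φ).ker * (Nat.card P * Nat.card D) := by
          rw [← hk, hN, ← Nat.card_fun, hfull, mul_assoc]
      _ ≤ Nat.card (U.subtype.comp Φ).ker * (Nat.card A * Nat.card ↥(P ⊓ A)) :=
          Nat.mul_le_mul_left _ hPD
      _ = Nat.card A * Nat.card H := by rw [hHeq]; ring
      _ ≤ Nat.card A * (Nat.card (fixedMod p E A₀) * Nat.card X ^ (Nat.card κ - 1)) :=
          Nat.mul_le_mul_left _ hHcard
      _ = (k + 1) * (Nat.card A₀ * Nat.card (fixedMod p E A₀)) * Nat.card X ^ k := by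
          rw [hAcard, ← hN, hk, Nat.add_sub_cancel]; ring
      _ ≤ _ := Nat.mul_le_mul_right _ (Nat.mul_le_mul_left _ hoff)
  have hk0 : k = 0 := by
    by_contra hk0
    have h4 : 4 ^ k * Nat.card X ^ k ≤ (k + 1) * Nat.card X ^ k := by
      rw [← mul_pow]
      refine (Nat.pow_le_pow_left hVX k).trans ?_
      refine Nat.le_of_mul_le_mul_right ?_ (Nat.mul_pos (Nat.card_pos (α := V)) (Nat.card_pos (α := D)))
      calc Nat.card V ^ k * (Nat.card V * Nat.card D) = Nat.card V ^ (k + 1) * Nat.card D := by ring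
        _ ≤ _ := hmain
        _ = _ := by ring
    have h5 := Nat.le_of_mul_le_mul_right h4 (pow_pos Nat.card_pos k)
    have h6 : k + 1 ≤ 2 ^ k := Nat.lt_two_pow_self
    have h7 : 2 ^ k < 4 ^ k := Nat.pow_lt_pow_left (by norm_num) hk0
    omega
  intro a ha
  haveI : Subsingleton κ := (Finite.card_le_one_iff_subsingleton).mp (by omega)
  have h1 : ((⟨a, ha⟩ : ↥A) : κ) = ((1 : ↥A) : κ) := Subsingleton.elim _ _
  rw [QuotientGroup.eq, mem_subgroupOf] at h1
  simpa using h1.2

/-- `J(T)` normalizes every subnormal block. -/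
theorem thompson_le_normalizer {E : Subgroup G} (hE : IsSubnormalBlock p E) (T : Sylow p G) :
    thompsonSubgroupOf p (T : Subgroup G) ≤ normalizer (E : Set G) := by
  rw [H34.thompsonSubgroupOf_sylow]
  exact sSup_le fun A hA => max_le_normalizer hG hE hA.2

/-- A vector of the module lying in `Z(J(T))` and moved by the block. -/
theorem exists_center_thompson {E : Subgroup G} (hE : IsSubnormalBlock p E) (T : Sylow p G) :
    ∃ v ∈ modV p E, v ∉ modX p E ∧
      v ∈ omegaOne p (centerThompsonOf p (T : Subgroup G)) := by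
  obtain ⟨T₀, hT₀⟩ := hE.block
  obtain ⟨v, ⟨hv, hfix⟩, hvX⟩ := exists_fixedMod hT₀ (thompson_le_normalizer hG hE T)
    (T.isPGroup'.to_le (H34.thompsonSubgroupOf_le _))
  refine ⟨v, hv, hvX, H34.mem_omegaOne ⟨?_, ?_⟩ ((modV_isElementaryAbelian p E).2 v hv)⟩
  · obtain ⟨A, hAT, hA⟩ := H34.exists_max_le_sylow (p := p) T
    have h := (fixedMod_eq hT₀ hA (max_le_normalizer hG hE hA)).1
    have hAJ : A ≤ thompsonSubgroupOf p (T : Subgroup G) := by
      rw [H34.thompsonSubgroupOf_sylow]; exact le_sSup ⟨hAT, hA⟩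
    have hvA : v ∈ (↑(modV p E ⊓ A) : Set G) := h ▸ ⟨hv, fun a ha => hfix a (hAJ ha)⟩
    exact hAJ hvA.2
  · show v ∈ centralizer (thompsonSubgroupOf p (T : Subgroup G) : Set G)
    have hle : thompsonSubgroupOf p (T : Subgroup G) ≤ centralizer (zpowers v : Set G) := by
      rw [H34.thompsonSubgroupOf_sylow]
      refine sSup_le fun A hA => ?_
      have h := (fixedMod_eq hT₀ hA.2 (max_le_normalizer hG hE hA.2)).1
      have hAJ : A ≤ thompsonSubgroupOf p (T : Subgroup G) := by
        rw [H34.thompsonSubgroupOf_sylow]; exact le_sSup hA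
      have hvA : v ∈ (↑(modV p E ⊓ A) : Set G) := h ▸ ⟨hv, fun a ha => hfix a (hAJ ha)⟩
      haveI := hA.2.1.1
      exact (le_centralizer_iff_isMulCommutative.mpr ‹_›).trans
        (centralizer_le (zpowers_le.mpr hvA.2))
    exact le_centralizer_iff.mp hle (mem_zpowers v)

/-- `B(T)` normalizes every subnormal block. -/
theorem baumann_le_normalizer {E : Subgroup G} (hE : IsSubnormalBlock p E) (T : Sylow p G) :
    baumannSubgroupOf p (T : Subgroup G) ≤ normalizer (E : Set G) := by
  intro b hb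
  obtain ⟨v, hv, hvX, hvZ⟩ := exists_center_thompson hG hE T
  rcases H51.subnormalBlock_eq_or_commute hG hE (hE.conj b) with h | h
  · exact mem_normalizer_iff_map_conj_eq.mpr h.symm
  · exfalso
    refine hvX ⟨hv, mem_centralizer_iff.mpr fun e he => ?_⟩
    have hmem : v ∈ E.map (MulAut.conj b).toMonoidHom := ⟨v, modV_le_block E hv, by
      show b * v * b⁻¹ = v
      rw [← mem_centralizer_iff.mp hb.2 v hvZ, mul_inv_cancel_right]⟩
    exact mem_centralizer_iff.mp ((commutator_eq_bot_iff_le_centralizer.mp h) he) v hmem |>.symm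

/-- `B(G)` normalizes every subnormal block. -/
theorem baumannSubgroup_le_normalizer {E : Subgroup G} (hE : IsSubnormalBlock p E) :
    baumannSubgroup p G ≤ normalizer (E : Set G) :=
  iSup_le fun T => baumann_le_normalizer hG hE T

end Cfsg.Agent.H68Block
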