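import Cfsg.Agent.H68.Block.LinearOffender

/-!
Operators on the even-weight permutation module of odd degree.
-/

set_option autoImplicit false
set_option linter.style.haveILetI false
set_option linter.unusedSectionVars false

namespace Cfsg.Agent.H68Block

/-- Even-weight vectors. -/
def evenVec (n : ℕ) : AddSubgroup (Fin n → ZMod 2) where
  carrier := {v | ∑ i, v i = 0}
  zero_mem' := by simp
  add_mem' := by
    intro a b ha hb
    simp only [Set.mem_setOf_eq, Pi.add_apply, Finset.sum_add_distrib] at *
    rw [ha, hb, add_zero]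
  neg_mem' := by
    intro a ha
    simp only [Set.mem_setOf_eq, Pi.neg_apply, Finset.sum_neg_distrib] at *
    rw [ha, neg_zero]

/-- Permutations acting on even-weight vectors. -/
def permAct (n : ℕ) : Equiv.Perm (Fin n) →* Equiv.Perm (evenVec n) where
  toFun π :=
    { toFun := fun v => ⟨fun i => v.1 (π⁻¹ i), (Equiv.sum_comp π⁻¹ v.1).trans v.2⟩
      invFun := fun v => ⟨fun i => v.1 (π i), (Equiv.sum_comp π v.1).trans v.2⟩
      left_inv := fun v => Subtype.ext (funext fun i => by simp)
      right_inv := fun v => Subtype.ext (funext fun i => by simp) }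
  map_one' := by ext v i; simp
  map_mul' π τ := by ext v i; simp

theorem permAct_apply {n : ℕ} (π : Equiv.Perm (Fin n)) (v : evenVec n) (i : Fin n) :
    (permAct n π v).1 i = v.1 (π⁻¹ i) := rfl

theorem permAct_add {n : ℕ} (π : Equiv.Perm (Fin n)) : IsAdditive (permAct n π) :=
  fun _ _ => Subtype.ext (funext fun _ => rfl)

theorem all_but_one_mem {n : ℕ} (hn : Odd n) (i : Fin n) :
    ((fun _ => 1) + Pi.single i 1 : Fin n → ZMod 2) ∈ evenVec n := by
  show ∑ j, ((fun _ => 1) + Pi.single i 1 : Fin n → ZMod 2) j = 0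
  simp only [Pi.add_apply, Finset.sum_add_distrib, Fintype.sum_pi_single']
  rw [Finset.sum_const, Finset.card_univ, Fintype.card_fin, nsmul_eq_mul, mul_one,
    (ZMod.natCast_eq_one_iff_odd).mpr hn]
  decide

/-- The vector with exactly one zero. -/
def allButOne {n : ℕ} (hn : Odd n) (i : Fin n) : evenVec n :=
  ⟨(fun _ => 1) + Pi.single i 1, all_but_one_mem hn i⟩

theorem allButOne_eq_zero_iff {n : ℕ} (hn : Odd n) (i j : Fin n) :
    (allButOne hn i).1 j = 0 ↔ j = i := by
  show (1 : ZMod 2) + Pi.single (M := fun _ => ZMod 2) i 1 j = 0 ↔ j = i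
  by_cases h : j = i
  · subst h; simp; decide
  · simp [h]

theorem permAct_injective {n : ℕ} (hn : Odd n) : Function.Injective (permAct n) := by
  intro π τ h
  refine Equiv.ext fun i => ?_
  have h1 := congrArg (fun α : Equiv.Perm (evenVec n) => (α (allButOne hn i)).1 (π i)) h
  have h2 : (allButOne hn i).1 (τ⁻¹ (π i)) = 0 := by
    rw [← permAct_apply, ← h1, permAct_apply, allButOne_eq_zero_iff]
    simp
  rw [allButOne_eq_zero_iff] at h2
  have := congrArg τ h2
  simpa using this

/-- A normalizer of the alternating group permutes the coordinates. -/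
theorem exists_perm {n : ℕ} (hn : Odd n) (α : Equiv.Perm (evenVec n)) (hadd : IsAdditive α)
    (hn3 : 3 ≤ n) (hnorm : ∀ g ∈ alternatingGroup (Fin n), ∃ h ∈ alternatingGroup (Fin n), ∀ x,
      α (permAct n h x) = permAct n g (α x)) : α ∈ (permAct n).range := by
  classical
  have hperm : ∀ (σ : Equiv.Perm (Fin n)) i, permAct n σ (allButOne hn i) = allButOne hn (σ i) := by
    intro σ i
    refine Subtype.ext (funext fun j => ?_)
    rw [permAct_apply]
    have hz : ∀ a b : ZMod 2, (a = 0 ↔ b = 0) → a = b := by decide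
    apply hz
    rw [allButOne_eq_zero_iff, allButOne_eq_zero_iff]
    exact ⟨fun h => by rw [← h]; simp, fun h => by rw [h]; simp⟩
  have hz1 : ∀ a : ZMod 2, a = 0 ∨ a = 1 := by decide
  have h0 : α 0 = 0 := (AddMonoidHom.mk' _ hadd).map_zero
  have hone : ∀ i, ∃ j, α (allButOne hn i) = allButOne hn j := by
    intro i
    set w := α (allButOne hn i) with hw
    set S := Finset.univ.filter (fun j => w.1 j = 1) with hS
    set Z := Finset.univ.filter (fun j => ¬ w.1 j = 1) with hZ
    have hSZ : S.card + Z.card = n := by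
      rw [hS, hZ, Finset.card_filter_add_card_filter_not, Finset.card_univ, Fintype.card_fin]
    have hSeven : Even S.card := by
      have h := w.2
      change ∑ j, w.1 j = 0 at h
      rw [← Finset.sum_filter_add_sum_filter_not _ (fun j => w.1 j = 1),
        Finset.sum_congr rfl (g := fun _ => (1 : ZMod 2)) (fun j hj => (Finset.mem_filter.mp hj).2),
        Finset.sum_congr rfl (g := fun _ => (0 : ZMod 2)) (s₁ := Finset.univ.filter fun j => ¬ w.1 j = 1)
          (fun j hj => (hz1 _).resolve_right (Finset.mem_filter.mp hj).2),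
        Finset.sum_const, Finset.sum_const_zero, add_zero, nsmul_eq_mul, mul_one] at h
      exact (ZMod.natCast_eq_zero_iff_even).mp h
    have hS0 : S.card ≠ 0 := by
      intro h
      have hw0 : w = 0 := by
        refine Subtype.ext (funext fun j => (hz1 _).resolve_right fun hj => ?_)
        rw [Finset.card_eq_zero, hS, Finset.filter_eq_empty_iff] at h
        exact h (Finset.mem_univ j) hj
      rw [hw, ← h0] at hw0
      have h1 : ∀ j : Fin n, j = i := fun j =>
        (allButOne_eq_zero_iff hn i j).mp (congrFun (congrArg Subtype.val (α.injective hw0)) j)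
      have := Fintype.card_le_one_iff.mpr fun a b : Fin n => (h1 a).trans (h1 b).symm
      rw [Fintype.card_fin] at this
      omega
    rcases (show Z.card = 1 ∨ Z.card ≠ 1 from em _) with hZ1 | hZ1
    · obtain ⟨j, hj⟩ := Finset.card_eq_one.mp hZ1
      refine ⟨j, Subtype.ext (funext fun k => ?_)⟩
      have hz : ∀ a b : ZMod 2, (¬ a = 1 ↔ b = 0) → a = b := by decide
      apply hz
      rw [allButOne_eq_zero_iff, show ¬ w.1 k = 1 ↔ k ∈ Z by simp [hZ], hj, Finset.mem_singleton]
    exfalso
    obtain ⟨k, hk⟩ := hSeven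
    obtain ⟨l, hl⟩ := id hn
    have hsw : ∀ u : ↥S × ↥Z, ∃ j, (α (allButOne hn j)).1 =
        fun t => w.1 (Equiv.swap (u.1 : Fin n) (u.2 : Fin n) t) := by
      rintro ⟨⟨x, hx⟩, ⟨y, hy⟩⟩
      obtain ⟨a, ha, b, hb, hab⟩ := Finset.one_lt_card.mp
        (show 1 < (Z.erase y).card by rw [Finset.card_erase_of_mem hy]; omega)
      rw [Finset.mem_erase] at ha hb
      have hx1 : w.1 x = 1 := (Finset.mem_filter.mp hx).2
      have hz : ∀ z ∈ Z, w.1 z = 0 := fun z hz => (hz1 _).resolve_right (Finset.mem_filter.mp hz).2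
      have hxy : x ≠ y := fun h => by
        rw [h, hz y hy] at hx1; exact absurd hx1 (by decide)
      have hσ : Equiv.swap x y * Equiv.swap a b ∈ alternatingGroup (Fin n) := by
        rw [Equiv.Perm.mem_alternatingGroup, map_mul, Equiv.Perm.sign_swap hxy,
          Equiv.Perm.sign_swap hab]
        decide
      obtain ⟨h, -, hh⟩ := hnorm _ hσ
      refine ⟨h i, ?_⟩
      rw [← hperm h i, hh]
      funext t
      show w.1 ((Equiv.swap x y * Equiv.swap a b)⁻¹ t) = w.1 (Equiv.swap x y t)
      rw [mul_inv_rev, Equiv.swap_inv, Equiv.swap_inv, Equiv.Perm.mul_apply]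
      generalize Equiv.swap x y t = t'
      by_cases e1 : t' = a
      · rw [e1, Equiv.swap_apply_left, hz a ha.2, hz b hb.2]
      by_cases e2 : t' = b
      · rw [e2, Equiv.swap_apply_right, hz a ha.2, hz b hb.2]
      rw [Equiv.swap_apply_of_ne_of_ne e1 e2]
    choose j hj using hsw
    have hinj : Function.Injective j := by
      rintro ⟨⟨x, hx⟩, ⟨y, hy⟩⟩ ⟨⟨x', hx'⟩, ⟨y', hy'⟩⟩ h
      have he := (hj (⟨x, hx⟩, ⟨y, hy⟩)).symm.trans ((congrArg (fun j => (α (allButOne hn j)).1) h).trans
        (hj (⟨x', hx'⟩, ⟨y', hy'⟩)))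
      have hS1 : ∀ z ∈ S, w.1 z = 1 := fun z hz => (Finset.mem_filter.mp hz).2
      have hZ0 : ∀ z ∈ Z, w.1 z = 0 := fun z hz => (hz1 _).resolve_right (Finset.mem_filter.mp hz).2
      have hxx : x = x' := by
        by_contra hne
        have h2 := congrFun he x
        simp only [Equiv.swap_apply_left] at h2
        rw [Equiv.swap_apply_of_ne_of_ne hne (fun e => by
          have := hS1 x hx; rw [e, hZ0 y' hy'] at this; exact absurd this (by decide)),
          hZ0 y hy, hS1 x hx] at h2
        exact absurd h2 (by decide)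
      have hyy : y = y' := by
        by_contra hne
        have h2 := congrFun he y
        simp only [Equiv.swap_apply_right] at h2
        rw [Equiv.swap_apply_of_ne_of_ne (fun e => by
          have := hS1 x' hx'; rw [← e, hZ0 y hy] at this; exact absurd this (by decide)) hne,
          hZ0 y hy, hS1 x hx] at h2
        exact absurd h2 (by decide)
      simp [hxx, hyy]
    have hcard := Fintype.card_le_of_injective j hinj
    rw [Fintype.card_prod, Fintype.card_coe, Fintype.card_coe, Fintype.card_fin] at hcard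
    nlinarith [show 2 ≤ S.card by omega, show 3 ≤ Z.card by omega]
  choose π hπ using hone
  have hinj : Function.Injective π := by
    intro i j h
    have h2 : allButOne hn i = allButOne hn j := α.injective (by rw [hπ i, hπ j, h])
    exact ((allButOne_eq_zero_iff hn j i).mp (by rw [← h2, allButOne_eq_zero_iff]))
  refine ⟨Equiv.ofBijective π (Finite.injective_iff_bijective.mp hinj), Equiv.ext fun v => ?_⟩
  let αh : evenVec n →+ evenVec n := AddMonoidHom.mk' α hadd
  let βh : evenVec n →+ evenVec n :=
    AddMonoidHom.mk' (permAct n (Equiv.ofBijective π (Finite.injective_iff_bijective.mp hinj)))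
      (permAct_add _)
  have hb : ∀ i, αh (allButOne hn i) = βh (allButOne hn i) := fun i => by
    show α _ = permAct n _ _
    rw [hperm, hπ]; rfl
  have hv : v = ∑ i, (v.1 i).val • allButOne hn i := by
    refine Subtype.ext (funext fun t => ?_)
    rw [AddSubgroup.val_finset_sum, Finset.sum_apply]
    simp only [AddSubgroup.coe_nsmul, Pi.smul_apply, nsmul_eq_mul, ZMod.natCast_val, ZMod.cast_id',
      id_eq, allButOne, Pi.add_apply, mul_add, mul_one, Finset.sum_add_distrib]
    rw [show ∑ i, v.1 i = 0 from v.2, zero_add, Finset.sum_eq_single t]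
    · simp
    · intro b _ hb; simp [Ne.symm hb]
    · simp
  show βh v = αh v
  rw [hv, map_sum, map_sum]
  exact Finset.sum_congr rfl fun i _ => by rw [map_nsmul, map_nsmul, hb]

/-- Elementary abelian groups of permutations satisfy the offender bound on the even-weight module. -/
theorem perm_offender {n : ℕ} (hn : Odd n) (A : Subgroup (Equiv.Perm (evenVec n)))
    (hA : ∀ α ∈ A, α ∈ (permAct n).range) (hcomm : ∀ α ∈ A, ∀ β ∈ A, α * β = β * α)
    (hexp : ∀ α ∈ A, α ^ 2 = 1) :
    Nat.card A * Nat.card (fixedVectors A) ≤ 2 ^ (n - 1) := by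
  classical
  set P := A.comap (permAct n) with hP
  have hPA : Nat.card P = Nat.card A := by
    rw [← Subgroup.card_map_of_injective (permAct_injective hn), hP, Subgroup.map_comap_eq_self hA]
  haveI : IsMulCommutative P := ⟨⟨fun a b => Subtype.ext (permAct_injective hn (by
    rw [Subgroup.coe_mul, Subgroup.coe_mul, map_mul, map_mul]; exact hcomm _ a.2 _ b.2))⟩⟩
  have hP2 : IsPGroup 2 P := fun a => ⟨1, Subtype.ext (permAct_injective hn (by
    rw [pow_one, Subgroup.coe_pow, map_pow, Subgroup.coe_one, map_one]; exact hexp _ a.2))⟩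
  let Ω := MulAction.orbitRel.Quotient P (Fin n)
  haveI : Fintype Ω := Fintype.ofFinite Ω
  have hprod : Nat.card P ≤ ∏ ω : Ω, Nat.card (MulAction.orbit P (Quotient.out ω)) := by
    rw [← Nat.card_pi]
    refine Nat.card_le_card_of_injective
      (fun a ω => ⟨a • Quotient.out ω, MulAction.mem_orbit _ a⟩) fun a b h => ?_
    refine Subtype.ext (Equiv.ext fun x => ?_)
    obtain ⟨c, hc⟩ : ∃ c : P, c • Quotient.out (Quotient.mk (MulAction.orbitRel P (Fin n)) x) = x :=
      MulAction.orbitRel_apply.mp (Quotient.mk_out x) |> MulAction.mem_orbit_symm.mp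
    have h1 : a • Quotient.out (Quotient.mk (MulAction.orbitRel P (Fin n)) x) =
        b • Quotient.out (Quotient.mk (MulAction.orbitRel P (Fin n)) x) :=
      congrArg Subtype.val (congrFun h _)
    show a • x = b • x
    rw [← hc, smul_smul, smul_smul, mul_comm' a c, mul_comm' b c, ← smul_smul, ← smul_smul, h1]
  have hsum : ∑ ω : Ω, Nat.card (MulAction.orbit P (Quotient.out ω)) = n := by
    rw [← Nat.card_sigma, ← Nat.card_congr (MulAction.selfEquivSigmaOrbits P (Fin n)), Nat.card_fin]
  have hfix : Nat.card (fixedVectors A) * 2 ≤ 2 ^ Nat.card Ω := by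
    have hconst : ∀ v : evenVec n, v ∈ fixedVectors A → ∀ (a : P) x, v.1 (a • x) = v.1 x := by
      intro v hv a x
      have := congrFun (congrArg Subtype.val (hv _ a.2)) (a • x)
      rw [permAct_apply] at this
      rw [← this]
      exact congrArg v.1 (Equiv.symm_apply_apply (a : Equiv.Perm (Fin n)) x)
    refine le_trans ?_ (le_of_eq (show Nat.card (Ω → ZMod 2) = 2 ^ Nat.card Ω by
      rw [Nat.card_fun, Nat.card_zmod]))
    refine le_trans (le_of_eq (show _ = Nat.card (fixedVectors A × ZMod 2) by
      rw [Nat.card_prod, Nat.card_zmod])) ?_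
    refine Nat.card_le_card_of_injective (fun u ω => u.1.1.1 (Quotient.out ω) + u.2) ?_
    rintro ⟨⟨v, hv⟩, c⟩ ⟨⟨w, hw⟩, d⟩ h
    have hall : ∀ x, v.1 x + c = w.1 x + d := by
      intro x
      obtain ⟨a, ha⟩ : ∃ a : P, a • Quotient.out (Quotient.mk (MulAction.orbitRel P (Fin n)) x) = x :=
        MulAction.orbitRel_apply.mp (Quotient.mk_out x) |> MulAction.mem_orbit_symm.mp
      rw [← ha, hconst v hv, hconst w hw]
      exact congrFun h _
    have hcd : c = d := by
      have h1 := Finset.sum_congr rfl (fun x (_ : x ∈ Finset.univ) => hall x)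
      simp only [Finset.sum_add_distrib, Finset.sum_const, Finset.card_univ, Fintype.card_fin,
        nsmul_eq_mul, (ZMod.natCast_eq_one_iff_odd).mpr hn, one_mul] at h1
      rwa [show ∑ x, v.1 x = 0 from v.2, show ∑ x, w.1 x = 0 from w.2, zero_add, zero_add] at h1
    subst hcd
    have : v = w := Subtype.ext (funext fun x => add_right_cancel (hall x))
    subst this
    rfl
  have hle : ∀ k : ℕ, k * 2 ≤ 2 ^ k := by
    intro k
    cases k with
    | zero => simp
    | succ j => rw [pow_succ]; exact Nat.mul_le_mul_right 2 Nat.lt_two_pow_self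
  have h : Nat.card A * Nat.card (fixedVectors A) * 2 ≤ 2 ^ n := by
    calc Nat.card A * Nat.card (fixedVectors A) * 2
        ≤ (∏ ω : Ω, Nat.card (MulAction.orbit P (Quotient.out ω))) * 2 ^ Nat.card Ω := by
          rw [mul_assoc, ← hPA]; exact Nat.mul_le_mul hprod hfix
      _ = ∏ ω : Ω, (Nat.card (MulAction.orbit P (Quotient.out ω)) * 2) := by
          rw [Finset.prod_mul_distrib, Finset.prod_const, Finset.card_univ, ← Nat.card_eq_fintype_card]
      _ ≤ ∏ ω : Ω, 2 ^ Nat.card (MulAction.orbit P (Quotient.out ω)) :=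
          Finset.prod_le_prod' fun ω _ => hle _
      _ = 2 ^ n := by rw [Finset.prod_pow_eq_pow_sum, hsum]
  obtain ⟨j, hj⟩ := hn
  rw [show (2 : ℕ) ^ n = 2 ^ (n - 1) * 2 by rw [← pow_succ]; congr 1; omega] at h
  exact Nat.le_of_mul_le_mul_right h two_pos

end Cfsg.Agent.H68Block
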