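import Cfsg.Agent.H51.SubnormalBlockTools
import Cfsg.Agent.H68.Block.PermModule

/-!
Coordinates on the sections of a block and the action of the normalizer.
-/

set_option autoImplicit false
set_option linter.style.haveILetI false
set_option linter.unusedSectionVars false

namespace Cfsg.Agent.H68Block

open Subgroup Cfsg
open H51 (commutator_le_of_le_normalizer pCore_normal pCore_isPGroup)
open scoped commutatorElement

variable {G : Type*} [Group G]

/-- Elements normalizing both ends of a section. -/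
abbrev secNorm (U U₀ : Subgroup G) : Subgroup G :=
  normalizer (U : Set G) ⊓ normalizer (U₀ : Set G)

/-- Coordinates on the section `U/U₀`. -/
structure Coord (U U₀ : Subgroup G) (M : Type*) [AddCommGroup M] where
  ψ : ↥U →* Multiplicative M
  surj : Function.Surjective ψ
  ker : ∀ u : ↥U, ψ u = 1 ↔ (u : G) ∈ U₀
  le : U₀ ≤ U

namespace Coord

variable {U U₀ : Subgroup G} {M : Type*} [AddCommGroup M] (C : Coord U U₀ M)

/-- The coordinate of an element. -/
def val (u : ↥U) : M := Multiplicative.toAdd (C.ψ u)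

theorem val_mul (u v : ↥U) : C.val (u * v) = C.val u + C.val v := by
  simp [val]

theorem val_eq_iff (u v : ↥U) : C.val u = C.val v ↔ (u : G) * (v : G)⁻¹ ∈ U₀ := by
  have h := C.ker (u * v⁻¹)
  rw [map_mul, map_inv, mul_inv_eq_one, coe_mul, coe_inv] at h
  exact ⟨fun e => h.mp (Multiplicative.toAdd.injective e), fun e => congrArg Multiplicative.toAdd (h.mpr e)⟩

theorem val_surj : Function.Surjective C.val := fun m => by
  obtain ⟨u, hu⟩ := C.surj (Multiplicative.ofAdd m)
  exact ⟨u, by simp [val, hu]⟩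

/-- A chosen element with given coordinate. -/
noncomputable def lift (m : M) : ↥U := Function.surjInv C.val_surj m

theorem val_lift (m : M) : C.val (C.lift m) = m := Function.surjInv_eq C.val_surj m

/-- Conjugation of a section element by an element normalizing the section. -/
def conjU (g : ↥(secNorm U U₀)) (u : ↥U) : ↥U :=
  ⟨(g : G) * u * (g : G)⁻¹, (mem_normalizer_iff.mp g.2.1 u).mp u.2⟩

theorem val_conjU_congr (g : ↥(secNorm U U₀)) {u v : ↥U} (h : C.val u = C.val v) :
    C.val (conjU g u) = C.val (conjU g v) := by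
  rw [val_eq_iff] at h ⊢
  have := (mem_normalizer_iff.mp g.2.2 _).mp h
  convert this using 1
  show (g : G) * u * (g : G)⁻¹ * ((g : G) * v * (g : G)⁻¹)⁻¹ = _
  group

theorem conjU_mul (g h : ↥(secNorm U U₀)) (u : ↥U) : conjU (g * h) u = conjU g (conjU h u) := by
  apply Subtype.ext
  show ((g * h : ↥(secNorm U U₀)) : G) * u * ((g * h : ↥(secNorm U U₀)) : G)⁻¹ =
    (g : G) * ((h : G) * u * (h : G)⁻¹) * (g : G)⁻¹
  rw [coe_mul]; group

theorem conjU_one (u : ↥U) : conjU (1 : ↥(secNorm U U₀)) u = u := by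
  apply Subtype.ext
  show (1 : G) * u * (1 : G)⁻¹ = u
  group

/-- The action on coordinates, as a bijection. -/
noncomputable def actEquiv (g : ↥(secNorm U U₀)) : Equiv.Perm M where
  toFun m := C.val (conjU g (C.lift m))
  invFun m := C.val (conjU g⁻¹ (C.lift m))
  left_inv m := by
    show C.val (conjU g⁻¹ (C.lift (C.val (conjU g (C.lift m))))) = m
    rw [C.val_conjU_congr g⁻¹ (C.val_lift _), ← conjU_mul, inv_mul_cancel, conjU_one, C.val_lift]
  right_inv m := by
    show C.val (conjU g (C.lift (C.val (conjU g⁻¹ (C.lift m))))) = m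
    rw [C.val_conjU_congr g (C.val_lift _), ← conjU_mul, mul_inv_cancel, conjU_one, C.val_lift]

theorem actEquiv_apply (g : ↥(secNorm U U₀)) (u : ↥U) : C.actEquiv g (C.val u) = C.val (conjU g u) :=
  C.val_conjU_congr g (C.val_lift _)

/-- The action of the normalizer of a section on its coordinates. -/
noncomputable def act : ↥(secNorm U U₀) →* Equiv.Perm M :=
  MonoidHom.mk' C.actEquiv fun g h => Equiv.ext fun m => by
    obtain ⟨u, rfl⟩ := C.val_surj m
    rw [Equiv.Perm.mul_apply, C.actEquiv_apply, C.actEquiv_apply, C.actEquiv_apply, conjU_mul]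

theorem act_apply (g : ↥(secNorm U U₀)) (u : ↥U) : C.act g (C.val u) = C.val (conjU g u) :=
  C.actEquiv_apply g u

theorem act_additive (g : ↥(secNorm U U₀)) : IsAdditive (C.act g) := by
  intro x y
  obtain ⟨u, rfl⟩ := C.val_surj x
  obtain ⟨v, rfl⟩ := C.val_surj y
  rw [← C.val_mul, C.act_apply, C.act_apply, C.act_apply, ← C.val_mul]
  congr 1
  apply Subtype.ext
  show (g : G) * ((u * v : ↥U) : G) * (g : G)⁻¹ =
    (g : G) * u * (g : G)⁻¹ * ((g : G) * v * (g : G)⁻¹)
  rw [coe_mul]; group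

theorem act_eq_one_iff (g : ↥(secNorm U U₀)) :
    C.act g = 1 ↔ ∀ u ∈ U, (g : G) * u * (g : G)⁻¹ * u⁻¹ ∈ U₀ := by
  constructor
  · intro h u hu
    have := congrArg (fun α : Equiv.Perm M => α (C.val ⟨u, hu⟩)) h
    simp only [act_apply, Equiv.Perm.one_apply] at this
    exact (C.val_eq_iff _ _).mp this
  · intro h
    refine Equiv.ext fun m => ?_
    obtain ⟨u, rfl⟩ := C.val_surj m
    rw [act_apply, Equiv.Perm.one_apply, val_eq_iff]
    exact h u u.2

theorem act_fix_iff (g : ↥(secNorm U U₀)) (u : ↥U) :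
    C.act g (C.val u) = C.val u ↔ (g : G) * u * (g : G)⁻¹ * (u : G)⁻¹ ∈ U₀ := by
  rw [act_apply, val_eq_iff]; rfl

/-- The elements with coordinates in a given set. -/
theorem card_preimage [Finite G] (s : Set M) :
    Nat.card {u : ↥U // C.val u ∈ s} = Nat.card ↥s * Nat.card ↥U₀ := by
  rw [← Nat.card_prod]
  refine Nat.card_congr
    { toFun := fun u => (⟨C.val u.1, u.2⟩, ⟨(u.1 : G) * (C.lift (C.val u.1) : G)⁻¹,
        (C.val_eq_iff _ _).mp (C.val_lift _).symm⟩)
      invFun := fun w => ⟨⟨w.2.1, C.le w.2.2⟩ * C.lift w.1.1, by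
        rw [C.val_mul, C.val_lift, show C.val ⟨w.2.1, C.le w.2.2⟩ = 0 from
          congrArg Multiplicative.toAdd ((C.ker _).mpr w.2.2), zero_add]
        exact w.1.2⟩
      left_inv := ?_
      right_inv := ?_ }
  · intro u
    apply Subtype.ext
    apply Subtype.ext
    show (u.1 : G) * (C.lift (C.val u.1) : G)⁻¹ * (C.lift (C.val u.1) : G) = u.1
    group
  · rintro ⟨⟨m, hm⟩, ⟨x, hx⟩⟩
    have hval : C.val (⟨x, C.le hx⟩ * C.lift m) = m := by
      rw [C.val_mul, C.val_lift, show C.val ⟨x, C.le hx⟩ = 0 from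
        congrArg Multiplicative.toAdd ((C.ker _).mpr hx), zero_add]
    simp only [Prod.mk.injEq, Subtype.mk.injEq]
    refine ⟨hval, ?_⟩
    rw [hval, coe_mul]
    group

theorem card_eq (C : Coord U U₀ M) [Finite G] [Finite M] : Nat.card ↥U = Nat.card M * Nat.card ↥U₀ := by
  rw [← Nat.card_congr (Equiv.Set.univ M), ← card_preimage C]
  exact Nat.card_congr (Equiv.subtypeUnivEquiv fun u => Set.mem_univ (C.val u)).symm

end Coord

section Block

variable (p : ℕ) (E : Subgroup G)

/-- The module `[W, E]` of a block. -/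
abbrev modV : Subgroup G := ⁅omegaOneCenter p (pCoreOf p E), E⁆

/-- The fixed points in the module of a block. -/
abbrev modX : Subgroup G := modV p E ⊓ centralizer (E : Set G)

/-- Natural coordinates on a section normalized by a block. -/
structure SL2Coord (U U₀ : Subgroup G) (F : Type*) [Field F] extends Coord U U₀ (Fin 2 → F) where
  ρ : ↥E →* Matrix.SpecialLinearGroup (Fin 2) F
  range_eq : ρ.range = commutator (Matrix.SpecialLinearGroup (Fin 2) F)
  ker_iff : ∀ e : ↥E, ρ e = 1 ↔ (e : G) ∈ pCoreOf p E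
  normalizes : E ≤ secNorm U U₀
  equivariant : ∀ (e : ↥E) (u : ↥U), toCoord.val (Coord.conjU ⟨e.1, normalizes e.2⟩ u) =
    ((ρ e : Matrix.SpecialLinearGroup (Fin 2) F) : Matrix (Fin 2) (Fin 2) F).mulVec (toCoord.val u)

/-- Even-weight coordinates on a section normalized by a block. -/
structure PermCoord (U U₀ : Subgroup G) (n : ℕ) extends Coord U U₀ (evenVec n) where
  ρ : ↥E →* Equiv.Perm (Fin n)
  range_eq : ρ.range = alternatingGroup (Fin n)
  ker_iff : ∀ e : ↥E, ρ e = 1 ↔ (e : G) ∈ pCoreOf p E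
  normalizes : E ≤ secNorm U U₀
  equivariant : ∀ (e : ↥E) (u : ↥U), toCoord.val (Coord.conjU ⟨e.1, normalizes e.2⟩ u) =
    permAct n (ρ e) (toCoord.val u)

variable {p E}

theorem SL2Coord.act_block {U U₀ : Subgroup G} {F : Type*} [Field F] (D : SL2Coord p E U U₀ F)
    (e : ↥E) (x : Fin 2 → F) : D.act ⟨e.1, D.normalizes e.2⟩ x =
      ((D.ρ e : Matrix.SpecialLinearGroup (Fin 2) F) : Matrix (Fin 2) (Fin 2) F).mulVec x := by
  obtain ⟨u, rfl⟩ := D.val_surj x
  rw [Coord.act_apply, D.equivariant]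

theorem PermCoord.act_block {U U₀ : Subgroup G} {n : ℕ} (D : PermCoord p E U U₀ n) (e : ↥E) :
    D.act ⟨e.1, D.normalizes e.2⟩ = permAct n (D.ρ e) := by
  refine Equiv.ext fun x => ?_
  obtain ⟨u, rfl⟩ := D.val_surj x
  rw [Coord.act_apply, D.equivariant]

theorem SL2Coord.exists_semilin {U U₀ : Subgroup G} {F : Type*} [Field F] [Finite F]
    (D : SL2Coord p E U U₀ F) (g : ↥(secNorm U U₀)) (hg : (g : G) ∈ normalizer (E : Set G)) :
    ∃ σ, IsSemilin (D.act g) σ := by
  refine H68Block.exists_semilin _ (D.act_additive g) fun r hr => ?_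
  rw [← D.range_eq] at hr
  obtain ⟨e, rfl⟩ := hr
  let e' : ↥E := ⟨(g : G)⁻¹ * e * g, (mem_normalizer_iff''.mp hg _).mp e.2⟩
  refine ⟨D.ρ e', by rw [← D.range_eq]; exact ⟨e', rfl⟩, fun x => ?_⟩
  rw [← D.act_block e', ← D.act_block e, ← Equiv.Perm.mul_apply, ← Equiv.Perm.mul_apply,
    ← map_mul, ← map_mul]
  congr 2
  apply Subtype.ext
  show (g : G) * ((g : G)⁻¹ * e * g) = (e : G) * g
  group

theorem PermCoord.act_mem_range {U U₀ : Subgroup G} {n : ℕ} (hn : Odd n) (hn3 : 3 ≤ n)
    (D : PermCoord p E U U₀ n) (g : ↥(secNorm U U₀)) (hg : (g : G) ∈ normalizer (E : Set G)) :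
    D.act g ∈ (permAct n).range := by
  refine exists_perm hn _ (D.act_additive g) hn3 fun r hr => ?_
  rw [← D.range_eq] at hr
  obtain ⟨e, rfl⟩ := hr
  let e' : ↥E := ⟨(g : G)⁻¹ * e * g, (mem_normalizer_iff''.mp hg _).mp e.2⟩
  refine ⟨D.ρ e', by rw [← D.range_eq]; exact ⟨e', rfl⟩, fun x => ?_⟩
  rw [← D.act_block e', ← D.act_block e, ← Equiv.Perm.mul_apply, ← Equiv.Perm.mul_apply,
    ← map_mul, ← map_mul]
  congr 2
  apply Subtype.ext
  show (g : G) * ((g : G)⁻¹ * e * g) = (e : G) * g
  group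

theorem modV_le_omega : modV p E ≤ omegaOneCenter p (pCoreOf p E) :=
  commutator_le_of_le_normalizer (le_normalizer.trans (H51.normalizer_le_normalizer_omegaCore E))

variable [Finite G] [hp : Fact p.Prime] {T : Subgroup G}

theorem normalizer_le_secNorm_module :
    normalizer (E : Set G) ≤ secNorm (modV p E) (modX p E) := by
  intro g hg
  refine ⟨H51.normalizer_le_normalizer_module E hg,
    inf_normalizer_le_normalizer_inf ⟨H51.normalizer_le_normalizer_module E hg, ?_⟩⟩
  show g ∈ normalizer (centralizer (E : Set G) : Set G)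
  rw [mem_normalizer_iff_map_conj_eq] at hg ⊢
  exact (H34.map_centralizer (MulAut.conj g) E).trans
    (by rw [show E.map (MulAut.conj g).toMonoidHom = E from hg])

theorem normalizer_le_secNorm_top :
    normalizer (E : Set G) ≤ secNorm (pCoreOf p E) (omegaOneCenter p (pCoreOf p E)) :=
  fun _ hg => ⟨H51.normalizer_le_normalizer_core E hg, H51.normalizer_le_normalizer_omegaCore E hg⟩

/-- `W = V Z` elementwise. -/
theorem exists_modV_mul (hE : IsBaumannBlock p T E) {w : G}
    (hw : w ∈ omegaOneCenter p (pCoreOf p E)) :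
    ∃ v ∈ modV p E, ∃ z ∈ omegaOneCenter p (pCoreOf p E) ⊓ centralizer (E : Set G), w = v * z := by
  haveI := (H51.omegaOneCenter_isElementaryAbelian (p := p) (pCoreOf p E)).1
  rw [← H51.block_module_decomp hE, ← SetLike.mem_coe, coe_mul_of_right_le_normalizer_left _ _ ?_] at hw
  · obtain ⟨v, hv, z, hz, rfl⟩ := hw
    exact ⟨v, hv, z, hz, rfl⟩
  · refine (inf_le_left.trans ?_).trans (centralizer_le_normalizer _)
    exact (le_centralizer_iff_isMulCommutative.mpr ‹_›).trans (centralizer_le modV_le_omega)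

theorem modV_commutator (hE : IsBaumannBlock p T E) : ⁅modV p E, E⁆ = modV p E := by
  refine le_antisymm (commutator_le_of_le_normalizer ?_) ?_
  · exact ((le_normalizer (H := E)).trans (normalizer_le_secNorm_module (p := p) (E := E))).trans inf_le_left
  · show ⁅omegaOneCenter p (pCoreOf p E), E⁆ ≤ _
    rw [commutator_le]
    intro w hw e he
    obtain ⟨v, hv, z, hz, rfl⟩ := exists_modV_mul hE hw
    have hze : e * z = z * e := mem_centralizer_iff.mp hz.2 e he
    have : ⁅v * z, e⁆ = ⁅v, e⁆ := by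
      simp only [commutatorElement_def, mul_inv_rev]
      calc v * z * e * (z⁻¹ * v⁻¹) * e⁻¹ = v * (z * e) * z⁻¹ * v⁻¹ * e⁻¹ := by group
        _ = v * (e * z) * z⁻¹ * v⁻¹ * e⁻¹ := by rw [hze]
        _ = v * e * v⁻¹ * e⁻¹ := by group
    rw [this]
    exact commutator_mem_commutator hv he

theorem mem_pCoreOf_iff (e : ↥E) : (e : G) ∈ pCoreOf p E ↔ e ∈ pCore p ↥E :=
  H51.mem_pCoreOf_iff' e

/-- Restriction of natural coordinates on `W/Z` to `[W, E]`. -/
theorem exists_sl2Coord (hE : IsBaumannBlock p T E) {F : Type*} [Field F]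
    (hcard : Nat.card (↥E ⧸ pCore p ↥E) = Nat.card (commutator (Matrix.SpecialLinearGroup (Fin 2) F)))
    (h : ActsAsSL2OnSection F (commutator (Matrix.SpecialLinearGroup (Fin 2) F)) E
      (omegaOneCenter p (pCoreOf p E)) (omegaOneCenter p (pCoreOf p E) ⊓ centralizer (E : Set G))) :
    Nonempty (SL2Coord p E (modV p E) (modX p E) F) := by
  obtain ⟨-, -, ρ, ψ, hρ, hψ, hker, hact⟩ := h
  have hQ : ∀ e : ↥E, e ∈ pCore p ↥E → ρ e = 1 := fun e he => by
    refine H51.section_sl2_trivial ρ ψ hψ hker hact e fun u => ?_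
    rw [← mem_centralizer_iff.mp (H51.core_le_centralizer_omega E ((mem_pCoreOf_iff e).mpr he))
      (u : G) u.2, mul_inv_cancel_right, mul_inv_cancel]
    exact one_mem _
  let C : Coord (modV p E) (modX p E) (Fin 2 → F) :=
    { ψ := ψ.comp (inclusion modV_le_omega)
      surj := fun m => by
        obtain ⟨⟨w, hw⟩, rfl⟩ := hψ m
        obtain ⟨v, hv, z, hz, rfl⟩ := exists_modV_mul hE hw
        refine ⟨⟨v, hv⟩, ?_⟩
        show ψ ⟨v, modV_le_omega hv⟩ = _
        rw [show (⟨v * z, hw⟩ : ↥(omegaOneCenter p (pCoreOf p E))) =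
          ⟨v, modV_le_omega hv⟩ * ⟨z, hz.1⟩ from rfl, map_mul, (hker ⟨z, hz.1⟩).mpr hz, mul_one]
      ker := fun u => by
        show ψ ⟨u, modV_le_omega u.2⟩ = 1 ↔ _
        rw [hker]
        exact ⟨fun h => ⟨u.2, h.2⟩, fun h => ⟨modV_le_omega h.1, h.2⟩⟩
      le := inf_le_left }
  refine ⟨{ toCoord := C, ρ := ρ, range_eq := hρ, ker_iff := fun e => ?_,
            normalizes := le_normalizer.trans normalizer_le_secNorm_module,
            equivariant := fun e u => ?_ }⟩
  · exact (H51.section_ker_eq ρ hQ (by rw [hρ, hcard]) e).trans (mem_pCoreOf_iff e).symm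
  · obtain ⟨w, hw, hwv⟩ := hact e ⟨u, modV_le_omega u.2⟩
    refine Eq.trans ?_ hwv
    show Multiplicative.toAdd (ψ _) = Multiplicative.toAdd (ψ w)
    congr 2
    exact Subtype.ext hw.symm

/-- Natural coordinates on `Q/W`. -/
theorem exists_sl2Coord_top (hE : IsBaumannBlock p T E) {F : Type*} [Field F]
    (hcard : Nat.card (↥E ⧸ pCore p ↥E) = Nat.card (commutator (Matrix.SpecialLinearGroup (Fin 2) F)))
    (h : ActsAsSL2OnSection F (commutator (Matrix.SpecialLinearGroup (Fin 2) F)) E
      (pCoreOf p E) (omegaOneCenter p (pCoreOf p E))) :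
    Nonempty (SL2Coord p E (pCoreOf p E) (omegaOneCenter p (pCoreOf p E)) F) := by
  obtain ⟨-, hle, ρ, ψ, hρ, hψ, hker, hact⟩ := h
  have hQ : ∀ e : ↥E, e ∈ pCore p ↥E → ρ e = 1 := fun e he => by
    refine H51.section_sl2_trivial ρ ψ hψ hker hact e fun u => ?_
    rw [← commutatorElement_def]
    exact (H51.block_core_comm_le hE (commutator_mem_commutator ((mem_pCoreOf_iff e).mpr he) u.2)).1
  let C : Coord (pCoreOf p E) (omegaOneCenter p (pCoreOf p E)) (Fin 2 → F) :=
    { ψ := ψ, surj := hψ, ker := hker, le := hle }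
  refine ⟨{ toCoord := C, ρ := ρ, range_eq := hρ, ker_iff := fun e => ?_,
            normalizes := le_normalizer.trans normalizer_le_secNorm_top,
            equivariant := fun e u => ?_ }⟩
  · exact (H51.section_ker_eq ρ hQ (by rw [hρ, hcard]) e).trans (mem_pCoreOf_iff e).symm
  · obtain ⟨w, hw, hwv⟩ := hact e u
    refine Eq.trans ?_ hwv
    show Multiplicative.toAdd (ψ _) = Multiplicative.toAdd (ψ w)
    congr 2
    exact Subtype.ext hw.symm

/-- Even-weight coordinates on `[W, E]`. -/
theorem exists_permCoord (hE : IsBaumannBlock p T E) {n : ℕ} (hn : Odd n) (hn3 : 3 ≤ n)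
    (hcard : Nat.card (↥E ⧸ pCore p ↥E) = Nat.card (alternatingGroup (Fin n)))
    (h : ActsAsOddPermModuleOnSection n (alternatingGroup (Fin n)) E
      (omegaOneCenter p (pCoreOf p E)) (omegaOneCenter p (pCoreOf p E) ⊓ centralizer (E : Set G))) :
    Nonempty (PermCoord p E (modV p E) (modX p E) n) := by
  obtain ⟨-, -, ρ, ψ, hρ, hsum, hsurj, hker, hact⟩ := h
  let ψ' : ↥(modV p E) →* Multiplicative (evenVec n) :=
    { toFun := fun u => Multiplicative.ofAdd
        ⟨Multiplicative.toAdd (ψ (inclusion modV_le_omega u)), hsum _⟩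
      map_one' := by simp
      map_mul' := fun u v => by
        apply Multiplicative.toAdd.injective
        apply Subtype.ext
        simp }
  let C : Coord (modV p E) (modX p E) (evenVec n) :=
    { ψ := ψ'
      surj := fun m => by
        obtain ⟨⟨w, hw⟩, hwm⟩ := hsurj (Multiplicative.toAdd m).1 (Multiplicative.toAdd m).2
        obtain ⟨v, hv, z, hz, rfl⟩ := exists_modV_mul hE hw
        refine ⟨⟨v, hv⟩, Multiplicative.toAdd.injective (Subtype.ext ?_)⟩
        show Multiplicative.toAdd (ψ ⟨v, modV_le_omega hv⟩) = _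
        rw [← hwm, show (⟨v * z, hw⟩ : ↥(omegaOneCenter p (pCoreOf p E))) =
          ⟨v, modV_le_omega hv⟩ * ⟨z, hz.1⟩ from rfl, map_mul, (hker ⟨z, hz.1⟩).mpr hz, mul_one]
      ker := fun u => by
        have h1 : ψ' u = 1 ↔ ψ (inclusion modV_le_omega u) = 1 := by
          constructor
          · intro h
            exact Multiplicative.toAdd.injective (congrArg (fun x => (Multiplicative.toAdd x).1) h)
          · intro h
            apply Multiplicative.toAdd.injective
            apply Subtype.ext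
            show Multiplicative.toAdd (ψ (inclusion modV_le_omega u)) = 0
            rw [h]; rfl
        rw [h1, hker]
        exact ⟨fun h => ⟨u.2, h.2⟩, fun h => ⟨modV_le_omega h.1, h.2⟩⟩
      le := inf_le_left }
  have hQ : ∀ e : ↥E, e ∈ pCore p ↥E → ρ e = 1 := fun e he => by
    refine permAct_injective hn (Equiv.ext fun x => ?_)
    obtain ⟨u, rfl⟩ := C.val_surj x
    rw [map_one, Equiv.Perm.one_apply]
    obtain ⟨w, hw, hwv⟩ := hact e (inclusion modV_le_omega u)
    have hwu : w = inclusion modV_le_omega u := by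
      apply Subtype.ext
      rw [hw]
      show (e : G) * u * (e : G)⁻¹ = u
      rw [← mem_centralizer_iff.mp (H51.core_le_centralizer_omega E ((mem_pCoreOf_iff e).mpr he))
        (u : G) (modV_le_omega u.2), mul_inv_cancel_right]
    rw [hwu] at hwv
    exact Subtype.ext (funext fun i => (hwv i).symm)
  refine ⟨{ toCoord := C, ρ := ρ, range_eq := hρ, ker_iff := fun e => ?_,
            normalizes := le_normalizer.trans normalizer_le_secNorm_module,
            equivariant := fun e u => ?_ }⟩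
  · exact (H51.section_ker_eq ρ hQ (by rw [hρ, hcard]) e).trans (mem_pCoreOf_iff e).symm
  · obtain ⟨w, hw, hwv⟩ := hact e (inclusion modV_le_omega u)
    refine Subtype.ext (funext fun i => Eq.trans ?_ (hwv i))
    exact congrFun (congrArg Multiplicative.toAdd (congrArg ψ (Subtype.ext hw.symm))) i

/-- The coordinates of a block. -/
theorem block_coords (hE : IsBaumannBlock p T E) :
    (∃ (F : Type) (_ : Field F) (_ : Finite F), CharP F p ∧
      Nonempty (SL2Coord p E (modV p E) (modX p E) F) ∧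
      (pCoreOf p E = modV p E ∨
        (p = 3 ∧ Nonempty (SL2Coord p E (pCoreOf p E) (omegaOneCenter p (pCoreOf p E)) F) ∧
          ⁅pCoreOf p E, pCoreOf p E⁆ = omegaOneCenter p (pCoreOf p E) ⊓ centralizer (E : Set G) ∧
          omegaOneCenter p (pCoreOf p E) ⊓ centralizer (E : Set G) ≠ ⊥ ∧
          ∀ b : G, b ∈ baumannSubgroupOf p T →
            b ∉ centralizer (omegaOneCenter p (pCoreOf p E) : Set G) →
            ¬ ⁅⁅pCoreOf p E, zpowers b⁆, zpowers b⁆ ≤
              omegaOneCenter p (pCoreOf p E) ⊓ centralizer (E : Set G)))) ∨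
    (p = 2 ∧ ∃ n, Odd n ∧ 3 ≤ n ∧ Nonempty (PermCoord p E (modV p E) (modX p E) n) ∧
      pCoreOf p E = modV p E) := by
  have hQV : pCoreOf p E = omegaOneCenter p (pCoreOf p E) → pCoreOf p E = modV p E := fun h => by
    rw [modV, ← h]; exact hE.2.2.1.symm
  rcases hE.2.2.2.2 with ⟨F, iF, iFin, n, hn, ⟨e₀⟩, hsec, htop⟩ | ⟨rfl, m, ⟨e₀⟩, hsec, hQW⟩
  · left
    have hn0 : n ≠ 0 := fun e => by
      have := Fintype.one_lt_card (α := F)
      rw [hn, e, pow_zero] at this
      omega
    haveI : CharP F p := charP_of_card_eq_prime_pow hn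
    refine ⟨F, iF, inferInstance, inferInstance, exists_sl2Coord hE (Nat.card_congr e₀.toEquiv) hsec, ?_⟩
    rcases htop with h | ⟨h3, hts, hQQ, -, hcen, hcard, hquad⟩
    · exact Or.inl (hQV h)
    · refine Or.inr ⟨h3, exists_sl2Coord_top hE (Nat.card_congr e₀.toEquiv) hts, hQQ, ?_, fun b hb hbc => ?_⟩
      · intro h
        rw [hcen, h, card_bot] at hcard
        exact absurd hcard.symm (by
          have := Nat.one_lt_pow hn0 (show 1 < 3 by norm_num)
          omega)
      · rw [← hcen]; exact hquad b hb hbc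
  · right
    have hm : m ≠ 0 := by
      rintro rfl
      refine H51.block_not_isPGroup hE
        ((pCore_isPGroup 2 ↥E).to_le (fun x _ => ?_) |>.of_equiv Subgroup.topEquiv)
      exact (QuotientGroup.eq_one_iff x).mp (e₀.injective (Subtype.ext (Equiv.ext fun i => Fin.ext (by omega))))
    exact ⟨rfl, 2 * m + 1, ⟨m, rfl⟩, by omega,
      exists_permCoord hE ⟨m, rfl⟩ (by omega) (Nat.card_congr e₀.toEquiv) hsec, hQV hQW⟩

end Block

end Cfsg.Agent.H68Block
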