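import Cfsg.Agent.H68.Block.Residual

/-!
Operators fixing the module of a block act trivially on the top layer.
-/

set_option autoImplicit false
set_option linter.style.haveILetI false
set_option linter.unusedSectionVars false

namespace Cfsg.Agent.H68Block

open Subgroup Cfsg
open H51 (IsSubnormalBlock commutator_le_of_le_normalizer)
open scoped commutatorElement Pointwise

variable {G : Type*} [Group G] [Finite G] {p : ℕ} [hp : Fact p.Prime] {T₀ E : Subgroup G}

/-- The top layer of a block. -/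
abbrev topQ (p : ℕ) (E : Subgroup G) : Subgroup G := pCoreOf p E

/-- The bottom of the top layer. -/
abbrev topW (p : ℕ) (E : Subgroup G) : Subgroup G := omegaOneCenter p (pCoreOf p E)

theorem core_acts_trivially_top (hE : IsBaumannBlock p T₀ E) {q u : G} (hq : q ∈ topQ p E)
    (hu : u ∈ topQ p E) : q * u * q⁻¹ * u⁻¹ ∈ topW p E := by
  rw [← commutatorElement_def]
  exact (H51.block_core_comm_le hE (commutator_mem_commutator hq hu)).1

/-- Operators fixing the module act on `Q/W` as scalars. -/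
theorem top_scalar (hE : IsBaumannBlock p T₀ E) {F : Type*} [Field F] [Finite F] [CharP F p]
    (hp2 : p ≠ 2) (D₂ : SL2Coord p E (topQ p E) (topW p E) F) {c : G}
    (hc : c ∈ normalizer (E : Set G)) (hcV : c ∈ centralizer (modV p E : Set G)) :
    ∃ a : F, ∀ x, D₂.act ⟨c, normalizer_le_secNorm_top hc⟩ x = a • x := by
  set g : ↥(secNorm (topQ p E) (topW p E)) := ⟨c, normalizer_le_secNorm_top hc⟩
  have hβ : CommutesDerived (AddMonoidHom.mk' (D₂.act g) (D₂.act_additive g)) := by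
    intro r hr x
    rw [← D₂.range_eq] at hr
    obtain ⟨e, rfl⟩ := hr
    show D₂.act g _ = _
    rw [← D₂.act_block e, ← D₂.act_block e, ← Equiv.Perm.mul_apply]
    show (D₂.act g * D₂.act ⟨e.1, D₂.normalizes e.2⟩) x = (D₂.act ⟨e.1, D₂.normalizes e.2⟩ * D₂.act g) x
    congr 1
    refine mul_inv_eq_one.mp ?_
    rw [← map_mul, ← map_mul, ← map_inv, ← map_mul, Coord.act_eq_one_iff]
    intro u hu
    have hq : c * e * c⁻¹ * (e : G)⁻¹ ∈ topQ p E := commutator_mem_core hE hc hcV e.2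
    have h1 := core_acts_trivially_top hE hq hu
    convert h1 using 1
    simp only [g, coe_mul, coe_inv, mul_inv_rev]
    group
  have ht : ∃ t : F, t ≠ 0 ∧ t ≠ 1 := ⟨-1, neg_ne_zero.mpr one_ne_zero, fun h => by
    have h2 : (2 : F) = 0 := by linear_combination (-1 : F) * h
    have h3 : ((2 : ℕ) : F) = 0 := by exact_mod_cast h2
    rw [CharP.cast_eq_zero_iff F p, Nat.prime_dvd_prime_iff_eq hp.out Nat.prime_two] at h3
    exact hp2 h3⟩
  obtain ⟨a, ha⟩ := (commutant_linear hβ).2 ht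
  exact ⟨a, ha⟩

/-- The Baumann subgroup acts linearly on `Q/W`. -/
theorem baumann_linear_top (hp2 : p ≠ 2) (T : Sylow p G) {E : Subgroup G}
    (hE : IsBaumannBlock p (T : Subgroup G) E)
    {F : Type} [Field F] [Finite F] [CharP F p] (D : SL2Coord p E (modV p E) (modX p E) F)
    (D₂ : SL2Coord p E (topQ p E) (topW p E) F) {b : G}
    (hb : b ∈ baumannSubgroupOf p (T : Subgroup G)) (hb₂ : b ∈ secNorm (topQ p E) (topW p E)) :
    IsLin (D₂.act ⟨b, hb₂⟩) := by
  have hbE : b ∈ normalizer (E : Set G) := H51.baumann_le_normalizer_of_commutator_eq hE.2.1 hb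
  have hlin : ∀ (hb' : b ∈ secNorm (modV p E) (modX p E)), IsLin (D.act ⟨b, hb'⟩) := fun hb' =>
    baumann_linear T hE D ⟨b, hb'⟩ hb
  by_cases h4 : ∃ x : F, x ≠ 0 ∧ x ^ 2 ≠ 1
  · obtain ⟨k, hk⟩ := exists_pow_eq_one_of_pgroup (H51.baumann_isPGroup T) hb
    have hbs := normalizer_le_secNorm_module (p := p) hbE
    obtain ⟨M, hM⟩ := exists_sl2_of_special
      (special_of_pgroup (D.act_additive ⟨b, hbs⟩) (hlin hbs) (act_pow_eq_one _ _ hk))
    haveI := Fintype.ofFinite F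
    have hMr : M ∈ D.ρ.range := by
      rw [D.range_eq, H1.commutator_SL_eq_top (ι := Fin 2) (F := F) (Or.inr h4)]
      trivial
    obtain ⟨e, he⟩ := hMr
    have hc : (e : G)⁻¹ * b ∈ centralizer (modV p E : Set G) := by
      refine trivial_on_top hE (mul_mem (inv_mem (le_normalizer e.2)) hbE) ?_
      refine (D.act_eq_one_iff (⟨e.1, D.normalizes e.2⟩⁻¹ * ⟨b, hbs⟩)).mp ?_
      rw [map_mul, map_inv, inv_mul_eq_one]
      exact Equiv.ext fun x => by rw [D.act_block e, he, hM]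
    obtain ⟨a, ha⟩ := top_scalar hE hp2 D₂ (mul_mem (inv_mem (le_normalizer e.2)) hbE) hc
    have heq : D₂.act ⟨b, hb₂⟩ = D₂.act ⟨e.1, D₂.normalizes e.2⟩ *
        D₂.act ⟨(e : G)⁻¹ * b, normalizer_le_secNorm_top (mul_mem (inv_mem (le_normalizer e.2)) hbE)⟩ := by
      rw [← map_mul]
      congr 1
      apply Subtype.ext
      show b = (e : G) * ((e : G)⁻¹ * b)
      group
    intro c x
    rw [heq, Equiv.Perm.mul_apply, Equiv.Perm.mul_apply, ha, ha, D₂.act_block, D₂.act_block,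
      Matrix.mulVec_smul, Matrix.mulVec_smul, Matrix.mulVec_smul, smul_comm]
  · push Not at h4
    haveI := Fintype.ofFinite F
    have hle : Fintype.card F ≤ 3 := by
      classical
      have hsub : (Finset.univ : Finset F) ⊆ {0, 1, -1} := fun x _ => by
        by_cases hx : x = 0
        · simp [hx]
        · rcases sq_eq_one_iff.mp (h4 x hx) with h | h <;> simp [h]
      have := (Finset.card_le_card hsub).trans Finset.card_le_three
      simpa using this
    refine isLin_of_prime (p := p) ?_ (D₂.act_additive _)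
    obtain ⟨n, -, hn⟩ := FiniteField.card F p
    rw [Nat.card_eq_fintype_card]
    have h1 : p ≤ p ^ (n : ℕ) := Nat.le_self_pow n.ne_zero p
    have h3 : 3 ≤ p := by have := hp.out.two_le; omega
    omega

set_option maxHeartbeats 1000000 in
/-- Operators fixing the module of an exceptional block fix `Q/W`. -/
theorem top_trivial_of_block {E : Subgroup G} (T : Sylow p G)
    (hT : IsBaumannBlock p (T : Subgroup G) E)
    {F : Type} [Field F] [Finite F] [CharP F p] (hp2 : p ≠ 2)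
    (D : SL2Coord p E (modV p E) (modX p E) F) (D₂ : SL2Coord p E (topQ p E) (topW p E) F)
    (hquad : ∀ b : G, b ∈ baumannSubgroupOf p (T : Subgroup G) →
      b ∉ centralizer (topW p E : Set G) →
      ¬ ⁅⁅topQ p E, zpowers b⁆, zpowers b⁆ ≤ topW p E ⊓ centralizer (E : Set G))
    {c : G} (hc : c ∈ normalizer (E : Set G)) (hcV : c ∈ centralizer (modV p E : Set G))
    {q : G} (hq : q ∈ topQ p E) : c * q * c⁻¹ * q⁻¹ ∈ topW p E := by
  set Q := topQ p E with hQdef
  set W := topW p E with hWdef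
  set Z := W ⊓ centralizer (E : Set G) with hZdef
  set C₀ := normalizer (E : Set G) ⊓ centralizer (modV p E : Set G) with hC₀
  set B := baumannSubgroupOf p (T : Subgroup G) with hB
  have hBE := H51.baumann_le_normalizer_of_commutator_eq hT.2.1
  have hNC : ∀ g ∈ normalizer (E : Set G), g ∈ normalizer (C₀ : Set G) := fun g hg =>
    inf_normalizer_le_normalizer_inf ⟨le_normalizer hg, by
      show g ∈ normalizer (centralizer (modV p E : Set G) : Set G)
      have : g ∈ normalizer (modV p E : Set G) := (normalizer_le_secNorm_module (p := p) hg).1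
      rw [mem_normalizer_iff_map_conj_eq] at this ⊢
      exact (H34.map_centralizer (MulAut.conj g) _).trans
        (by rw [show (modV p E).map (MulAut.conj g).toMonoidHom = modV p E from this])⟩
  let sN : ↥(normalizer (E : Set G)) →* Equiv.Perm (Fin 2 → F) :=
    D₂.act.comp (inclusion normalizer_le_secNorm_top)
  have hscal : ∀ g (hg : g ∈ C₀), ∃ a : F, ∀ x, sN ⟨g, hg.1⟩ x = a • x := fun g hg =>
    top_scalar hT hp2 D₂ hg.1 hg.2
  obtain ⟨a, ha⟩ := hscal c ⟨hc, hcV⟩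
  suffices h : a = 1 by
    refine (D₂.act_eq_one_iff ⟨c, normalizer_le_secNorm_top hc⟩).mp (Equiv.ext fun x => ?_) q hq
    show sN ⟨c, hc⟩ x = x
    rw [ha, h, one_smul]
  by_contra ha1
  have hpow : ∀ (g : ↥(normalizer (E : Set G))) (r : F), (∀ x, sN g x = r • x) → ∀ (i : ℕ) x,
      sN (g ^ i) x = r ^ i • x := by
    intro g r hr i
    induction i with
    | zero => intro x; rw [pow_zero, map_one, pow_zero, one_smul]; rfl
    | succ i ih =>
      intro x
      rw [pow_succ', map_mul, Equiv.Perm.mul_apply, ih, hr, smul_smul, ← pow_succ']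
  -- the kernel on the top layer
  set K₁ : Subgroup G := sN.ker.map (normalizer (E : Set G)).subtype with hK₁
  set K₀ : Subgroup G := C₀ ⊓ K₁ with hK₀
  have hNK₁ : ∀ g ∈ normalizer (E : Set G), g ∈ normalizer (K₁ : Set G) := by
    intro g hg
    refine H74.mem_normalizer_of_conj_mem ?_
    intro y hy
    obtain ⟨k, hk, rfl⟩ := mem_map.mp hy
    refine mem_map.mpr ⟨⟨g, hg⟩ * k * ⟨g, hg⟩⁻¹, ?_, ?_⟩
    · rw [MonoidHom.mem_ker] at hk ⊢
      rw [map_mul, map_mul, map_inv, hk, mul_one, mul_inv_cancel]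
    simp only [coe_subtype, coe_mul, coe_inv]
  have hNK : ∀ g ∈ normalizer (E : Set G), g ∈ normalizer (K₀ : Set G) := fun g hg =>
    inf_normalizer_le_normalizer_inf ⟨hNC g hg, hNK₁ g hg⟩
  have hcB : ∀ b ∈ B, c * b * c⁻¹ * b⁻¹ ∈ K₀ := by
    intro b hb
    have h0 : c * b * c⁻¹ * b⁻¹ ∈ normalizer (E : Set G) :=
      mul_mem (mul_mem (mul_mem hc (hBE hb)) (inv_mem hc)) (inv_mem (hBE hb))
    refine ⟨⟨h0, ?_⟩,
      ⟨⟨c, hc⟩ * ⟨b, hBE hb⟩ * ⟨c, hc⟩⁻¹ * ⟨b, hBE hb⟩⁻¹, ?_, rfl⟩⟩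
    · have h1 : b * c⁻¹ * b⁻¹ ∈ C₀ :=
        (mem_normalizer_iff.mp (hNC b (hBE hb)) _).mp (C₀.inv_mem (show c ∈ C₀ from ⟨hc, hcV⟩))
      have := C₀.mul_mem (show c ∈ C₀ from ⟨hc, hcV⟩) h1
      rw [show c * b * c⁻¹ * b⁻¹ = c * (b * c⁻¹ * b⁻¹) by group]
      exact this.2
    · rw [SetLike.mem_coe, MonoidHom.mem_ker, map_mul, map_inv, mul_inv_eq_one, map_mul, map_inv,
        mul_inv_eq_iff_eq_mul, map_mul]
      refine Equiv.ext fun x => ?_
      rw [Equiv.Perm.mul_apply, Equiv.Perm.mul_apply, ha, ha]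
      exact (baumann_linear_top hp2 T hT D D₂ hb
        (normalizer_le_secNorm_top (hBE hb)) a x).symm
  -- Frattini argument
  set L := B ⊔ K₀ with hL
  have hBp : IsPGroup p B := H51.baumann_isPGroup T
  set Bc := B.map (MulAut.conj c).toMonoidHom with hBc
  have hBcL : Bc ≤ L := by
    rintro _ ⟨b, hb, rfl⟩
    show c * b * c⁻¹ ∈ L
    rw [show c * b * c⁻¹ = (c * b * c⁻¹ * b⁻¹) * b by group]
    exact mul_mem (mem_sup_right (hcB b hb)) (mem_sup_left hb)
  obtain ⟨S, hS⟩ := (hBp.comap_subtype (K := L)).exists_le_sylow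
  obtain ⟨S', hS'⟩ := ((hBp.map (MulAut.conj c).toMonoidHom).comap_subtype (K := L)).exists_le_sylow
  obtain ⟨T₁, hT₁⟩ := S.exists_comap_subtype_eq
  obtain ⟨k, hk⟩ := MulAction.exists_smul_eq ↥L S' S
  have hBT₁ : B ≤ (T₁ : Subgroup G) := fun x hx => by
    have h1 : (⟨x, mem_sup_left hx⟩ : ↥L) ∈ (S : Subgroup ↥L) := hS hx
    rw [← hT₁] at h1
    exact h1
  have hkc : baumannSubgroupOf p ((((k : G) * c) • T : Sylow p G) : Subgroup G) ≤ (T₁ : Subgroup G) := by
    show baumannSubgroupOf p ((T : Subgroup G).map (MulAut.conj ((k : G) * c)).toMonoidHom) ≤ _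
    rw [← H51.map_baumannSubgroupOf]
    rintro _ ⟨x, hx, rfl⟩
    have hxL : c * x * c⁻¹ ∈ L := hBcL ⟨x, hx, rfl⟩
    have h1 : (⟨_, hxL⟩ : ↥L) ∈ (S' : Subgroup ↥L) := hS' ⟨x, hx, rfl⟩
    have h2 : k * ⟨_, hxL⟩ * k⁻¹ ∈ (S : Subgroup ↥L) := by
      rw [← hk]
      exact ⟨_, h1, rfl⟩
    rw [← hT₁] at h2
    show (k : G) * c * x * ((k : G) * c)⁻¹ ∈ _
    rw [show (k : G) * c * x * ((k : G) * c)⁻¹ = (k : G) * (c * x * c⁻¹) * (k : G)⁻¹ by group]
    exact h2
  have hkcB : B.map (MulAut.conj ((k : G) * c)).toMonoidHom = B := by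
    rw [H51.map_baumannSubgroupOf]
    exact (H51.baumann_eq_of_le (((k : G) * c) • T) T₁ hkc).trans
      (H51.baumann_eq_of_le T T₁ hBT₁).symm
  obtain ⟨kk, hkk⟩ : ∃ kk : G, kk = (k : G) := ⟨_, rfl⟩
  have hkL : kk ∈ ((B ⊔ K₀ : Subgroup G) : Set G) := hkk ▸ k.2
  rw [coe_mul_of_left_le_normalizer_right _ _ (fun x hx => hNK x (hBE hx))] at hkL
  obtain ⟨b₀, hb₀, k₀, hk₀, hkeq⟩ := hkL
  rw [hkk] at hkeq
  have hg₁ : k₀ * c ∈ normalizer (B : Set G) := by
    rw [show k₀ * c = b₀⁻¹ * ((k : G) * c) by rw [← hkeq]; group]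
    exact mul_mem (inv_mem (le_normalizer hb₀)) (mem_normalizer_iff_map_conj_eq.mpr hkcB)
  have hg₁C : k₀ * c ∈ C₀ := mul_mem hk₀.1 ⟨hc, hcV⟩
  have hg₁a : ∀ x, sN ⟨k₀ * c, hg₁C.1⟩ x = a • x := by
    intro x
    obtain ⟨k', hk', hk''⟩ := hk₀.2
    obtain rfl : k' = ⟨k₀, hk₀.1.1⟩ := Subtype.ext hk''
    rw [show (⟨k₀ * c, hg₁C.1⟩ : ↥(normalizer (E : Set G))) = ⟨k₀, hk₀.1.1⟩ * ⟨c, hc⟩ from rfl,
      map_mul, MonoidHom.mem_ker.mp hk', one_mul]
    exact ha x
  obtain ⟨r, hr⟩ := H51.exists_coprime_pow (p := p) (k₀ * c)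
  set g := (k₀ * c) ^ p ^ r with hg
  set a' := a ^ p ^ r with ha'
  have hgC : g ∈ C₀ := pow_mem hg₁C _
  have hgB : g ∈ normalizer (B : Set G) := pow_mem hg₁ _
  have hga : ∀ x, sN ⟨g, hgC.1⟩ x = a' • x := fun x => by
    rw [← hpow _ a hg₁a (p ^ r) x]
    rfl
  have ha'1 : a' ≠ 1 := fun h => ha1 (pow_prime_pow_eq_one (p := p) h)
  -- an element of `B` commuting with `g` moving the module
  obtain ⟨b, hb, hbg, hbV⟩ : ∃ b ∈ B, g * b = b * g ∧ b ∉ centralizer (modV p E : Set G) := by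
    have hcop : (Nat.card (zpowers g)).Coprime (Nat.card B) := by
      obtain ⟨j, hj⟩ := hBp.exists_card_eq
      rw [hj, Nat.card_zpowers]
      exact hr.pow_right j
    have hsolv : Group.IsSolvable (zpowers g) ∨ Group.IsSolvable B := by
      haveI := hBp.isNilpotent; exact Or.inr inferInstance
    have hsup := H20.commutator_sup_centralizer (zpowers_le.mpr hgB) hcop hsolv
    by_contra hno
    push Not at hno
    refine H51.block_commutator_moved T hT ?_
    rw [commutator_comm]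
    refine commutator_eq_bot_iff_le_centralizer.mpr
      ((H51.thompsonSubgroupOf_le_baumann _).trans ?_)
    show B ≤ _
    rw [← hsup]
    refine sup_le ?_ fun y hy => hno y hy.1 (mem_centralizer_iff.mp hy.2 g (mem_zpowers g))
    rw [commutator_le]
    intro y hy w hw
    have hwC : w ∈ C₀ := zpowers_le.mpr hgC hw
    have h1 : y * w * y⁻¹ ∈ C₀ := (mem_normalizer_iff.mp (hNC y (hBE hy)) w).mp hwC
    exact (mul_mem h1 (inv_mem hwC)).2
  have hbE := hBE hb
  have hVW : modV p E ≤ W := modV_le_omega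
  refine hquad b hb (fun h => hbV (centralizer_le hVW h)) ?_
  have hWc : ∀ w ∈ W, ∀ u ∈ Q, u * w = w * u := fun w hw u hu =>
    (mem_centralizer_iff.mp (H51.core_le_centralizer_omega E hu) w hw).symm
  obtain ⟨kb, hkb⟩ := exists_pow_eq_one_of_pgroup hBp hb
  have hbs := normalizer_le_secNorm_module (p := p) hbE
  have hgs := normalizer_le_secNorm_top (p := p) hgC.1
  have hbs₂ := normalizer_le_secNorm_top (p := p) hbE
  have hnZ : ∀ x ∈ normalizer (E : Set G), x ∈ normalizer (Z : Set G) := fun x hx =>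
    H51.normalizer_le_normalizer_omegaCore_fixed E hx
  -- the quotient `Q/Z`
  set Z' := Z.subgroupOf Q with hZ'
  haveI : Z'.Normal := ⟨fun n hn x => by
    rw [hZ', mem_subgroupOf] at hn ⊢
    rw [coe_mul, coe_mul, coe_inv, hWc _ hn.1 _ x.2, mul_inv_cancel_right]
    exact hn⟩
  letI : CommGroup (↥Q ⧸ Z') :=
    { (inferInstance : Group (↥Q ⧸ Z')) with
      mul_comm := fun u v => by
        induction u using QuotientGroup.induction_on with | _ u => ?_
        induction v using QuotientGroup.induction_on with | _ v => ?_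
        rw [← QuotientGroup.mk_mul, ← QuotientGroup.mk_mul, QuotientGroup.eq, hZ', mem_subgroupOf]
        have := H51.block_core_comm_le hT (commutator_mem_commutator (inv_mem v.2) (inv_mem u.2))
        simpa [hZdef, hWdef, hQdef, mem_inf, commutatorElement_def, mul_assoc] using this }
  let cjQ : ∀ x ∈ normalizer (E : Set G), ↥Q →* ↥Q := fun x hx =>
    { toFun := fun u => ⟨x * u * x⁻¹, (mem_normalizer_iff.mp (normalizer_le_secNorm_top hx).1 _).mp u.2⟩
      map_one' := Subtype.ext (by simp)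
      map_mul' := fun u v => Subtype.ext (by simp only [coe_mul]; group) }
  let cj : ∀ x ∈ normalizer (E : Set G), (↥Q ⧸ Z') →* (↥Q ⧸ Z') := fun x hx =>
    QuotientGroup.map Z' Z' (cjQ x hx) fun u hu => by
      rw [mem_comap, hZ', mem_subgroupOf]
      rw [hZ', mem_subgroupOf] at hu
      exact (mem_normalizer_iff.mp (hnZ x hx) _).mp hu
  set β := cj b hbE with hβ
  set τ := cj g hgC.1 with hτ
  have hcomm : ∀ n, β (τ n) = τ (β n) := by
    intro n
    induction n using QuotientGroup.induction_on with | _ u => ?_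
    simp only [hβ, hτ, cj, QuotientGroup.map_mk]
    congr 1
    apply Subtype.ext
    show b * (g * u * g⁻¹) * b⁻¹ = g * (b * u * b⁻¹) * g⁻¹
    calc b * (g * u * g⁻¹) * b⁻¹ = (b * g) * u * (b * g)⁻¹ := by group
      _ = (g * b) * u * (g * b)⁻¹ := by rw [hbg]
      _ = g * (b * u * b⁻¹) * g⁻¹ := by group
  have hDval : ∀ u : ↥Q, β (u : ↥Q ⧸ Z') / (u : ↥Q ⧸ Z') =
      ((⟨b * u * b⁻¹ * (u : G)⁻¹, mul_mem ((mem_normalizer_iff.mp hbs₂.1 _).mp u.2) (inv_mem u.2)⟩ : ↥Q) :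
        ↥Q ⧸ Z') := by
    intro u
    rw [div_eq_mul_inv]
    rfl
  set D' : (↥Q ⧸ Z') →* (↥Q ⧸ Z') := β / MonoidHom.id _ with hD'
  have hD'app : ∀ n, D' n = β n / n := fun n => rfl
  -- on `W` the square of `D'` vanishes
  have hDW : ∀ u : ↥Q, (u : G) ∈ W → D' (D' u) = 1 := by
    intro u hu
    obtain ⟨v, hv, z, hz, hvz⟩ := exists_modV_mul hT hu
    have hvQ : v ∈ Q := H51.omega_le_core E (hVW hv)
    have hz1 : ((⟨z, H51.omega_le_core E hz.1⟩ : ↥Q) : ↥Q ⧸ Z') = 1 :=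
      (QuotientGroup.eq_one_iff _).mpr (by rw [hZ', mem_subgroupOf]; exact hz)
    rw [show u = ⟨v, hvQ⟩ * ⟨z, H51.omega_le_core E hz.1⟩ from Subtype.ext hvz, QuotientGroup.mk_mul,
      map_mul, map_mul, hz1, map_one, map_one, mul_one, hD'app, hD'app, hDval, hDval]
    refine (QuotientGroup.eq_one_iff _).mpr ?_
    rw [hZ', mem_subgroupOf]
    have h2 := quadratic_of_linear D.toCoord ⟨b, hbs⟩ (baumann_linear T hT D ⟨b, hbs⟩ hb) hkb hv
    exact ⟨hVW h2.1, h2.2⟩
  have hDQ : ∀ u : ↥Q, ∃ w : ↥Q, (w : G) ∈ W ∧ D' (D' u) = w := by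
    intro u
    rw [hD'app (u : ↥Q ⧸ Z'), hDval, hD'app, hDval]
    exact ⟨_, quadratic_of_linear D₂.toCoord ⟨b, hbs₂⟩
      (baumann_linear_top hp2 T hT D D₂ hb hbs₂) hkb u.2, rfl⟩
  have hτW : ∀ w : ↥Q, (w : G) ∈ W → τ w = w := by
    intro w hw
    obtain ⟨v, hv, z, hz, hvz⟩ := exists_modV_mul hT hw
    rw [hτ]
    simp only [cj, QuotientGroup.map_mk]
    refine QuotientGroup.eq.mpr ?_
    rw [hZ', mem_subgroupOf]
    show (g * w * g⁻¹)⁻¹ * (w : G) ∈ Z
    rw [hvz, show (g * (v * z) * g⁻¹)⁻¹ * (v * z) =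
      (g * z⁻¹ * g⁻¹) * (g * v * g⁻¹)⁻¹ * v * z by group]
    rw [← mem_centralizer_iff.mp hgC.2 v hv]
    convert mul_mem ((mem_normalizer_iff.mp (hnZ g hgC.1) _).mp (inv_mem hz)) hz using 1
    group
  have hall : ∀ u : ↥Q, D' (D' u) = 1 := by
    intro u
    obtain ⟨u₀, hu₀⟩ := D₂.val_surj ((a' - 1)⁻¹ • D₂.val u)
    set t : ↥Q := ⟨g * u₀ * g⁻¹ * (u₀ : G)⁻¹,
      mul_mem ((mem_normalizer_iff.mp hgs.1 _).mp u₀.2) (inv_mem u₀.2)⟩ with ht
    have hval : D₂.val t = D₂.val u := by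
      have h1 : D₂.val (Coord.conjU ⟨g, hgs⟩ u₀) = D₂.val t + D₂.val u₀ := by
        rw [← Coord.val_mul]
        congr 1
        apply Subtype.ext
        show g * u₀ * g⁻¹ = g * u₀ * g⁻¹ * (u₀ : G)⁻¹ * u₀
        group
      rw [← Coord.act_apply] at h1
      change sN ⟨g, hgC.1⟩ (D₂.val u₀) = _ at h1
      rw [hga, hu₀] at h1
      have h2 : D₂.val t = (a' - 1) • ((a' - 1)⁻¹ • D₂.val u) := by
        rw [sub_smul, one_smul]; exact eq_sub_of_add_eq h1.symm
      rw [h2, smul_inv_smul₀ (sub_ne_zero.mpr ha'1)]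
    obtain ⟨w, hwW, hwu⟩ : ∃ w : ↥Q, (w : G) ∈ W ∧ u = t * w := by
      refine ⟨t⁻¹ * u, ?_, by group⟩
      have h3 := (D₂.val_eq_iff u t).mp hval.symm
      have h4 : (t : G)⁻¹ * u = (t : G)⁻¹ * ((u : G) * (t : G)⁻¹) * t := by group
      rw [coe_mul, coe_inv, h4, hWc _ h3 _ (inv_mem t.2), inv_mul_cancel_right]
      exact h3
    rw [hwu, QuotientGroup.mk_mul, map_mul, map_mul, hDW w hwW, mul_one]
    have htq : (t : ↥Q ⧸ Z') = τ u₀ / (u₀ : ↥Q ⧸ Z') := by rw [div_eq_mul_inv]; rfl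
    obtain ⟨w', hw'W, hw'⟩ := hDQ u₀
    have hDτ : ∀ n, D' (τ n) = τ (D' n) := fun n => by
      rw [hD'app, hD'app, map_div, hcomm]
    rw [htq, map_div, map_div, hDτ, hDτ, hw', hτW w' hw'W, div_self']
  refine quadratic_zpowers hbs₂.1 (hnZ b hbE) (fun z hz u hu => hWc z hz.1 u hu) fun u hu => ?_
  have := hall ⟨u, hu⟩
  rw [hD'app ((⟨u, hu⟩ : ↥Q) : ↥Q ⧸ Z'), hDval, hD'app, hDval, QuotientGroup.eq_one_iff, hZ', mem_subgroupOf] at this
  exact this

variable (hG : centralizer (pCore p G : Set G) ≤ pCore p G)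
include hG

/-- Operators fixing the module of an exceptional subnormal block fix `Q/W`. -/
theorem top_trivial {E : Subgroup G} (hE : IsSubnormalBlock p E) (T : Sylow p G)
    {F : Type} [Field F] [Finite F] [CharP F p] (hp2 : p ≠ 2)
    (D : SL2Coord p E (modV p E) (modX p E) F) (D₂ : SL2Coord p E (topQ p E) (topW p E) F)
    (hquad : ∀ b : G, b ∈ baumannSubgroupOf p (T : Subgroup G) →
      b ∉ centralizer (topW p E : Set G) →
      ¬ ⁅⁅topQ p E, zpowers b⁆, zpowers b⁆ ≤ topW p E ⊓ centralizer (E : Set G))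
    {c : G} (hc : c ∈ normalizer (E : Set G)) (hcV : c ∈ centralizer (modV p E : Set G))
    {q : G} (hq : q ∈ topQ p E) : c * q * c⁻¹ * q⁻¹ ∈ topW p E :=
  top_trivial_of_block T (isBaumannBlock_all hG hE T) hp2 D D₂ hquad hc hcV hq

/-- Operators of order prime to `p` fixing the module of a subnormal block fix its core. -/
theorem fixes_core_of_fixes_module {E : Subgroup G} (hE : IsSubnormalBlock p E) (T : Sylow p G)
    {c : G} (hc : c ∈ normalizer (E : Set G)) (hcV : c ∈ centralizer (modV p E : Set G))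
    (hcop : (orderOf c).Coprime p) : ∀ q ∈ pCoreOf p E, c * q * c⁻¹ = q := by
  have hT := isBaumannBlock_all hG hE T
  have hV : ∀ v ∈ modV p E, c * v * c⁻¹ = v := fun v hv => by
    rw [← mem_centralizer_iff.mp hcV v hv, mul_inv_cancel_right]
  rcases block_coords hT with ⟨K, iK, iFin, iC, ⟨D⟩, h | ⟨h3, ⟨D₂⟩, -, -, hquad⟩⟩ | ⟨rfl, n, -, -, -, h⟩
  · exact fun q hq => hV q (h.le hq)
  · exact H51.fixes_core hT hcop hV fun q hq =>
      top_trivial hG hE T (by omega) D D₂ hquad hc hcV hq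
  · exact fun q hq => hV q (h.le hq)

end Cfsg.Agent.H68Block
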