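import Cfsg.Agent.H68.Block.Module

/-!
Splitting of the module of a block: quotient of order three and alternating quotients.
-/

set_option autoImplicit false
set_option linter.style.haveILetI false
set_option linter.unusedSectionVars false

namespace Cfsg.Agent.H68Block

open Subgroup Cfsg
open H51 (commutator_le_of_le_normalizer)
open scoped commutatorElement

variable {G : Type*} [Group G] [Finite G] {p : ℕ} [hp : Fact p.Prime] {T E : Subgroup G}

/-- The module splits if `E` is generated modulo its core by one element of order prime to `p`. -/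
theorem modX_eq_bot_of_cyclic (hE : IsBaumannBlock p T E) {g : G} (hg : g ∈ E)
    (hgc : (orderOf g).Coprime p) (hgen : ∀ e ∈ E, ∃ k : ℕ, e * (g ^ k)⁻¹ ∈ pCoreOf p E) :
    modX p E = ⊥ := by
  haveI := (modV_isElementaryAbelian p E).1
  have hgV : zpowers g ≤ normalizer (modV p E : Set G) :=
    (zpowers_le.mpr hg).trans ((le_normalizer (H := E)).trans
      (normalizer_le_secNorm_module.trans inf_le_left))
  have hcop : (Nat.card (zpowers g)).Coprime (Nat.card (modV p E)) := by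
    obtain ⟨k, hk⟩ :=
      (H34.IsPGroup_of_isElementaryAbelian (modV_isElementaryAbelian p E)).exists_card_eq
    rw [hk, Nat.card_zpowers]
    exact hgc.pow_right k
  obtain ⟨hinf, -⟩ := H20.abelian_decomposition hgV hcop
  have hle : modV p E ≤ ⁅modV p E, zpowers g⁆ := by
    conv_lhs => rw [← modV_commutator hE]
    rw [commutator_le]
    intro v hv e he
    obtain ⟨k, hk⟩ := hgen e he
    obtain ⟨q, hq, rfl⟩ : ∃ q ∈ pCoreOf p E, e = q * g ^ k := ⟨_, hk, by group⟩
    have hc : ⁅v, g ^ k⁆ ∈ ⁅modV p E, zpowers g⁆ :=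
      commutator_mem_commutator hv (pow_mem (mem_zpowers g) k)
    have hcV : ⁅v, g ^ k⁆ ∈ modV p E := commutator_le_of_le_normalizer hgV hc
    have h1 := core_centralizes_modV hq hv
    have h2 := core_centralizes_modV hq hcV
    have : ⁅v, q * g ^ k⁆ = ⁅v, g ^ k⁆ := by
      rw [show ⁅v, q * g ^ k⁆ = (v * q * v⁻¹ * q⁻¹) * (q * ⁅v, g ^ k⁆ * q⁻¹) from by
        simp only [commutatorElement_def]; group, h2, ← h1]
      group
    rw [this]
    exact hc
  refine le_bot_iff.mp (le_trans ?_ hinf.le)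
  exact le_inf (inf_le_inf_left _ (centralizer_le (zpowers_le.mpr hg))) (inf_le_left.trans hle)

/-- Elements of a group of order three. -/
theorem exists_pow_eq_of_card_three {H : Type*} [Group H] {R : Subgroup H} (hR : Nat.card R = 3)
    {r : H} (hr : r ∈ R) (hr1 : r ≠ 1) {x : H} (hx : x ∈ R) : ∃ k : ℕ, r ^ k = x := by
  haveI : Fact (Nat.Prime 3) := ⟨Nat.prime_three⟩
  haveI : Finite R := Nat.finite_of_card_ne_zero (by omega)
  have h := zpowers_eq_top_of_prime_card hR (g := (⟨r, hr⟩ : R))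
    (fun h => hr1 (congrArg Subtype.val h))
  have h2 : (⟨x, hx⟩ : R) ∈ zpowers (⟨r, hr⟩ : R) := h ▸ mem_top _
  obtain ⟨k, hk⟩ := (isOfFinOrder_of_finite (⟨r, hr⟩ : R)).mem_powers_iff_mem_zpowers.mpr h2
  exact ⟨k, by simpa using congrArg Subtype.val hk⟩

/-- The module splits when the quotient has order three. -/
theorem modX_eq_bot_of_card_three (hE : IsBaumannBlock p T E) (hp3 : p ≠ 3) {H : Type*} [Group H]
    (ρ : ↥E →* H) (hker : ∀ e : ↥E, ρ e = 1 ↔ (e : G) ∈ pCoreOf p E)
    (hcard : Nat.card ρ.range = 3) : modX p E = ⊥ := by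
  obtain ⟨e, he⟩ : ∃ e : ↥E, ρ e ≠ 1 := by
    by_contra hno
    push Not at hno
    have : ρ.range = ⊥ := MonoidHom.range_eq_bot_iff.mpr (MonoidHom.ext hno)
    rw [this, card_bot] at hcard
    omega
  obtain ⟨a, ha⟩ := H51.exists_coprime_pow (p := p) e
  have h3 : ρ e ^ 3 = 1 := by
    have := pow_card_eq_one' (G := ρ.range) (x := ⟨ρ e, e, rfl⟩)
    rw [hcard] at this
    simpa using congrArg Subtype.val this
  have hne : ρ (e ^ p ^ a) ≠ 1 := by
    intro h
    rw [map_pow] at h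
    have hc : (p ^ a).Coprime 3 :=
      Nat.Coprime.pow_left a ((Nat.coprime_primes hp.out Nat.prime_three).mpr hp3)
    have := pow_gcd_eq_one.2 ⟨h, h3⟩
    rw [hc.gcd_eq_one, pow_one] at this
    exact he this
  refine modX_eq_bot_of_cyclic hE (e ^ p ^ a : ↥E).2 (by rwa [orderOf_coe]) fun x hx => ?_
  obtain ⟨k, hk⟩ := exists_pow_eq_of_card_three hcard ⟨_, rfl⟩ hne ⟨⟨x, hx⟩, rfl⟩
  refine ⟨k, ?_⟩
  have := (hker (⟨x, hx⟩ * ((e ^ p ^ a) ^ k)⁻¹)).mp (by
    rw [map_mul, map_inv, map_pow _ _ k, hk, mul_inv_cancel])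
  simpa using this

/-- The natural module of the derived group over two elements has a quotient of order three. -/
theorem card_derived_sl2_two {F : Type*} [Field F] [Finite F] (hF : Nat.card F = 2)
    (R : Subgroup (Matrix.SpecialLinearGroup (Fin 2) F))
    (hR : R = commutator (Matrix.SpecialLinearGroup (Fin 2) F)) : Nat.card R = 3 := by
  haveI := Fintype.ofFinite F
  haveI : Fact (Nat.Prime 2) := ⟨Nat.prime_two⟩
  let σ : F ≃+* ZMod 2 := (ZMod.ringEquivOfPrime F Nat.prime_two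
    (by rw [← Nat.card_eq_fintype_card, hF])).symm
  rw [hR, H51.card_derived_sl2_congr σ]
  set D := commutator (Matrix.SpecialLinearGroup (Fin 2) (ZMod 2)) with hD
  obtain ⟨g, h, hg, hh, eg, -⟩ := mem_commutator_pair (1 : ZMod 2)
  have hgne : g ≠ 1 := by
    intro e
    rw [e] at eg
    exact absurd (congrFun (congrFun eg 0) 1) (by simp)
  have h3 : ∀ x ∈ D, x ^ 3 = 1 := fun x hx => (H51.sl2_two_derived hx hx).1
  have hord : orderOf g = 3 :=
    haveI : Fact (Nat.Prime 3) := ⟨Nat.prime_three⟩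
    orderOf_eq_prime (h3 g hg) hgne
  have hge : 3 ≤ Nat.card D := hord ▸ Nat.le_of_dvd Nat.card_pos (D.orderOf_dvd_natCard hg)
  have hle : Nat.card D ≤ Nat.card {x : Matrix.SpecialLinearGroup (Fin 2) (ZMod 2) // x ^ 3 = 1} :=
    Nat.card_le_card_of_injective (fun x => ⟨x.1, h3 _ x.2⟩) fun a b h => Subtype.ext (by simpa using h)
  have : Nat.card {x : Matrix.SpecialLinearGroup (Fin 2) (ZMod 2) // x ^ 3 = 1} = 3 := by
    rw [Nat.card_eq_fintype_card]; decide +kernel
  omega

section Perm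

/-- The vector supported by two letters. -/
def pairVec {n : ℕ} (i j : Fin n) : evenVec n :=
  ⟨Pi.single i 1 + Pi.single j 1, by
    show ∑ t, (Pi.single i (1 : ZMod 2) + Pi.single j 1 : Fin n → ZMod 2) t = 0
    simp only [Pi.add_apply, Finset.sum_add_distrib, Fintype.sum_pi_single']
    decide⟩

theorem permAct_pairVec {n : ℕ} (σ : Equiv.Perm (Fin n)) (i j : Fin n) :
    permAct n σ (pairVec i j) = pairVec (σ i) (σ j) := by
  refine Subtype.ext (funext fun t => ?_)
  rw [permAct_apply]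
  have e : ∀ x y : Fin n, Pi.single (M := fun _ => ZMod 2) x 1 (σ⁻¹ y) =
      Pi.single (M := fun _ => ZMod 2) (σ x) 1 y := by
    intro x y
    by_cases h : σ⁻¹ y = x
    · subst h; simp
    · rw [Pi.single_eq_of_ne h, Pi.single_eq_of_ne (fun e => h (by rw [e]; simp))]
  show Pi.single (M := fun _ => ZMod 2) i 1 (σ⁻¹ t) + Pi.single (M := fun _ => ZMod 2) j 1 (σ⁻¹ t) =
    Pi.single (M := fun _ => ZMod 2) (σ i) 1 t + Pi.single (M := fun _ => ZMod 2) (σ j) 1 t
  rw [e, e]

theorem pairVec_add {n : ℕ} (i j k : Fin n) : pairVec j k + pairVec i j = pairVec i k := by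
  refine Subtype.ext (funext fun t => ?_)
  show Pi.single (M := fun _ => ZMod 2) j 1 t + Pi.single (M := fun _ => ZMod 2) k 1 t +
      (Pi.single (M := fun _ => ZMod 2) i 1 t + Pi.single (M := fun _ => ZMod 2) j 1 t) =
    Pi.single (M := fun _ => ZMod 2) i 1 t + Pi.single (M := fun _ => ZMod 2) k 1 t
  generalize Pi.single (M := fun _ => ZMod 2) i 1 t = a
  generalize Pi.single (M := fun _ => ZMod 2) j 1 t = b
  generalize Pi.single (M := fun _ => ZMod 2) k 1 t = c
  revert a b c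
  decide

/-- The three cycle `(i j k)`. -/
def triple {n : ℕ} (i j k : Fin n) : Equiv.Perm (Fin n) := Equiv.swap i j * Equiv.swap j k

theorem triple_mem {n : ℕ} {i j k : Fin n} (hij : i ≠ j) (hjk : j ≠ k) :
    triple i j k ∈ alternatingGroup (Fin n) := by
  rw [triple, Equiv.Perm.mem_alternatingGroup, map_mul, Equiv.Perm.sign_swap hij,
    Equiv.Perm.sign_swap hjk]
  decide

theorem triple_apply {n : ℕ} {i j k : Fin n} (hij : i ≠ j) (hik : i ≠ k) (hjk : j ≠ k) :
    triple i j k i = j ∧ triple i j k j = k ∧ triple i j k k = i ∧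
      ∀ t, t ≠ i → t ≠ j → t ≠ k → triple i j k t = t := by
  refine ⟨?_, ?_, ?_, fun t h1 h2 h3 => ?_⟩ <;> simp only [triple, Equiv.Perm.mul_apply]
  · rw [Equiv.swap_apply_of_ne_of_ne hij hik, Equiv.swap_apply_left]
  · rw [Equiv.swap_apply_left, Equiv.swap_apply_of_ne_of_ne hik.symm hjk.symm]
  · rw [Equiv.swap_apply_right, Equiv.swap_apply_right]
  · rw [Equiv.swap_apply_of_ne_of_ne h2 h3, Equiv.swap_apply_of_ne_of_ne h1 h2]

theorem conj_triple {n : ℕ} (σ : Equiv.Perm (Fin n)) (i j k : Fin n) :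
    σ * triple i j k * σ⁻¹ = triple (σ i) (σ j) (σ k) := by
  rw [triple, triple, show σ * (Equiv.swap i j * Equiv.swap j k) * σ⁻¹ =
    (σ * Equiv.swap i j * σ⁻¹) * (σ * Equiv.swap j k * σ⁻¹) by group]
  have e : ∀ x y : Fin n, σ * Equiv.swap x y * σ⁻¹ = Equiv.swap (σ x) (σ y) := fun x y => by
    rw [Equiv.mul_swap_eq_swap_mul, mul_inv_cancel_right]
  rw [e, e]

theorem exists_third {n : ℕ} (s : Finset (Fin n)) (h : s.card < n) : ∃ a, a ∉ s := by
  by_contra hno
  push Not at hno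
  have : Finset.univ ⊆ s := fun a _ => hno a
  have := Finset.card_le_card this
  rw [Finset.card_univ, Fintype.card_fin] at this
  omega

/-- The even-weight module of degree at least five splits. -/
theorem modX_eq_bot_of_perm [Fact (Nat.Prime 2)] {T E : Subgroup G} (hE : IsBaumannBlock 2 T E)
    {n : ℕ} (hn : Odd n) (hn5 : 5 ≤ n) (D : PermCoord 2 E (modV 2 E) (modX 2 E) n) :
    modX 2 E = ⊥ := by
  classical
  set V := modV 2 E with hV
  have hVel : IsElementaryAbelian 2 V := modV_isElementaryAbelian 2 E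
  haveI := hVel.1
  letI : CommGroup ↥V := { (inferInstance : Group ↥V) with mul_comm := fun a b => mul_comm' a b }
  let cj : ↥E → ↥V → ↥V := fun e u => Coord.conjU ⟨e.1, D.normalizes e.2⟩ u
  have hcval : ∀ e u, D.val (cj e u) = permAct n (D.ρ e) (D.val u) := D.equivariant
  have hcmul : ∀ e u v, cj e (u * v) = cj e u * cj e v := fun e u v => Subtype.ext (by
    show (e : G) * ((u * v : ↥V) : G) * (e : G)⁻¹ = (e : G) * u * (e : G)⁻¹ * ((e : G) * v * (e : G)⁻¹)
    rw [coe_mul]; group)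
  have hcinv : ∀ e u, cj e u⁻¹ = (cj e u)⁻¹ := fun e u =>
    map_inv (MonoidHom.mk' (cj e) (hcmul e)) u
  have hccomp : ∀ e f u, cj (e * f) u = cj e (cj f u) := fun e f u => Subtype.ext (by
    show ((e * f : ↥E) : G) * u * ((e * f : ↥E) : G)⁻¹ =
      (e : G) * ((f : G) * u * (f : G)⁻¹) * (e : G)⁻¹
    rw [coe_mul]; group)
  have hfixX : ∀ (e : ↥E) (x : ↥V), (x : G) ∈ modX 2 E → cj e x = x := fun e x hx =>
    Subtype.ext (by
      show (e : G) * x * (e : G)⁻¹ = x
      rw [conj_modX_fixed hx e.2, mul_inv_cancel_right])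
  have hXmul : ∀ u v : ↥V, D.val u = D.val v → ∃ x : ↥V, (x : G) ∈ modX 2 E ∧ u = x * v :=
    fun u v h => ⟨u * v⁻¹, by simpa using (D.val_eq_iff u v).mp h, by group⟩
  -- actions depend only on the permutation
  have hsame : ∀ e f : ↥E, D.ρ e = D.ρ f → ∀ u, cj e u = cj f u := by
    intro e f h u
    have hq : ((f⁻¹ * e : ↥E) : G) ∈ pCoreOf 2 E :=
      (D.ker_iff _).mp (by rw [map_mul, map_inv, h, inv_mul_cancel])
    have h1 : cj (f⁻¹ * e) u = u := Subtype.ext (by
      show ((f⁻¹ * e : ↥E) : G) * u * ((f⁻¹ * e : ↥E) : G)⁻¹ = u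
      rw [core_centralizes_modV hq u.2, mul_inv_cancel_right])
    rw [← mul_inv_cancel_left f e, hccomp, h1]
  have hreal : ∀ σ ∈ alternatingGroup (Fin n), ∃ e, D.ρ e = σ := fun σ hσ => by
    rw [← D.range_eq] at hσ; exact hσ
  choose! g hg using hreal
  -- lifts of the pair vectors
  let K : Fin n → Fin n → Fin n → ↥V := fun i j k =>
    cj (g (triple i j k)) (D.lift (pairVec i j)) * (D.lift (pairVec i j))⁻¹
  have hK : ∀ {i j k : Fin n}, i ≠ j → i ≠ k → j ≠ k → ∀ (e : ↥E), D.ρ e = triple i j k →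
      ∀ u, D.val u = pairVec i j → cj e u * u⁻¹ = K i j k := by
    intro i j k hij hik hjk e he u hu
    obtain ⟨x, hx, rfl⟩ := hXmul u (D.lift (pairVec i j)) (by rw [hu, D.val_lift])
    rw [hcmul, hfixX e x hx, hsame e (g (triple i j k)) (by rw [he, hg _ (triple_mem hij hjk)])]
    simp only [K]
    generalize cj (g (triple i j k)) (D.lift (pairVec i j)) = a
    generalize D.lift (pairVec i j) = b
    rw [mul_inv x b, mul_mul_mul_comm, mul_inv_cancel, one_mul]
  have hKval : ∀ {i j k : Fin n}, i ≠ j → i ≠ k → j ≠ k → D.val (K i j k) = pairVec i k := by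
    intro i j k hij hik hjk
    obtain ⟨t1, t2, -, -⟩ := triple_apply hij hik hjk
    have hinv : ∀ u : ↥V, u⁻¹ = u := fun u => inv_eq_of_mul_eq_one_right (Subtype.ext (by
      rw [← sq]; exact hVel.2 _ u.2))
    simp only [K]
    rw [hinv, D.val_mul, hcval, hg _ (triple_mem hij hjk), D.val_lift, permAct_pairVec, t1, t2,
      pairVec_add]
  have hKequiv : ∀ (e : ↥E) {i j k : Fin n}, i ≠ j → i ≠ k → j ≠ k →
      cj e (K i j k) = K (D.ρ e i) (D.ρ e j) (D.ρ e k) := by
    intro e i j k hij hik hjk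
    have hinj := (D.ρ e).injective
    show cj e (cj (g (triple i j k)) (D.lift (pairVec i j)) * (D.lift (pairVec i j))⁻¹) = _
    rw [hcmul, hcinv]
    rw [← hK (hinj.ne hij) (hinj.ne hik) (hinj.ne hjk) (e * g (triple i j k) * e⁻¹) (by
      rw [map_mul, map_mul, map_inv, hg _ (triple_mem hij hjk), conj_triple])
      (cj e (D.lift (pairVec i j))) (by rw [hcval, D.val_lift, permAct_pairVec])]
    rw [← hccomp, ← hccomp]
    group
  have hindep : ∀ {i j j' k : Fin n}, i ≠ j → i ≠ k → j ≠ k → i ≠ j' → j' ≠ k →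
      K i j k = K i j' k := by
    intro i j j' k hij hik hjk hij' hj'k
    by_cases hjj : j = j'
    · rw [hjj]
    obtain ⟨a, ha⟩ := exists_third {i, j, j', k} (lt_of_le_of_lt (Finset.card_le_four) (by omega))
    simp only [Finset.mem_insert, Finset.mem_singleton, not_or] at ha
    obtain ⟨hai, haj, haj', hak⟩ := ha
    obtain ⟨t1, -, -, t4⟩ := triple_apply hjj (Ne.symm haj) (Ne.symm haj')
    have hd := triple_mem hjj (Ne.symm haj')
    set e := g (triple j j' a) with he
    have hρ : D.ρ e = triple j j' a := hg _ hd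
    have hti : triple j j' a i = i := t4 i hij hij' (Ne.symm hai)
    have htk : triple j j' a k = k := t4 k hjk.symm hj'k.symm (Ne.symm hak)
    have hfix : cj e (K i j k) = K i j k := by
      obtain ⟨x, hx, hxu⟩ := hXmul (cj e (K i j k)) (K i j k) (by
        rw [hcval, hKval hij hik hjk, hρ, permAct_pairVec, hti, htk])
      have h3 : D.ρ (e * e * e) = D.ρ 1 := by
        rw [map_mul, map_mul, map_one, hρ]
        obtain ⟨s1, s2, s3, s4⟩ := triple_apply hjj (Ne.symm haj) (Ne.symm haj')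
        refine Equiv.ext fun t => ?_
        simp only [Equiv.Perm.mul_apply, Equiv.Perm.one_apply]
        by_cases e1 : t = j
        · rw [e1, s1, s2, s3]
        by_cases e2 : t = j'
        · rw [e2, s2, s3, s1]
        by_cases e3 : t = a
        · rw [e3, s3, s1, s2]
        rw [s4 t e1 e2 e3, s4 t e1 e2 e3, s4 t e1 e2 e3]
      have h1 : cj (e * e * e) (K i j k) = K i j k := by
        rw [hsame _ 1 h3]
        exact Subtype.ext (by show (1 : G) * _ * (1 : G)⁻¹ = _; group)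
      rw [hccomp, hccomp, hxu, hcmul, hfixX e x hx, hxu, ← mul_assoc, hcmul, hcmul, hfixX e x hx,
        hxu, ← mul_assoc] at h1
      have h4 : x * x * x = 1 := mul_eq_right.mp h1
      have h2 : x * x = 1 := Subtype.ext (by rw [← sq]; exact hVel.2 _ x.2)
      rw [h2, one_mul] at h4
      rw [hxu, h4, one_mul]
    rw [← hfix, hKequiv e hij hik hjk, hρ, hti, t1, htk]
  -- the well defined lift
  have hmid : ∀ i k : Fin n, ∃ j, i ≠ j ∧ j ≠ k := fun i k => by
    obtain ⟨j, hj⟩ := exists_third {i, k} (lt_of_le_of_lt Finset.card_le_two (by omega))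
    simp only [Finset.mem_insert, Finset.mem_singleton, not_or] at hj
    exact ⟨j, Ne.symm hj.1, hj.2⟩
  choose mid hmid1 hmid2 using hmid
  let L : Fin n → Fin n → ↥V := fun i k => K i (mid i k) k
  have hL : ∀ {i j k : Fin n}, i ≠ j → i ≠ k → j ≠ k → L i k = K i j k := fun hij hik hjk =>
    hindep (hmid1 _ _) hik (hmid2 _ _) hij hjk
  have hLval : ∀ {i k : Fin n}, i ≠ k → D.val (L i k) = pairVec i k := fun hik =>
    hKval (hmid1 _ _) hik (hmid2 _ _)
  have hLequiv : ∀ (e : ↥E) {i k : Fin n}, i ≠ k → cj e (L i k) = L (D.ρ e i) (D.ρ e k) :=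
    fun e i k hik => by
      rw [hKequiv e (hmid1 i k) hik (hmid2 i k)]
      exact (hL ((D.ρ e).injective.ne (hmid1 i k)) ((D.ρ e).injective.ne hik)
        ((D.ρ e).injective.ne (hmid2 i k))).symm
  have hinv : ∀ u : ↥V, u⁻¹ = u := fun u => inv_eq_of_mul_eq_one_right (Subtype.ext (by
    rw [← sq]; exact hVel.2 _ u.2))
  have hLadd : ∀ {i j k : Fin n}, i ≠ j → i ≠ k → j ≠ k → L i k = L j k * L i j := by
    intro i j k hij hik hjk
    obtain ⟨t1, t2, -, -⟩ := triple_apply hij hik hjk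
    rw [hL hij hik hjk, ← hK hij hik hjk (g (triple i j k)) (hg _ (triple_mem hij hjk)) (L i j)
      (hLval hij), hLequiv _ hij, hg _ (triple_mem hij hjk), t1, t2, hinv]
  haveI : NeZero n := ⟨by omega⟩
  have hLsymm : ∀ {i k : Fin n}, i ≠ k → L k i = L i k := by
    intro i k hik
    obtain ⟨c, hc⟩ := exists_third {i, k} (lt_of_le_of_lt Finset.card_le_two (by omega))
    simp only [Finset.mem_insert, Finset.mem_singleton, not_or] at hc
    have e1 := hLadd hik (Ne.symm hc.1) (Ne.symm hc.2)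
    have e2 := hLadd (Ne.symm hik) (Ne.symm hc.2) (Ne.symm hc.1)
    rw [e2, mul_assoc] at e1
    -- `L i c = L i c * (L k i * L i k)`
    have e3 : L k i * L i k = 1 := mul_eq_left.mp e1.symm
    rw [mul_eq_one_iff_eq_inv.mp e3, hinv]
  -- the linear map onto the lifts
  let r : evenVec n → ↥V := fun v => ∏ x ∈ Finset.univ.erase (0 : Fin n), L 0 x ^ (v.1 x).val
  have hr : ∀ v w, r (v + w) = r v * r w := by
    intro v w
    simp only [r, ← Finset.prod_mul_distrib]
    refine Finset.prod_congr rfl fun x _ => ?_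
    show L 0 x ^ (v.1 x + w.1 x).val = _
    have h2 : L 0 x ^ 2 = 1 := Subtype.ext (hVel.2 _ (L 0 x).2)
    rw [ZMod.val_add, ← pow_add]
    conv_rhs => rw [← Nat.mod_add_div ((v.1 x).val + (w.1 x).val) 2, pow_add, pow_mul, h2, one_pow,
      mul_one]
  have hr0 : ∀ x, x ≠ 0 → r (pairVec 0 x) = L 0 x := by
    intro x hx
    simp only [r]
    rw [Finset.prod_eq_single x]
    · simp [pairVec, hx, ZMod.val_one]
    · intro b hb hbx
      simp [pairVec, Finset.ne_of_mem_erase hb, hbx]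
    · intro h; exact absurd (Finset.mem_erase.mpr ⟨hx, Finset.mem_univ x⟩) h
  let V1 : Subgroup G :=
    { carrier := {a | ∃ v, (r v : G) = a}
      one_mem' := ⟨0, by simp [r]⟩
      mul_mem' := by
        rintro _ _ ⟨v, rfl⟩ ⟨w, rfl⟩
        exact ⟨v + w, by rw [hr, coe_mul]⟩
      inv_mem' := by
        rintro _ ⟨v, rfl⟩
        exact ⟨v, by rw [← coe_inv, hinv]⟩ }
  have hLmem : ∀ {i k : Fin n}, i ≠ k → (L i k : G) ∈ V1 := by
    intro i k hik
    by_cases hi : i = 0
    · subst hi; exact ⟨pairVec 0 k, by rw [hr0 k (Ne.symm hik)]⟩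
    by_cases hk : k = 0
    · subst hk; rw [hLsymm (Ne.symm hik)]; exact ⟨pairVec 0 i, by rw [hr0 i hi]⟩
    rw [hLadd hi hik (Ne.symm hk), coe_mul, hLsymm (Ne.symm hi)]
    exact mul_mem ⟨pairVec 0 k, by rw [hr0 k hk]⟩ ⟨pairVec 0 i, by rw [hr0 i hi]⟩
  have hrval : ∀ v, D.val (r v) = v := by
    let f : evenVec n →+ evenVec n := AddMonoidHom.mk' (fun v => D.val (r v)) fun v w => by
      rw [hr, D.val_mul]
    intro v
    have hgen : v = ∑ x ∈ Finset.univ.erase (0 : Fin n), (v.1 x).val • pairVec 0 x := by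
      refine Subtype.ext (funext fun t => ?_)
      rw [AddSubgroup.val_finset_sum, Finset.sum_apply]
      simp only [AddSubgroup.coe_nsmul, Pi.smul_apply, nsmul_eq_mul, ZMod.natCast_val,
        ZMod.cast_id', id_eq, pairVec, Pi.add_apply]
      by_cases e : t = 0
      · subst e
        have hs := v.2
        change ∑ i, v.1 i = 0 at hs
        rw [← Finset.add_sum_erase _ _ (Finset.mem_univ (0 : Fin n))] at hs
        rw [CharTwo.add_eq_zero.mp hs]
        exact Finset.sum_congr rfl fun x hx => by simp [Ne.symm (Finset.ne_of_mem_erase hx)]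
      · rw [Finset.sum_eq_single t]
        · simp [e]
        · intro b _ hb; simp [e, Ne.symm hb]
        · intro h; exact absurd (Finset.mem_erase.mpr ⟨e, Finset.mem_univ t⟩) h
    show f v = v
    conv_rhs => rw [hgen]
    conv_lhs => rw [hgen]
    rw [map_sum]
    refine Finset.sum_congr rfl fun x hx => ?_
    rw [map_nsmul]
    congr 1
    show D.val (r (pairVec 0 x)) = _
    rw [hr0 x (Finset.ne_of_mem_erase hx), hLval (Ne.symm (Finset.ne_of_mem_erase hx))]
  have hEV1 : ∀ e ∈ E, ∀ a ∈ V1, e * a * e⁻¹ ∈ V1 := by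
    rintro e he _ ⟨v, rfl⟩
    have hS : (cj ⟨e, he⟩ (r v) : G) ∈ V1 := by
      let S : Subgroup ↥V := (V1.subgroupOf V)
      let φ : ↥V →* ↥V := MonoidHom.mk' (cj ⟨e, he⟩) (hcmul _)
      have : φ (r v) ∈ S := by
        simp only [r, map_prod, map_pow]
        refine Subgroup.prod_mem _ fun x hx => pow_mem ?_ _
        show (cj ⟨e, he⟩ (L 0 x) : G) ∈ V1
        rw [hLequiv _ (Ne.symm (Finset.ne_of_mem_erase hx))]
        exact hLmem ((D.ρ _).injective.ne (Ne.symm (Finset.ne_of_mem_erase hx)))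
      exact this
    exact hS
  have hV1V : V1 ≤ V := by
    rintro _ ⟨v, rfl⟩; exact (r v).2
  have hdec : V ≤ V1 := by
    have h := (modV_commutator hE).ge
    refine h.trans ?_
    rw [commutator_le]
    intro a ha e he
    obtain ⟨x, hx, hax⟩ := hXmul ⟨a, ha⟩ (r (D.val ⟨a, ha⟩)) (by rw [hrval])
    set b := (r (D.val ⟨a, ha⟩) : G)
    have hb : b ∈ V1 := ⟨_, rfl⟩
    have hax' : a = (x : G) * b := congrArg Subtype.val hax
    have hbV : b ∈ V := hV1V hb
    have heb : e * b⁻¹ * e⁻¹ ∈ V1 := hEV1 e he _ (inv_mem hb)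
    have hxe : e * (x : G)⁻¹ = (x : G)⁻¹ * e := conj_modX_fixed (inv_mem hx) he
    have : ⁅a, e⁆ = b * (e * b⁻¹ * e⁻¹) := by
      have hc : (x : G) * (b * (e * b⁻¹ * e⁻¹)) = b * (e * b⁻¹ * e⁻¹) * x := by
        simpa using congrArg (fun y : ↥V => (y : G))
          (mul_comm x ⟨b * (e * b⁻¹ * e⁻¹), mul_mem hbV (hV1V heb)⟩)
      rw [hax', commutatorElement_def, mul_inv_rev]
      have hxe' : (x : G)⁻¹ * e⁻¹ = e⁻¹ * (x : G)⁻¹ := by
        calc (x : G)⁻¹ * e⁻¹ = e⁻¹ * (e * (x : G)⁻¹) * e⁻¹ := by group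
          _ = e⁻¹ * ((x : G)⁻¹ * e) * e⁻¹ := by rw [hxe]
          _ = e⁻¹ * (x : G)⁻¹ := by group
      calc (x : G) * b * e * (b⁻¹ * (x : G)⁻¹) * e⁻¹
          = (x : G) * b * e * b⁻¹ * ((x : G)⁻¹ * e⁻¹) := by group
        _ = (x : G) * b * e * b⁻¹ * (e⁻¹ * (x : G)⁻¹) := by rw [hxe']
        _ = (x : G) * (b * (e * b⁻¹ * e⁻¹)) * (x : G)⁻¹ := by group
        _ = _ := by rw [hc, mul_inv_cancel_right]
    rw [this]
    exact mul_mem hb heb
  rw [eq_bot_iff]
  intro x hx
  obtain ⟨v, hv⟩ := hdec hx.1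
  have h0 : D.val ⟨x, hx.1⟩ = 0 := congrArg Multiplicative.toAdd ((D.ker ⟨x, hx.1⟩).mpr hx)
  have : r v = ⟨x, hx.1⟩ := Subtype.ext hv
  have hv0 : v = 0 := by rw [← hrval v, this, h0]
  rw [hv0] at hv
  rw [mem_bot, ← hv]
  simp [r]

end Perm

end Cfsg.Agent.H68Block
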