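import Cfsg.Agent.H68.Block.Conjugates
import Cfsg.Agent.H68.Block.SmallSplit

/-!
Fixed vectors of a Sylow normalizer on the module, and every Sylow subgroup sees a subnormal block.
-/

set_option autoImplicit false
set_option linter.style.haveILetI false
set_option linter.unusedSectionVars false

namespace Cfsg.Agent.H68Block

open Subgroup Cfsg
open H51 (IsSubnormalBlock commutator_le_of_le_normalizer)
open scoped commutatorElement

variable {G : Type*} [Group G] [Finite G] {p : ℕ} [hp : Fact p.Prime]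

/-- A `p`-group normalizing an elementary abelian `p`-group fixes a nontrivial element. -/
theorem exists_fixed_elementary {P V : Subgroup G} (hP : IsPGroup p P)
    (hPV : P ≤ normalizer (V : Set G)) (hV : IsElementaryAbelian p V) (hne : V ≠ ⊥) :
    ∃ v ∈ V, v ≠ 1 ∧ ∀ g ∈ P, g * v * g⁻¹ = v := by
  letI : MulAction ↥P ↥V :=
    { smul := fun t v => ⟨(t : G) * v * (t : G)⁻¹, (mem_normalizer_iff.mp (hPV t.2) v).mp v.2⟩
      one_smul := fun v => Subtype.ext (show (1 : G) * v * (1 : G)⁻¹ = v by group)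
      mul_smul := fun s t v => Subtype.ext (show ((s : G) * t) * v * ((s : G) * t)⁻¹ =
        (s : G) * ((t : G) * v * (t : G)⁻¹) * (s : G)⁻¹ by group) }
  obtain ⟨v, hv, hv1⟩ := (bot_or_exists_ne_one V).resolve_left hne
  have hdvd : p ∣ Nat.card ↥V := by
    have : orderOf (⟨v, hv⟩ : ↥V) = p := orderOf_eq_prime (Subtype.ext (by simpa using hV.2 v hv))
      (fun e => hv1 (congrArg Subtype.val e))
    exact this ▸ orderOf_dvd_natCard _
  obtain ⟨b, hb, hb1⟩ := hP.exists_fixed_point_of_prime_dvd_card_of_fixed_point ↥V hdvd (a := 1)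
    fun t => Subtype.ext (show (t : G) * 1 * (t : G)⁻¹ = 1 by group)
  exact ⟨b, b.2, fun e => hb1 (Subtype.ext e.symm), fun t ht => congrArg Subtype.val (hb ⟨t, ht⟩)⟩

/-- `Y = C_V(J)` when `J` acts as a root group: a line of the natural module. -/
structure RootLine {T E : Subgroup G} {F : Type*} [Field F] [Finite F]
    (D : SL2Coord p E (modV p E) (modX p E) F) (J : Subgroup G) (e e₂ : Fin 2 → F) : Prop where
  det_ne : det2 e e₂ ≠ 0
  fixed_iff : ∀ u : ↥(modV p E),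
    (u : G) ∈ centralizer (J : Set G) ↔ ∃ c : F, D.val u = c • e
  root : ∀ x : F, ∃ a : G, ∃ ha : a ∈ secNorm (modV p E) (modX p E), a ∈ J ∧
    IsLin (D.act ⟨a, ha⟩) ∧ D.act ⟨a, ha⟩ e = e ∧ D.act ⟨a, ha⟩ e₂ = e₂ + x • e

/-- In the linear case `J(T)` acts as a full root group. -/
theorem exists_rootLine {T₀ : Subgroup G} {E : Subgroup G} (hE : IsBaumannBlock p T₀ E)
    (T : Sylow p G) (hJE : thompsonSubgroupOf p (T : Subgroup G) ≤ normalizer (E : Set G))
    (hmove : ¬ thompsonSubgroupOf p (T : Subgroup G) ≤ centralizer (modV p E : Set G))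
    {F : Type*} [Field F] [Finite F] [CharP F p] (D : SL2Coord p E (modV p E) (modX p E) F) :
    ∃ e e₂, RootLine (T := T₀) D (thompsonSubgroupOf p (T : Subgroup G)) e e₂ := by
  set J := thompsonSubgroupOf p (T : Subgroup G) with hJ
  have hmem : ∀ A : Subgroup G, A ≤ (T : Subgroup G) → A ∈ maxElementaryAbelianSubgroups p G → A ≤ J :=
    fun A h1 h2 => by rw [hJ, H34.thompsonSubgroupOf_sylow]; exact le_sSup ⟨h1, h2⟩
  obtain ⟨A, hAT, hA, hAne⟩ : ∃ A, A ≤ (T : Subgroup G) ∧ A ∈ maxElementaryAbelianSubgroups p G ∧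
      ¬ A ≤ centralizer (modV p E : Set G) := by
    by_contra hno
    push Not at hno
    refine hmove ?_
    rw [hJ, H34.thompsonSubgroupOf_sylow]
    exact sSup_le fun A hA => hno A hA.1 hA.2
  have data : ∀ A : Subgroup G, A ≤ (T : Subgroup G) → A ∈ maxElementaryAbelianSubgroups p G →
      ¬ A ≤ centralizer (modV p E : Set G) → ∃ e e₂ : Fin 2 → F, det2 e e₂ ≠ 0 ∧
        (∀ α ∈ actImage D.toCoord A, IsLin α) ∧
        (∀ x, x ∈ fixedVectors (actImage D.toCoord A) ↔ ∃ c : F, x = c • e) ∧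
        ∀ x : F, ∃ α ∈ actImage D.toCoord A, α e₂ = e₂ + x • e := fun A h1 h2 h3 => by
    have hAE : A ≤ normalizer (E : Set G) := (hmem A h1 h2).trans hJE
    exact (offender_linear hE D hAE h2.1).2 h3 (fixedMod_eq hE h2 hAE).2
  obtain ⟨e, e₂, hdet, hlin, hfix, hroot⟩ := data A hAT hA hAne
  have hJs : J ≤ secNorm (modV p E) (modX p E) := hJE.trans normalizer_le_secNorm_module
  obtain ⟨v, ⟨hv, hvfix⟩, hvX⟩ := exists_fixedMod hE hJE (T.isPGroup'.to_le (H34.thompsonSubgroupOf_le _))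
  have hv0 : D.val ⟨v, hv⟩ ≠ 0 := fun h =>
    hvX ((D.ker ⟨v, hv⟩).mp (Multiplicative.toAdd.injective h))
  have hvline : ∀ A : Subgroup G, A ≤ (T : Subgroup G) → A ∈ maxElementaryAbelianSubgroups p G →
      D.val ⟨v, hv⟩ ∈ fixedVectors (actImage D.toCoord A) := fun A h1 h2 α hα => by
    obtain ⟨g, hg, rfl⟩ := mem_actImage _ hα
    exact (D.act_fix_iff g ⟨v, hv⟩).mpr (hvfix _ (hmem A h1 h2 hg))
  refine ⟨e, e₂, hdet, fun u => ⟨fun hu => ?_, ?_⟩, fun x => ?_⟩
  · refine (hfix _).mp fun α hα => ?_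
    obtain ⟨g, hg, rfl⟩ := mem_actImage _ hα
    refine (D.act_fix_iff g u).mpr ?_
    rw [← mem_centralizer_iff.mp hu g (hmem A hAT hA hg) |>.symm] 
    simp
  · rintro ⟨c, hc⟩
    have key : J ≤ centralizer (zpowers (u : G) : Set G) := by
      rw [hJ, H34.thompsonSubgroupOf_sylow]
      refine sSup_le ?_
      rintro B ⟨hBT, hB⟩
      have hfixB : D.val u ∈ fixedVectors (actImage D.toCoord B) := by
        by_cases hBne : B ≤ centralizer (modV p E : Set G)
        · intro α hα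
          obtain ⟨g, hg, rfl⟩ := mem_actImage _ hα
          refine (D.act_fix_iff g u).mpr ?_
          rw [← mem_centralizer_iff.mp (hBne hg) (u : G) u.2]
          simp
        · obtain ⟨f, f₂, -, -, hfixf, -⟩ := data B hBT hB hBne
          obtain ⟨a, ha⟩ := (hfix _).mp (hvline A hAT hA)
          obtain ⟨b, hb⟩ := (hfixf _).mp (hvline B hBT hB)
          have ha0 : a ≠ 0 := fun h => hv0 (by rw [ha, h, zero_smul])
          refine (hfixf _).mpr ⟨c * (a⁻¹ * b), ?_⟩
          rw [hc, ← smul_smul, ← smul_smul, ← hb, ha, inv_smul_smul₀ ha0]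
      have hB2 : (u : G) ∈ (↑(modV p E ⊓ B) : Set G) := by
        rw [← (fixedMod_eq hE hB ((hmem B hBT hB).trans hJE)).1]
        exact ⟨u.2, fun g hg => (D.act_fix_iff ⟨g, hJs (hmem B hBT hB hg)⟩ u).mp
          (hfixB _ (act_mem_actImage _ _ hg))⟩
      haveI := hB.1.1
      exact (le_centralizer_iff_isMulCommutative.mpr ‹_›).trans
        (centralizer_le (zpowers_le.mpr hB2.2))
    exact le_centralizer_iff.mp key (mem_zpowers _)
  · obtain ⟨α, hα, hαx⟩ := hroot x
    obtain ⟨g, hg, rfl⟩ := mem_actImage _ hα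
    exact ⟨g, g.2, hmem A hAT hA hg, hlin _ hα,
      ((hfix e).mpr ⟨1, by rw [one_smul]⟩) _ hα, hαx⟩

/-- The stabilizer of the line acts by scalars on it, and elements fixing the line fix `C_V(J)`. -/
theorem RootLine.fix_of_eigen_one {T₀ E J : Subgroup G} (hE : IsBaumannBlock p T₀ E) {F : Type*}
    [Field F] [Finite F] [CharP F p] {D : SL2Coord p E (modV p E) (modX p E) F} {e e₂ : Fin 2 → F}
    (hR : RootLine (T := T₀) D J e e₂) (hJE : J ≤ normalizer (E : Set G)) {g : ↥E}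
    (hg : ((D.ρ g : Matrix.SpecialLinearGroup (Fin 2) F) : Matrix (Fin 2) (Fin 2) F).mulVec e = e)
    {y : G} (hy : y ∈ modV p E ⊓ centralizer (J : Set G)) : (g : G) * y * (g : G)⁻¹ = y := by
  have he : e ≠ 0 := fun h => hR.det_ne (by simp [h, det2])
  obtain ⟨x, hx⟩ := sl2_shift (D.ρ g) he hg e₂
  obtain ⟨a, has, haJ, halin, hae, hae₂⟩ := hR.root x
  have hgs : (g : G) ∈ secNorm (modV p E) (modX p E) := D.normalizes g.2
  have hsame : D.act ⟨a, has⟩ = D.act ⟨g, hgs⟩ := by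
    refine Equiv.ext fun v => ?_
    obtain ⟨c, d, rfl⟩ := exists_decomp hR.det_ne v
    rw [D.act_block g, Matrix.mulVec_add, Matrix.mulVec_smul, Matrix.mulVec_smul, hg, hx,
      D.act_additive, halin, halin, hae, hae₂]
  have h1 : D.act (⟨a, has⟩⁻¹ * ⟨g, hgs⟩) = 1 := by rw [map_mul, map_inv, hsame, inv_mul_cancel]
  have h2 : a⁻¹ * (g : G) ∈ centralizer (modV p E : Set G) :=
    trivial_on_top hE (mul_mem (inv_mem (hJE haJ)) (le_normalizer g.2)) ((D.act_eq_one_iff _).mp h1)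
  have h3 := mem_centralizer_iff.mp h2 y hy.1
  have h4 := mem_centralizer_iff.mp hy.2 a haJ
  calc (g : G) * y * (g : G)⁻¹ = a * ((a⁻¹ * g) * y) * (g : G)⁻¹ := by group
    _ = a * (y * (a⁻¹ * g)) * (g : G)⁻¹ := by rw [h3]
    _ = (a * y) * a⁻¹ := by group
    _ = y := by rw [h4, mul_inv_cancel_right]

/-- The module splits unless the field has more than two elements. -/
theorem modX_eq_bot_of_small {T₀ E : Subgroup G} (hE : IsBaumannBlock p T₀ E)
    (h : ¬ ∃ (F : Type) (_ : Field F) (_ : Finite F), CharP F p ∧ 3 ≤ Nat.card F ∧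
      Nonempty (SL2Coord p E (modV p E) (modX p E) F)) : modX p E = ⊥ := by
  rcases block_coords hE with ⟨F, iF, iFin, iC, hD, -⟩ | ⟨rfl, n, hn, hn3, ⟨D⟩, -⟩
  · have h2 : Nat.card F = 2 := by
      have := Finite.one_lt_card (α := F)
      by_contra hne
      exact h ⟨F, iF, iFin, iC, by omega, hD⟩
    obtain ⟨D⟩ := hD
    refine modX_eq_bot_of_card_three hE ?_ D.ρ D.ker_iff (card_derived_sl2_two h2 _ D.range_eq)
    rintro rfl
    have h3 : ((Nat.card F : ℕ) : F) = 0 := by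
      haveI := Fintype.ofFinite F
      rw [Nat.card_eq_fintype_card, Nat.cast_card_eq_zero]
    rw [CharP.cast_eq_zero_iff F 3, h2] at h3
    norm_num at h3
  · by_cases h5 : 5 ≤ n
    · exact modX_eq_bot_of_perm hE hn h5 D
    · obtain rfl : n = 3 := by obtain ⟨k, rfl⟩ := hn; omega
      refine modX_eq_bot_of_card_three hE (by norm_num) D.ρ D.ker_iff ?_
      rw [D.range_eq, Nat.card_eq_fintype_card]
      decide +kernel

/-- A fixed vector outside `X` for a `p`-group normalizing `E` and `J`. -/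
theorem exists_fixed_vector {T₀ : Subgroup G} {E : Subgroup G} (hE : IsBaumannBlock p T₀ E)
    (T : Sylow p G) (hJE : thompsonSubgroupOf p (T : Subgroup G) ≤ normalizer (E : Set G))
    (hmove : ¬ thompsonSubgroupOf p (T : Subgroup G) ≤ centralizer (modV p E : Set G))
    {P : Subgroup G} (hP : IsPGroup p P) (hPE : P ≤ normalizer (E : Set G))
    (hPJ : P ≤ normalizer (thompsonSubgroupOf p (T : Subgroup G) : Set G)) :
    ∃ v ∈ modV p E, v ∉ modX p E ∧ ∀ g ∈ P, g * v * g⁻¹ = v := by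
  by_cases hbig : ∃ (F : Type) (_ : Field F) (_ : Finite F), CharP F p ∧ 3 ≤ Nat.card F ∧
      Nonempty (SL2Coord p E (modV p E) (modX p E) F)
  swap
  · have hX := modX_eq_bot_of_small hE hbig
    obtain ⟨v, ⟨hv, hfix⟩, hvX⟩ := exists_fixedMod hE hPE hP
    refine ⟨v, hv, hvX, fun g hg => ?_⟩
    have := hfix g hg
    rw [hX, mem_bot, mul_inv_eq_one] at this
    exact this
  obtain ⟨F, iF, iFin, iC, hF3, ⟨D⟩⟩ := hbig
  set J := thompsonSubgroupOf p (T : Subgroup G) with hJdef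
  obtain ⟨e, e₂, hR⟩ := exists_rootLine hE T hJE hmove D
  have he : e ≠ 0 := fun h => hR.det_ne (by simp [h, det2])
  set Y := modV p E ⊓ centralizer (J : Set G) with hY
  have hYel : IsElementaryAbelian p Y :=
    H34.isElementaryAbelian_mono (modV_isElementaryAbelian p E) inf_le_left
  haveI := hYel.1
  have hYmem : ∀ u : ↥(modV p E), (∃ c : F, D.val u = c • e) → (u : G) ∈ Y :=
    fun u hu => ⟨u.2, (hR.fixed_iff u).mpr hu⟩
  have hYline : ∀ y (hy : y ∈ Y), ∃ c : F, D.val ⟨y, hy.1⟩ = c • e :=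
    fun y hy => (hR.fixed_iff _).mp hy.2
  -- elements of `E` stabilizing the line
  let mul : ↥E → F → Prop := fun g d =>
    ((D.ρ g : Matrix.SpecialLinearGroup (Fin 2) F) : Matrix (Fin 2) (Fin 2) F).mulVec e = d • e
  have hstab : ∀ g d, mul g d → ∀ y ∈ Y, (g : G) * y * (g : G)⁻¹ ∈ Y := by
    intro g d hgd y hy
    obtain ⟨c, hc⟩ := hYline y hy
    refine hYmem (Coord.conjU ⟨g.1, D.normalizes g.2⟩ ⟨y, hy.1⟩) ⟨c * d, ?_⟩
    rw [D.equivariant, hc, Matrix.mulVec_smul, hgd, smul_smul]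
  have hmul0 : ∀ g d, mul g d → d ≠ 0 := by
    intro g d hgd hd
    simp only [mul, hd, zero_smul] at hgd
    have h := congrArg (((D.ρ g⁻¹ : Matrix.SpecialLinearGroup (Fin 2) F) :
      Matrix (Fin 2) (Fin 2) F).mulVec) hgd
    rw [Matrix.mulVec_mulVec, ← Matrix.SpecialLinearGroup.coe_mul, ← map_mul, inv_mul_cancel, map_one,
      Matrix.SpecialLinearGroup.coe_one, Matrix.one_mulVec, Matrix.mulVec_zero] at h
    exact he h
  have hmulcomp : ∀ g h a b, mul g a → mul h b → mul (g * h) (a * b) := by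
    intro g h a b hg hh
    show ((D.ρ (g * h) : Matrix.SpecialLinearGroup (Fin 2) F) : Matrix (Fin 2) (Fin 2) F).mulVec e = _
    rw [map_mul, Matrix.SpecialLinearGroup.coe_mul, ← Matrix.mulVec_mulVec, hh, Matrix.mulVec_smul,
      hg, smul_smul, mul_comm]
  have hmulinv : ∀ g a, mul g a → mul g⁻¹ a⁻¹ := by
    intro g a hg
    show ((D.ρ g⁻¹ : Matrix.SpecialLinearGroup (Fin 2) F) : Matrix (Fin 2) (Fin 2) F).mulVec e = _
    have h := congrArg (((D.ρ g⁻¹ : Matrix.SpecialLinearGroup (Fin 2) F) :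
      Matrix (Fin 2) (Fin 2) F).mulVec) hg
    rw [Matrix.mulVec_mulVec, ← Matrix.SpecialLinearGroup.coe_mul, ← map_mul, inv_mul_cancel, map_one,
      Matrix.SpecialLinearGroup.coe_one, Matrix.one_mulVec, Matrix.mulVec_smul] at h
    nth_rewrite 2 [h]
    rw [inv_smul_smul₀ (hmul0 g a hg)]
  have hcommY : ∀ g h a b, mul g a → mul h b → ∀ y ∈ Y,
      ((g * h * g⁻¹ * h⁻¹ : ↥E) : G) * y * ((g * h * g⁻¹ * h⁻¹ : ↥E) : G)⁻¹ = y := by
    intro g h a b hg hh y hy
    refine hR.fix_of_eigen_one hE hJE ?_ hy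
    have := hmulcomp _ _ _ _ (hmulcomp _ _ _ _ (hmulcomp _ _ _ _ hg hh) (hmulinv _ _ hg)) (hmulinv _ _ hh)
    rw [show a * b * a⁻¹ * b⁻¹ = 1 by field_simp [hmul0 g a hg, hmul0 h b hh]] at this
    simpa [mul] using this
  -- a torus element of order prime to `p`
  obtain ⟨d, hd0, hd1⟩ : ∃ d : F, d ≠ 0 ∧ d ≠ 1 := by
    by_contra hno
    push Not at hno
    have : Nat.card F ≤ 2 := by
      rw [← show Nat.card Bool = 2 by simp]
      classical
      refine Nat.card_le_card_of_injective (fun x : F => decide (x = 0)) fun a b h => ?_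
      by_cases ha : a = 0 <;> by_cases hb : b = 0 <;> simp [ha, hb] at h ⊢
      rw [hno a ha, hno b hb]
    omega
  obtain ⟨g₀, hg₀⟩ := exists_eigen e d hd0
  obtain ⟨k, hk⟩ := H51.exists_coprime_pow (p := p) g₀
  have hrange : g₀ ^ p ^ k ∈ D.ρ.range := D.range_eq ▸ sl2_mem_commutator hk
  obtain ⟨h₀, hh₀⟩ := hrange
  obtain ⟨l, hl⟩ := H51.exists_coprime_pow (p := p) h₀
  have hpow : ∀ (M : Matrix.SpecialLinearGroup (Fin 2) F) (c : F) (i : ℕ),
      (M : Matrix (Fin 2) (Fin 2) F).mulVec e = c • e →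
      ((M ^ i : Matrix.SpecialLinearGroup (Fin 2) F) : Matrix (Fin 2) (Fin 2) F).mulVec e = c ^ i • e := by
    intro M c i hM
    induction i with
    | zero => rw [pow_zero, Matrix.SpecialLinearGroup.coe_one, Matrix.one_mulVec, pow_zero, one_smul]
    | succ i ih =>
      rw [pow_succ', Matrix.SpecialLinearGroup.coe_mul, ← Matrix.mulVec_mulVec, ih, Matrix.mulVec_smul,
        hM, smul_smul, ← pow_succ]
  set h := h₀ ^ p ^ l with hhdef
  set δ := (d ^ p ^ k) ^ p ^ l with hδ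
  have hhmul : mul h δ := by
    show ((D.ρ h : Matrix.SpecialLinearGroup (Fin 2) F) : Matrix (Fin 2) (Fin 2) F).mulVec e = _
    rw [hhdef, map_pow, hh₀]
    exact hpow _ _ _ (hpow _ _ _ hg₀)
  have hδ1 : δ ≠ 1 := fun h => hd1 (pow_prime_pow_eq_one (p := p) (pow_prime_pow_eq_one (p := p) h))
  have hhY : zpowers (h : G) ≤ normalizer (Y : Set G) := zpowers_le.mpr
    (H74.mem_normalizer_of_conj_mem (fun y hy => hstab h δ hhmul y hy))
  have hcop : (Nat.card (zpowers (h : G))).Coprime (Nat.card Y) := by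
    obtain ⟨j, hj⟩ := (H34.IsPGroup_of_isElementaryAbelian hYel).exists_card_eq
    rw [hj, Nat.card_zpowers, Subgroup.orderOf_coe]
    exact hl.pow_right j
  obtain ⟨hinf, hsup⟩ := H20.abelian_decomposition hhY hcop
  set Y₁ := ⁅Y, zpowers (h : G)⁆ with hY₁
  have hY₁Y : Y₁ ≤ Y := commutator_le_of_le_normalizer hhY
  have hXY : modX p E ≤ Y := fun x hx => hYmem ⟨x, hx.1⟩ ⟨0, by
    rw [zero_smul]; exact congrArg Multiplicative.toAdd ((D.ker ⟨x, hx.1⟩).mpr hx)⟩
  have hCX : Y ⊓ centralizer (zpowers (h : G) : Set G) ≤ modX p E := by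
    rintro y ⟨hy, hyc⟩
    obtain ⟨c, hc⟩ := hYline y hy
    have heq : Coord.conjU ⟨h.1, D.normalizes h.2⟩ ⟨y, hy.1⟩ = ⟨y, hy.1⟩ := Subtype.ext (by
      show (h : G) * y * (h : G)⁻¹ = y
      rw [mem_centralizer_iff.mp hyc _ (mem_zpowers _), mul_inv_cancel_right])
    have h2 := D.equivariant h ⟨y, hy.1⟩
    rw [heq, hc, Matrix.mulVec_smul, hhmul, smul_smul] at h2
    have h3 : c = 0 := by
      have := smul_left_injective F he h2
      by_contra hc0
      exact hδ1 (mul_left_cancel₀ hc0 (by rw [mul_one]; exact this.symm))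
    exact (D.ker ⟨y, hy.1⟩).mp (Multiplicative.toAdd.injective (hc.trans (by rw [h3, zero_smul]; rfl)))
  have hXC : modX p E ≤ Y ⊓ centralizer (zpowers (h : G) : Set G) :=
    le_inf hXY (fun x hx => centralizer_le (zpowers_le.mpr h.2) hx.2)
  have hY₁X : ∀ y ∈ Y₁, y ∈ modX p E → y = 1 := fun y hy hyX =>
    mem_bot.mp (hinf ▸ ⟨hXC hyX, hy⟩)
  have hY₁ne : Y₁ ≠ ⊥ := by
    intro hb
    rw [hb, sup_bot_eq] at hsup
    obtain ⟨u, hu⟩ := D.val_surj e
    have hue : (u : G) ∈ Y := hYmem u ⟨1, by rw [hu, one_smul]⟩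
    rw [← hsup] at hue
    have := congrArg Multiplicative.toAdd ((D.ker u).mpr (hCX hue))
    exact he (hu.symm.trans this)
  -- `P` normalizes `Y₁`
  have hPY : P ≤ normalizer (Y : Set G) := by
    refine le_trans (le_inf (hPE.trans (normalizer_le_secNorm_module.trans inf_le_left)) ?_)
      inf_normalizer_le_normalizer_inf
    intro g hg
    show g ∈ normalizer (centralizer (J : Set G) : Set G)
    have := hPJ hg
    rw [mem_normalizer_iff_map_conj_eq] at this ⊢
    exact (H34.map_centralizer (MulAut.conj g) J).trans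
      (by rw [show J.map (MulAut.conj g).toMonoidHom = J from this])
  have hconj : ∀ g : G, ∀ y, ∀ i : ℤ, g * ⁅y, (h : G) ^ i⁆ * g⁻¹ =
      ⁅g * y * g⁻¹, g * (h : G) ^ i * g⁻¹⁆ := fun g y i => by
    simp only [commutatorElement_def]; group
  have hzmul : ∀ i : ℤ, ∃ b, mul (h ^ i) b := by
    intro i
    obtain ⟨j, hj⟩ : ∃ j : ℕ, h ^ j = h ^ i :=
      ((isOfFinOrder_of_finite h).mem_powers_iff_mem_zpowers.mpr ⟨i, rfl⟩)
    refine ⟨δ ^ j, ?_⟩
    show ((D.ρ (h ^ i) : Matrix.SpecialLinearGroup (Fin 2) F) : Matrix (Fin 2) (Fin 2) F).mulVec e = _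
    rw [← hj, map_pow]
    exact hpow _ _ _ hhmul
  -- elements stabilizing the line normalize `Y₁`
  have hnorm1 : ∀ (g : ↥E) a, mul g a → ∀ x ∈ Y₁, (g : G) * x * (g : G)⁻¹ ∈ Y₁ := by
    intro g a hg
    have hle : Y₁ ≤ Y₁.comap (MulAut.conj (g : G)).toMonoidHom := by
      refine commutator_le.mpr fun y hy w hw => ?_
      obtain ⟨i, rfl⟩ := mem_zpowers_iff.mp hw
      obtain ⟨b, hb⟩ := hzmul i
      show (g : G) * ⁅y, (h : G) ^ i⁆ * (g : G)⁻¹ ∈ Y₁
      rw [hconj]
      have hy' : (g : G) * y * (g : G)⁻¹ ∈ Y := hstab g a hg y hy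
      have hsame : ⁅(g : G) * y * (g : G)⁻¹, (g : G) * (h : G) ^ i * (g : G)⁻¹⁆ =
          ⁅(g : G) * y * (g : G)⁻¹, (h : G) ^ i⁆ := by
        generalize (g : G) * y * (g : G)⁻¹ = y' at hy' ⊢
        have hfix := hcommY g (h ^ i) a b hg hb
        have hi := hstab (h ^ i) b hb y'⁻¹ (inv_mem hy')
        have h5 := hfix _ hi
        simp only [coe_mul, coe_inv, SubgroupClass.coe_zpow] at h5 hi
        generalize (h : G) ^ i = hi' at h5 ⊢
        generalize (g : G) = g' at h5 ⊢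
        calc ⁅y', g' * hi' * g'⁻¹⁆ = y' * ((g' * hi' * g'⁻¹ * hi'⁻¹) * (hi' * y'⁻¹ * hi'⁻¹) *
              (g' * hi' * g'⁻¹ * hi'⁻¹)⁻¹) := by simp only [commutatorElement_def]; group
          _ = y' * (hi' * y'⁻¹ * hi'⁻¹) := by rw [h5]
          _ = ⁅y', hi'⁆ := by simp only [commutatorElement_def]; group
      rw [hsame]
      exact commutator_mem_commutator hy' (zpow_mem (mem_zpowers _) i)
    exact fun x hx => hle hx
  have hPY₁ : P ≤ normalizer (Y₁ : Set G) := by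
    refine fun g hg => H74.mem_normalizer_of_conj_mem ?_
    have hgE : ∀ x ∈ E, g * x * g⁻¹ ∈ E := fun x hx => (mem_normalizer_iff.mp (hPE hg) x).mp hx
    set h' : ↥E := ⟨g * h * g⁻¹, hgE h h.2⟩ with hh'
    have hh'mul : ∃ a, mul h' a := by
      obtain ⟨u, hu⟩ := D.val_surj e
      have hue : (u : G) ∈ Y := hYmem u ⟨1, by rw [hu, one_smul]⟩
      have h1 : g⁻¹ * u * g ∈ Y := (mem_normalizer_iff''.mp (hPY hg) _).mp hue
      have h2 := hstab h δ hhmul _ h1
      have h3 := (mem_normalizer_iff.mp (hPY hg) _).mp h2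
      have h4 : (h' : G) * u * (h' : G)⁻¹ ∈ Y := by
        convert h3 using 1
        show g * h * g⁻¹ * u * (g * h * g⁻¹)⁻¹ = _
        group
      obtain ⟨a, ha⟩ := hYline _ h4
      refine ⟨a, ?_⟩
      show ((D.ρ h' : Matrix.SpecialLinearGroup (Fin 2) F) : Matrix (Fin 2) (Fin 2) F).mulVec e = _
      rw [← hu, ← D.equivariant, hu]
      exact ha
    obtain ⟨a, ha⟩ := hh'mul
    have hn' := hnorm1 h' a ha
    have hzn : zpowers (h' : G) ≤ normalizer (Y₁ : Set G) :=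
      zpowers_le.mpr (H74.mem_normalizer_of_conj_mem hn')
    have hle : Y₁ ≤ Y₁.comap (MulAut.conj g).toMonoidHom := by
      refine commutator_le.mpr fun y hy w hw => ?_
      obtain ⟨i, rfl⟩ := mem_zpowers_iff.mp hw
      show g * ⁅y, (h : G) ^ i⁆ * g⁻¹ ∈ Y₁
      rw [hconj, ← conj_zpow]
      have hy' : g * y * g⁻¹ ∈ Y := (mem_normalizer_iff.mp (hPY hg) y).mp hy
      generalize g * y * g⁻¹ = y' at hy' ⊢
      rw [show g * (h : G) * g⁻¹ = (h' : G) from rfl]
      rw [← hsup, sup_comm, ← SetLike.mem_coe, coe_mul_of_right_le_normalizer_left _ _ (by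
        refine (inf_le_left.trans ?_).trans (centralizer_le_normalizer _)
        exact (le_centralizer_iff_isMulCommutative.mpr ‹_›).trans (centralizer_le hY₁Y))] at hy'
      obtain ⟨y₁, hy₁, x, hx, rfl⟩ := hy'
      have hzh : (h' : G) ^ i ∈ E := zpow_mem h'.2 i
      have hxe := conj_modX_fixed (hCX hx) hzh
      have : ⁅y₁ * x, (h' : G) ^ i⁆ = y₁ * ((h' : G) ^ i * y₁⁻¹ * ((h' : G) ^ i)⁻¹) := by
        simp only [commutatorElement_def, mul_inv_rev]
        calc y₁ * x * (h' : G) ^ i * (x⁻¹ * y₁⁻¹) * ((h' : G) ^ i)⁻¹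
            = y₁ * (x * (h' : G) ^ i) * x⁻¹ * y₁⁻¹ * ((h' : G) ^ i)⁻¹ := by group
          _ = y₁ * ((h' : G) ^ i * x) * x⁻¹ * y₁⁻¹ * ((h' : G) ^ i)⁻¹ := by rw [hxe]
          _ = y₁ * ((h' : G) ^ i * y₁⁻¹ * ((h' : G) ^ i)⁻¹) := by group
      rw [this]
      exact mul_mem hy₁ ((mem_normalizer_iff.mp (hzn (zpow_mem (mem_zpowers _) i)) _).mp (inv_mem hy₁))
    exact fun x hx => hle hx
  obtain ⟨v, hv, hv1, hfix⟩ := exists_fixed_elementary hP hPY₁
    (H34.isElementaryAbelian_mono hYel hY₁Y) hY₁ne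
  exact ⟨v, (hY₁Y hv).1, fun hX => hv1 (hY₁X v hv hX), hfix⟩

end Cfsg.Agent.H68Block
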