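import Cfsg.Agent.H68.Block.Semilinear

/-!
Elementary abelian groups of semilinear maps of the natural two-dimensional module as offenders.
-/

set_option autoImplicit false
set_option linter.style.haveILetI false
set_option linter.unusedSectionVars false

namespace Cfsg.Agent.H68Block

variable {F : Type*} [Field F] [Finite F]

/-- Common fixed vectors. -/
abbrev fixedVectors {M : Type*} (A : Subgroup (Equiv.Perm M)) : Set M :=
  {x | ∀ α ∈ A, α x = x}

/-- An elementary abelian group of semilinear maps satisfies the offender bound; in case of equality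
it is trivial or a full root group. -/
theorem linear_offender {p : ℕ} [hp : Fact p.Prime] [CharP F p]
    (A : Subgroup (Equiv.Perm (Fin 2 → F))) (hadd : ∀ α ∈ A, IsAdditive α)
    (hsl : ∀ α ∈ A, ∃ σ, IsSemilin α σ) (hcomm : ∀ α ∈ A, ∀ β ∈ A, α * β = β * α)
    (hexp : ∀ α ∈ A, α ^ p = 1) :
    Nat.card A * Nat.card (fixedVectors A) ≤ Nat.card F ^ 2 ∧
      (A ≠ ⊥ → Nat.card F ^ 2 ≤ Nat.card A * Nat.card (fixedVectors A) →
        ∃ e e₂ : Fin 2 → F, det2 e e₂ ≠ 0 ∧ (∀ α ∈ A, IsLin α) ∧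
          (∀ x, x ∈ fixedVectors A ↔ ∃ c : F, x = c • e) ∧
          ∀ x : F, ∃ α ∈ A, α e₂ = e₂ + x • e) := by
  classical
  choose sg hsg using hsl
  have hadd' : ∀ α : ↥A, ∀ x y, (α : Equiv.Perm (Fin 2 → F)) (x - y) =
      (α : Equiv.Perm (Fin 2 → F)) x - (α : Equiv.Perm (Fin 2 → F)) y := fun α x y =>
    (AddMonoidHom.mk' _ (hadd α α.2)).map_sub x y
  let σf : ↥A →* (F ≃+* F) :=
    MonoidHom.mk' (fun α => sg α.1 α.2) fun α β =>
      IsSemilin.unique (hadd _ (α * β).2) (hsg _ (α * β).2) ((hsg _ α.2).mul (hsg _ β.2))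
  have hσ : ∀ α : ↥A, IsSemilin (α : Equiv.Perm (Fin 2 → F)) (σf α) := fun α => hsg _ α.2
  set S : Subgroup (RingAut F) := σf.range with hSdef
  haveI : Finite (RingAut F) := Finite.of_injective (fun g : F ≃+* F => (g : F → F)) DFunLike.coe_injective
  haveI : Fintype S := Fintype.ofFinite S
  haveI : FaithfulSMul S F := ⟨fun {a b} h => Subtype.ext (RingEquiv.ext h)⟩
  set F₀ := FixedPoints.subfield S F with hF₀
  haveI : Fintype F₀ := Fintype.ofFinite F₀
  set f := Nat.card F₀ with hf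
  set s := Nat.card S with hs
  have hq : Nat.card F = f ^ s := by
    rw [Module.natCard_eq_pow_finrank (K := F₀), FixedPoints.finrank_eq_card, hs, hf,
      Nat.card_eq_fintype_card, Nat.card_eq_fintype_card]
  have hf2 : 2 ≤ f := Finite.one_lt_card
  have hmemF₀ : ∀ c : F, (∀ α : ↥A, σf α c = c) → c ∈ F₀ := by
    rintro c hc ⟨_, α, rfl⟩
    exact hc α
  have hF₀σ : ∀ c ∈ F₀, ∀ α : ↥A, σf α c = c := fun c hc α => hc ⟨_, α, rfl⟩
  have hA : Nat.card A = Nat.card σf.ker * s := by
    rw [← σf.ker.card_mul_index, Subgroup.index_ker, hs, hSdef]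
  have hfix_mul : ∀ (α : ↥A) (x : Fin 2 → F), x ∈ fixedVectors A → ∀ c : F,
      (α : Equiv.Perm (Fin 2 → F)) (c • x) = σf α c • x := fun α x hx c => by
    rw [hσ α c x, hx _ α.2]
  -- ratios of proportional fixed vectors are fixed scalars
  have hratio : ∀ x ∈ fixedVectors A, x ≠ 0 → ∀ c : F, c • x ∈ fixedVectors A → c ∈ F₀ := by
    intro x hx hx0 c hcx
    refine hmemF₀ c fun α => smul_left_injective F hx0 ?_
    show σf α c • x = c • x
    rw [← hfix_mul α x hx c, hcx _ α.2]
  have hline : ∀ e : Fin 2 → F, (∀ x ∈ fixedVectors A, ∃ c : F, x = c • e) →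
      Nat.card (fixedVectors A) ≤ f := by
    intro e he
    by_cases h0 : ∃ w ∈ fixedVectors A, w ≠ 0
    · obtain ⟨w, hw, hw0⟩ := h0
      have hwe : ∀ x : fixedVectors A, ∃ c : F₀, (x : Fin 2 → F) = (c : F) • w := by
        intro x
        obtain ⟨c, hc⟩ := he x x.2
        obtain ⟨d, hd⟩ := he w hw
        have hd0 : d ≠ 0 := fun h => hw0 (by rw [hd, h, zero_smul])
        have hx : (x : Fin 2 → F) = (c / d) • w := by rw [hd, smul_smul, div_mul_cancel₀ c hd0, hc]
        exact ⟨⟨c / d, hratio w hw hw0 _ (hx ▸ x.2)⟩, hx⟩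
      choose c hc using hwe
      exact Nat.card_le_card_of_injective c fun a b h => Subtype.ext (by rw [hc a, hc b, h])
    · push Not at h0
      haveI : Subsingleton (fixedVectors A) := ⟨fun a b => Subtype.ext (by rw [h0 a a.2, h0 b b.2])⟩
      exact Finite.card_le_one_iff_subsingleton.mpr inferInstance |>.trans (by omega)
  have hstrict : ∀ k : ℕ, 2 ≤ s → k ≤ f ^ 2 → s * k < (f ^ s) ^ 2 := by
    intro k hs2 hk
    calc s * k ≤ s * f ^ 2 := Nat.mul_le_mul_left s hk
      _ < f ^ (2 * s - 2) * f ^ 2 := by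
          refine Nat.mul_lt_mul_of_pos_right ?_ (by positivity)
          calc s < 2 ^ s := Nat.lt_two_pow_self
            _ ≤ f ^ s := Nat.pow_le_pow_left hf2 s
            _ ≤ f ^ (2 * s - 2) := Nat.pow_le_pow_right (by omega) (by omega)
      _ = (f ^ s) ^ 2 := by rw [← pow_add, ← pow_mul]; congr 1; omega
  rw [hq]
  by_cases hK : σf.ker = ⊥
  · rw [hA, hK, Subgroup.card_bot, one_mul]
    rcases (show s = 1 ∨ 2 ≤ s by have := Nat.card_pos (α := S); omega) with h1 | h2
    · refine ⟨?_, fun hne => absurd ?_ hne⟩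
      · rw [h1, one_mul, ← pow_mul, mul_comm 1, pow_mul, pow_one]
        calc Nat.card (fixedVectors A) ≤ Nat.card (Fin 2 → F) :=
              Nat.card_le_card_of_injective _ Subtype.val_injective
          _ = f ^ 2 := by rw [Nat.card_fun, Nat.card_fin, hq, h1, pow_one]
      · rw [← Subgroup.card_eq_one, hA, hK, Subgroup.card_bot, one_mul, h1]
    · have hfix : Nat.card (fixedVectors A) ≤ f ^ 2 := by
        by_cases hind : ∃ w₁ ∈ fixedVectors A, ∃ w₂ ∈ fixedVectors A, det2 w₁ w₂ ≠ 0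
        · obtain ⟨w₁, hw₁, w₂, hw₂, hd⟩ := hind
          have hc : ∀ x : fixedVectors A, ∃ c : F₀ × F₀,
              (x : Fin 2 → F) = (c.1 : F) • w₁ + (c.2 : F) • w₂ := by
            intro x
            obtain ⟨a, b, hab⟩ := exists_decomp hd (x : Fin 2 → F)
            have key : ∀ α : ↥A, σf α a = a ∧ σf α b = b := fun α => by
              refine decomp_unique hd ?_
              have h := x.2 _ α.2
              rw [hab, hadd _ α.2, hfix_mul α w₁ hw₁, hfix_mul α w₂ hw₂] at h
              exact h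
            exact ⟨(⟨a, hmemF₀ a fun α => (key α).1⟩, ⟨b, hmemF₀ b fun α => (key α).2⟩), hab⟩
          choose c hc using hc
          refine (Nat.card_le_card_of_injective c fun a b h => Subtype.ext (by
            rw [hc a, hc b, h])).trans ?_
          rw [Nat.card_prod, sq]
        · push Not at hind
          by_cases h0 : ∃ w ∈ fixedVectors A, w ≠ 0
          · obtain ⟨w, hw, hw0⟩ := h0
            exact (hline w fun x hx =>
              exists_smul_of_det2_eq_zero hw0 (hind w hw x hx)).trans (Nat.le_self_pow two_ne_zero f)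
          · push Not at h0
            exact (hline 0 fun x hx => ⟨0, by rw [h0 x hx, smul_zero]⟩).trans
              (Nat.le_self_pow two_ne_zero f)
      have := hstrict _ h2 hfix
      exact ⟨this.le, fun _ h => absurd h (not_le.mpr this)⟩
  -- a nontrivial linear element
  obtain ⟨⟨α₁, hα₁A⟩, hα₁K, hα₁ne⟩ := σf.ker.bot_or_exists_ne_one.resolve_left hK
  have hlin₁ : IsLin α₁ := by
    have := hσ ⟨α₁, hα₁A⟩
    rw [MonoidHom.mem_ker.mp hα₁K] at this
    exact isLin_of_semilin_one this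
  have h0 : ∀ α : ↥A, (α : Equiv.Perm (Fin 2 → F)) 0 = 0 := fun α =>
    (AddMonoidHom.mk' _ (hadd α α.2)).map_zero
  obtain ⟨e₀, he₀, hfe₀, hshift⟩ := exists_shift (hadd _ hα₁A) hlin₁
    (k := 1) (by rw [pow_one]; exact hexp _ hα₁A)
  obtain ⟨e₂, he₂⟩ : ∃ v, α₁ v ≠ v := by
    by_contra hno
    push Not at hno
    exact hα₁ne (Subtype.ext (Equiv.ext hno))
  obtain ⟨x₀, hx₀⟩ := hshift e₂
  obtain ⟨e, he⟩ : ∃ e, e = x₀ • e₀ := ⟨_, rfl⟩
  rw [← he] at hx₀
  have hfe : α₁ e = e := by rw [he, hlin₁, hfe₀]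
  have hdet : det2 e e₂ ≠ 0 := by
    intro hd
    have hx0 : x₀ ≠ 0 := fun h => he₂ (by rw [hx₀, he, h, zero_smul, add_zero])
    obtain ⟨c, hc⟩ := exists_smul_of_det2_eq_zero (he ▸ smul_ne_zero hx0 he₀) hd
    exact he₂ (by rw [hc, hlin₁, hfe])
  have hene : e ≠ 0 := fun h => hdet (by simp [h, det2])
  have hαe : ∀ α : ↥A, ∃ a b : F, (α : Equiv.Perm (Fin 2 → F)) e₂ = a • e + b • e₂ ∧
      (α : Equiv.Perm (Fin 2 → F)) e = b • e ∧ b ≠ 0 := by
    intro α
    obtain ⟨a, b, hab⟩ := exists_decomp hdet ((α : Equiv.Perm (Fin 2 → F)) e₂)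
    have hbe : (α : Equiv.Perm (Fin 2 → F)) e = b • e := by
      have hc := congrArg (fun g : Equiv.Perm (Fin 2 → F) => g e₂) (hcomm _ α.2 _ hα₁A)
      simp only [Equiv.Perm.mul_apply] at hc
      rw [hx₀, hadd _ α.2, hab, hadd _ hα₁A, hlin₁, hlin₁, hfe, hx₀] at hc
      have h2 : a • e + b • (e₂ + e) = (a • e + b • e₂) + b • e := by module
      exact add_left_cancel (hc.trans h2)
    refine ⟨a, b, hab, hbe, fun hb => hene ?_⟩
    rw [hb, zero_smul, ← h0 α] at hbe
    exact (α : Equiv.Perm (Fin 2 → F)).injective hbe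
  choose ca cb hcab hcbe hcb0 using hαe
  have hKfix : ∀ α : ↥σf.ker, cb α = 1 := by
    intro α
    have hlin : IsLin ((α : ↥A) : Equiv.Perm (Fin 2 → F)) := by
      have := hσ (α : ↥A)
      rw [MonoidHom.mem_ker.mp α.2] at this
      exact isLin_of_semilin_one this
    have hn : ∀ n : ℕ, (((α : ↥A) : Equiv.Perm (Fin 2 → F)) ^ n) e = cb α ^ n • e := by
      intro n
      induction n with
      | zero => simp
      | succ n ih => rw [pow_succ', Equiv.Perm.mul_apply, ih, hlin, hcbe, smul_smul, ← pow_succ]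
    have h := hn p
    rw [hexp _ (α : ↥A).2, Equiv.Perm.one_apply] at h
    refine pow_prime_pow_eq_one (p := p) (k := 1) ?_
    rw [pow_one]
    exact (smul_left_injective F hene (by simpa using h.symm))
  let coord : ↥σf.ker → F₀ := fun α => ⟨ca α, hmemF₀ _ fun β => by
    have hlin : IsLin ((α : ↥A) : Equiv.Perm (Fin 2 → F)) := by
      have := hσ (α : ↥A)
      rw [MonoidHom.mem_ker.mp α.2] at this
      exact isLin_of_semilin_one this
    have hαe' := hcbe α
    rw [hKfix α, one_smul] at hαe'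
    have hc := congrArg (fun g : Equiv.Perm (Fin 2 → F) => g e₂) (hcomm _ β.2 _ (α : ↥A).2)
    simp only [Equiv.Perm.mul_apply] at hc
    rw [hcab α, hKfix α, hadd _ β.2, one_smul, hσ β, hcbe β, hcab β, hadd _ (α : ↥A).2, hlin, hlin,
      hαe', hcab α, hKfix α, one_smul, smul_smul] at hc
    have h2 : ca β • e + cb β • (ca α • e + e₂) =
        (cb β * ca α + ca β) • e + cb β • e₂ := by module
    have h3 : (σf β (ca α) * cb β) • e + (ca β • e + cb β • e₂) =
        (σf β (ca α) * cb β + ca β) • e + cb β • e₂ := by module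
    rw [h2, h3] at hc
    have := (decomp_unique hdet hc).1
    exact mul_right_cancel₀ (hcb0 β) ((add_right_cancel this).trans (mul_comm _ _))⟩
  have hext : ∀ α : ↥σf.ker, ∀ v, ∀ a b : F, v = a • e + b • e₂ →
      ((α : ↥A) : Equiv.Perm (Fin 2 → F)) v = (a + b * ca α) • e + b • e₂ := by
    intro α v a b hv
    have hlin : IsLin ((α : ↥A) : Equiv.Perm (Fin 2 → F)) := by
      have := hσ (α : ↥A)
      rw [MonoidHom.mem_ker.mp α.2] at this
      exact isLin_of_semilin_one this
    rw [hv, hadd _ (α : ↥A).2, hlin, hlin, hcbe, hcab, hKfix α]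
    module
  have hinj : Function.Injective coord := by
    intro α β h
    have h' : ca α = ca β := congrArg Subtype.val h
    refine Subtype.ext (Subtype.ext (Equiv.ext fun v => ?_))
    obtain ⟨a, b, hv⟩ := exists_decomp hdet v
    rw [hext α v a b hv, hext β v a b hv, h']
  have hKcard : Nat.card σf.ker ≤ f := Nat.card_le_card_of_injective coord hinj
  have hfixline : ∀ x ∈ fixedVectors A, ∃ c : F, x = c • e := by
    intro x hx
    obtain ⟨a, b, hv⟩ := exists_decomp hdet x
    refine ⟨a, ?_⟩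
    have h1 : α₁ x = x + b • e := by
      rw [hv, hadd _ hα₁A, hlin₁, hlin₁, hfe, hx₀]
      module
    rw [hx _ hα₁A] at h1
    have hb : b • e = 0 := left_eq_add.mp h1
    rw [hv, (smul_eq_zero.mp hb).resolve_right hene, zero_smul, add_zero]
  have hfix : Nat.card (fixedVectors A) ≤ f := hline e hfixline
  have hprod : Nat.card σf.ker * Nat.card (fixedVectors A) ≤ f ^ 2 := by
    rw [sq]; exact Nat.mul_le_mul hKcard hfix
  rw [hA, mul_comm (Nat.card σf.ker) s, mul_assoc]
  rcases (show s = 1 ∨ 2 ≤ s by have := Nat.card_pos (α := S); omega) with h1 | h2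
  swap
  · have := hstrict _ h2 hprod
    exact ⟨this.le, fun _ h => absurd h (not_le.mpr this)⟩
  rw [h1, one_mul, pow_one]
  refine ⟨hprod, fun _ hle => ⟨e, e₂, hdet, ?_⟩⟩
  have hS : S = ⊥ := Subgroup.card_eq_one.mp h1
  have hker : ∀ α : ↥A, α ∈ σf.ker := fun α => MonoidHom.mem_ker.mpr
    (Subgroup.mem_bot.mp (hS ▸ ⟨α, rfl⟩ : σf α ∈ (⊥ : Subgroup (RingAut F))))
  have hlinA : ∀ α ∈ A, IsLin α := fun α hα => by
    have := hσ ⟨α, hα⟩
    rw [MonoidHom.mem_ker.mp (hker ⟨α, hα⟩)] at this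
    exact isLin_of_semilin_one this
  refine ⟨hlinA, fun x => ⟨hfixline x, ?_⟩, fun x => ?_⟩
  · rintro ⟨c, rfl⟩ α hα
    rw [hlinA α hα, hcbe ⟨α, hα⟩, hKfix ⟨⟨α, hα⟩, hker _⟩, one_smul]
  · have hKge : f ≤ Nat.card σf.ker := by
      have h2 : f ^ 2 ≤ Nat.card σf.ker * f := hle.trans (Nat.mul_le_mul_left _ hfix)
      rw [sq] at h2
      exact Nat.le_of_mul_le_mul_right h2 (by omega)
    have hsurj : Function.Surjective coord :=
      ((Nat.bijective_iff_injective_and_card coord).mpr ⟨hinj, le_antisymm hKcard hKge⟩).2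
    have hx : x ∈ F₀ := hmemF₀ x fun α => by
      rw [MonoidHom.mem_ker.mp (hker α)]; rfl
    obtain ⟨α, hα⟩ := hsurj ⟨x, hx⟩
    refine ⟨_, (α : ↥A).2, ?_⟩
    rw [hcab, hKfix α, one_smul, show ca α = x from congrArg Subtype.val hα, add_comm]

end Cfsg.Agent.H68Block
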