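import Cfsg.Agent.H68.Block.Exceptional

/-!
Every block lies in a given subnormal block or commutes with it.
-/

set_option autoImplicit false
set_option linter.style.haveILetI false
set_option linter.unusedSectionVars false

namespace Cfsg.Agent.H68Block

open Subgroup Cfsg
open H51 (IsSubnormalBlock commutator_le_of_le_normalizer mem_of_coprime_mem_sup_pgroup)
open scoped commutatorElement

variable {G : Type*} [Group G] [Finite G] {p : ℕ} [hp : Fact p.Prime]

/-- An invariant subgroup covering `W/Z` contains the module. -/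
theorem modV_le_of_cover {T₀ F L : Subgroup G} (hF : IsBaumannBlock p T₀ F)
    (hFL : F ≤ normalizer (L : Set G)) (hLW : L ≤ omegaOneCenter p (pCoreOf p F))
    (hL : omegaOneCenter p (pCoreOf p F) ≤
      L ⊔ (omegaOneCenter p (pCoreOf p F) ⊓ centralizer (F : Set G))) :
    modV p F ≤ L := by
  haveI := (H51.omegaOneCenter_isElementaryAbelian (p := p) (pCoreOf p F)).1
  set W := omegaOneCenter p (pCoreOf p F) with hW
  show ⁅W, F⁆ ≤ L
  rw [commutator_le]
  intro w hw f hf
  have hw' : w ∈ ((L ⊔ (W ⊓ centralizer (F : Set G)) : Subgroup G) : Set G) := hL hw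
  rw [coe_mul_of_right_le_normalizer_left _ _ (by
    refine (inf_le_left.trans ?_).trans (centralizer_le_normalizer _)
    exact (le_centralizer_iff_isMulCommutative.mpr ‹_›).trans (centralizer_le hLW))] at hw'
  obtain ⟨l, hl, z, hz, rfl⟩ := hw'
  have hzf : f * z = z * f := mem_centralizer_iff.mp hz.2 f hf
  have h1 : ⁅l * z, f⁆ = ⁅l, f⁆ := by
    simp only [commutatorElement_def, mul_inv_rev]
    calc l * z * f * (z⁻¹ * l⁻¹) * f⁻¹ = l * (z * f) * z⁻¹ * l⁻¹ * f⁻¹ := by group
      _ = l * (f * z) * z⁻¹ * l⁻¹ * f⁻¹ := by rw [hzf]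
      _ = l * f * l⁻¹ * f⁻¹ := by group
  rw [h1]
  exact commutator_le_of_le_normalizer hFL (commutator_mem_commutator hl hf)

/-- A block with abelian core has `Q = [W, E]`. -/
theorem core_eq_of_comm {T₀ F : Subgroup G} (hF : IsBaumannBlock p T₀ F)
    (h : ⁅pCoreOf p F, pCoreOf p F⁆ = ⊥) : pCoreOf p F = modV p F := by
  rcases block_coords hF with ⟨K, iK, iFin, iC, -, h' | ⟨-, -, hQQ, hZ, -⟩⟩ | ⟨-, n, -, -, -, h'⟩
  · exact h'
  · exact absurd (hQQ.symm.trans h) hZ
  · exact h'

theorem core_eq_or_exceptional {T₀ F : Subgroup G} (hF : IsBaumannBlock p T₀ F)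
    (h : pCoreOf p F ≠ modV p F) :
    p = 3 ∧ ∃ (K : Type) (_ : Field K) (_ : Finite K), CharP K p ∧
      Nonempty (SL2Coord p F (modV p F) (modX p F) K) ∧
      Nonempty (SL2Coord p F (topQ p F) (topW p F) K) ∧
      ⁅pCoreOf p F, pCoreOf p F⁆ = omegaOneCenter p (pCoreOf p F) ⊓ centralizer (F : Set G) ∧
      ∀ b : G, b ∈ baumannSubgroupOf p T₀ →
        b ∉ centralizer (omegaOneCenter p (pCoreOf p F) : Set G) →
        ¬ ⁅⁅pCoreOf p F, zpowers b⁆, zpowers b⁆ ≤
          omegaOneCenter p (pCoreOf p F) ⊓ centralizer (F : Set G) := by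
  rcases block_coords hF with
    ⟨K, iK, iFin, iC, hD, h' | ⟨h3, hD₂, hQQ, -, hq⟩⟩ | ⟨-, n, -, -, -, h'⟩
  · exact absurd h' h
  · exact ⟨h3, K, iK, iFin, iC, hD, hD₂, hQQ, hq⟩
  · exact absurd h' h

variable (hG : centralizer (pCore p G : Set G) ≤ pCore p G)
include hG

/-- `[Ω₁(Z(O_p(G))), F] ≤ [W_F, F]` for every block. -/
theorem omega_comm_block {F : Subgroup G} (T : Sylow p G) (hF : IsBaumannBlock p (T : Subgroup G) F) :
    ⁅omegaOneCenter p (pCore p G), F⁆ ≤ modV p F := by
  haveI : (omegaOneCenter p (pCore p G)).Normal := omega_core_normal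
  set U := omegaOneCenter p (pCore p G) with hU
  have hUel : IsElementaryAbelian p U := H51.omegaOneCenter_isElementaryAbelian _
  have hFU : F ≤ normalizer (U : Set G) := le_normalizer_of_normal
  set L := ⁅U, F⁆ with hL
  have hFL : F ≤ normalizer (L : Set G) := normalizer_commutator_ge_right _ _
  have hLU : L ≤ U := commutator_le_of_le_normalizer hFU
  have hLQ : L ≤ pCoreOf p F := by
    rw [hL, commutator_comm]
    exact (commutator_mono le_rfl ((H34.omegaOne_le _).trans inf_le_left)).trans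
      (H51.pCore_normalizes_block T hF).2
  have hres : ⁅L, F⁆ = L :=
    commutator_residual_eq hF.1 (H34.IsPGroup_of_isElementaryAbelian hUel) hFU
  have hLW : L ≤ omegaOneCenter p (pCoreOf p F) := by
    set W := omegaOneCenter p (pCoreOf p F)
    have hFW : F ≤ normalizer (W : Set G) :=
      le_normalizer.trans (H51.normalizer_le_normalizer_omegaCore F)
    rcases H51.block_top_irreducible hF (L ⊔ W) le_sup_right (sup_le hLQ (H51.omega_le_core F))
      (by
        intro f hf
        rw [mem_normalizer_iff_map_conj_eq]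
        exact (Subgroup.map_sup _ _ _).trans (congrArg₂ (· ⊔ ·)
          (mem_normalizer_iff_map_conj_eq.mp (hFL hf)) (mem_normalizer_iff_map_conj_eq.mp (hFW hf))))
      with h | h
    · exact le_sup_left.trans h.le
    · have hcomm : ⁅pCoreOf p F, pCoreOf p F⁆ = ⊥ := by
        rw [commutator_eq_bot_iff_le_centralizer]
        haveI := hUel.1
        haveI := (H51.omegaOneCenter_isElementaryAbelian (p := p) (pCoreOf p F)).1
        have hLC : L ≤ centralizer (pCoreOf p F : Set G) := by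
          conv_rhs => rw [← h]
          rw [le_centralizer_iff]
          refine sup_le ((le_centralizer_iff_isMulCommutative.mpr ‹IsMulCommutative U›) |> fun h' =>
            hLU.trans (h'.trans (centralizer_le hLU))) ?_
          exact le_centralizer_iff.mp (hLQ.trans (H51.core_le_centralizer_omega F))
        conv_lhs => rw [← h]
        exact sup_le hLC ((H34.omegaOne_le _).trans inf_le_right)
      rw [core_eq_of_comm hF hcomm] at hLQ
      exact hLQ.trans modV_le_omega
  rw [← hres]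
  exact commutator_mono hLW le_rfl

/-- Every block lies in a subnormal block or commutes with it. -/
theorem le_or_commute {E : Subgroup G} (hE : IsSubnormalBlock p E) (T : Sylow p G) {F : Subgroup G}
    (hF : IsBaumannBlock p (T : Subgroup G) F) : F ≤ E ∨ ⁅F, E⁆ = ⊥ := by
  haveI := H51.pCore_normal p G
  have hT := isBaumannBlock_all hG hE T
  have hFE : F ≤ normalizer (E : Set G) := by
    refine le_trans ?_ (baumannSubgroup_le_normalizer hG hE)
    rw [← hF.2.1]
    haveI := baumannSubgroup_normal (p := p) (G := G)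
    exact (commutator_mono le_rfl (baumann_le T)).trans (commutator_le_right F _)
  have hfix := fun c hc hcV hcop => fixes_core_of_fixes_module hG hE T (c := c) hc hcV hcop
  by_cases hFV : F ≤ centralizer (modV p E : Set G)
  · right
    refine H51.commute_of_centralizes (p := p) hF.1 (H74.pCoreOf_isPGroup E) ?_ ?_
    · refine (H51.eq_closure_of_residual hF.1).le.trans ((closure_le _).mpr ?_)
      rintro f ⟨hf, hfc⟩
      refine mem_centralizer_iff.mpr fun q hq => ?_
      exact (mul_inv_eq_iff_eq_mul.mp (hfix f (hFE hf) (hFV hf) hfc q hq)).symm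
    · rw [commutator_le]
      intro f hf e he
      rw [commutatorElement_def]
      exact commutator_mem_core hT (hFE hf) (hFV hf) he
  left
  set R := pCore p G with hR
  set Q := pCoreOf p E with hQ
  have hRp : IsPGroup p R := H51.pCore_isPGroup p G
  have hVU : modV p E ≤ omegaOneCenter p R := hE.module_le hG
  have hFV' : F ≤ normalizer (modV p E : Set G) :=
    hFE.trans (normalizer_le_secNorm_module.trans inf_le_left)
  -- the module of `F` lies in the module of `E`
  have hVF : modV p F ≤ modV p E := by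
    set L := ⁅modV p E, F⁆ with hL
    have hFL : F ≤ normalizer (L : Set G) := normalizer_commutator_ge_right _ _
    have hLW : L ≤ omegaOneCenter p (pCoreOf p F) :=
      (commutator_mono hVU le_rfl).trans ((omega_comm_block hG T hF).trans modV_le_omega)
    obtain ⟨-, hirr⟩ := H51.block_irreducible hF
    set W := omegaOneCenter p (pCoreOf p F)
    rcases hirr (L ⊔ (W ⊓ centralizer (F : Set G))) (sup_le hLW inf_le_left) le_sup_right (by
      intro f hf
      rw [mem_normalizer_iff_map_conj_eq]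
      exact (Subgroup.map_sup _ _ _).trans (congrArg₂ (· ⊔ ·)
        (mem_normalizer_iff_map_conj_eq.mp (hFL hf))
        (mem_normalizer_iff_map_conj_eq.mp
          (H51.normalizer_le_normalizer_omegaCore_fixed F (le_normalizer hf))))) with h | h
    · exfalso
      refine hFV ?_
      have h2 : ⁅L, F⁆ = ⊥ := commutator_eq_bot_iff_le_centralizer.mpr
        ((le_sup_left.trans h.le).trans inf_le_right)
      rw [commutator_residual_eq hF.1
        (H34.IsPGroup_of_isElementaryAbelian (modV_isElementaryAbelian p E)) hFV',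
        commutator_eq_bot_iff_le_centralizer] at h2
      exact le_centralizer_iff.mp h2
    · exact (modV_le_of_cover hF hFL hLW h.ge).trans (commutator_le_of_le_normalizer hFV')
  have hFR : F ≤ normalizer (R : Set G) := le_normalizer_of_normal
  have hRF : ⁅R, F⁆ ≤ pCoreOf p F := by
    rw [commutator_comm]; exact (H51.pCore_normalizes_block T hF).2
  -- it suffices that `[R, F] ≤ Q`
  suffices hRFQ : ⁅R, F⁆ ≤ Q by
    have hREQ : ⁅R, E⁆ ≤ Q := by rw [commutator_comm]; exact hE.comm_core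
    let D : Subgroup G :=
      { carrier := {g | g ∈ normalizer (E : Set G) ∧ g ∈ centralizer (modV p E : Set G) ∧
          ∀ r ∈ R, g * r * g⁻¹ * r⁻¹ ∈ Q}
        one_mem' := ⟨one_mem _, one_mem _, fun r _ => by simp⟩
        mul_mem' := by
          rintro a b ⟨ha, ha', ha''⟩ ⟨hb, hb', hb''⟩
          refine ⟨mul_mem ha hb, mul_mem ha' hb', fun r hr => ?_⟩
          rw [show a * b * r * (a * b)⁻¹ * r⁻¹ =
            (a * (b * r * b⁻¹ * r⁻¹) * a⁻¹) * (a * r * a⁻¹ * r⁻¹) by group]
          exact mul_mem ((mem_normalizer_iff.mp (H51.normalizer_le_normalizer_core E ha) _).mp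
            (hb'' r hr)) (ha'' r hr)
        inv_mem' := by
          rintro a ⟨ha, ha', ha''⟩
          refine ⟨inv_mem ha, inv_mem ha', fun r hr => ?_⟩
          rw [show a⁻¹ * r * (a⁻¹)⁻¹ * r⁻¹ = a⁻¹ * (a * r * a⁻¹ * r⁻¹)⁻¹ * a by group]
          exact (mem_normalizer_iff''.mp (H51.normalizer_le_normalizer_core E ha) _).mp
            (inv_mem (ha'' r hr)) }
    have hDp : IsPGroup p D := by
      intro ⟨g, hg, hgV, hgR⟩
      obtain ⟨a, ha⟩ := H51.exists_coprime_pow (p := p) g
      refine ⟨a, Subtype.ext ?_⟩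
      have hmem : g ^ p ^ a ∈ D := pow_mem (show g ∈ D from ⟨hg, hgV, hgR⟩) _
      obtain ⟨hg', hgV', hgR'⟩ := hmem
      have hfixR : ∀ r ∈ R, g ^ p ^ a * r * (g ^ p ^ a)⁻¹ = r := fun r hr =>
        H51.fixed_of_two_step ha (H74.pCoreOf_isPGroup E) (hgR' r hr) (hfix _ hg' hgV' ha)
      have hgR'' : g ^ p ^ a ∈ R := hG (mem_centralizer_iff.mpr fun r hr =>
        (mul_inv_eq_iff_eq_mul.mp (hfixR r hr)).symm)
      obtain ⟨k, hk⟩ := exists_pow_eq_one_of_pgroup hRp hgR''
      have h1 := pow_gcd_eq_one.2 ⟨pow_orderOf_eq_one (g ^ p ^ a), hk⟩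
      rw [(ha.pow_right k).gcd_eq_one, pow_one] at h1
      simpa using h1
    refine (H51.eq_closure_of_residual hF.1).le.trans ((closure_le _).mpr ?_)
    rintro f ⟨hf, hfc⟩
    obtain ⟨e, he, hec⟩ := exists_match hG hE T hF.2.1 hFE hf hfc
    refine mem_of_coprime_mem_sup_pgroup (show D ≤ normalizer (E : Set G) from fun _ h => h.1) hDp ?_ hfc
    rw [show f = e * (e⁻¹ * f) by group]
    refine mul_mem (mem_sup_left he) (mem_sup_right ⟨mul_mem (inv_mem (le_normalizer he)) (hFE hf), hec,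
      fun r hr => ?_⟩)
    have h1 : f * r * f⁻¹ * r⁻¹ ∈ Q := by
      have := hRFQ (commutator_mem_commutator hr hf)
      have := inv_mem this
      rwa [commutatorElement_inv, commutatorElement_def] at this
    have h2 : e⁻¹ * r * e * r⁻¹ ∈ Q := by
      have := inv_mem (hREQ (commutator_mem_commutator hr (inv_mem he)))
      rw [commutatorElement_inv, commutatorElement_def, inv_inv] at this
      exact this
    rw [show e⁻¹ * f * r * (e⁻¹ * f)⁻¹ * r⁻¹ =
      (e⁻¹ * (f * r * f⁻¹ * r⁻¹) * e) * (e⁻¹ * r * e * r⁻¹) by group]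
    exact mul_mem
      ((mem_normalizer_iff''.mp (H51.normalizer_le_normalizer_core E (le_normalizer he)) _).mp h1) h2
  by_cases hQE : Q = modV p E
  · -- `E` is not exceptional
    rw [hQE]
    by_cases hRFW : ⁅R, F⁆ ≤ omegaOneCenter p (pCoreOf p F)
    · rw [← commutator_residual_eq hF.1 hRp hFR]
      exact (commutator_mono hRFW le_rfl).trans hVF
    exfalso
    have hne : pCoreOf p F ≠ modV p F := fun h => hRFW ((hRF.trans h.le).trans modV_le_omega)
    obtain ⟨h3, K, iK, iFin, iC, ⟨DF⟩, ⟨DF₂⟩, hQQ, hquad⟩ := core_eq_or_exceptional hF hne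
    subst h3
    obtain ⟨KE, iKE, iFinE, iCE, ⟨DE⟩, -⟩ | ⟨h2, -⟩ := block_coords hT
    swap
    · exact absurd h2 (by norm_num)
    set V := modV 3 E with hV
    have hVel : IsElementaryAbelian 3 V := modV_isElementaryAbelian 3 E
    haveI := hVel.1
    have hQV : Q = V := hQE
    -- an element of `E` inverting the module
    have hneg : (-1 : Matrix.SpecialLinearGroup (Fin 2) KE) ∈ DE.ρ.range := by
      rw [DE.range_eq]
      refine sl2_mem_commutator (p := 3) ?_
      refine Nat.Coprime.coprime_dvd_left (orderOf_dvd_of_pow_eq_one (n := 2) ?_) (by norm_num)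
      apply Subtype.ext
      rw [sq, Matrix.SpecialLinearGroup.coe_mul, Matrix.SpecialLinearGroup.coe_neg,
        Matrix.SpecialLinearGroup.coe_one]
      simp
    obtain ⟨t₀, ht₀⟩ := hneg
    obtain ⟨a, ha⟩ := H51.exists_coprime_pow (p := 3) t₀
    set t := t₀ ^ 3 ^ a with ht
    have htρ : DE.ρ t = -1 := by
      rw [ht, map_pow, ht₀, Odd.neg_one_pow (Odd.pow (by decide))]
    have htact : ∀ x, DE.act ⟨t.1, DE.normalizes t.2⟩ x = -x := fun x => by
      rw [DE.act_block, htρ, Matrix.SpecialLinearGroup.coe_neg, Matrix.neg_mulVec,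
        Matrix.SpecialLinearGroup.coe_one, Matrix.one_mulVec]
    have htwo : ∀ x : Fin 2 → KE, -x = x → x = 0 := fun x h => by
      funext i
      have h' : -(x i) = x i := congrFun h i
      have h2 : ((2 : ℕ) : KE) * x i = 0 := by push_cast; linear_combination -h'
      rcases mul_eq_zero.mp h2 with h4 | h4
      · rw [CharP.cast_eq_zero_iff KE 3] at h4
        exact absurd h4 (by norm_num)
      · exact h4
    have hX : modX 3 E = ⊥ := by
      haveI := (H51.omegaOneCenter_isElementaryAbelian (p := 3) (pCoreOf 3 E)).1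
      obtain ⟨hne', hirr⟩ := H51.block_irreducible hT
      refine (H51.exact_decomposition (p := 3)
        (H34.IsPGroup_of_isElementaryAbelian (H51.omegaOneCenter_isElementaryAbelian _))
        (le_normalizer.trans (H51.normalizer_le_normalizer_omegaCore E)) hirr hne' t.2
        (by rw [Subgroup.orderOf_coe]; exact ha) ?_ ?_).1
      · intro e he w hw
        have hq : (e * (t : G) * e⁻¹) * (t : G)⁻¹ ∈ pCoreOf 3 E := by
          have h1 : DE.ρ (⟨e, he⟩ * t * ⟨e, he⟩⁻¹ * t⁻¹) = 1 := by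
            rw [map_mul, map_mul, map_mul, map_inv, map_inv, htρ]
            simp
          simpa using (DE.ker_iff _).mp h1
        have hwt : (t : G) * w * (t : G)⁻¹ ∈ omegaOneCenter 3 (pCoreOf 3 E) :=
          (mem_normalizer_iff.mp (H51.normalizer_le_normalizer_omegaCore E (le_normalizer t.2)) w).mp hw
        have h2 := mem_centralizer_iff.mp (H51.core_le_centralizer_omega E hq) _ hwt
        calc e * (t : G) * e⁻¹ * w * (e * (t : G) * e⁻¹)⁻¹
            = (e * (t : G) * e⁻¹ * (t : G)⁻¹) * ((t : G) * w * (t : G)⁻¹) *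
              (e * (t : G) * e⁻¹ * (t : G)⁻¹)⁻¹ := by group
          _ = (t : G) * w * (t : G)⁻¹ := by rw [← h2]; group
      · intro w hw hwt
        obtain ⟨v, hv, z, hz, rfl⟩ := exists_modV_mul hT hw
        have hzt : (t : G) * z * (t : G)⁻¹ = z := by
          rw [mem_centralizer_iff.mp hz.2 t t.2, mul_inv_cancel_right]
        have hvt : (t : G) * v * (t : G)⁻¹ = v := by
          rw [show (t : G) * (v * z) * (t : G)⁻¹ =
            ((t : G) * v * (t : G)⁻¹) * ((t : G) * z * (t : G)⁻¹) by group, hzt] at hwt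
          exact mul_right_cancel hwt
        refine mul_mem ?_ hz.2
        have h0 : DE.val ⟨v, hv⟩ = 0 := htwo _ (by
          rw [← htact, Coord.act_apply]
          congr 1
          exact Subtype.ext hvt)
        exact ((DE.ker ⟨v, hv⟩).mp (Multiplicative.toAdd.injective h0)).2
    have hinj : ∀ v w (hv : v ∈ V) (hw : w ∈ V), DE.val ⟨v, hv⟩ = DE.val ⟨w, hw⟩ → v = w := by
      intro v w hv hw h
      have := (DE.val_eq_iff _ _).mp h
      rw [hX, mem_bot, mul_inv_eq_one] at this
      exact this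
    have hinv : ∀ v ∈ V, (t : G) * v * (t : G)⁻¹ = v⁻¹ := by
      intro v hv
      refine hinj _ _ ((mem_normalizer_iff.mp (DE.normalizes t.2).1 v).mp hv) (inv_mem hv) ?_
      show DE.val (Coord.conjU ⟨t.1, DE.normalizes t.2⟩ ⟨v, hv⟩) = _
      rw [← Coord.act_apply, htact]
      show -(DE.val ⟨v, hv⟩) = DE.val (⟨v, hv⟩⁻¹)
      simp [Coord.val]
    have hVfix : ∀ v ∈ V, (t : G) * v * (t : G)⁻¹ = v → v = 1 := by
      intro v hv h
      rw [hinv v hv] at h
      have h2 : v * v = 1 := by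
        calc v * v = v⁻¹ * v := by rw [h]
          _ = 1 := inv_mul_cancel v
      have h4 := hVel.2 v hv
      rwa [pow_succ, pow_two, h2, one_mul] at h4
    have hVR : ∀ v ∈ V, ∀ r ∈ R, r * v = v * r := fun v hv r hr =>
      mem_centralizer_iff.mp ((H34.omegaOne_le _).trans inf_le_right (hVU hv)) r hr
    set C := R ⊓ centralizer (zpowers (t : G) : Set G) with hC
    have hCt : ∀ r ∈ C, (t : G) * r * (t : G)⁻¹ = r := fun r hr => by
      rw [mem_centralizer_iff.mp hr.2 _ (mem_zpowers _), mul_inv_cancel_right]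
    have hdec : ∀ r ∈ R, ∃ v ∈ V, ∃ r' ∈ C, r = v * r' := by
      intro r hr
      set d := (t : G) * r * (t : G)⁻¹ * r⁻¹ with hd
      have hdV : d ∈ V := by
        rw [← hQV]
        have := hE.comm_core (commutator_mem_commutator t.2 hr)
        rwa [commutatorElement_def] at this
      refine ⟨d, hdV, d⁻¹ * r, ⟨R.mul_mem (R.inv_mem ?_) hr, ?_⟩, by group⟩
      · exact (H34.omegaOne_le _).trans inf_le_left (hVU hdV)
      · show d⁻¹ * r ∈ centralizer (zpowers (t : G) : Set G)
        rw [H51.centralizer_zpowers_eq, mem_centralizer_singleton_iff]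
        refine (mul_inv_eq_iff_eq_mul.mp ?_).symm
        calc (t : G) * (d⁻¹ * r) * (t : G)⁻¹
            = ((t : G) * d⁻¹ * (t : G)⁻¹) * ((t : G) * r * (t : G)⁻¹ * r⁻¹) * r := by group
          _ = d * d * r := by rw [← hd, hinv _ (inv_mem hdV), inv_inv]
          _ = d⁻¹ * r := by
              congr 1
              refine eq_inv_of_mul_eq_one_left ?_
              rw [← hVel.2 d hdV, pow_succ, pow_two]
    have hCn : ∀ g ∈ normalizer (E : Set G), ∀ r ∈ C, g * r * g⁻¹ ∈ C := by
      intro g hg r hr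
      refine ⟨(Normal.conj_mem ‹R.Normal› r hr.1 g), ?_⟩
      show g * r * g⁻¹ ∈ centralizer (zpowers (t : G) : Set G)
      have hq : g⁻¹ * (t : G) * g * (t : G)⁻¹ ∈ Q := by
        refine block_faithful hT (mul_mem ((mem_normalizer_iff''.mp hg _).mp t.2) (inv_mem t.2))
          fun v hv => ?_
        have hgs := normalizer_le_secNorm_module (p := 3) hg
        have h1 : (t : G)⁻¹ * v * (t : G) = v⁻¹ := by
          have := hinv v⁻¹ (inv_mem hv)
          rw [inv_inv] at this
          calc (t : G)⁻¹ * v * (t : G) = (t : G)⁻¹ * ((t : G) * v⁻¹ * (t : G)⁻¹) * (t : G) := by rw [this]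
            _ = v⁻¹ := by group
        have hgv : g * v * g⁻¹ ∈ V := (mem_normalizer_iff.mp hgs.1 v).mp hv
        have h2 := hinv _ (inv_mem hgv)
        convert one_mem (modX 3 E) using 1
        calc g⁻¹ * (t : G) * g * (t : G)⁻¹ * v * (g⁻¹ * (t : G) * g * (t : G)⁻¹)⁻¹ * v⁻¹
            = g⁻¹ * (t : G) * g * ((t : G)⁻¹ * v * (t : G)) * g⁻¹ * (t : G)⁻¹ * g * v⁻¹ := by group
          _ = g⁻¹ * ((t : G) * (g * v * g⁻¹)⁻¹ * (t : G)⁻¹) * g * v⁻¹ := by rw [h1]; group
          _ = 1 := by rw [h2]; group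
      rw [H51.centralizer_zpowers_eq, mem_centralizer_singleton_iff]
      refine (mul_inv_eq_iff_eq_mul.mp ?_).symm
      have hqr := hVR _ (hQV ▸ hq) r hr.1
      calc (t : G) * (g * r * g⁻¹) * (t : G)⁻¹
          = g * ((g⁻¹ * (t : G) * g * (t : G)⁻¹) * ((t : G) * r * (t : G)⁻¹) *
              (g⁻¹ * (t : G) * g * (t : G)⁻¹)⁻¹) * g⁻¹ := by group
        _ = g * r * g⁻¹ := by
            rw [hCt r hr, ← hqr, mul_inv_cancel_right]
    -- the core of `F`
    have hFW : ∀ w ∈ omegaOneCenter 3 (pCoreOf 3 F), ∀ x ∈ pCoreOf 3 F, x * w = w * x :=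
      fun w hw x hx => (mem_centralizer_iff.mp (H51.core_le_centralizer_omega F hx) w hw).symm
    set WF := omegaOneCenter 3 (pCoreOf 3 F) with hWF
    have hsup : ⁅R, F⁆ ⊔ WF = pCoreOf 3 F := by
      refine (H51.block_top_irreducible hF _ le_sup_right (sup_le hRF (H51.omega_le_core F)) ?_).resolve_left
        fun h => hRFW (le_sup_left.trans h.le)
      intro f hf
      rw [mem_normalizer_iff_map_conj_eq]
      exact (Subgroup.map_sup _ _ _).trans (congrArg₂ (· ⊔ ·)
        (mem_normalizer_iff_map_conj_eq.mp (normalizer_commutator_ge_right R F hf))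
        (mem_normalizer_iff_map_conj_eq.mp (H51.normalizer_le_normalizer_omegaCore F (le_normalizer hf))))
    have hRFR : ⁅R, F⁆ ≤ R := commutator_le_left R F
    have hmul : ∀ x ∈ pCoreOf 3 F, ∃ l ∈ ⁅R, F⁆, ∃ w ∈ WF, x = l * w := by
      intro x hx
      rw [← hsup, ← SetLike.mem_coe, coe_mul_of_right_le_normalizer_left _ _ ?_] at hx
      · obtain ⟨l, hl, w, hw, rfl⟩ := hx
        exact ⟨l, hl, w, hw, rfl⟩
      · intro w hw
        refine centralizer_le_normalizer _ (mem_centralizer_iff.mpr fun l hl => hFW w hw l (hRF hl))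
    set ZF := WF ⊓ centralizer (F : Set G) with hZF
    have hZC : ZF ≤ C := by
      rw [← hQQ, commutator_le]
      intro x hx y hy
      obtain ⟨l, hl, w, hw, rfl⟩ := hmul x hx
      obtain ⟨l', hl', w', hw', rfl⟩ := hmul y hy
      have e1 : ⁅l * w, l' * w'⁆ = ⁅l, l'⁆ := by
        have a1 := hFW w hw l' (hRF hl')
        have a2 := hFW w hw _ (inv_mem (hRF hl))
        have a3 := hFW w hw w' (H51.omega_le_core F hw')
        have a4 := hFW w' hw' _ (inv_mem (hRF hl))
        calc ⁅l * w, l' * w'⁆ = l * ((w * l') * (w' * w⁻¹)) * (l⁻¹ * w'⁻¹) * l'⁻¹ := by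
              simp only [commutatorElement_def]; group
          _ = l * ((l' * w) * (w⁻¹ * w')) * (l⁻¹ * w'⁻¹) * l'⁻¹ := by
              rw [a1, show w' * w⁻¹ = w⁻¹ * w' from
                (Commute.inv_right (show Commute w' w from a3)).eq]
          _ = l * l' * (w' * l⁻¹) * w'⁻¹ * l'⁻¹ := by group
          _ = l * l' * (l⁻¹ * w') * w'⁻¹ * l'⁻¹ := by rw [← a4]
          _ = ⁅l, l'⁆ := by simp only [commutatorElement_def]; group
      rw [e1]
      obtain ⟨v, hv, r, hr, rfl⟩ := hdec l (hRFR hl)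
      obtain ⟨v', hv', r', hr', rfl⟩ := hdec l' (hRFR hl')
      have e2 : ⁅v * r, v' * r'⁆ = ⁅r, r'⁆ := by
        have b1 := hVR v hv r' hr'.1
        have b2 := hVR v' hv' r hr.1
        have b3 : v * v' = v' * v := by
          simpa using congrArg (fun x : ↥V => (x : G)) (mul_comm' (⟨v, hv⟩ : ↥V) ⟨v', hv'⟩)
        have b4 := hVR v' hv' _ (inv_mem hr.1)
        have b5 := hVR v hv _ (inv_mem hr.1)
        calc ⁅v * r, v' * r'⁆ = v * (r * v') * r' * r⁻¹ * v⁻¹ * r'⁻¹ * v'⁻¹ := by
              simp only [commutatorElement_def]; group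
          _ = v * v' * r * r' * r⁻¹ * (r' * v)⁻¹ * v'⁻¹ := by rw [b2]; group
          _ = v * v' * r * r' * r⁻¹ * r'⁻¹ * (v⁻¹ * v'⁻¹) := by
              rw [show (r' * v)⁻¹ = r'⁻¹ * v⁻¹ by rw [b1]; group]; group
          _ = v * v' * ⁅r, r'⁆ * (v' * v)⁻¹ := by simp only [commutatorElement_def]; group
          _ = v * v' * (⁅r, r'⁆ * (v * v')⁻¹) := by rw [← b3]; group
          _ = v * v' * ((v * v')⁻¹ * ⁅r, r'⁆) := by
              rw [hVR _ (inv_mem (mul_mem hv hv')) _ (show ⁅r, r'⁆ ∈ R by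
                rw [commutatorElement_def]
                exact mul_mem (mul_mem (mul_mem hr.1 hr'.1) (inv_mem hr.1)) (inv_mem hr'.1))]
          _ = ⁅r, r'⁆ := by group
      rw [e2, commutatorElement_def]
      exact C.mul_mem (C.mul_mem (C.mul_mem hr hr') (C.inv_mem hr)) (C.inv_mem hr')
    have hQFR : pCoreOf 3 F ≤ R := by
      intro x hx
      obtain ⟨l, hl, w, hw, rfl⟩ := hmul x hx
      obtain ⟨v, hv, z, hz, rfl⟩ := exists_modV_mul hF hw
      exact mul_mem (hRFR hl) (mul_mem ((H34.omegaOne_le _).trans inf_le_left (hVU (hVF hv))) (hZC hz).1)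
    -- a quadratic element
    obtain ⟨b, hb, hbW⟩ : ∃ b ∈ baumannSubgroupOf 3 (T : Subgroup G),
        b ∉ centralizer (WF : Set G) := by
      by_contra hno
      push Not at hno
      refine H51.block_commutator_moved T hF ?_
      rw [commutator_comm]
      exact commutator_eq_bot_iff_le_centralizer.mpr
        ((H51.thompsonSubgroupOf_le_baumann _).trans fun b hb => centralizer_le modV_le_omega (hno b hb))
    have hbE := baumann_le_normalizer hG hE T hb
    obtain ⟨kb, hkb⟩ := exists_pow_eq_one_of_pgroup (H51.baumann_isPGroup T) hb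
    have hbF : b ∈ normalizer (F : Set G) := H51.baumann_le_normalizer_of_commutator_eq hF.2.1 hb
    have hbFs := normalizer_le_secNorm_top (p := 3) hbF
    have hlinF : IsLin (DF₂.act ⟨b, hbFs⟩) := by
      exact baumann_linear_top (by norm_num) T hF DF DF₂ hb hbFs
    refine hquad b hb hbW (quadratic_zpowers hbFs.1
      (H51.normalizer_le_normalizer_omegaCore_fixed F hbF) (fun z hz x hx => hFW z hz.1 x hx) ?_)
    intro x hx
    obtain ⟨v, hv, r, hr, hxr⟩ := hdec x (hQFR hx)
    set y := b * x * b⁻¹ * x⁻¹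
    have hyW : b * y * b⁻¹ * y⁻¹ ∈ WF := quadratic_of_linear DF₂.toCoord ⟨b, hbFs⟩ hlinF hkb hx
    set dv := b * v * b⁻¹ * v⁻¹ with hdv
    set dr := b * r * b⁻¹ * r⁻¹ with hdr
    have hbV := (normalizer_le_secNorm_module (p := 3) hbE).1
    have hdvV : dv ∈ V := mul_mem ((mem_normalizer_iff.mp hbV v).mp hv) (inv_mem hv)
    have hdrC : dr ∈ C := C.mul_mem (hCn b hbE r hr) (C.inv_mem hr)
    have hy : y = dv * dr := by
      have c1 := hVR v⁻¹ (inv_mem hv) dr hdrC.1
      calc y = (b * v * b⁻¹) * (dr * v⁻¹) := by simp only [y, hdr]; rw [hxr]; group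
        _ = (b * v * b⁻¹) * (v⁻¹ * dr) := by rw [c1]
        _ = dv * dr := by simp only [hdv]; group
    have hDDv : b * dv * b⁻¹ * dv⁻¹ = 1 := by
      have := quadratic_of_linear DE.toCoord ⟨b, normalizer_le_secNorm_module hbE⟩
        (baumann_linear T hT DE _ hb) hkb hv
      exact mem_bot.mp (hX.le this)
    have hDDr : b * dr * b⁻¹ * dr⁻¹ ∈ C := C.mul_mem (hCn b hbE dr hdrC) (C.inv_mem hdrC)
    have hDD : b * y * b⁻¹ * y⁻¹ = b * dr * b⁻¹ * dr⁻¹ := by
      rw [hy]
      have c1 := hVR _ (inv_mem hdvV) _ hDDr.1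
      calc b * (dv * dr) * b⁻¹ * (dv * dr)⁻¹
          = (b * dv * b⁻¹) * ((b * dr * b⁻¹ * dr⁻¹) * dv⁻¹) := by group
        _ = (b * dv * b⁻¹) * (dv⁻¹ * (b * dr * b⁻¹ * dr⁻¹)) := by rw [c1]
        _ = (b * dv * b⁻¹ * dv⁻¹) * (b * dr * b⁻¹ * dr⁻¹) := by group
        _ = b * dr * b⁻¹ * dr⁻¹ := by rw [hDDv, one_mul]
    rw [hDD] at hyW ⊢
    obtain ⟨v', hv', z, hz, hvz⟩ := exists_modV_mul hF hyW
    have hv'C : v' ∈ C := by
      have : v' = b * dr * b⁻¹ * dr⁻¹ * z⁻¹ := by rw [hvz]; group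
      rw [this]
      exact C.mul_mem hDDr (C.inv_mem (hZC hz))
    rw [hvz, hVfix v' (hVF hv') (hCt v' hv'C), one_mul]
    exact hz
  -- `E` is exceptional
  obtain ⟨h3, K, iK, iFin, iC, ⟨D⟩, ⟨D₂⟩, hQQ, hquad⟩ := core_eq_or_exceptional hT hQE
  have hp2 : p ≠ 2 := by omega
  obtain ⟨f, hf, hfc, hfV⟩ : ∃ f ∈ F, (orderOf f).Coprime p ∧ f ∉ centralizer (modV p E : Set G) := by
    by_contra hno
    push Not at hno
    exact hFV ((H51.eq_closure_of_residual hF.1).le.trans ((closure_le _).mpr fun f hf => hno f hf.1 hf.2))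
  obtain ⟨e, he, hec⟩ := exists_match hG hE T hF.2.1 hFE hf hfc
  have hcE : e⁻¹ * f ∈ normalizer (E : Set G) := mul_mem (inv_mem (le_normalizer he)) (hFE hf)
  have hfs₁ := normalizer_le_secNorm_module (p := p) (hFE hf)
  have hfs₂ := normalizer_le_secNorm_top (p := p) (hFE hf)
  have hact₁ : D.act ⟨f, hfs₁⟩ = D.act ⟨e, D.normalizes he⟩ := by
    rw [eq_comm, ← inv_mul_eq_one, ← map_inv, ← map_mul, Coord.act_eq_one_iff]
    intro v hv
    show e⁻¹ * f * v * (e⁻¹ * f)⁻¹ * v⁻¹ ∈ modX p E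
    rw [← mem_centralizer_iff.mp hec v hv, mul_inv_cancel_right, mul_inv_cancel]
    exact one_mem _
  have hact₂ : D₂.act ⟨f, hfs₂⟩ = D₂.act ⟨e, D₂.normalizes he⟩ := by
    rw [eq_comm, ← inv_mul_eq_one, ← map_inv, ← map_mul, Coord.act_eq_one_iff]
    intro u hu
    exact top_trivial hG hE T hp2 D D₂ hquad hcE hec hu
  -- fixed point freeness on both sections
  have hfpf : ∀ {U U₀ : Subgroup G} (D' : SL2Coord p E U U₀ K) (hfs : f ∈ secNorm U U₀),
      D'.act ⟨f, hfs⟩ = D'.act ⟨e, D'.normalizes he⟩ → e ∉ pCoreOf p E →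
      ∀ y, ∃ x, D'.act ⟨f, hfs⟩ x - x = y := by
    intro U U₀ D' hfs hact heQ y
    refine surjective_sub_of_fpf (D'.act_additive _) (fun x hx => ?_) y
    by_contra hx0
    refine heQ ((D'.ker_iff ⟨e, he⟩).mp (sl2_eq_one_of_fix (p := p) ?_ hx0 ?_))
    · have h1 : D'.act ⟨e, D'.normalizes he⟩ ^ orderOf f = 1 := by
        rw [← hact]; exact act_pow_eq_one _ _ (pow_orderOf_eq_one f)
      have h2 : (D'.ρ ⟨e, he⟩) ^ orderOf f = 1 := by
        refine Subtype.ext (Matrix.ext_of_mulVec_single fun i => ?_)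
        rw [← map_pow, ← D'.act_block]
        have h3 : (⟨((⟨e, he⟩ : ↥E) ^ orderOf f).1, D'.normalizes (((⟨e, he⟩ : ↥E) ^ orderOf f)).2⟩ :
            ↥(secNorm U U₀)) = ⟨e, D'.normalizes he⟩ ^ orderOf f := Subtype.ext (by simp)
        rw [h3, map_pow, h1, Matrix.SpecialLinearGroup.coe_one, Matrix.one_mulVec]
        rfl
      exact Nat.Coprime.coprime_dvd_left (orderOf_dvd_of_pow_eq_one h2) hfc
    · rw [← D'.act_block, ← hact]; exact hx
  have heQ : e ∉ pCoreOf p E := by
    intro heQ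
    refine hfV ?_
    have h1 : e ∈ centralizer (modV p E : Set G) :=
      mem_centralizer_iff.mpr fun v hv => (core_centralizes_modV heQ hv).symm
    have := mul_mem h1 hec
    rwa [mul_inv_cancel_left] at this
  set QF := pCoreOf p F
  have hQR : Q ≤ R := hE.core_le
  have hTQF : ∀ u ∈ Q, f * u * f⁻¹ * u⁻¹ ∈ QF := fun u hu => by
    have := inv_mem (hRF (commutator_mem_commutator (hQR hu) hf))
    rwa [commutatorElement_inv, commutatorElement_def] at this
  have hWc : ∀ w ∈ topW p E, ∀ u ∈ Q, u * w = w * u := fun w hw u hu =>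
    (mem_centralizer_iff.mp (H51.core_le_centralizer_omega E hu) w hw).symm
  have hQdec : ∀ u ∈ Q, ∃ q ∈ QF, q ∈ Q ∧ q⁻¹ * u ∈ topW p E := by
    intro u hu
    obtain ⟨x, hx⟩ := hfpf D₂ hfs₂ hact₂ heQ (D₂.val ⟨u, hu⟩)
    obtain ⟨u₀, rfl⟩ := D₂.val_surj x
    have hq : f * u₀ * f⁻¹ * (u₀ : G)⁻¹ ∈ Q :=
      mul_mem ((mem_normalizer_iff.mp hfs₂.1 _).mp u₀.2) (inv_mem u₀.2)
    refine ⟨_, hTQF _ u₀.2, hq, ?_⟩
    have h1 : D₂.val ⟨u, hu⟩ = D₂.val ⟨_, hq⟩ := by
      rw [← hx, Coord.act_apply]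
      refine sub_eq_iff_eq_add.mpr ?_
      rw [← Coord.val_mul]
      congr 1
      apply Subtype.ext
      show f * u₀ * f⁻¹ = f * u₀ * f⁻¹ * (u₀ : G)⁻¹ * u₀
      group
    have h2 := (D₂.val_eq_iff _ _).mp h1
    have e : (f * u₀ * f⁻¹ * (u₀ : G)⁻¹)⁻¹ * u =
        (f * u₀ * f⁻¹ * (u₀ : G)⁻¹)⁻¹ * (u * (f * u₀ * f⁻¹ * (u₀ : G)⁻¹)⁻¹) *
          (f * u₀ * f⁻¹ * (u₀ : G)⁻¹) := by group
    rw [e, hWc _ h2 _ (inv_mem hq), inv_mul_cancel_right]
    exact h2
  have hZQF : topW p E ⊓ centralizer (E : Set G) ≤ QF := by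
    rw [← hQQ, commutator_le]
    intro x hx y hy
    obtain ⟨a, ha, haQ, hax⟩ := hQdec x hx
    obtain ⟨b, hb, hbQ, hby⟩ := hQdec y hy
    have e : ⁅x, y⁆ = ⁅a, b⁆ := by
      generalize hw : a⁻¹ * x = w at hax
      generalize hw' : b⁻¹ * y = w' at hby
      rw [show x = a * w by rw [← hw]; group, show y = b * w' by rw [← hw']; group]
      have a1 := hWc w hax b hbQ
      have a4 := hWc w' hby _ (inv_mem haQ)
      have a3 := hWc w hax w' (H51.omega_le_core E hby)
      calc ⁅a * w, b * w'⁆ = a * ((w * b) * (w' * w⁻¹)) * (a⁻¹ * w'⁻¹) * b⁻¹ := by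
            simp only [commutatorElement_def]; group
        _ = a * ((b * w) * (w⁻¹ * w')) * (a⁻¹ * w'⁻¹) * b⁻¹ := by
            rw [a1, show w' * w⁻¹ = w⁻¹ * w' from (Commute.inv_right (show Commute w' w from a3)).eq]
        _ = a * b * (w' * a⁻¹) * w'⁻¹ * b⁻¹ := by group
        _ = a * b * (a⁻¹ * w') * w'⁻¹ * b⁻¹ := by rw [← a4]
        _ = ⁅a, b⁆ := by simp only [commutatorElement_def]; group
    rw [e, commutatorElement_def]
    exact mul_mem (mul_mem (mul_mem ha hb) (inv_mem ha)) (inv_mem hb)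
  have hWQF : topW p E ≤ QF := by
    intro w hw
    obtain ⟨v, hv, z, hz, rfl⟩ := exists_modV_mul hT hw
    refine mul_mem ?_ (hZQF hz)
    obtain ⟨x, hx⟩ := hfpf D hfs₁ hact₁ heQ (D.val ⟨v, hv⟩)
    obtain ⟨v₀, rfl⟩ := D.val_surj x
    have hm : f * v₀ * f⁻¹ * (v₀ : G)⁻¹ ∈ modV p E :=
      mul_mem ((mem_normalizer_iff.mp hfs₁.1 _).mp v₀.2) (inv_mem v₀.2)
    have h1 : D.val ⟨v, hv⟩ = D.val ⟨_, hm⟩ := by
      rw [← hx, Coord.act_apply]
      refine sub_eq_iff_eq_add.mpr ?_
      rw [← Coord.val_mul]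
      congr 1
      apply Subtype.ext
      show f * v₀ * f⁻¹ = f * v₀ * f⁻¹ * (v₀ : G)⁻¹ * v₀
      group
    have h2 := (D.val_eq_iff _ _).mp h1
    have h3 : v * (f * v₀ * f⁻¹ * (v₀ : G)⁻¹)⁻¹ ∈ QF := hZQF ⟨modV_le_omega h2.1, h2.2⟩
    have := mul_mem h3 (hTQF _ ((H51.omega_le_core E) (modV_le_omega v₀.2)))
    rwa [inv_mul_cancel_right] at this
  have hQQF : Q ≤ QF := by
    intro u hu
    obtain ⟨q, hq, -, hqu⟩ := hQdec u hu
    have := mul_mem hq (hWQF hqu)
    rwa [mul_inv_cancel_left] at this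
  have hQab : ⁅Q, Q⁆ ≠ ⊥ := by
    rcases block_coords hT with ⟨K', iK', iFin', iC', -, h' | ⟨-, -, hQQ', hZ, -⟩⟩ | ⟨-, n, -, -, -, h'⟩
    · exact absurd h' hQE
    · exact fun h => hZ (hQQ'.symm.trans h)
    · exact absurd h' hQE
  have hFne : QF ≠ modV p F := by
    intro h
    refine hQab (le_bot_iff.mp ?_)
    calc ⁅Q, Q⁆ ≤ ⁅modV p F, modV p F⁆ := commutator_mono (hQQF.trans h.le) (hQQF.trans h.le)
      _ = ⊥ := commutator_eq_bot_iff_le_centralizer.mpr
          (le_centralizer_iff_isMulCommutative.mpr (modV_isElementaryAbelian p F).1)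
  obtain ⟨-, K', iK', iFin', iC', -, -, hQQF', -⟩ := core_eq_or_exceptional hF hFne
  set WF := omegaOneCenter p QF
  have hsup : Q ⊔ WF = QF := by
    refine (H51.block_top_irreducible hF _ le_sup_right (sup_le hQQF (H51.omega_le_core F)) ?_).resolve_left
      fun h => hQab (le_bot_iff.mp ?_)
    · intro g hg
      rw [mem_normalizer_iff_map_conj_eq]
      exact (Subgroup.map_sup _ _ _).trans (congrArg₂ (· ⊔ ·)
        (mem_normalizer_iff_map_conj_eq.mp (H51.normalizer_le_normalizer_core E (hFE hg)))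
        (mem_normalizer_iff_map_conj_eq.mp (H51.normalizer_le_normalizer_omegaCore F (le_normalizer hg))))
    · calc ⁅Q, Q⁆ ≤ ⁅WF, WF⁆ := commutator_mono (le_sup_left.trans h.le) (le_sup_left.trans h.le)
        _ = ⊥ := commutator_eq_bot_iff_le_centralizer.mpr
          (le_centralizer_iff_isMulCommutative.mpr (H51.omegaOneCenter_isElementaryAbelian _).1)
  have hWFQ : WF ≤ Q := by
    intro w hw
    obtain ⟨v, hv, z, hz, rfl⟩ := exists_modV_mul hF hw
    refine mul_mem ((H51.omega_le_core E) (modV_le_omega (hVF hv))) ?_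
    have hle : ⁅QF, QF⁆ ≤ Q := by
      rw [commutator_le]
      intro x hx y hy
      rw [← hsup, ← SetLike.mem_coe, coe_mul_of_right_le_normalizer_left _ _
        (fun w' hw' => centralizer_le_normalizer _ (mem_centralizer_iff.mpr fun l hl =>
          (mem_centralizer_iff.mp (H51.core_le_centralizer_omega F (hQQF hl)) w' hw').symm))] at hx hy
      obtain ⟨a, ha, w, hw, rfl⟩ := hx
      obtain ⟨b, hb, w', hw', rfl⟩ := hy
      have hc : ∀ u ∈ WF, ∀ z ∈ QF, z * u = u * z := fun u hu z hz =>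
        (mem_centralizer_iff.mp (H51.core_le_centralizer_omega F hz) u hu).symm
      have a1 := hc w hw b (hQQF hb)
      have a4 := hc w' hw' _ (inv_mem (hQQF ha))
      have a3 := hc w hw w' (H51.omega_le_core F hw')
      have e : ⁅a * w, b * w'⁆ = ⁅a, b⁆ := by
        calc ⁅a * w, b * w'⁆ = a * ((w * b) * (w' * w⁻¹)) * (a⁻¹ * w'⁻¹) * b⁻¹ := by
              simp only [commutatorElement_def]; group
          _ = a * ((b * w) * (w⁻¹ * w')) * (a⁻¹ * w'⁻¹) * b⁻¹ := by
              rw [a1, show w' * w⁻¹ = w⁻¹ * w' from (Commute.inv_right (show Commute w' w from a3)).eq]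
          _ = a * b * (w' * a⁻¹) * w'⁻¹ * b⁻¹ := by group
          _ = a * b * (a⁻¹ * w') * w'⁻¹ * b⁻¹ := by rw [← a4]
          _ = ⁅a, b⁆ := by simp only [commutatorElement_def]; group
      rw [e, commutatorElement_def]
      exact mul_mem (mul_mem (mul_mem ha hb) (inv_mem ha)) (inv_mem hb)
    exact hle (hQQF'.ge hz)
  exact hRF.trans (hsup.ge.trans (sup_le le_rfl hWFQ))

end Cfsg.Agent.H68Block
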