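import Cfsg.Agent.H68.Block.Special

/-!
Commutators with residual-closed subgroups, quadratic conjugation.
-/

set_option autoImplicit false
set_option linter.style.haveILetI false
set_option linter.unusedSectionVars false

namespace Cfsg.Agent.H68Block

open Subgroup Cfsg
open H51 (commutator_le_of_le_normalizer)
open scoped commutatorElement

variable {G : Type*} [Group G] [Finite G] {p : ℕ} [hp : Fact p.Prime]

/-- `[[P, F], F] = [P, F]` for a residual-closed `F` normalizing a `p`-group `P`. -/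
theorem commutator_residual_eq {P F : Subgroup G} (hF : pResidualOf p F = F) (hP : IsPGroup p P)
    (hFP : F ≤ normalizer (P : Set G)) : ⁅⁅P, F⁆, F⁆ = ⁅P, F⁆ := by
  set M := ⁅⁅P, F⁆, F⁆ with hM
  have hFM : F ≤ normalizer (M : Set G) := normalizer_commutator_ge_right _ _
  refine le_antisymm (commutator_le_of_le_normalizer (normalizer_commutator_ge_right _ _)) ?_
  let K : Subgroup G :=
    { carrier := {g | g ∈ F ∧ ∀ a ∈ P, ⁅a, g⁆ ∈ M}
      one_mem' := ⟨one_mem _, fun a _ => by simp⟩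
      mul_mem' := by
        rintro g h ⟨hg, hg'⟩ ⟨hh, hh'⟩
        refine ⟨mul_mem hg hh, fun a ha => ?_⟩
        rw [show ⁅a, g * h⁆ = ⁅a, g⁆ * (g * ⁅a, h⁆ * g⁻¹) from by
          simp only [commutatorElement_def]; group]
        exact mul_mem (hg' a ha) ((mem_normalizer_iff.mp (hFM hg) _).mp (hh' a ha))
      inv_mem' := by
        rintro g ⟨hg, hg'⟩
        refine ⟨inv_mem hg, fun a ha => ?_⟩
        rw [show ⁅a, g⁻¹⁆ = g⁻¹ * ⁅a, g⁆⁻¹ * g from by simp only [commutatorElement_def]; group]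
        exact (mem_normalizer_iff''.mp (hFM hg) _).mp (inv_mem (hg' a ha)) }
  have hK : F ≤ K := by
    refine (H51.eq_closure_of_residual hF).le.trans ((closure_le _).mpr ?_)
    rintro c ⟨hc, hcop⟩
    refine ⟨hc, fun a ha => ?_⟩
    have hC : zpowers c ≤ F := zpowers_le.mpr hc
    have h1 : ⁅⁅P, zpowers c⁆, zpowers c⁆ = ⁅P, zpowers c⁆ := by
      refine H20.commutator_commutator_eq (hC.trans hFP) ?_ ?_
      · obtain ⟨k, hk⟩ := hP.exists_card_eq
        rw [hk, Nat.card_zpowers]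
        exact hcop.pow_right k
      · haveI := hP.isNilpotent; exact Or.inr inferInstance
    have h2 : ⁅a, c⁆ ∈ ⁅⁅P, zpowers c⁆, zpowers c⁆ := by
      rw [h1]; exact commutator_mem_commutator ha (mem_zpowers c)
    exact commutator_mono (commutator_mono le_rfl hC) hC h2
  rw [commutator_le]
  exact fun a ha g hg => (hK hg).2 a ha

/-- Quadratic conjugation by an element gives quadratic action of its cyclic group. -/
theorem quadratic_zpowers {Q Z : Subgroup G} {b : G} (hbQ : b ∈ normalizer (Q : Set G))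
    (hbZ : b ∈ normalizer (Z : Set G)) (hZc : ∀ z ∈ Z, ∀ q ∈ Q, q * z = z * q)
    (h : ∀ q ∈ Q, b * (b * q * b⁻¹ * q⁻¹) * b⁻¹ * (b * q * b⁻¹ * q⁻¹)⁻¹ ∈ Z) :
    ⁅⁅Q, zpowers b⁆, zpowers b⁆ ≤ Z := by
  let K : Subgroup G :=
    { carrier := {y | y ∈ Q ∧ b * y * b⁻¹ * y⁻¹ ∈ Z}
      one_mem' := ⟨one_mem _, by simp⟩
      mul_mem' := by
        rintro x y ⟨hx, hx'⟩ ⟨hy, hy'⟩
        refine ⟨mul_mem hx hy, ?_⟩
        rw [show b * (x * y) * b⁻¹ * (x * y)⁻¹ =
          (b * x * b⁻¹ * x⁻¹) * (x * (b * y * b⁻¹ * y⁻¹) * x⁻¹) by group, hZc _ hy' x hx,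
          mul_inv_cancel_right]
        exact mul_mem hx' hy'
      inv_mem' := by
        rintro x ⟨hx, hx'⟩
        refine ⟨inv_mem hx, ?_⟩
        rw [show b * x⁻¹ * b⁻¹ * (x⁻¹)⁻¹ = x⁻¹ * (b * x * b⁻¹ * x⁻¹)⁻¹ * x by group,
          hZc _ (inv_mem hx') _ (inv_mem hx), inv_mul_cancel_right]
        exact inv_mem hx' }
  have hbK : ∀ y ∈ K, b * y * b⁻¹ ∈ K := by
    rintro y ⟨hy, hy'⟩
    refine ⟨(mem_normalizer_iff.mp hbQ y).mp hy, ?_⟩
    have := (mem_normalizer_iff.mp hbZ _).mp hy'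
    convert this using 1
    group
  have hpow : ∀ w ∈ zpowers b, ∃ i : ℕ, w = b ^ i := fun w hw => by
    obtain ⟨i, hi⟩ := (isOfFinOrder_of_finite b).mem_powers_iff_mem_zpowers.mpr hw
    exact ⟨i, hi.symm⟩
  have h1 : ⁅Q, zpowers b⁆ ≤ K := by
    rw [commutator_le]
    intro q hq w hw
    obtain ⟨i, rfl⟩ := hpow w hw
    clear hw
    induction i with
    | zero => simp
    | succ i ih =>
      rw [show ⁅q, b ^ (i + 1)⁆ = ⁅q, b⁆ * (b * ⁅q, b ^ i⁆ * b⁻¹) by
        rw [pow_succ']; simp only [commutatorElement_def]; group]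
      refine mul_mem ?_ (hbK _ ih)
      have : b * q * b⁻¹ * q⁻¹ ∈ K := ⟨mul_mem ((mem_normalizer_iff.mp hbQ q).mp hq) (inv_mem hq), h q hq⟩
      have := inv_mem this
      convert this using 1
      simp only [commutatorElement_def]; group
  rw [commutator_le]
  intro y hy w hw
  obtain ⟨i, rfl⟩ := hpow w hw
  clear hw
  induction i with
  | zero => simp
  | succ i ih =>
    rw [show ⁅y, b ^ (i + 1)⁆ = ⁅y, b⁆ * (b * ⁅y, b ^ i⁆ * b⁻¹) by
      rw [pow_succ']; simp only [commutatorElement_def]; group]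
    refine mul_mem ?_ ((mem_normalizer_iff.mp hbZ _).mp ih)
    have := inv_mem (h1 hy).2
    convert this using 1
    simp only [commutatorElement_def]; group

/-- A linear map of `p`-power order is quadratic. -/
theorem quadratic_of_linear {U U₀ : Subgroup G} {F : Type*} [Field F] [CharP F p]
    (C : Coord U U₀ (Fin 2 → F)) (g : ↥(secNorm U U₀)) (hlin : IsLin (C.act g)) {k : ℕ}
    (hk : (g : G) ^ p ^ k = 1) {u : G} (hu : u ∈ U) :
    (g : G) * ((g : G) * u * (g : G)⁻¹ * u⁻¹) * (g : G)⁻¹ * ((g : G) * u * (g : G)⁻¹ * u⁻¹)⁻¹ ∈ U₀ := by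
  obtain ⟨e, he, hfe, hshift⟩ := exists_shift (C.act_additive g) hlin (act_pow_eq_one C g hk)
  have hm : (g : G) * u * (g : G)⁻¹ * u⁻¹ ∈ U :=
    mul_mem ((mem_normalizer_iff.mp g.2.1 u).mp hu) (inv_mem hu)
  refine (C.act_fix_iff g ⟨_, hm⟩).mp ?_
  obtain ⟨x, hx⟩ := hshift (C.val ⟨u, hu⟩)
  rw [Coord.act_apply] at hx
  have : C.val ⟨_, hm⟩ = x • e := by
    have h2 : C.val (Coord.conjU g ⟨u, hu⟩) = C.val ⟨_, hm⟩ + C.val ⟨u, hu⟩ := by
      rw [← C.val_mul]
      congr 1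
      apply Subtype.ext
      show (g : G) * u * (g : G)⁻¹ = (g : G) * u * (g : G)⁻¹ * u⁻¹ * u
      group
    rw [hx, add_comm] at h2
    exact (add_right_cancel h2).symm
  rw [this, hlin, hfe]

end Cfsg.Agent.H68Block
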