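import Mathlib

/-!
Operators on the natural two-dimensional module normalizing the derived special linear group.
-/

set_option autoImplicit false
set_option linter.style.haveILetI false
set_option linter.unusedSectionVars false

namespace Cfsg.Agent.H68Block

open Matrix
open scoped commutatorElement

variable {F : Type*} [Field F]

/-- A bijection respecting addition. -/
def IsAdditive {M : Type*} [Add M] (α : Equiv.Perm M) : Prop := ∀ x y, α (x + y) = α x + α y

/-- `α` is semilinear for the field automorphism `σ`. -/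
def IsSemilin (α : Equiv.Perm (Fin 2 → F)) (σ : F ≃+* F) : Prop :=
  ∀ (c : F) (x : Fin 2 → F), α (c • x) = σ c • α x

/-- `α` is linear. -/
def IsLin (α : Equiv.Perm (Fin 2 → F)) : Prop :=
  ∀ (c : F) (x : Fin 2 → F), α (c • x) = c • α x

/-- The determinant form of two vectors. -/
def det2 (v w : Fin 2 → F) : F := v 0 * w 1 - v 1 * w 0

theorem det2_add_right (u v w : Fin 2 → F) : det2 u (v + w) = det2 u v + det2 u w := by
  simp only [det2, Pi.add_apply]; ring

theorem det2_sub_right (u v w : Fin 2 → F) : det2 u (v - w) = det2 u v - det2 u w := by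
  simp only [det2, Pi.sub_apply]; ring

theorem det2_smul_right (u v : Fin 2 → F) (c : F) : det2 u (c • v) = c * det2 u v := by
  simp only [det2, Pi.smul_apply, smul_eq_mul]; ring

theorem det2_self (u : Fin 2 → F) : det2 u u = 0 := by
  simp only [det2]; ring

theorem det2_mulVec (g : Matrix (Fin 2) (Fin 2) F) (v w : Fin 2 → F) :
    det2 (g *ᵥ v) (g *ᵥ w) = g.det * det2 v w := by
  simp only [det2, Matrix.mulVec, dotProduct, Fin.sum_univ_two, Matrix.det_fin_two]
  ring

theorem exists_smul_of_det2_eq_zero {e v : Fin 2 → F} (he : e ≠ 0) (h : det2 e v = 0) :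
    ∃ c : F, v = c • e := by
  simp only [det2] at h
  by_cases h0 : e 0 = 0
  · have h1 : e 1 ≠ 0 := fun h1 => he (by ext i; fin_cases i <;> simp [h0, h1])
    refine ⟨v 1 / e 1, ?_⟩
    rw [h0, zero_mul, zero_sub, neg_eq_zero] at h
    have h2 : v 0 = 0 := (mul_eq_zero.mp h).resolve_left h1
    ext i
    fin_cases i <;> simp [h0, h1, h2]
  · refine ⟨v 0 / e 0, ?_⟩
    ext i
    fin_cases i
    · simp [h0]
    · simp only [Fin.isValue, Fin.mk_one, Pi.smul_apply, smul_eq_mul]
      field_simp
      linear_combination h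

/-- Two independent vectors span. -/
theorem exists_decomp {e e₂ : Fin 2 → F} (h : det2 e e₂ ≠ 0) (v : Fin 2 → F) :
    ∃ a b : F, v = a • e + b • e₂ := by
  refine ⟨det2 v e₂ / det2 e e₂, det2 e v / det2 e e₂, ?_⟩
  ext i
  simp only [det2] at h ⊢
  simp only [Pi.add_apply, Pi.smul_apply, smul_eq_mul]
  rw [div_mul_eq_mul_div, div_mul_eq_mul_div, ← add_div, eq_div_iff h]
  fin_cases i <;> simp <;> ring

theorem decomp_unique {e e₂ : Fin 2 → F} (h : det2 e e₂ ≠ 0) {a b a' b' : F}
    (heq : a • e + b • e₂ = a' • e + b' • e₂) : a = a' ∧ b = b' := by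
  have h1 := congrArg (det2 e) heq
  simp only [det2_add_right, det2_smul_right, det2_self, mul_zero, zero_add] at h1
  have hb := mul_right_cancel₀ h h1
  subst hb
  have he : e ≠ 0 := fun he => h (by simp [he, det2])
  exact ⟨smul_left_injective F he (add_right_cancel heq), rfl⟩

/-- The two families of elements of the derived group used for the commutant. -/
theorem mem_commutator_pair (t : F) :
    ∃ g h : Matrix.SpecialLinearGroup (Fin 2) F,
      g ∈ commutator (Matrix.SpecialLinearGroup (Fin 2) F) ∧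
      h ∈ commutator (Matrix.SpecialLinearGroup (Fin 2) F) ∧
      (g : Matrix (Fin 2) (Fin 2) F) = !![1, -t; -t, 1 + t ^ 2] ∧
      (h : Matrix (Fin 2) (Fin 2) F) = !![1 + t ^ 2, -t; -t, 1] := by
  let w : Matrix.SpecialLinearGroup (Fin 2) F := ⟨!![0, 1; -1, 0], by simp [Matrix.det_fin_two]⟩
  let u : Matrix.SpecialLinearGroup (Fin 2) F := ⟨!![1, t; 0, 1], by simp [Matrix.det_fin_two]⟩
  let l : Matrix.SpecialLinearGroup (Fin 2) F := ⟨!![1, 0; t, 1], by simp [Matrix.det_fin_two]⟩
  refine ⟨⁅w, u⁆, ⁅w, l⁆, Subgroup.commutator_mem_commutator (Subgroup.mem_top _) (Subgroup.mem_top _),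
    Subgroup.commutator_mem_commutator (Subgroup.mem_top _) (Subgroup.mem_top _), ?_, ?_⟩
  · rw [show ⁅w, u⁆ = w * u * w⁻¹ * u⁻¹ from commutatorElement_def w u]
    simp only [Matrix.SpecialLinearGroup.coe_mul, Matrix.SpecialLinearGroup.coe_inv]
    ext i j
    fin_cases i <;> fin_cases j <;>
      simp [w, u, Matrix.adjugate_fin_two, Matrix.mul_apply, Fin.sum_univ_two] <;> ring
  · rw [show ⁅w, l⁆ = w * l * w⁻¹ * l⁻¹ from commutatorElement_def w l]
    simp only [Matrix.SpecialLinearGroup.coe_mul, Matrix.SpecialLinearGroup.coe_inv]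
    ext i j
    fin_cases i <;> fin_cases j <;>
      simp [w, l, Matrix.adjugate_fin_two, Matrix.mul_apply, Fin.sum_univ_two] <;> ring

/-- Commuting with the derived special linear group, as a predicate on additive maps. -/
def CommutesDerived (β : (Fin 2 → F) →+ (Fin 2 → F)) : Prop :=
  ∀ g ∈ commutator (Matrix.SpecialLinearGroup (Fin 2) F), ∀ x : Fin 2 → F,
    β ((g : Matrix (Fin 2) (Fin 2) F) *ᵥ x) = (g : Matrix (Fin 2) (Fin 2) F) *ᵥ β x

theorem commutant_pair {β : (Fin 2 → F) →+ (Fin 2 → F)} (hβ : CommutesDerived β) (t : F)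
    (x : Fin 2 → F) :
    β ![-(t * x 1), -(t * x 0) + t ^ 2 * x 1] =
        ![-(t * β x 1), -(t * β x 0) + t ^ 2 * β x 1] ∧
    β ![t ^ 2 * x 0 - t * x 1, -(t * x 0)] = ![t ^ 2 * β x 0 - t * β x 1, -(t * β x 0)] := by
  obtain ⟨g, h, hg, hh, eg, eh⟩ := mem_commutator_pair t
  have e1 := hβ g hg x
  have e2 := hβ h hh x
  rw [eg] at e1
  rw [eh] at e2
  have k1 : ∀ y : Fin 2 → F, !![1, -t; -t, 1 + t ^ 2] *ᵥ y =
      y + ![-(t * y 1), -(t * y 0) + t ^ 2 * y 1] := by
    intro y; ext i; fin_cases i <;> simp [dotProduct, Fin.sum_univ_two] <;> ring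
  have k2 : ∀ y : Fin 2 → F, !![1 + t ^ 2, -t; -t, 1] *ᵥ y =
      y + ![t ^ 2 * y 0 - t * y 1, -(t * y 0)] := by
    intro y; ext i; fin_cases i <;> simp [dotProduct, Fin.sum_univ_two] <;> ring
  rw [k1, k1, map_add] at e1
  rw [k2, k2, map_add] at e2
  exact ⟨add_left_cancel e1, add_left_cancel e2⟩

/-- An additive map commuting with the derived group is linear, and a scalar if `|F| > 2`. -/
theorem commutant_linear [Finite F] {β : (Fin 2 → F) →+ (Fin 2 → F)} (hβ : CommutesDerived β) :
    (∀ (s : F) (x : Fin 2 → F), β (s • x) = s • β x) ∧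
      ((∃ t : F, t ≠ 0 ∧ t ≠ 1) → ∃ a : F, ∀ x, β x = a • x) := by
  haveI := Fintype.ofFinite F
  have hsq : ∀ (t : F) (x : Fin 2 → F), β ![t ^ 2 * x 0, -(t ^ 2 * x 1)] =
      ![t ^ 2 * β x 0, -(t ^ 2 * β x 1)] := by
    intro t x
    obtain ⟨h1, h2⟩ := commutant_pair hβ t x
    have k : ∀ y : Fin 2 → F, (![t ^ 2 * y 0, -(t ^ 2 * y 1)] : Fin 2 → F) =
        ![t ^ 2 * y 0 - t * y 1, -(t * y 0)] - ![-(t * y 1), -(t * y 0) + t ^ 2 * y 1] := by
      intro y; ext i; fin_cases i <;> simp
    rw [k, k, map_sub, h1, h2]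
  have hflip : ∀ (s : F) (x : Fin 2 → F), β ![s * x 0, -(s * x 1)] = ![s * β x 0, -(s * β x 1)] := by
    intro s x
    by_cases h2 : (2 : F) = 0
    · haveI := CharTwo.of_one_ne_zero_of_two_eq_zero (R := F) one_ne_zero h2
      obtain ⟨r, hr⟩ := FiniteField.isSquare_of_char_two (F := F) (ringChar.eq F 2) s
      rw [hr, ← sq]
      exact hsq r x
    · have k : ∀ y : Fin 2 → F, (![s * y 0, -(s * y 1)] : Fin 2 → F) =
          ![((s + 1) / 2) ^ 2 * y 0, -(((s + 1) / 2) ^ 2 * y 1)] -
            ![((s - 1) / 2) ^ 2 * y 0, -(((s - 1) / 2) ^ 2 * y 1)] := by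
        intro y; ext i; fin_cases i <;> simp <;> field_simp <;> ring
      rw [k, k, map_sub, hsq, hsq]
  have hlin : ∀ (s : F) (x : Fin 2 → F), β (s • x) = s • β x := by
    intro s x
    have h := hflip s ![1 * x 0, -(1 * x 1)]
    rw [hflip 1 x] at h
    convert h using 2
    · ext i; fin_cases i <;> simp
    · ext i; fin_cases i <;> simp
  refine ⟨hlin, ?_⟩
  rintro ⟨t, ht0, ht1⟩
  set a := β ![1, 0] 0 with ha
  set b := β ![1, 0] 1 with hb
  set c := β ![0, 1] 0 with hc
  set d := β ![0, 1] 1 with hd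
  have hM : ∀ x : Fin 2 → F, β x = ![x 0 * a + x 1 * c, x 0 * b + x 1 * d] := by
    intro x
    conv_lhs => rw [show x = x 0 • ![1, 0] + x 1 • ![0, 1] from by ext i; fin_cases i <;> simp]
    rw [map_add, hlin, hlin]
    ext i
    fin_cases i <;> simp [ha, hb, hc, hd]
  have key : ∀ s : F, (c = b ∨ s = 0) ∧ s * d = s * a - s ^ 2 * b := by
    intro s
    obtain ⟨h1, -⟩ := commutant_pair hβ s ![1, 0]
    simp only [hM] at h1
    have p0 := congrFun h1 0
    have p1 := congrFun h1 1
    simp at p0 p1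
    exact ⟨p0, by linear_combination -p1⟩
  obtain ⟨k1', k2⟩ := key 1
  have k1 : c = b := k1'.resolve_right one_ne_zero
  obtain ⟨-, k2'⟩ := key t
  have hb0 : b = 0 := by
    have : (t ^ 2 - t) * b = 0 := by linear_combination k2' - t * k2
    refine (mul_eq_zero.mp this).resolve_left ?_
    rw [sq, ← mul_sub_one]
    exact mul_ne_zero ht0 (sub_ne_zero.mpr ht1)
  have hc0 : c = 0 := by linear_combination k1 + hb0
  have hda : d = a := by linear_combination k2 - hb0
  refine ⟨a, fun x => ?_⟩
  rw [hM x, hb0, hc0, hda]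
  ext i
  fin_cases i <;> simp [mul_comm]

/-- A normalizer of the derived group is semilinear. -/
theorem exists_semilin [Finite F] (α : Equiv.Perm (Fin 2 → F)) (hadd : IsAdditive α)
    (hn : ∀ g ∈ commutator (Matrix.SpecialLinearGroup (Fin 2) F),
      ∃ h ∈ commutator (Matrix.SpecialLinearGroup (Fin 2) F), ∀ x,
        α ((h : Matrix (Fin 2) (Fin 2) F) *ᵥ x) = (g : Matrix (Fin 2) (Fin 2) F) *ᵥ α x) :
    ∃ σ : F ≃+* F, IsSemilin α σ := by
  let αh : (Fin 2 → F) →+ (Fin 2 → F) := AddMonoidHom.mk' α hadd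
  let αi : (Fin 2 → F) →+ (Fin 2 → F) := AddMonoidHom.mk' α.symm fun x y => α.injective (by
    rw [hadd, α.apply_symm_apply, α.apply_symm_apply, α.apply_symm_apply])
  by_cases h2 : ∃ t : F, t ≠ 0 ∧ t ≠ 1
  · have hex : ∀ c : F, ∃ a : F, ∀ x, α (c • α.symm x) = a • x := by
      intro c
      let β := αh.comp ((smulAddHom F (Fin 2 → F) c).comp αi)
      have hβ : CommutesDerived β := by
        intro g hg x
        obtain ⟨h, -, hh⟩ := hn g hg
        have hs : α.symm ((g : Matrix (Fin 2) (Fin 2) F) *ᵥ x) =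
            (h : Matrix (Fin 2) (Fin 2) F) *ᵥ α.symm x := by
          apply α.injective
          rw [α.apply_symm_apply, hh, α.apply_symm_apply]
        show α (c • α.symm _) = _ *ᵥ α (c • α.symm x)
        rw [hs, ← Matrix.mulVec_smul, hh]
      exact (commutant_linear hβ).2 h2
    choose a ha using hex
    have hsl : ∀ c x, α (c • x) = a c • α x := fun c x => by
      have := ha c (α x)
      rwa [α.symm_apply_apply] at this
    have hne : α ![1, 0] ≠ 0 := by
      intro h
      have h0 : α 0 = 0 := by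
        have := hadd 0 0
        rw [add_zero] at this
        exact left_eq_add.mp this
      rw [← h0] at h
      simpa using congrFun (α.injective h) 0
    have hinj := smul_left_injective F hne
    let σ₀ : F →+* F :=
      { toFun := a
        map_one' := hinj (by simp only [← hsl, one_smul])
        map_mul' := fun c d => hinj (by
          simp only [← smul_smul]
          rw [← hsl d, ← hsl, ← hsl, smul_smul])
        map_zero' := hinj (by
          simp only [← hsl, zero_smul]
          have := hadd 0 0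
          rw [add_zero] at this
          exact left_eq_add.mp this)
        map_add' := fun c d => hinj (by
          simp only [add_smul, ← hsl]
          rw [hadd]) }
    exact ⟨RingEquiv.ofBijective σ₀ (Finite.injective_iff_bijective.mp σ₀.injective), hsl⟩
  · push Not at h2
    refine ⟨RingEquiv.refl F, fun c x => ?_⟩
    by_cases hc : c = 0
    · subst hc
      have := hadd 0 0
      rw [add_zero] at this
      simp [left_eq_add.mp this]
    · simp [h2 c hc]

theorem IsSemilin.unique {α : Equiv.Perm (Fin 2 → F)} (hadd : IsAdditive α) {σ τ : F ≃+* F}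
    (h₁ : IsSemilin α σ) (h₂ : IsSemilin α τ) : σ = τ := by
  have h0 : α 0 = 0 := by
    have := hadd 0 0
    rw [add_zero] at this
    exact left_eq_add.mp this
  have hne : α ![1, 0] ≠ 0 := by
    intro h
    rw [← h0] at h
    simpa using congrFun (α.injective h) 0
  exact RingEquiv.ext fun c => smul_left_injective F hne (((h₁ c _).symm).trans (h₂ c _))

theorem isSemilin_one : IsSemilin (1 : Equiv.Perm (Fin 2 → F)) 1 := fun _ _ => rfl

theorem IsSemilin.mul {α β : Equiv.Perm (Fin 2 → F)} {σ τ : F ≃+* F} (h₁ : IsSemilin α σ)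
    (h₂ : IsSemilin β τ) : IsSemilin (α * β) (σ * τ) := fun c x => by
  show α (β (c • x)) = σ (τ c) • α (β x)
  rw [h₂, h₁]

theorem IsLin.semilin {α : Equiv.Perm (Fin 2 → F)} (h : IsLin α) : IsSemilin α 1 := h

theorem isLin_of_semilin_one {α : Equiv.Perm (Fin 2 → F)} (h : IsSemilin α 1) : IsLin α := h

/-- A semilinear map fixing a line pointwise is linear. -/
theorem IsSemilin.isLin_of_fix_line {α : Equiv.Perm (Fin 2 → F)} {σ : F ≃+* F} (h : IsSemilin α σ)
    {e : Fin 2 → F} (he : e ≠ 0) (hfix : ∀ c : F, α (c • e) = c • e) : IsLin α := fun c x => by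
  have h1 : σ c = c := smul_left_injective F he (by
    have := h c e
    rw [hfix, show α e = e by simpa using hfix 1] at this
    exact this.symm)
  rw [h c x, h1]

/-- Over a prime field every additive map is linear. -/
theorem isLin_of_prime {p : ℕ} [Fact p.Prime] [Finite F] (hF : Nat.card F = p)
    {α : Equiv.Perm (Fin 2 → F)} (hadd : IsAdditive α) : IsLin α := by
  intro c x
  haveI := Fintype.ofFinite F
  let e := ZMod.ringEquivOfPrime F (Fact.out : p.Prime) (by rw [← Nat.card_eq_fintype_card, hF])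
  obtain ⟨k, rfl⟩ := e.surjective c
  obtain ⟨n, rfl⟩ := ZMod.natCast_zmod_surjective k
  rw [map_natCast, Nat.cast_smul_eq_nsmul, Nat.cast_smul_eq_nsmul]
  exact map_nsmul (AddMonoidHom.mk' α hadd) n x

section Unipotent

variable {p : ℕ} [hp : Fact p.Prime] [CharP F p]

theorem pow_prime_pow_eq_one {d : F} {k : ℕ} (h : d ^ p ^ k = 1) : d = 1 := by
  have h1 : (d - 1) ^ p ^ k = 0 := by
    rw [sub_pow_char_pow_of_commute p k (Commute.one_right d), h, one_pow, sub_self]
  exact sub_eq_zero.mp (pow_eq_zero_iff'.mp h1).1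

/-- A linear map of `p`-power order fixing `e` acts trivially modulo the line of `e`. -/
theorem shift_of_fix {α : Equiv.Perm (Fin 2 → F)} (hadd : IsAdditive α) (hlin : IsLin α) {k : ℕ}
    (hk : α ^ p ^ k = 1) {e : Fin 2 → F} (he : e ≠ 0) (hfix : α e = e) (v : Fin 2 → F) :
    ∃ x : F, α v = v + x • e := by
  by_cases hv : det2 e v = 0
  · obtain ⟨c, rfl⟩ := exists_smul_of_det2_eq_zero he hv
    exact ⟨0, by rw [hlin, hfix]; simp⟩
  obtain ⟨a, d, had⟩ := exists_decomp hv (α v)
  have hd : ∀ n : ℕ, ∃ a' : F, (α ^ n) v = a' • e + d ^ n • v := by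
    intro n
    induction n with
    | zero => exact ⟨0, by simp⟩
    | succ n ih =>
      obtain ⟨a', ha'⟩ := ih
      refine ⟨a' + d ^ n * a, ?_⟩
      rw [pow_succ', Equiv.Perm.mul_apply, ha', hadd, hlin, hlin, hfix, had, pow_succ]
      module
  obtain ⟨a', ha'⟩ := hd (p ^ k)
  rw [hk, Equiv.Perm.one_apply] at ha'
  have h1 := decomp_unique hv (a := 0) (b := 1) (show (0 : F) • e + (1 : F) • v =
    a' • e + d ^ p ^ k • v by simpa using ha')
  refine ⟨a, ?_⟩
  rw [had, pow_prime_pow_eq_one h1.2.symm, one_smul, add_comm]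

/-- A linear map of `p`-power order fixes a line and is trivial modulo it. -/
theorem exists_shift {α : Equiv.Perm (Fin 2 → F)} (hadd : IsAdditive α) (hlin : IsLin α) {k : ℕ}
    (hk : α ^ p ^ k = 1) :
    ∃ e : Fin 2 → F, e ≠ 0 ∧ α e = e ∧ ∀ v, ∃ x : F, α v = v + x • e := by
  by_cases h1 : α = 1
  · exact ⟨![1, 0], fun h => by simpa using congrFun h 0, by simp [h1], fun v => ⟨0, by simp [h1]⟩⟩
  let L : Module.End F (Fin 2 → F) := { toFun := α, map_add' := hadd, map_smul' := hlin }
  have hL : ∀ (n : ℕ) v, (L ^ n) v = (α ^ n) v := by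
    intro n
    induction n with
    | zero => intro v; rfl
    | succ n ih => intro v; rw [pow_succ, pow_succ, Module.End.mul_apply, Equiv.Perm.mul_apply, ih]; rfl
  haveI : Nontrivial (Module.End F (Fin 2 → F)) :=
    ⟨⟨0, 1, fun h => by simpa using congrFun (LinearMap.congr_fun h ![1, 0]) 0⟩⟩
  haveI : CharP (Module.End F (Fin 2 → F)) p :=
    charP_of_injective_algebraMap (algebraMap F (Module.End F (Fin 2 → F))).injective p
  have hnil : (L - 1) ^ p ^ k = 0 := by
    rw [sub_pow_char_pow_of_commute p k (Commute.one_right L), one_pow, sub_eq_zero]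
    refine LinearMap.ext fun v => ?_
    rw [hL, hk]; rfl
  classical
  obtain ⟨v₀, hv₀⟩ : ∃ v₀, (L - 1) v₀ ≠ 0 := by
    by_contra hno
    push Not at hno
    exact h1 (Equiv.ext fun v => sub_eq_zero.mp (hno v))
  have hex : ∃ j : ℕ, ((L - 1) ^ j : Module.End F (Fin 2 → F)) v₀ = 0 := ⟨p ^ k, by rw [hnil]; rfl⟩
  have hj := Nat.find_spec hex
  obtain ⟨i, hi⟩ : ∃ i, Nat.find hex = i + 1 := by
    refine Nat.exists_eq_succ_of_ne_zero fun h => ?_
    rw [h, pow_zero, Module.End.one_apply] at hj
    exact hv₀ (by rw [hj, map_zero])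
  have hne : ((L - 1) ^ i) v₀ ≠ 0 := Nat.find_min hex (by omega)
  rw [hi, pow_succ', Module.End.mul_apply, LinearMap.sub_apply, Module.End.one_apply,
    sub_eq_zero] at hj
  exact ⟨_, hne, hj, fun v => shift_of_fix hadd hlin hk hne hj v⟩

end Unipotent

section Special

/-- An element of the special linear group fixing `e` is trivial modulo its line. -/
theorem sl2_shift (g : Matrix.SpecialLinearGroup (Fin 2) F) {e : Fin 2 → F} (he : e ≠ 0)
    (hfix : (g : Matrix (Fin 2) (Fin 2) F) *ᵥ e = e) (v : Fin 2 → F) :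
    ∃ x : F, (g : Matrix (Fin 2) (Fin 2) F) *ᵥ v = v + x • e := by
  have h := det2_mulVec (g : Matrix (Fin 2) (Fin 2) F) e v
  rw [hfix, g.2, one_mul] at h
  obtain ⟨x, hx⟩ := exists_smul_of_det2_eq_zero he
    (v := (g : Matrix (Fin 2) (Fin 2) F) *ᵥ v - v) (by rw [det2_sub_right, h, sub_self])
  exact ⟨x, by rw [← hx, add_sub_cancel]⟩

/-- A matrix with a prescribed eigenvalue. -/
theorem exists_eigen (e : Fin 2 → F) (d : F) (hd : d ≠ 0) :
    ∃ g : Matrix.SpecialLinearGroup (Fin 2) F, (g : Matrix (Fin 2) (Fin 2) F) *ᵥ e = d • e := by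
  by_cases h0 : e 0 = 0
  · refine ⟨⟨!![d⁻¹, 0; 0, d], by simp [Matrix.det_fin_two, hd]⟩, ?_⟩
    ext i
    fin_cases i <;> simp [Matrix.mulVec, dotProduct, Fin.sum_univ_two, h0]
  · refine ⟨⟨!![d, 0; (d - d⁻¹) * e 1 / e 0, d⁻¹], by simp [Matrix.det_fin_two, hd]⟩, ?_⟩
    ext i
    fin_cases i
    · simp [Matrix.mulVec, dotProduct, Fin.sum_univ_two]
    · simp [Matrix.mulVec, dotProduct, Fin.sum_univ_two]
      field_simp
      ring

variable {p : ℕ} [hp : Fact p.Prime] [CharP F p]

/-- A `p'`-element with a nonzero fixed vector is trivial. -/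
theorem sl2_eq_one_of_fix {g : Matrix.SpecialLinearGroup (Fin 2) F}
    (hc : (orderOf g).Coprime p) {e : Fin 2 → F} (he : e ≠ 0)
    (hfix : (g : Matrix (Fin 2) (Fin 2) F) *ᵥ e = e) : g = 1 := by
  have hgp : g ^ p = 1 := by
    refine Subtype.ext (Matrix.ext_of_mulVec_single fun i => ?_)
    obtain ⟨x, hx⟩ := sl2_shift g he hfix (Pi.single i 1)
    have key : ∀ n : ℕ, ((g ^ n : Matrix.SpecialLinearGroup (Fin 2) F) : Matrix (Fin 2) (Fin 2) F) *ᵥ
        Pi.single i 1 = Pi.single i 1 + ((n : F) * x) • e := by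
      intro n
      induction n with
      | zero => rw [pow_zero, Matrix.SpecialLinearGroup.coe_one, Matrix.one_mulVec]; simp
      | succ n ih =>
        rw [pow_succ', Matrix.SpecialLinearGroup.coe_mul, ← Matrix.mulVec_mulVec, ih,
          Matrix.mulVec_add, Matrix.mulVec_smul, hfix, hx]
        push_cast
        module
    rw [key p, CharP.cast_eq_zero, Matrix.SpecialLinearGroup.coe_one, Matrix.one_mulVec]
    simp
  have h := pow_gcd_eq_one.2 ⟨pow_orderOf_eq_one g, hgp⟩
  rwa [hc.gcd_eq_one, pow_one] at h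

/-- Elements of order prime to `p` lie in the derived group. -/
theorem sl2_mem_commutator {g : Matrix.SpecialLinearGroup (Fin 2) F}
    (hc : (orderOf g).Coprime p) : g ∈ commutator (Matrix.SpecialLinearGroup (Fin 2) F) := by
  let S := Matrix.SpecialLinearGroup (Fin 2) F
  let u : F → S := fun t => ⟨!![1, t; 0, 1], by simp [Matrix.det_fin_two]⟩
  let l : F → S := fun t => ⟨!![1, 0; t, 1], by simp [Matrix.det_fin_two]⟩
  have hu : ∀ (t : F) (n : ℕ), u t ^ n = u (n * t) := by
    intro t n
    induction n with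
    | zero =>
      refine Subtype.ext ?_
      rw [pow_zero, Matrix.SpecialLinearGroup.coe_one]
      simp [u, Matrix.one_fin_two]
    | succ n ih =>
      rw [pow_succ, ih]
      refine Subtype.ext ?_
      rw [Matrix.SpecialLinearGroup.coe_mul]
      simp only [u, Matrix.mul_fin_two]
      ext i j
      fin_cases i <;> fin_cases j <;> push_cast <;> simp <;> ring
  have hl : ∀ (t : F) (n : ℕ), l t ^ n = l (n * t) := by
    intro t n
    induction n with
    | zero =>
      refine Subtype.ext ?_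
      rw [pow_zero, Matrix.SpecialLinearGroup.coe_one]
      simp [l, Matrix.one_fin_two]
    | succ n ih =>
      rw [pow_succ, ih]
      refine Subtype.ext ?_
      rw [Matrix.SpecialLinearGroup.coe_mul]
      simp only [l, Matrix.mul_fin_two]
      ext i j
      fin_cases i <;> fin_cases j <;> push_cast <;> simp <;> ring
  let π := Abelianization.of (G := S)
  have hup : ∀ t, π (u t) ^ p = 1 := fun t => by
    rw [← map_pow, hu, CharP.cast_eq_zero, zero_mul]
    exact (congrArg π (Subtype.ext (by simp [u, Matrix.one_fin_two]))).trans (map_one π)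
  have hlp : ∀ t, π (l t) ^ p = 1 := fun t => by
    rw [← map_pow, hl, CharP.cast_eq_zero, zero_mul]
    exact (congrArg π (Subtype.ext (by simp [l, Matrix.one_fin_two]))).trans (map_one π)
  have hgen : ∀ h : S, (h : Matrix (Fin 2) (Fin 2) F) 1 0 ≠ 0 → π h ^ p = 1 := by
    intro h h10
    obtain ⟨M, hM⟩ := h
    have hdet := hM
    rw [Matrix.det_fin_two] at hdet
    have e : (⟨M, hM⟩ : S) =
        u ((M 0 0 - 1) / M 1 0) * l (M 1 0) * u ((M 1 1 - 1) / M 1 0) := by
      have h10' : M 1 0 ≠ 0 := h10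
      refine Subtype.ext ?_
      show M = !![1, (M 0 0 - 1) / M 1 0; 0, 1] * !![1, 0; M 1 0, 1] *
        !![1, (M 1 1 - 1) / M 1 0; 0, 1]
      ext i j
      fin_cases i <;> fin_cases j <;> simp [Matrix.mul_apply, Fin.sum_univ_two] <;> field_simp
      all_goals first | ring1 | linear_combination hdet | linear_combination -hdet
    rw [e, map_mul, map_mul, mul_pow, mul_pow, hup, hlp, hup, one_mul, one_mul]
  have hgp : π g ^ p = 1 := by
    by_cases h10 : (g : Matrix (Fin 2) (Fin 2) F) 1 0 = 0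
    · have h00 : (g : Matrix (Fin 2) (Fin 2) F) 0 0 ≠ 0 := fun h => by
        have := g.2
        rw [Matrix.det_fin_two, h, h10] at this
        simp at this
      have h2 := hgen (l 1 * g) (by
        show ((!![1, 0; 1, 1] : Matrix (Fin 2) (Fin 2) F) * (g : Matrix (Fin 2) (Fin 2) F) :
          Matrix (Fin 2) (Fin 2) F) 1 0 ≠ 0
        simp [Matrix.mul_apply, Fin.sum_univ_two, h10, h00])
      rwa [map_mul, mul_pow, hlp, one_mul] at h2
    · exact hgen g h10
  have h := pow_gcd_eq_one.2 ⟨show π g ^ orderOf g = 1 by rw [← map_pow, pow_orderOf_eq_one, map_one],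
    hgp⟩
  rw [hc.gcd_eq_one, pow_one] at h
  exact (QuotientGroup.eq_one_iff g).mp h

end Special

end Cfsg.Agent.H68Block
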