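import Cfsg.Agent.H68.Block.FixedVector

/-!
A subnormal block is a block for every Sylow subgroup.
-/

set_option autoImplicit false
set_option linter.style.haveILetI false
set_option linter.unusedSectionVars false

namespace Cfsg.Agent.H68Block

open Subgroup Cfsg
open H51 (IsSubnormalBlock)
open scoped commutatorElement Pointwise

variable {G : Type*} [Group G] [Finite G] {p : ℕ} [hp : Fact p.Prime]

/-- `B(G)` is normal. -/
theorem baumannSubgroup_normal : (baumannSubgroup p G).Normal := by
  refine normalizer_eq_top_iff.mp (eq_top_iff.mpr fun g _ => ?_)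
  refine H74.mem_normalizer_of_conj_mem ?_
  have hle : baumannSubgroup p G ≤ (baumannSubgroup p G).comap (MulAut.conj g).toMonoidHom := by
    refine iSup_le fun T => map_le_iff_le_comap.mp ?_
    rw [H51.map_baumannSubgroupOf]
    exact le_iSup (fun S : Sylow p G => baumannSubgroupOf p (S : Subgroup G)) (g • T)
  exact fun x hx => hle hx

theorem baumann_le (T : Sylow p G) : baumannSubgroupOf p (T : Subgroup G) ≤ baumannSubgroup p G :=
  le_iSup (fun S : Sylow p G => baumannSubgroupOf p (S : Subgroup G)) T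

variable (hG : centralizer (pCore p G : Set G) ≤ pCore p G)
include hG

/-- A subnormal block is a block for a Sylow subgroup with any prescribed Baumann subgroup. -/
theorem exists_sylow_baumann {E : Subgroup G} (hE : IsSubnormalBlock p E) (T : Sylow p G) :
    ∃ T' : Sylow p G, baumannSubgroupOf p (T' : Subgroup G) = baumannSubgroupOf p (T : Subgroup G) ∧
      IsBaumannBlock p (T' : Subgroup G) E := by
  obtain ⟨T₀, hT₀⟩ := hE.block
  set K := baumannSubgroup p G with hK
  haveI := baumannSubgroup_normal (p := p) (G := G)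
  set B₀ := baumannSubgroupOf p (T₀ : Subgroup G)
  set B := baumannSubgroupOf p (T : Subgroup G)
  have hB₀p : IsPGroup p B₀ := T₀.isPGroup'.to_le inf_le_left
  have hBp : IsPGroup p B := T.isPGroup'.to_le inf_le_left
  obtain ⟨S₀, hS₀⟩ := (hB₀p.comap_subtype (K := K)).exists_le_sylow
  obtain ⟨S, hS⟩ := (hBp.comap_subtype (K := K)).exists_le_sylow
  obtain ⟨T₁, hT₁⟩ := S₀.exists_comap_subtype_eq
  obtain ⟨k, hk⟩ := MulAction.exists_smul_eq ↥K S S₀
  have hB₀T₁ : B₀ ≤ (T₁ : Subgroup G) := fun x hx => by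
    have hxK : x ∈ K := baumann_le T₀ hx
    have h1 : (⟨x, hxK⟩ : ↥K) ∈ (S₀ : Subgroup ↥K) := hS₀ hx
    rw [← hT₁] at h1
    exact h1
  have e₀ := H51.baumann_eq_of_le T₀ T₁ hB₀T₁
  have hBk : baumannSubgroupOf p (((k : G) • T : Sylow p G) : Subgroup G) ≤ (T₁ : Subgroup G) := by
    show baumannSubgroupOf p ((T : Subgroup G).map (MulAut.conj (k : G)).toMonoidHom) ≤ _
    rw [← H51.map_baumannSubgroupOf]
    rintro _ ⟨x, hx, rfl⟩
    have hxK : x ∈ K := baumann_le T hx
    have h1 : (⟨x, hxK⟩ : ↥K) ∈ (S : Subgroup ↥K) := hS hx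
    have h2 : k * ⟨x, hxK⟩ * k⁻¹ ∈ (S₀ : Subgroup ↥K) := by
      rw [← hk]
      exact ⟨_, h1, rfl⟩
    rw [← hT₁] at h2
    exact h2
  have e₁ := H51.baumann_eq_of_le ((k : G) • T) T₁ hBk
  refine ⟨(k : G)⁻¹ • T₀, ?_, ?_⟩
  · show baumannSubgroupOf p ((T₀ : Subgroup G).map (MulAut.conj ((k : G)⁻¹)).toMonoidHom) = _
    rw [← H51.map_baumannSubgroupOf, e₀, ← e₁]
    show (baumannSubgroupOf p ((T : Subgroup G).map (MulAut.conj (k : G)).toMonoidHom)).map _ = _
    rw [← H51.map_baumannSubgroupOf, Subgroup.map_map]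
    convert Subgroup.map_id B using 2
    ext x
    simp [mul_assoc]
  · have hkE : (k : G)⁻¹ ∈ normalizer (E : Set G) :=
      inv_mem (baumannSubgroup_le_normalizer hG hE k.2)
    have h := H51.isBaumannBlock_map (MulAut.conj ((k : G)⁻¹)) hT₀
    rw [show E.map (MulAut.conj ((k : G)⁻¹)).toMonoidHom = E from
      mem_normalizer_iff_map_conj_eq.mp hkE] at h
    exact h

/-- `[E, Ω₁(Z(T))] ≠ 1` for every Sylow subgroup. -/
theorem block_omega_ne_bot {E : Subgroup G} (hE : IsSubnormalBlock p E) (T : Sylow p G) :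
    ⁅E, omegaOneCenter p (T : Subgroup G)⁆ ≠ ⊥ := by
  classical
  obtain ⟨T₁, hBT, hT₁⟩ := exists_sylow_baumann hG hE T
  set J := thompsonSubgroupOf p (T : Subgroup G) with hJ
  have hJeq : thompsonSubgroupOf p (T₁ : Subgroup G) = J := by
    refine H51.thompson_eq_of_le T₁ T ?_
    refine (H51.thompsonSubgroupOf_le_baumann _).trans ?_
    rw [hBT]; exact inf_le_left
  have hmove : ¬ J ≤ centralizer (modV p E : Set G) := by
    rw [← hJeq]
    intro h
    refine H51.block_commutator_moved T₁ hT₁ ?_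
    rw [commutator_comm]
    exact commutator_eq_bot_iff_le_centralizer.mpr h
  set P := (T : Subgroup G) ⊓ normalizer (E : Set G) with hP
  obtain ⟨v, hv, hvX, hfix⟩ := exists_fixed_vector hT₁ T (thompson_le_normalizer hG hE T) hmove
    (T.isPGroup'.to_le inf_le_left : IsPGroup p P) inf_le_right
    (inf_le_left.trans (le_normalizer.trans (H34.normalizer_le_normalizer_thompson _)))
  set U := omegaOneCenter p (pCore p G) with hU
  have hUel : IsElementaryAbelian p U := H51.omegaOneCenter_isElementaryAbelian _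
  haveI := hUel.1
  letI : CommGroup ↥U := { (inferInstance : Group ↥U) with mul_comm := fun a b => mul_comm' a b }
  haveI : U.Normal := omega_core_normal
  have hvU : v ∈ U := hE.module_le hG hv
  let κ := ↥(T : Subgroup G) ⧸ P.subgroupOf (T : Subgroup G)
  haveI : Fintype κ := Fintype.ofFinite κ
  let cv : ↥(T : Subgroup G) → ↥U := fun t => ⟨(t : G) * v * (t : G)⁻¹, Normal.conj_mem ‹_› _ hvU _⟩
  have hcv : ∀ a b : ↥(T : Subgroup G), (a : κ) = (b : κ) → cv a = cv b := by
    intro a b h
    rw [QuotientGroup.eq, mem_subgroupOf] at h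
    refine Subtype.ext ?_
    show (a : G) * v * (a : G)⁻¹ = (b : G) * v * (b : G)⁻¹
    conv_lhs => rw [← hfix _ h]
    simp only [coe_mul, coe_inv]
    group
  set z : ↥U := ∏ c : κ, cv (Quotient.out c) with hz
  have hzT : ∀ t : ↥(T : Subgroup G), (t : G) * z * (t : G)⁻¹ = z := by
    intro t
    let φ : ↥U →* ↥U :=
      { toFun := fun u => ⟨(t : G) * u * (t : G)⁻¹, Normal.conj_mem ‹_› _ u.2 _⟩
        map_one' := Subtype.ext (by simp)
        map_mul' := fun a b => Subtype.ext (by simp only [coe_mul]; group) }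
    have : φ z = z := by
      rw [hz, map_prod]
      refine Fintype.prod_equiv (MulAction.toPerm t) _ _ fun c => ?_
      have h1 : φ (cv (Quotient.out c)) = cv (t * Quotient.out c) := Subtype.ext (by
        show (t : G) * (((Quotient.out c : ↥(T : Subgroup G)) : G) * v *
          ((Quotient.out c : ↥(T : Subgroup G)) : G)⁻¹) * (t : G)⁻¹ =
          ((t * Quotient.out c : ↥(T : Subgroup G)) : G) * v *
            ((t * Quotient.out c : ↥(T : Subgroup G)) : G)⁻¹
        rw [coe_mul]; group)
      rw [h1]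
      refine hcv _ _ ?_
      rw [QuotientGroup.out_eq']
      conv_rhs => rw [MulAction.toPerm_apply, ← QuotientGroup.out_eq' c]
      rfl
    exact congrArg Subtype.val this
  have hzmem : (z : G) ∈ omegaOneCenter p (T : Subgroup G) := by
    refine H34.mem_omegaOne ⟨?_, ?_⟩ (hUel.2 _ z.2)
    · haveI := H51.pCore_normal p G
      exact (H51.pCore_isPGroup p G).le_sylow_of_normal T
        ((H34.omegaOne_le _).trans inf_le_left z.2)
    · exact mem_centralizer_iff.mpr fun t ht => mul_inv_eq_iff_eq_mul.mp (hzT ⟨t, ht⟩)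
  intro hbot
  refine hvX ⟨hv, mem_centralizer_iff.mpr fun e he => ?_⟩
  have hze : e * z = z * e :=
    commutatorElement_eq_one_iff_mul_comm.mp (mem_bot.mp (hbot ▸ commutator_mem_commutator he hzmem))
  set c₁ : κ := ((1 : ↥(T : Subgroup G)) : κ) with hc₁
  have hrest : ((∏ c ∈ Finset.univ.erase c₁, cv (Quotient.out c) : ↥U) : G) ∈
      centralizer (E : Set G) := by
    have : (∏ c ∈ Finset.univ.erase c₁, cv (Quotient.out c) : ↥U) ∈
        (centralizer (E : Set G)).subgroupOf U := by
      refine Subgroup.prod_mem _ fun c hc => ?_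
      rw [mem_subgroupOf]
      set t := (Quotient.out c : ↥(T : Subgroup G))
      have ht : (t : G) ∉ normalizer (E : Set G) := by
        intro h
        refine Finset.ne_of_mem_erase hc ?_
        rw [← QuotientGroup.out_eq' c, hc₁]
        symm
        rw [QuotientGroup.eq, mem_subgroupOf]
        exact ⟨(T : Subgroup G).mul_mem (one_mem _ |> (T : Subgroup G).inv_mem) t.2, by simpa using h⟩
      rcases H51.subnormalBlock_eq_or_commute hG hE (hE.conj t) with h | h
      · exact absurd (mem_normalizer_iff_map_conj_eq.mpr h.symm) ht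
      · exact commutator_eq_bot_iff_le_centralizer.mp ((commutator_comm _ _).trans h)
          (mem_map.mpr ⟨v, modV_le_block E hv, rfl⟩)
    exact this
  have hsplit : (z : G) = v * ((∏ c ∈ Finset.univ.erase c₁, cv (Quotient.out c) : ↥U) : G) := by
    rw [hz, ← Finset.mul_prod_erase _ _ (Finset.mem_univ c₁), coe_mul]
    congr 1
    rw [hcv (Quotient.out c₁) 1 (QuotientGroup.out_eq' c₁)]
    show ((1 : ↥(T : Subgroup G)) : G) * v * ((1 : ↥(T : Subgroup G)) : G)⁻¹ = v
    simp
  generalize ((∏ c ∈ Finset.univ.erase c₁, cv (Quotient.out c) : ↥U) : G) = r at hrest hsplit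
  rw [hsplit] at hze
  have hre := mem_centralizer_iff.mp hrest e he
  refine mul_right_cancel (b := r) ?_
  rw [mul_assoc, hze, mul_assoc, ← hre, ← mul_assoc]

/-- A subnormal block is a block for every Sylow subgroup. -/
theorem isBaumannBlock_all {E : Subgroup G} (hE : IsSubnormalBlock p E) (T : Sylow p G) :
    IsBaumannBlock p (T : Subgroup G) E := by
  obtain ⟨T₁, hB, h1, h2, h3, -, h5⟩ := exists_sylow_baumann hG hE T
  rw [hB] at h2 h5
  exact ⟨h1, h2, h3, block_omega_ne_bot hG hE T, h5⟩

end Cfsg.Agent.H68Block
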