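import Cfsg.Agent.H1.Generation
import Cfsg.Agent.H68.Block.Transport

/-!
Operators on the module of a block inside the special linear, resp. alternating, group.
-/

set_option autoImplicit false
set_option linter.style.haveILetI false
set_option linter.unusedSectionVars false

namespace Cfsg.Agent.H68Block

open Subgroup Cfsg
open H51 (IsSubnormalBlock)
open scoped commutatorElement

section Algebra

variable {F : Type*} [Field F]

theorem IsLin.mul {α β : Equiv.Perm (Fin 2 → F)} (hα : IsLin α) (hβ : IsLin β) : IsLin (α * β) :=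
  fun c x => by
    show α (β (c • x)) = c • α (β x)
    rw [hβ, hα]

theorem IsLin.inv {α : Equiv.Perm (Fin 2 → F)} (hα : IsLin α) : IsLin α⁻¹ := fun c x => by
  apply α.injective
  rw [hα, show ∀ y, α (α⁻¹ y) = y from α.apply_symm_apply, show ∀ y, α (α⁻¹ y) = y from α.apply_symm_apply]

/-- Linear bijections of determinant one. -/
def specialPerm (F : Type*) [Field F] : Subgroup (Equiv.Perm (Fin 2 → F)) where
  carrier := {α | IsAdditive α ∧ IsLin α ∧ ∀ v w, det2 (α v) (α w) = det2 v w}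
  one_mem' := ⟨fun _ _ => rfl, fun _ _ => rfl, fun _ _ => rfl⟩
  mul_mem' := by
    rintro α β ⟨ha, hl, hd⟩ ⟨ha', hl', hd'⟩
    exact ⟨fun x y => by rw [Equiv.Perm.mul_apply, ha', ha]; rfl, hl.mul hl',
      fun v w => by rw [Equiv.Perm.mul_apply, Equiv.Perm.mul_apply, hd, hd']⟩
  inv_mem' := by
    rintro α ⟨ha, hl, hd⟩
    refine ⟨fun x y => ?_, hl.inv, fun v w => ?_⟩
    · apply α.injective
      rw [ha]
      simp
    · have := hd (α⁻¹ v) (α⁻¹ w)
      simpa using this.symm

theorem exists_sl2_of_special {α : Equiv.Perm (Fin 2 → F)} (h : α ∈ specialPerm F) :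
    ∃ M : Matrix.SpecialLinearGroup (Fin 2) F,
      ∀ x, α x = (M : Matrix (Fin 2) (Fin 2) F).mulVec x := by
  obtain ⟨ha, hl, hd⟩ := h
  let L : (Fin 2 → F) →ₗ[F] (Fin 2 → F) := { toFun := α, map_add' := ha, map_smul' := hl }
  have hM : ∀ x, (LinearMap.toMatrix' L).mulVec x = α x := fun x => by
    rw [← Matrix.toLin'_apply, Matrix.toLin'_toMatrix']; rfl
  refine ⟨⟨LinearMap.toMatrix' L, ?_⟩, fun x => (hM x).symm⟩
  have := det2_mulVec (LinearMap.toMatrix' L) ![1, 0] ![0, 1]
  rw [hM, hM, hd, show det2 (![1, 0] : Fin 2 → F) ![0, 1] = 1 by simp [det2], mul_one] at this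
  exact this.symm

/-- A linear bijection of `p`-power order has determinant one. -/
theorem special_of_pgroup {p : ℕ} [Fact p.Prime] [CharP F p] {α : Equiv.Perm (Fin 2 → F)}
    (hadd : IsAdditive α) (hlin : IsLin α) {k : ℕ} (hk : α ^ p ^ k = 1) : α ∈ specialPerm F := by
  obtain ⟨e, he, hfe, hshift⟩ := exists_shift hadd hlin hk
  refine ⟨hadd, hlin, fun v w => ?_⟩
  have hz : ∀ u z, det2 e u = 0 → det2 e z = 0 → det2 u z = 0 := by
    intro u z hu hz
    obtain ⟨a, rfl⟩ := exists_smul_of_det2_eq_zero he hu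
    obtain ⟨b, rfl⟩ := exists_smul_of_det2_eq_zero he hz
    simp only [det2, Pi.smul_apply, smul_eq_mul]; ring
  by_cases hb : det2 e v = 0
  · obtain ⟨a, rfl⟩ := exists_smul_of_det2_eq_zero he hb
    obtain ⟨x, hx⟩ := hshift w
    rw [hlin, hfe, hx]
    simp only [det2, Pi.smul_apply, Pi.add_apply, smul_eq_mul]; ring
  · obtain ⟨a, b, rfl⟩ := exists_decomp hb w
    obtain ⟨x, hx⟩ := hshift v
    rw [hadd, hlin, hlin, hfe, hx]
    simp only [det2, Pi.smul_apply, Pi.add_apply, smul_eq_mul]; ring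

/-- Semilinear maps scale the determinant form. -/
theorem IsSemilin.det2_map {α : Equiv.Perm (Fin 2 → F)} (hadd : IsAdditive α) {σ : F ≃+* F}
    (h : IsSemilin α σ) (v w : Fin 2 → F) :
    det2 (α v) (α w) = det2 (α ![1, 0]) (α ![0, 1]) * σ (det2 v w) := by
  have key : ∀ u : Fin 2 → F, α u = σ (u 0) • α ![1, 0] + σ (u 1) • α ![0, 1] := fun u => by
    conv_lhs => rw [show u = u 0 • ![1, 0] + u 1 • ![0, 1] from by ext i; fin_cases i <;> simp]
    rw [hadd, h, h]
  rw [key v, key w]
  simp only [det2, Pi.smul_apply, Pi.add_apply, smul_eq_mul, map_sub, map_mul]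
  ring

theorem commutator_special {α β : Equiv.Perm (Fin 2 → F)} (hadd : IsAdditive α) {σ : F ≃+* F}
    (h : IsSemilin α σ) (hβ : β ∈ specialPerm F) : α * β * α⁻¹ ∈ specialPerm F := by
  obtain ⟨hb, hl, hd⟩ := hβ
  have hsymm : ∀ y, α (α⁻¹ y) = y := α.apply_symm_apply
  have hainv : IsAdditive α⁻¹ := fun x y => α.injective (by rw [hadd, hsymm, hsymm, hsymm])
  refine ⟨fun x y => ?_, fun c x => ?_, fun v w => ?_⟩
  · simp only [Equiv.Perm.mul_apply]
    rw [hainv, hb, hadd]
  · simp only [Equiv.Perm.mul_apply]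
    have h1 : α⁻¹ (c • x) = σ.symm c • α⁻¹ x := α.injective (by
      rw [h, hsymm, hsymm, σ.apply_symm_apply])
    rw [h1, hl, h, σ.apply_symm_apply]
  · simp only [Equiv.Perm.mul_apply]
    rw [h.det2_map hadd, hd, ← h.det2_map hadd, hsymm, hsymm]

/-- A fixed point free additive map moves onto everything. -/
theorem surjective_sub_of_fpf {M : Type*} [AddCommGroup M] [Finite M] {α : Equiv.Perm M}
    (hadd : IsAdditive α) (hfix : ∀ x, α x = x → x = 0) (y : M) : ∃ x, α x - x = y := by
  refine (Finite.injective_iff_surjective.mp fun a b h => ?_) y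
  have h' : α a - a = α b - b := h
  refine sub_eq_zero.mp (hfix _ ?_)
  rw [show α (a - b) = α a - α b from (AddMonoidHom.mk' _ hadd).map_sub a b]
  exact sub_eq_sub_iff_sub_eq_sub.mp h'

end Algebra

variable {G : Type*} [Group G] [Finite G] {p : ℕ} [hp : Fact p.Prime]

theorem act_pow_eq_one {U U₀ : Subgroup G} {M : Type*} [AddCommGroup M] (C : Coord U U₀ M)
    (g : ↥(secNorm U U₀)) {n : ℕ} (h : (g : G) ^ n = 1) : C.act g ^ n = 1 := by
  rw [← map_pow, show g ^ n = 1 from Subtype.ext (by simpa using h), map_one]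

/-- The powers needed to see that a `p`-element acts with `p`-power order. -/
theorem exists_pow_eq_one_of_pgroup {P : Subgroup G} (hP : IsPGroup p P) {g : G} (hg : g ∈ P) :
    ∃ k, g ^ p ^ k = 1 := by
  obtain ⟨k, hk⟩ := hP ⟨g, hg⟩
  exact ⟨k, by simpa using congrArg Subtype.val hk⟩

/-- The Baumann subgroup acts linearly on the module. -/
theorem baumann_linear {E : Subgroup G} (T : Sylow p G)
    (hT : IsBaumannBlock p (T : Subgroup G) E)
    {F : Type*} [Field F] [Finite F] [CharP F p] (D : SL2Coord p E (modV p E) (modX p E) F)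
    (g : ↥(secNorm (modV p E) (modX p E))) (hb : (g : G) ∈ baumannSubgroupOf p (T : Subgroup G)) :
    IsLin (D.act g) := by
  have hBE := H51.baumann_le_normalizer_of_commutator_eq hT.2.1
  have hJE := (H51.thompsonSubgroupOf_le_baumann (p := p) (T : Subgroup G)).trans hBE
  have hmove : ¬ thompsonSubgroupOf p (T : Subgroup G) ≤ centralizer (modV p E : Set G) := fun h =>
    H51.block_commutator_moved T hT (by
      rw [commutator_comm]; exact commutator_eq_bot_iff_le_centralizer.mpr h)
  obtain ⟨e, e₂, hR⟩ := exists_rootLine hT T hJE hmove D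
  have he : e ≠ 0 := fun h => hR.det_ne (by simp [h, det2])
  obtain ⟨σ, hσ⟩ := D.exists_semilin g (hBE hb)
  refine hσ.isLin_of_fix_line he fun c => ?_
  obtain ⟨u, hu⟩ := D.val_surj (c • e)
  have huC := (hR.fixed_iff u).mpr ⟨c, hu⟩
  have huZ : (u : G) ∈ omegaOne p (centerThompsonOf p (T : Subgroup G)) := by
    refine H34.mem_omegaOne ⟨?_, huC⟩ ((modV_isElementaryAbelian p E).2 _ u.2)
    obtain ⟨A, hAT, hA⟩ := H34.exists_max_le_sylow (p := p) T
    have hAJ : A ≤ thompsonSubgroupOf p (T : Subgroup G) := by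
      rw [H34.thompsonSubgroupOf_sylow]; exact le_sSup ⟨hAT, hA⟩
    have h1 : (u : G) ∈ fixedMod p E A := ⟨u.2, fun a ha => by
      rw [mem_centralizer_iff.mp huC a (hAJ ha), mul_inv_cancel_right, mul_inv_cancel]
      exact one_mem _⟩
    rw [(fixedMod_eq hT hA (hAJ.trans hJE)).1] at h1
    exact hAJ h1.2
  rw [← hu, Coord.act_apply]
  congr 1
  apply Subtype.ext
  show (g : G) * u * (g : G)⁻¹ = u
  rw [← mem_centralizer_iff.mp hb.2 _ huZ, mul_inv_cancel_right]

variable (hG : centralizer (pCore p G : Set G) ≤ pCore p G)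
include hG

/-- Elements of order prime to `p` of a block act on the module of a subnormal block as elements of
that block. -/
theorem exists_match {E : Subgroup G} (hE : IsSubnormalBlock p E) (T : Sylow p G) {F : Subgroup G}
    (hF : ⁅F, baumannSubgroupOf p (T : Subgroup G)⁆ = F) (hFE : F ≤ normalizer (E : Set G))
    {f : G} (hf : f ∈ F) (hfc : (orderOf f).Coprime p) :
    ∃ e ∈ E, e⁻¹ * f ∈ centralizer (modV p E : Set G) := by
  have hT := isBaumannBlock_all hG hE T
  have hBE := baumann_le_normalizer hG hE T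
  have hfs : f ∈ secNorm (modV p E) (modX p E) := normalizer_le_secNorm_module (hFE hf)
  have finish : ∀ {M : Type} [AddCommGroup M] (C : Coord (modV p E) (modX p E) M) (e : ↥E)
      (he : (e : G) ∈ secNorm (modV p E) (modX p E)),
      C.act ⟨e, he⟩ = C.act ⟨f, hfs⟩ → (e : G)⁻¹ * f ∈ centralizer (modV p E : Set G) := by
    intro M _ C e he h
    refine trivial_on_top hT (mul_mem (inv_mem (le_normalizer e.2)) (hFE hf)) ?_
    exact (C.act_eq_one_iff (⟨e, he⟩⁻¹ * ⟨f, hfs⟩)).mp (by rw [map_mul, map_inv, h, inv_mul_cancel])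
  rcases block_coords hT with ⟨K, iK, iFin, iC, ⟨D⟩, -⟩ | ⟨rfl, n, hn, hn3, ⟨D⟩, -⟩
  · set S : Subgroup G := ((specialPerm K).comap D.act).map (secNorm (modV p E) (modX p E)).subtype
    have hFS : F ≤ S := by
      rw [← hF, commutator_le]
      intro x hx b hb
      have hxs : x ∈ secNorm (modV p E) (modX p E) := normalizer_le_secNorm_module (hFE hx)
      have hbs : b ∈ secNorm (modV p E) (modX p E) := normalizer_le_secNorm_module (hBE hb)
      refine ⟨⁅(⟨x, hxs⟩ : ↥(secNorm (modV p E) (modX p E))), ⟨b, hbs⟩⁆, ?_, rfl⟩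
      show D.act _ ∈ specialPerm K
      rw [map_commutatorElement, commutatorElement_def]
      obtain ⟨σ, hσ⟩ := D.exists_semilin ⟨x, hxs⟩ (hFE hx)
      obtain ⟨k, hk⟩ := exists_pow_eq_one_of_pgroup (H51.baumann_isPGroup T) hb
      have hb' : D.act ⟨b, hbs⟩ ∈ specialPerm K :=
        special_of_pgroup (D.act_additive _) (baumann_linear T hT D ⟨b, hbs⟩ hb)
          (act_pow_eq_one _ _ hk)
      exact mul_mem (commutator_special (D.act_additive _) hσ hb') (inv_mem hb')
    obtain ⟨f', hf', hf''⟩ := hFS hf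
    obtain rfl : f' = ⟨f, hfs⟩ := Subtype.ext hf''
    obtain ⟨M, hM⟩ := exists_sl2_of_special (hf' : D.act ⟨f, hfs⟩ ∈ specialPerm K)
    have hMn : M ^ orderOf f = 1 := by
      have hpow : ∀ (i : ℕ) x, (D.act ⟨f, hfs⟩ ^ i) x =
          ((M ^ i : Matrix.SpecialLinearGroup (Fin 2) K) : Matrix (Fin 2) (Fin 2) K).mulVec x := by
        intro i
        induction i with
        | zero =>
          intro x
          rw [pow_zero, pow_zero, Matrix.SpecialLinearGroup.coe_one, Matrix.one_mulVec]; rfl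
        | succ i ih =>
          intro x
          rw [pow_succ', pow_succ', Equiv.Perm.mul_apply, ih, hM, Matrix.mulVec_mulVec,
            ← Matrix.SpecialLinearGroup.coe_mul]
      refine Subtype.ext (Matrix.ext_of_mulVec_single fun i => ?_)
      rw [← hpow, act_pow_eq_one _ _ (pow_orderOf_eq_one f), Matrix.SpecialLinearGroup.coe_one,
        Matrix.one_mulVec]
      rfl
    have hMr : M ∈ D.ρ.range := D.range_eq ▸
      sl2_mem_commutator (Nat.Coprime.coprime_dvd_left (orderOf_dvd_of_pow_eq_one hMn) hfc)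
    obtain ⟨e, he⟩ := hMr
    refine ⟨e, e.2, finish D.toCoord e (D.normalizes e.2) (Equiv.ext fun x => ?_)⟩
    rw [D.act_block e, he, hM]
  · set S : Subgroup G := (((alternatingGroup (Fin n)).map (permAct n)).comap D.act).map
      (secNorm (modV 2 E) (modX 2 E)).subtype
    have hFS : F ≤ S := by
      rw [← hF, commutator_le]
      intro x hx b hb
      have hxs : x ∈ secNorm (modV 2 E) (modX 2 E) := normalizer_le_secNorm_module (hFE hx)
      have hbs : b ∈ secNorm (modV 2 E) (modX 2 E) := normalizer_le_secNorm_module (hBE hb)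
      refine ⟨⁅(⟨x, hxs⟩ : ↥(secNorm (modV 2 E) (modX 2 E))), ⟨b, hbs⟩⁆, ?_, rfl⟩
      show D.act _ ∈ (alternatingGroup (Fin n)).map (permAct n)
      obtain ⟨π, hπ⟩ := D.act_mem_range hn hn3 ⟨x, hxs⟩ (hFE hx)
      obtain ⟨τ, hτ⟩ := D.act_mem_range hn hn3 ⟨b, hbs⟩ (hBE hb)
      rw [map_commutatorElement, ← hπ, ← hτ, ← map_commutatorElement]
      refine mem_map_of_mem _ ?_
      rw [Equiv.Perm.mem_alternatingGroup, map_commutatorElement, commutatorElement_eq_one_iff_mul_comm,
        mul_comm]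
    obtain ⟨f', hf', hf''⟩ := hFS hf
    obtain rfl : f' = ⟨f, hfs⟩ := Subtype.ext hf''
    obtain ⟨π, hπ, hπ'⟩ := hf'
    have hπr : π ∈ D.ρ.range := D.range_eq ▸ hπ
    obtain ⟨e, he⟩ := hπr
    exact ⟨e, e.2, finish D.toCoord e (D.normalizes e.2) (by rw [D.act_block e, he, hπ'])⟩

end Cfsg.Agent.H68Block
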